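import Cfsg.Agent.CP.Short

/-! The commutator relations in a cover. -/

set_option autoImplicit false
set_option linter.unusedSectionVars false
set_option linter.unusedVariables false

namespace Cfsg.Agent.CP

open Subgroup Cfsg.Agent.RGD Cfsg.Agent.RG Cfsg.Agent.Polar Cfsg.Agent.Polar.PQ Cfsg.Agent.Cl
open Cfsg.Agent.Pres hiding rt
open scoped commutatorElement

variable {m : ℕ} {Γ : Type*} [Group Γ] [MulAction Γ (Ix m)] {G : Type*} [Group G] {a0 b0 : Ix m}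
variable {F : Type*} [Field F] {τ : F →+* F} {π : FP F τ}
variable {V : Type*} [AddCommGroup V] [Module F V] {P : PQ π V}
variable {sh : Bool} {Φ : Frame P m sh} {ι : Γ →* P.Iso} {ζ : F}

/-- the torus -/
def TT (k : Ix m → Ix m → G) : Subgroup G := closure {g | ∃ a b, sup a ≠ sup b ∧ g = k a b}

theorem mem_TT {k : Ix m → Ix m → G} {a b : Ix m} (h : sup a ≠ sup b) : k a b ∈ TT k :=
  subset_closure ⟨a, b, h, rfl⟩

theorem TT_le {k : Ix m → Ix m → G} {B : Subgroup G} (h : ∀ {a b}, sup a ≠ sup b → k a b ∈ B) :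
    TT k ≤ B := (closure_le _).2 (by rintro _ ⟨a, b, e, rfl⟩; exact h e)

variable (Φ ζ) in
/-- weights of the torus -/
def Wt (s : Ix m → F) : Prop := ∃ t ∈ TT (k0 Φ ζ), Mn Φ t (fun x => x) s

theorem Wt.mul {s s' : Ix m → F} (h : Wt Φ ζ s) (h' : Wt Φ ζ s') : Wt Φ ζ fun x => s x * s' x := by
  obtain ⟨t, h1, h2⟩ := h
  obtain ⟨t', h3, h4⟩ := h'
  exact ⟨_, mul_mem h3 h1, h4.mul h2⟩

theorem wt_wt (hζ : ζ ≠ 0) {a b : Ix m} (h : sup a ≠ sup b) : Wt Φ ζ (wt τ ζ a b) :=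
  ⟨_, mem_TT h, k0_mn hζ h⟩

/-- a weight `ζ τ ζ` on one index -/
theorem wt_norm (hζ : ζ ≠ 0) {a b : Ix m} (h : sup a ≠ sup b) :
    ∃ s, Wt Φ ζ s ∧ s b = ζ * τ ζ ∧ ∀ x, sup x ≠ sup b → s x = 1 := by
  have h' : sup b ≠ sup a.rev := by simpa using h.symm
  refine ⟨_, (wt_wt hζ h).mul (wt_wt hζ h'), by rw [wt_right h, wt_left h'], fun x hx => ?_⟩
  have := ew_ne_zero (τ := τ) hζ a.rev x
  rw [wt, wt, ew_ne ζ hx.symm, ew_ne ζ (a := b.rev) (by simpa using hx.symm)]; field_simp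

/-- the multiples of `E` by the powers of `ω` span the field -/
def SpanBy (ω : F) (E : List F) : Prop :=
  ∀ a, a ∈ AddSubmonoid.closure {y | ∃ e ∈ E, ∃ i : ℕ, y = ω ^ i * e}

theorem spanBy_one {ω : F} (h : Spans ω) : SpanBy ω [1] := fun a =>
  AddSubmonoid.closure_mono (by rintro _ ⟨i, rfl⟩; exact ⟨1, by simp, i, by simp⟩) (h a)

theorem genBy_xl {t : P.Iso} {s : Ix m → F} (h : Mn Φ t (fun x => x) s) {a b : Ix m}
    (hab : sup a ≠ sup b) {ω : F} (e : τ (s a) * s b = ω) {E : List F} (hE : SpanBy ω E) :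
    GenBy t (E.map (xl Φ a b)) (XL Φ a b) :=
  GenBy.of_spans (xl_add hab) (fun _ => (mem_XL hab).1) (fun x => by rw [h.conj_xl hab, e]) hE

theorem genBy_h (hζ : ζ ≠ 0) (hs : Spans (ζ ^ 2)) {a b : Ix m} (h : sup a ≠ sup b) :
    GenBy (k0 Φ ζ a b) [xl Φ a b 1] (XL Φ a b) :=
  genBy_xl (k0_mn hζ h) h (by rw [wt_left h, wt_right h, π.tau_tau, sq]) (spanBy_one hs)

variable (Φ) in
/-- short root elements -/
noncomputable def xs (a : Ix m) (e : V × F) : P.Iso := P.eich (Φ.v a) e.1 e.2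

variable (Φ) in
/-- generators of the short root groups under a torus -/
structure SG (ω : F) (E : List (V × F)) : Prop where
  mem : ∀ e ∈ E, e.1 ∈ Φ.V0 ∧ P.QEq e.1 e.2
  gen : ∀ a t s, Mn Φ t (fun x => x) s → s a = ω → GenBy t (E.map (xs Φ a)) (XS Φ a)

theorem SG.xs_mem {ω : F} {E : List (V × F)} (h : SG Φ ω E) (a : Ix m) :
    ∀ x ∈ E.map (xs Φ a), x ∈ XS Φ a := fun x hx => by
  obtain ⟨e, he, rfl⟩ := List.mem_map.1 hx
  exact CP.xs_mem a (h.mem e he).1 (h.mem e he).2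

theorem xl_mem_map (a b : Ix m) (E : List F) : ∀ x ∈ E.map (xl Φ a b), x ∈ XL Φ a b := fun x hx => by
  obtain ⟨e, -, rfl⟩ := List.mem_map.1 hx
  exact xl_mem a b e

variable (Φ ι ζ) in
/-- all the lifted data -/
structure Lift (q : ℕ) (θ : G →* P.Iso) (ρ : Γ →* G) (k : Ix m → Ix m → G)
    (L : Ix m → Ix m → Subgroup G) (S : Ix m → Subgroup G) : Prop
    extends TorR ρ q k, LLift Φ θ ρ k L, SLift Φ θ ρ k S where
  θk : ∀ {a b}, sup a ≠ sup b → θ (k a b) = k0 Φ ζ a b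
  θρ : ∀ γ, θ (ρ γ) = ι γ

section rels
variable (L : Ix m → Ix m → Subgroup G) (S : Ix m → Subgroup G)

/-- four indices with distinct supports -/
structure D4 (a b c d : Ix m) : Prop extends D3 a b c where
  ad : sup a ≠ sup d
  bd : sup b ≠ sup d
  cd : sup c ≠ sup d

/-- commutator relation -/
def H60 : Prop := ∀ {a b c}, D3 a b c → ⁅L a b, L a c⁆ = ⊥
/-- commutator relation -/
def H120 : Prop := ∀ {a b c}, D3 a b c → ⁅L b.rev c, L a b⁆ ≤ L a c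
/-- commutator relation -/
def H90 : Prop := ∀ {a b c d}, D4 a b c d → ⁅L a b, L c d⁆ = ⊥
/-- commutator relation -/
def HS0 : Prop := ∀ {a b c}, D3 a b c → ⁅S a, L b c⁆ = ⊥
/-- commutator relation -/
def HS1 : Prop := ∀ {a b}, sup a ≠ sup b → ⁅S a, L a b⁆ = ⊥
/-- commutator relation -/
def HSS : Prop := ∀ {a b}, sup a ≠ sup b → ⁅S b, S a⁆ ≤ L a b
/-- the unipotent radical of a rank two parabolic -/
def QQ (a b : Ix m) : Subgroup G := S b ⊔ (S a ⊔ L a b)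
/-- commutator relation -/
def HQ : Prop := ∀ {a b}, sup a ≠ sup b → L a b.rev ≤ normalizer (QQ L S a b : Set G)

end rels

namespace Lift

variable {q : ℕ} {θ : G →* P.Iso} {ρ : Γ →* G} {k : Ix m → Ix m → G}
  {L : Ix m → Ix m → Subgroup G} {S : Ix m → Subgroup G} (l : Lift Φ ι ζ q θ ρ k L S)
include l

theorem core (h1 : H60 L) (h2 : H120 L) (h3 : H90 L) (h4 : HS0 L S) (h5 : HS1 L S) (h6 : HSS L S)
    (h7 : HQ L S) : Core Φ θ L S :=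
  ⟨l.symm, l.mapL, l.kerL, l.mapS, l.kerS, fun a b c => h1 ⟨a, b, c⟩, fun a b c => h2 ⟨a, b, c⟩,
    fun a b c d e f => h3 ⟨⟨a, b, d⟩, c, e, f⟩, fun a b c => h4 ⟨a, b, c⟩, h5, h6, h7⟩

theorem TL {a b : Ix m} (h : sup a ≠ sup b) : TT k ≤ normalizer (L a b : Set G) :=
  TT_le fun e => l.kL e h

theorem TS (a : Ix m) : TT k ≤ normalizer (S a : Set G) := TT_le fun e => l.kS a e

theorem TQ {a b : Ix m} (h : sup a ≠ sup b) : TT k ≤ normalizer (QQ L S a b : Set G) :=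
  fun _ ht => mem_norm_sup (l.TS b ht) (mem_norm_sup (l.TS a ht) (l.TL h ht))

theorem exists_T {t : P.Iso} (ht : t ∈ TT (k0 Φ ζ)) : ∃ t' ∈ TT k, θ t' = t :=
  TT_le (B := (TT k).map θ) (fun h => ⟨_, mem_TT h, l.θk h⟩) ht

theorem spread {A B M : Subgroup G} {E : List P.Iso} {b : P.Iso} (hA : A ⊓ θ.ker = ⊥)
    (hB : B ⊓ θ.ker = ⊥) (h : Rel θ A B M E b) (h1 : A ≤ normalizer (M : Set G))
    (h2 : B ≤ normalizer (M : Set G)) (tA : TT k ≤ normalizer (A : Set G))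
    (tB : TT k ≤ normalizer (B : Set G)) (tM : TT k ≤ normalizer (M : Set G)) {t t' : P.Iso}
    (ht : t ∈ TT (k0 Φ ζ)) (ht' : t' ∈ TT (k0 Φ ζ)) (hc : Commute t b) (hg : GenBy t E (A.map θ))
    (hg' : GenBy t' [b] (B.map θ)) : ⁅A, B⁆ ≤ M := by
  obtain ⟨t, e, rfl⟩ := l.exists_T ht
  obtain ⟨t', e', rfl⟩ := l.exists_T ht'
  exact h.spread hA hB h1 h2 (tA e) (tB e) (tM e) hc hg (tA e') (tB e') (tM e') hg'

theorem spread0 {A B : Subgroup G} {E : List P.Iso} {b : P.Iso} (hA : A ⊓ θ.ker = ⊥)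
    (hB : B ⊓ θ.ker = ⊥) (h : Rel θ A B ⊥ E b) (tA : TT k ≤ normalizer (A : Set G))
    (tB : TT k ≤ normalizer (B : Set G)) {t t' : P.Iso}
    (ht : t ∈ TT (k0 Φ ζ)) (ht' : t' ∈ TT (k0 Φ ζ)) (hc : Commute t b) (hg : GenBy t E (A.map θ))
    (hg' : GenBy t' [b] (B.map θ)) : ⁅A, B⁆ = ⊥ :=
  eq_bot_iff.2 (l.spread hA hB h (norm_bot _) (norm_bot _) tA tB (norm_bot _) ht ht' hc hg hg')

theorem spread1 {A B M : Subgroup G} {E : List P.Iso} {b : G} (hA : A ⊓ θ.ker = ⊥)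
    (hB : B ⊓ θ.ker = ⊥) (h : Rel θ A B M E (θ b)) (hb : b ∈ B) (h1 : A ≤ M)
    (tA : TT k ≤ normalizer (A : Set G)) (tB : TT k ≤ normalizer (B : Set G))
    (tM : TT k ≤ normalizer (M : Set G)) {t : P.Iso} (ht : t ∈ TT (k0 Φ ζ)) (hc : Commute t (θ b))
    (hg : GenBy t E (A.map θ)) : cj b A ≤ M := by
  obtain ⟨t, e, rfl⟩ := l.exists_T ht
  obtain ⟨b', h2, h3, h4⟩ := h
  rw [eq_of_inf_ker hB h2 hb h3] at h4
  exact cj_le_of_comm h1 (CP.spread1 hA hB hb h4 (h1.trans le_normalizer) (tA e) (tB e) (tM e) hc hg)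

theorem S_bot (h : sh = false) (a : Ix m) : S a = ⊥ := by
  rw [eq_bot_iff, ← l.kerS a]
  exact fun x hx => ⟨hx, ((l.mapS a).trans (XS_bot h a)).le (mem_map_of_mem θ hx)⟩

theorem cjQ (p : Pair Γ a0 b0) (γ : Γ) {a b : Ix m} (h : sup a ≠ sup b) :
    cj (ρ γ) (QQ L S a b) = QQ L S (γ • a) (γ • b) := by
  rw [QQ, cj_sup, cj_sup, l.cjS, l.cjS, l.cjL γ h, QQ]

theorem hq [Finite P.Iso] (p : Pair Γ a0 b0) (hζ : ζ ≠ 0) (hs : Spans (ζ ^ 2)) (h5 : HS1 L S)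
    (H : ∀ u ∈ L a0 b0.rev, θ u = xl Φ a0 b0.rev 1 →
      cj u (S b0) ≤ QQ L S a0 b0 ∧ cj u (L a0 b0) ≤ QQ L S a0 b0) : HQ L S := by
  have h := p.ne
  have h' : sup a0 ≠ sup b0.rev := by simpa
  obtain ⟨u, hu, e⟩ := (l.mapL h').ge (xl_mem a0 b0.rev 1)
  obtain ⟨h1, h2⟩ := H u hu e
  have h3 : cj u (S a0) ≤ QQ L S a0 b0 := cj_le_of_comm (le_sup_of_le_right le_sup_left) fun a ha => by
    rw [(h5 h').le (commutator_mem_commutator ha hu)]; exact one_mem _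
  have h4 : L a0 b0.rev ≤ normalizer (QQ L S a0 b0 : Set G) :=
    norm_of_gen (l.kerL h') hu (norm_of_cj_le (finOrder_of (l.kerL h') hu) (by
      conv_lhs => rw [QQ, cj_sup, cj_sup]
      exact sup_le h1 (sup_le h3 h2))) (l.kL h' h') (l.TQ h (mem_TT h'))
      (by rw [l.θk h', e, l.mapL h']; exact genBy_h hζ hs h')
  intro a b hab
  obtain ⟨γ, rfl, rfl⟩ : ∃ γ : Γ, γ • a0 = a ∧ γ • b0 = b := ⟨_, p.hc1 hab, p.hc2 hab⟩
  rw [← p.rev, ← l.cjL _ h', ← l.cjQ p _ h, cj_le_iff]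
  exact fun x hx => norm_cj (by simpa [mul_assoc] using h4 hx)

theorem L_le_SS (h6 : HSS L S) (hV : ∃ x ∈ Φ.V0, ∃ y ∈ Φ.V0, P.B y x ≠ 0) {a b : Ix m}
    (h : sup a ≠ sup b) : L a b ≤ S b ⊔ S a := by
  obtain ⟨x, hx, y, hy, e⟩ := hV
  refine (le_of_map_le (l.kerL h) le_rfl (h6 h) ?_).trans (commutator_le_sup _ _)
  rw [map_commutator, l.mapL h, l.mapS, l.mapS]
  exact XS_XS_eq h hx hy e

end Lift

theorem comm_cj_le {A B M : Subgroup G} (h : ⁅A, B⁆ ≤ M) (g : G) : ⁅cj g A, cj g B⁆ ≤ cj g M := by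
  rw [← cj_commutator]; exact cj_mono _ h

theorem comm_cj_bot {A B : Subgroup G} (h : ⁅A, B⁆ = ⊥) (g : G) : ⁅cj g A, cj g B⁆ = ⊥ := by
  rw [← cj_commutator, h, cj_eq_bot]

theorem comm_bot_of_le {A B C D : Subgroup G} (h : A ≤ B ⊔ C) (h1 : ⁅B, D⁆ = ⊥) (h2 : ⁅C, D⁆ = ⊥) :
    ⁅A, D⁆ = ⊥ := by
  rw [commutator_eq_bot_iff_le_centralizer] at *
  exact h.trans (sup_le h1 h2)

variable (Φ) in
/-- words for the data -/
structure Setup {X : Type} (f : X → P.Iso) where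
  /-- the coroots -/
  k : Ix m → Ix m → FreeGroup X
  /-- the long root groups -/
  L : Ix m → Ix m → Subgroup (FreeGroup X)
  /-- the short root groups -/
  S : Ix m → Subgroup (FreeGroup X)
  mapL : ∀ {a b}, sup a ≠ sup b → (L a b).map (FreeGroup.lift f) = XL Φ a b
  mapS : ∀ a, (S a).map (FreeGroup.lift f) = XS Φ a

namespace Setup

variable {X : Type} {f : X → P.Iso} (s : Setup Φ f)

/-- the long root groups in a cover -/
abbrev LC (C : Cov f) (a b : Ix m) : Subgroup C.G := (s.L a b).map C.ev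

/-- the short root groups in a cover -/
abbrev SC (C : Cov f) (a : Ix m) : Subgroup C.G := (s.S a).map C.ev

variable (ι ζ) in
/-- the lifting property -/
def Lf (q : ℕ) (C : Cov f) (ρ : Γ →* C.G) : Prop :=
  Lift Φ ι ζ q C.θ ρ (fun a b => C.ev (s.k a b)) (s.LC C) (s.SC C)

theorem rel (AW BW MW : Subgroup (FreeGroup X)) {A B M : Subgroup P.Iso}
    (hA : AW.map (FreeGroup.lift f) = A) (hB : BW.map (FreeGroup.lift f) = B)
    (hM : MW.map (FreeGroup.lift f) = M) (h : ⁅A, B⁆ ≤ M) (E : List P.Iso) (hE : ∀ x ∈ E, x ∈ A)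
    {b : P.Iso} (hb : b ∈ B) :
    Cost f E.length fun C => Rel C.θ (AW.map C.ev) (BW.map C.ev) (MW.map C.ev) E b :=
  cost_rel AW BW MW E (fun x hx => ⟨hA ▸ hE x hx, hM ▸ h (commutator_mem_commutator (hE x hx) hb)⟩)
    (hB ▸ hb)

theorem rel0 (AW BW : Subgroup (FreeGroup X)) {A B : Subgroup P.Iso}
    (hA : AW.map (FreeGroup.lift f) = A) (hB : BW.map (FreeGroup.lift f) = B)
    (h : ⁅A, B⁆ = ⊥) (E : List P.Iso) (hE : ∀ x ∈ E, x ∈ A) {b : P.Iso} (hb : b ∈ B) :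
    Cost f E.length fun C => Rel C.θ (AW.map C.ev) (BW.map C.ev) ⊥ E b :=
  (rel AW BW ⊥ hA hB (Subgroup.map_bot _) h.le E hE hb).imp fun C hC => by
    rwa [Subgroup.map_bot] at hC

variable {q : ℕ} (p : Pair Γ a0 b0) (hζ : ζ ≠ 0) (hs : Spans (ζ ^ 2))
include p hζ hs

theorem cost60 {c0 : Ix m} (t : Tr3 Γ a0 b0 c0) {w : Ix m → F} (hw : Wt Φ ζ w) (h1 : w a0 = 1)
    (h2 : w c0 = 1) {E : List F} (hE : SpanBy (w b0) E) :
    Cost f E.length fun C => ∀ ρ, s.Lf ι ζ q C ρ → H60 (s.LC C) := by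
  have d := t.d
  obtain ⟨g, hg, hg'⟩ := hw
  refine (rel0 _ _ (s.mapL d.ab) (s.mapL d.ac) (XL_comm d.ab d.ac (rev_ne _).symm
    (ne_rev_of_sup d.ab) (ne_rev_of_sup d.ac.symm) (ne_rev_of_sup d.bc.symm)) _
    (xl_mem_map a0 b0 E) (xl_mem a0 c0 1)).mono (by simp) fun C hC ρ l => ?_
  have := l.spread0 (l.kerL d.ab) (l.kerL d.ac) hC (l.TL d.ab) (l.TL d.ac) hg (mem_TT d.ac)
    (hg'.commute_xl d.ac 1 rfl rfl (by simp [h1, h2]))
    (l.mapL d.ab ▸ genBy_xl hg' d.ab (by simp [h1]) hE) (l.mapL d.ac ▸ genBy_h hζ hs d.ac)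
  intro a b c d'
  rcases t.p1 d' with ⟨γ, rfl, rfl, rfl⟩ | ⟨γ, rfl, rfl, rfl⟩
  · rw [← l.cjL γ d.ab, ← l.cjL γ d.ac]; exact comm_cj_bot this _
  · rw [← l.cjL γ d.ab, ← l.cjL γ d.ac, commutator_comm]; exact comm_cj_bot this _

theorem cost120 {c0 : Ix m} (t : Tr3 Γ a0 b0 c0) {w : Ix m → F} (hw : Wt Φ ζ w) (h1 : w a0 = 1)
    (h2 : w b0 = 1) (h3 : w b0.rev = 1) {E : List F} (hE : SpanBy (w c0) E) :
    Cost f E.length fun C => ∀ ρ, s.Lf ι ζ q C ρ → H60 (s.LC C) → H120 (s.LC C) := by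
  have d := t.d
  obtain ⟨g, hg, hg'⟩ := hw
  refine (rel _ _ _ (s.mapL d.r2.bc) (s.mapL d.ab) (s.mapL d.ac) (XL_120 d.ab d.bc d.ac).le _
    (xl_mem_map b0.rev c0 E) (xl_mem a0 b0 1)).mono (by simp) fun C hC ρ l h60 => ?_
  have := l.spread (l.kerL d.r2.bc) (l.kerL d.ab) hC
    (norm_of_comm_bot (by simpa only [l.symm d.r2.bc, l.symm d.ac] using h60 d.r2.s13))
    (norm_of_comm_bot (h60 d)) (l.TL d.r2.bc) (l.TL d.ab) (l.TL d.ac) hg (mem_TT d.ab)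
    (hg'.commute_xl d.ab 1 rfl rfl (by simp [h1, h2]))
    (l.mapL d.r2.bc ▸ genBy_xl hg' d.r2.bc (by simp [h3]) hE) (l.mapL d.ab ▸ genBy_h hζ hs d.ab)
  have k : ∀ {a b c}, R3 Γ a0 b0 c0 a b c → ⁅s.LC C b.rev c, s.LC C a b⁆ ≤ s.LC C a c := by
    rintro _ _ _ ⟨γ, rfl, rfl, rfl⟩
    rw [← p.rev, ← l.cjL γ d.ab, ← l.cjL γ d.ac, ← l.cjL γ d.r2.bc]; exact comm_cj_le this _
  intro a b c d'
  refine (t.p2 d').elim k fun r => ?_
  have e := k r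
  rwa [Fin.rev_rev, commutator_comm, l.symm d'.r2.bc, l.symm d'.ab, l.symm d'.ac] at e

theorem cost90 (D0 : List (Ix m × Ix m)) (h1 : ∀ x ∈ D0, D4 a0 b0 x.1 x.2)
    (h2 : ∀ {a b c d}, D4 a b c d → ∃ x ∈ D0, ∃ γ : Γ, γ • a0 = a ∧ γ • b0 = b ∧
      (γ • x.1 = c ∧ γ • x.2 = d ∨ γ • x.1 = d ∧ γ • x.2 = c)) :
    Cost f D0.length fun C => ∀ ρ, s.Lf ι ζ q C ρ → H90 (s.LC C) := by
  refine (cost_list D0 fun x hx => rel0 _ _ (s.mapL p.ne) (s.mapL (h1 x hx).cd)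
    (XL_comm p.ne (h1 x hx).cd (ne_rev_of_sup (h1 x hx).ac.symm) (ne_rev_of_sup (h1 x hx).bc.symm)
      (ne_rev_of_sup (h1 x hx).ad.symm) (ne_rev_of_sup (h1 x hx).bd.symm)) [xl Φ a0 b0 1]
      (xl_mem_map a0 b0 [1]) (xl_mem x.1 x.2 1)).imp fun C hC ρ l a b c d d' => ?_
  obtain ⟨x, hx, γ, rfl, rfl, e⟩ := h2 d'
  have d := h1 x hx
  have := comm_cj_bot (l.spread0 (l.kerL p.ne) (l.kerL d.cd) (hC x hx) (l.TL p.ne) (l.TL d.cd)
    (mem_TT p.ne) (mem_TT d.cd) ((k0_mn hζ p.ne).commute_xl d.cd 1 rfl rfl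
      (by simp [wt_ne d.ac d.bc, wt_ne d.ad d.bd]))
    (l.mapL p.ne ▸ genBy_h hζ hs p.ne) (l.mapL d.cd ▸ genBy_h hζ hs d.cd)) (ρ γ)
  rw [l.cjL γ p.ne, l.cjL γ d.cd] at this
  rcases e with ⟨rfl, rfl⟩ | ⟨rfl, rfl⟩
  exacts [this, l.symm d'.cd ▸ this]

theorem costS0 {c0 : Ix m} (t : Tr3 Γ a0 b0 c0) {e : V × F} (he : SG Φ ζ [e]) :
    Cost f 1 fun C => ∀ ρ, s.Lf ι ζ q C ρ → HS0 (s.LC C) (s.SC C) := by
  have d := t.d
  obtain ⟨e1, e2⟩ := he.mem e (by simp)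
  refine (rel0 _ _ (s.mapL d.bc) (s.mapS a0) ((commutator_comm _ _).trans (XS_comm d.bc
    (ne_rev_of_sup d.ab.symm) (ne_rev_of_sup d.ac.symm))) [xl Φ b0 c0 1]
    (xl_mem_map b0 c0 [1]) (xs_mem a0 e1 e2)).imp fun C hC ρ l => ?_
  have := l.spread0 (l.kerL d.bc) (l.kerS a0) hC (l.TL d.bc) (l.TS a0) (mem_TT d.bc)
    (mem_TT d.ab.symm) ((k0_mn hζ d.bc).commute_xs e1 e2 rfl (wt_ne d.ab.symm d.ac.symm))
    (l.mapL d.bc ▸ genBy_h hζ hs d.bc)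
    (l.mapS a0 ▸ he.gen a0 _ _ (k0_mn hζ d.ab.symm) (wt_right d.ab.symm))
  intro a b c d'
  rw [commutator_comm]
  rcases t.p1 d' with ⟨γ, rfl, rfl, rfl⟩ | ⟨γ, rfl, rfl, rfl⟩
  · rw [← l.cjL γ d.bc, ← l.cjS γ]; exact comm_cj_bot this _
  · rw [← l.symm d'.bc, ← l.cjL γ d.bc, ← l.cjS γ]; exact comm_cj_bot this _

theorem costS1 {e : V × F} (he : SG Φ ζ [e]) {w : Ix m → F} (hw : Wt Φ ζ w) (h1 : w a0 = 1)
    {E : List F} (hE : SpanBy (w b0) E) :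
    Cost f E.length fun C => ∀ ρ, s.Lf ι ζ q C ρ → HS1 (s.LC C) (s.SC C) := by
  have h := p.ne
  obtain ⟨g, hg, hg'⟩ := hw
  obtain ⟨e1, e2⟩ := he.mem e (by simp)
  refine (rel0 _ _ (s.mapL h) (s.mapS a0) ((commutator_comm _ _).trans (XS_comm h
    (rev_ne _).symm (ne_rev_of_sup h.symm))) _ (xl_mem_map a0 b0 E)
    (xs_mem a0 e1 e2)).mono (by simp) fun C hC ρ l => ?_
  have := l.spread0 (l.kerL h) (l.kerS a0) hC (l.TL h) (l.TS a0) hg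
    (mem_TT h.symm) (hg'.commute_xs e1 e2 rfl h1) (l.mapL h ▸ genBy_xl hg' h (by simp [h1]) hE)
    (l.mapS a0 ▸ he.gen a0 _ _ (k0_mn hζ h.symm) (wt_right h.symm))
  intro a b hab
  have e := comm_cj_bot this (ρ (p.c a b))
  rwa [l.cjL _ h, l.cjS, p.hc1 hab, p.hc2 hab, commutator_comm] at e

theorem costSS {e : V × F} (he : SG Φ ζ [e]) {w : Ix m → F} (hw : Wt Φ ζ w) (h1 : w a0 = 1)
    {E : List (V × F)} (hE : SG Φ (w b0) E) :
    Cost f E.length fun C => ∀ ρ, s.Lf ι ζ q C ρ → HS1 (s.LC C) (s.SC C) →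
      HSS (s.LC C) (s.SC C) := by
  have h := p.ne
  obtain ⟨g, hg, hg'⟩ := hw
  obtain ⟨e1, e2⟩ := he.mem e (by simp)
  refine (rel _ _ _ (s.mapS b0) (s.mapS a0) (s.mapL h) (XS_XS h) _ (hE.xs_mem b0)
    (xs_mem a0 e1 e2)).mono (by simp) fun C hC ρ l h5 => ?_
  have := l.spread (l.kerS b0) (l.kerS a0) hC (norm_of_comm_bot (by simpa only [l.symm h] using h5 h.symm))
    (norm_of_comm_bot (h5 h)) (l.TS b0) (l.TS a0) (l.TL h) hg
    (mem_TT h.symm) (hg'.commute_xs e1 e2 rfl h1) (l.mapS b0 ▸ hE.gen b0 _ _ hg' rfl)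
    (l.mapS a0 ▸ he.gen a0 _ _ (k0_mn hζ h.symm) (wt_right h.symm))
  intro a b hab
  have e := comm_cj_le this (ρ (p.c a b))
  rwa [l.cjL _ h, l.cjS, l.cjS, p.hc1 hab, p.hc2 hab] at e

theorem mapQ {a b : Ix m} (h : sup a ≠ sup b) :
    (QQ s.L s.S a b).map (FreeGroup.lift f) = QQ (XL Φ) (XS Φ) a b := by
  simp only [QQ, Subgroup.map_sup, s.mapL h, s.mapS]

theorem costQ1 {w : Ix m → F} (hw : Wt Φ ζ w) (h1 : τ (w a0) * w b0.rev = 1)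
    {E : List (V × F)} (hE : SG Φ (w b0) E) :
    Cost f E.length fun C => ∀ ρ, s.Lf ι ζ q C ρ → ∀ u ∈ s.LC C a0 b0.rev,
      C.θ u = xl Φ a0 b0.rev 1 → cj u (s.SC C b0) ≤ QQ (s.LC C) (s.SC C) a0 b0 := by
  have h := p.ne
  have h' : sup a0 ≠ sup b0.rev := by simpa
  obtain ⟨g, hg, hg'⟩ := hw
  refine (rel _ _ _ (s.mapS b0) (s.mapL h') (s.mapQ p hζ hs h) ((XS_XL h).trans le_sup_right) _
    (hE.xs_mem b0) (xl_mem a0 b0.rev 1)).mono (by simp) fun C hC ρ l u hu e => ?_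
  simp only [QQ, Subgroup.map_sup, ← e] at hC
  exact l.spread1 (l.kerS b0) (l.kerL h') hC hu le_sup_left (l.TS b0) (l.TL h') (l.TQ h) hg
    (e ▸ hg'.commute_xl h' 1 rfl rfl h1) (l.mapS b0 ▸ hE.gen b0 _ _ hg' rfl)

theorem costQ2 {w : Ix m → F} (hw : Wt Φ ζ w) (h1 : τ (w a0) * w b0.rev = 1)
    {E : List F} (hE : SpanBy (τ (w a0) * w b0) E) :
    Cost f E.length fun C => ∀ ρ, s.Lf ι ζ q C ρ → ∀ u ∈ s.LC C a0 b0.rev,
      C.θ u = xl Φ a0 b0.rev 1 → cj u (s.LC C a0 b0) ≤ QQ (s.LC C) (s.SC C) a0 b0 := by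
  have h := p.ne
  have h' : sup a0 ≠ sup b0.rev := by simpa
  obtain ⟨g, hg, hg'⟩ := hw
  refine (rel _ _ _ (s.mapL h) (s.mapL h') (s.mapQ p hζ hs h) (by
    rw [commutator_comm, ← XL_symm a0 b0.rev]
    exact (XL_90 h).trans (le_sup_of_le_right le_sup_left)) _
    (xl_mem_map a0 b0 E) (xl_mem a0 b0.rev 1)).mono (by simp) fun C hC ρ l u hu e => ?_
  simp only [QQ, Subgroup.map_sup, ← e] at hC
  exact l.spread1 (l.kerL h) (l.kerL h') hC hu (le_sup_of_le_right le_sup_right) (l.TL h) (l.TL h')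
    (l.TQ h) hg (e ▸ hg'.commute_xl h' 1 rfl rfl h1) (l.mapL h ▸ genBy_xl hg' h rfl hE)

end Setup

end Cfsg.Agent.CP
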