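import Cfsg.Agent.CP.Mon

/-! Commutator formulas for root elements of classical groups. -/

set_option autoImplicit false
set_option linter.unusedSectionVars false

namespace Cfsg.Agent.CP

open Subgroup Cfsg.Agent.RGD Cfsg.Agent.RG Cfsg.Agent.Polar Cfsg.Agent.Polar.PQ Cfsg.Agent.Cl
open Cfsg.Agent.Pres hiding rt
open scoped commutatorElement

variable {F : Type*} [Field F] {τ : F →+* F} {π : FP F τ}
variable {V : Type*} [AddCommGroup V] [Module F V] {P : PQ π V}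
variable {m : ℕ} {sh : Bool} {Φ : Frame P m sh}

theorem xl_fix {a b c : Ix m} (h : sup a ≠ sup b) (h1 : a ≠ c.rev) (h2 : b ≠ c.rev) (t : F) :
    xl Φ a b t • Φ.v c = Φ.v c :=
  (okL h t).eich_smul_of_perp₂ (Φ.orth _ _ h1) (by simp [Φ.orth _ _ h2])

theorem xs_fix {a c : Ix m} (h1 : a ≠ c.rev) {x : V} (hx : x ∈ Φ.V0) {d : F} (hd : P.QEq x d) :
    P.eich (Φ.v a) x d • Φ.v c = Φ.v c :=
  (Φ.eOk0 a hx hd).eich_smul_of_perp₂ (Φ.orth _ _ h1) (B_v_x hx c)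

theorem xl_commute {a b c d : Ix m} (h : sup a ≠ sup b) (h' : sup c ≠ sup d) (h1 : a ≠ c.rev)
    (h2 : b ≠ c.rev) (h3 : a ≠ d.rev) (h4 : b ≠ d.rev) (s t : F) :
    Commute (xl Φ a b s) (xl Φ c d t) :=
  commute_eich (okL h' t) (xl_fix h h1 h2 s) (by rw [act_smul, xl_fix h h3 h4])

theorem xs_commute {a b c : Ix m} (h : sup b ≠ sup c) (h1 : a ≠ b.rev) (h2 : a ≠ c.rev) {x : V}
    (hx : x ∈ Φ.V0) {d : F} (hd : P.QEq x d) (t : F) :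
    Commute (P.eich (Φ.v a) x d) (xl Φ b c t) :=
  commute_eich (okL h t) (xs_fix h1 hx hd) (by rw [act_smul, xs_fix h2 hx hd])

theorem comm_ll {a b c : Ix m} (h1 : sup a ≠ sup b) (h2 : sup b ≠ sup c) (h3 : c ≠ a.rev)
    (r s : F) : ⁅xl Φ b.rev c r, xl Φ a b s⁆ = P.eich (Φ.v a) ((s * Φ.κ b * r) • Φ.v c) 0 := by
  have h4 : sup b.rev ≠ sup c := by simpa
  have e : xl Φ b.rev c r • s • Φ.v b = s • Φ.v b + (s * Φ.κ b * r) • Φ.v c := by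
    rw [xl, (okL h4 r).eich_smul]
    simp only [B_smul_left, B_smul_right, Φ.B_rev, B_vv h2]
    module
  rw [xl.eq_def _ a, (comm_eich_fix (okL h1 s)
    (xl_fix h4 (fun e => ne_of_sup h1 (Fin.rev_injective e).symm) h3 r)).2, e]
  simp [B_vv h2, B_self]

theorem comm_ll120 {a b c : Ix m} (h1 : sup a ≠ sup b) (h2 : sup b ≠ sup c) (h3 : sup a ≠ sup c)
    (r s : F) : ⁅xl Φ b.rev c r, xl Φ a b s⁆ = xl Φ a c (s * Φ.κ b * r) :=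
  comm_ll h1 h2 (ne_rev_of_sup h3) r s

theorem lam_tr (t : F) : -(π.ε * (t - π.ε * τ t)) ∈ π.Λ := π.Λ.neg_mem (lam_eps (π.lam_min t))

theorem qeq_lam {c : F} (hc : c ∈ π.Λ) : P.QEq 0 c := QEq.of_sub_mem sing_zero (by simpa using hc)

theorem comm_ll90 {a b : Ix m} (h1 : sup a ≠ sup b) (r s : F) :
    ⁅xl Φ b.rev a r, xl Φ a b s⁆ =
      P.eich (Φ.v a) 0 (-(π.ε * (s * Φ.κ b * r - π.ε * τ (s * Φ.κ b * r)))) := by
  rw [comm_ll h1 h1.symm (rev_ne a).symm, ← zero_add (_ • Φ.v a),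
    (EOk.zero (Φ.sing a)).eich_add_smul_e, zero_sub]

theorem comm_sl {a b : Ix m} (h1 : sup a ≠ sup b) {x : V} (hx : x ∈ Φ.V0) {c : F} (hc : P.QEq x c)
    (s : F) : ⁅P.eich (Φ.v b) x c, xl Φ a b.rev (s * Φ.κ b.rev)⁆ =
      P.eich (Φ.v a) (s • x) (s * τ s * (π.ε * τ c)) * xl Φ a b (-(π.ε * c * s)) := by
  have h4 : sup a ≠ sup b.rev := by simpa
  have k := κ_sq (Φ := Φ) b.rev
  have e : P.eich (Φ.v b) x c • (s * Φ.κ b.rev) • Φ.v b.rev =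
      (s * Φ.κ b.rev) • Φ.v b.rev + (s • x + -(π.ε * c * s) • Φ.v b) := by
    rw [(Φ.eOk0 b hx hc).eich_smul]
    simp only [B_smul_left, B_rev', B_v_x hx, mul_assoc, k]
    module
  obtain ⟨o, e2⟩ := comm_eich_fix (okL h4 (s * Φ.κ b.rev)) (xs_fix (ne_rev_of_sup h1) hx hc)
  have e3 : P.B ((s * Φ.κ b.rev) • Φ.v b.rev) ((s * Φ.κ b.rev) • Φ.v b.rev) -
      P.B ((s * Φ.κ b.rev) • Φ.v b.rev) ((s * Φ.κ b.rev) • Φ.v b.rev + (s • x + -(π.ε * c * s) • Φ.v b)) =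
      s * τ s * (π.ε * τ c) := by
    simp only [map_add, B_smul_left, B_smul_right, B_rev', B_v_x hx, map_neg, map_mul, π.tau_eps]
    linear_combination (s * τ s * π.ε * τ c) * k
  rw [e, add_sub_cancel_left, e3] at o e2
  rw [xl.eq_def _ a, e2, (eich_split o (okL h1 _) (by simp [B_v_x hx])).2, xl]

theorem comm_ss {a b : Ix m} (h1 : sup a ≠ sup b) {x y : V} (hx : x ∈ Φ.V0) (hy : y ∈ Φ.V0)
    {c d : F} (hc : P.QEq x c) (hd : P.QEq y d) :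
    ⁅P.eich (Φ.v b) x c, P.eich (Φ.v a) y d⁆ = xl Φ a b (-(π.ε * P.B y x)) := by
  rw [(comm_eich_fix (Φ.eOk0 a hy hd) (xs_fix (ne_rev_of_sup h1) hx hc)).2,
    (Φ.eOk0 b hx hc).eich_smul_of_perp (B_x_v hy b), xl]
  simp [B_x_v hy]

theorem XL_comm {a b c d : Ix m} (h : sup a ≠ sup b) (h' : sup c ≠ sup d) (h1 : a ≠ c.rev)
    (h2 : b ≠ c.rev) (h3 : a ≠ d.rev) (h4 : b ≠ d.rev) : ⁅XL Φ a b, XL Φ c d⁆ = ⊥ :=
  comm_bot_of_commute fun x hx y hy => by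
    obtain ⟨s, rfl⟩ := (mem_XL h).1 hx
    obtain ⟨t, rfl⟩ := (mem_XL h').1 hy
    exact xl_commute h h' h1 h2 h3 h4 s t

theorem XS_comm {a b c : Ix m} (h : sup b ≠ sup c) (h1 : a ≠ b.rev) (h2 : a ≠ c.rev) :
    ⁅XS Φ a, XL Φ b c⁆ = ⊥ :=
  comm_bot_of_commute fun _ hg y hy => by
    obtain ⟨x, hx, d, hd, rfl⟩ := mem_XS.1 hg
    obtain ⟨t, rfl⟩ := (mem_XL h).1 hy
    exact xs_commute h h1 h2 hx hd t

theorem XL_120 {a b c : Ix m} (h1 : sup a ≠ sup b) (h2 : sup b ≠ sup c) (h3 : sup a ≠ sup c) :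
    ⁅XL Φ b.rev c, XL Φ a b⁆ = XL Φ a c := by
  refine le_antisymm (commutator_le.2 fun x hx y hy => ?_) (XL_le h3 fun t => ?_)
  · obtain ⟨s, rfl⟩ := (mem_XL (by simpa)).1 hx
    obtain ⟨t, rfl⟩ := (mem_XL h1).1 hy
    rw [comm_ll120 h1 h2 h3]; exact xl_mem _ _ _
  · have := comm_ll120 (Φ := Φ) h1 h2 h3 (Φ.κ b) t
    rw [mul_assoc, κ_sq, mul_one] at this
    exact this ▸ commutator_mem_commutator (xl_mem _ _ _) (xl_mem _ _ _)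

theorem XL_90 {a b : Ix m} (h1 : sup a ≠ sup b) : ⁅XL Φ b.rev a, XL Φ a b⁆ ≤ XS Φ a :=
  commutator_le.2 fun x hx y hy => by
    obtain ⟨s, rfl⟩ := (mem_XL (by simpa using h1.symm)).1 hx
    obtain ⟨t, rfl⟩ := (mem_XL h1).1 hy
    rw [comm_ll90 h1]; exact xs_mem _ (zero_mem _) (qeq_lam (lam_tr _))

theorem qeq_sl {x : V} {c : F} (hc : P.QEq x c) (s : F) : P.QEq (s • x) (s * τ s * (π.ε * τ c)) :=
  hc.conj.smul s

theorem XS_XL {a b : Ix m} (h1 : sup a ≠ sup b) : ⁅XS Φ b, XL Φ a b.rev⁆ ≤ XS Φ a ⊔ XL Φ a b :=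
  commutator_le.2 fun _ hg y hy => by
    obtain ⟨x, hx, d, hd, rfl⟩ := mem_XS.1 hg
    obtain ⟨t, rfl⟩ := (mem_XL (by simpa)).1 hy
    rw [← mul_one t, ← κ_sq (Φ := Φ) b.rev, ← mul_assoc, comm_sl h1 hx hd]
    exact mul_mem_sup (xs_mem _ (Submodule.smul_mem _ _ hx) (qeq_sl hd _)) (xl_mem _ _ _)

theorem XS_XS {a b : Ix m} (h1 : sup a ≠ sup b) : ⁅XS Φ b, XS Φ a⁆ ≤ XL Φ a b :=
  commutator_le.2 fun _ hg _ hg' => by
    obtain ⟨x, hx, d, hd, rfl⟩ := mem_XS.1 hg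
    obtain ⟨y, hy, e, he, rfl⟩ := mem_XS.1 hg'
    rw [comm_ss h1 hx hy hd he]; exact xl_mem _ _ _

theorem XS_XS_eq {a b : Ix m} (h1 : sup a ≠ sup b) {x y : V} (hx : x ∈ Φ.V0) (hy : y ∈ Φ.V0)
    (h : P.B y x ≠ 0) : XL Φ a b ≤ ⁅XS Φ b, XS Φ a⁆ :=
  XL_le h1 fun t => by
    have := comm_ss h1 hx (Submodule.smul_mem _ (-(π.ε * t / P.B y x)) hy) (QEq.self _) (QEq.self _)
    rw [B_smul_left, neg_mul, div_mul_cancel₀ _ h, mul_neg, neg_neg, π.eps_mul_eps] at this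
    exact this ▸ commutator_mem_commutator (xs_mem _ hx (QEq.self _))
      (xs_mem _ (Submodule.smul_mem _ _ hy) (QEq.self _))

theorem XL_le_U {a b : Ix m} (h : sup a ≠ sup b) : XL Φ a b ≤ P.U (Φ.v a) := Xl_le_U (okS h)

theorem XS_le_U (a : Ix m) : XS Φ a ≤ P.U (Φ.v a) := UW_le_U (Φ.sing a) _

theorem XS_inf_U {a b : Ix m} (h : a ≠ b) : XS Φ a ⊓ P.U (Φ.v b) = ⊥ := by
  rw [eq_bot_iff]
  rintro g ⟨h1, h2⟩
  obtain ⟨x, hx, d, hd, rfl⟩ := mem_XS.1 h1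
  exact (Φ.hyp b).eq_one_of_mem_U h2 (by rw [Frame.d, act_smul, xs_fix (by simpa) hx hd])

theorem XS_bot (h : sh = false) (a : Ix m) : XS Φ a = ⊥ :=
  eq_bot_iff.2 (XS_le fun x hx c hc => by
    by_contra e
    rw [Φ.sh_of hx hc (Φ.ne_zero_of hx hc e)] at h
    exact Bool.noConfusion h)

end Cfsg.Agent.CP
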