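import Cfsg.Agent.CP.Comm
import Cfsg.Agent.Cl.Frm

/-! From commutator relations to systems of lifts. -/

set_option autoImplicit false
set_option linter.unusedSectionVars false
set_option linter.unusedSimpArgs false
set_option linter.unusedVariables false

namespace Cfsg.Agent.CP

open Subgroup Cfsg.Agent.RGD Cfsg.Agent.RG Cfsg.Agent.Polar Cfsg.Agent.Polar.PQ Cfsg.Agent.Cl
open Cfsg.Agent.Pres hiding rt
open scoped commutatorElement

section ind
variable {m : ℕ} {sh : Bool} {hm : sh = false → 1 ≤ m}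

/-- the odd indicator function -/
def ind (j : Ix m) : OddF m := ⟨fun x => if x = j then 1 else if x = j.rev then -1 else 0, fun x => by
  have := rev_ne j
  by_cases h1 : x = j
  · simp [h1, this]
  by_cases h2 : x = j.rev
  · simp [h2, this]
  · simp [h1, h2, Fin.rev_eq_iff, Fin.rev_inj]⟩

theorem ind_pos {j : Ix m} {t : BRoot m sh} : 0 < bEv (ind j) t ↔ j ∈ t.1 := by
  induction t using rt_ind with
  | _ a b h h' =>
    have := ne_rev_symm h
    simp only [bEv_rt, ind, Sym2.mem_iff, @eq_comm _ j]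
    split_ifs <;> simp_all

theorem ind_nonneg {j : Ix m} {t : BRoot m sh} (h : j.rev ∉ t.1) : 0 ≤ bEv (ind j) t := by
  induction t using rt_ind with
  | _ a b k k' =>
    simp only [Sym2.mem_iff, not_or, @eq_comm _ j.rev] at h
    simp only [bEv_rt, ind, h.1, h.2, if_false]
    split_ifs <;> norm_num

theorem I_mem {r s t : BRoot m sh} (h : t ∈ (bRC hm).I r s) {j : Ix m} (h1 : j ∈ r.1)
    (h2 : j.rev ∉ s.1) : j ∈ t.1 := by
  obtain ⟨-, x, y, hx, hy, e⟩ := h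
  rw [← ind_pos]
  exact (add_pos_of_pos_of_nonneg (mul_pos hx (ind_pos.2 h1))
    (mul_nonneg hy.le (ind_nonneg h2))).trans_eq (e _).symm

theorem I_mem' {r s t : BRoot m sh} (h : t ∈ (bRC hm).I r s) {j : Ix m} (h1 : j ∈ t.1) :
    j ∈ r.1 ∨ j ∈ s.1 := by
  obtain ⟨-, x, y, hx, hy, e⟩ := h
  simp only [← ind_pos] at h1 ⊢
  by_contra k
  push Not at k
  exact absurd (e _ ▸ h1) (not_lt.2 (add_nonpos (mul_nonpos_of_nonneg_of_nonpos hx.le k.1)
    (mul_nonpos_of_nonneg_of_nonpos hy.le k.2)))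

theorem I_sl {a b : Ix m} (h : sup a ≠ sup b) {t : BRoot m sh} {k k' l l'}
    (ht : t ∈ (bRC hm).I (rt b b k k') (rt a b.rev l l')) : t.1 = s(a, a) ∨ t.1 = s(a, b) := by
  have h1 := ne_of_sup h
  have h2 := ne_rev_of_sup h
  have h3 := ne_rev_symm h2
  obtain ⟨q, hq⟩ := Sym2.mem_iff_exists.1 (I_mem (bRC_I_symm ht) (Sym2.mem_mk_left _ _)
    (by simpa using h2.symm))
  have := I_mem' ht (hq ▸ Sym2.mem_mk_right a q)
  simp only [Sym2.mem_iff, or_self] at this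
  rcases this with rfl | rfl | rfl
  · exact Or.inr hq
  · exact Or.inl hq
  · obtain ⟨-, x, y, hx, hy, e⟩ := ht
    rw [show t = rt a b.rev l l' from Subtype.ext hq] at e
    have e1 : bEv _ _ = x * bEv _ _ + y * bEv _ _ := e (ind a)
    have e2 : bEv _ _ = x * bEv _ _ + y * bEv _ _ := e (ind b)
    simp [ind, h1, h1.symm, h2, h3, h3.symm, rev_ne, Fin.rev_inj] at e1 e2
    linarith

theorem pos_not_mem {t : BRoot m sh} (h : (bRC hm).pos t) : (0 : Ix m).rev ∉ t.1 := by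
  induction t using rt_ind with
  | _ a b k k' =>
    rw [bRC_pos] at h
    simp only [Sym2.mem_iff, Fin.ext_iff, Fin.val_rev, Fin.val_zero]; omega

theorem pos_of_mem {t : BRoot m sh} (h : (0 : Ix m) ∈ t.1) : (bRC hm).pos t := by
  induction t using rt_ind with
  | _ a b k k' =>
    have := a.2; have := b.2
    rw [bRC_pos]
    simp only [Sym2.mem_iff, Ne, Fin.ext_iff, Fin.val_rev, Fin.val_zero] at h k; omega

end ind

variable {F : Type*} [Field F] {τ : F →+* F} {π : FP F τ}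
variable {V : Type*} [AddCommGroup V] [Module F V] {P : PQ π V}
variable {m : ℕ} {sh : Bool} {Φ : Frame P m sh}

theorem sup_val (a : Ix m) : (sup a : ℕ) = if (a : ℕ) ≤ m then (a : ℕ) else 2 * m + 1 - a := rfl

theorem genHyp (Φ : Frame P m sh) (hm : sh = false → 1 ≤ m) (h1 : 1 ≤ m) (h2 : sh = false → 2 ≤ m) :
    (bRC hm).GenHyp Φ.X0 := by
  intro i
  have hi := i.2
  cases sh
  · have := h2 rfl
    have hab : sa false i ≠ sb i := fun e => Bool.noConfusion (sa_eq hm i e)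
    obtain ⟨c, h3, h4⟩ : ∃ c : Fin (m + 1), c ≠ sup (sa false i) ∧ c ≠ sup (sb i) := by
      simpa using exists_not_mem [sup (sa false i), sup (sb i)] (by simp; omega)
    have k1 : sup (sa false i) ≠ sup (mkI c 1) := by simpa using h3.symm
    have k2 : sup (mkI c 1) ≠ sup (sb i) := by simpa using h4
    have k3 := sup_ne_of hab (sb_ne i)
    generalize mkI c 1 = c at k1 k2
    have k4 : sup c.rev ≠ sup (sb i) := by simpa
    have := ne_of_sup k1; have := ne_of_sup k2; have := ne_of_sup k4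
    have := ne_rev_of_sup k1; have := ne_rev_of_sup k2; have := ne_rev_of_sup k4
    have := ne_rev_symm (ne_rev_of_sup k1); have := rev_ne c; have := sb_ne (sh := false) i
    have := rev_ne (sa false i); have := rev_ne (sb i)
    refine ⟨rt _ _ (ne_rev_of_sup k4) fun e => absurd e (ne_of_sup k4),
      rt _ _ (ne_rev_of_sup k1) fun e => absurd e (ne_of_sup k1), ?_, ?_, ?_, ?_, ?_, ?_,
      fun t ht => ?_, ?_⟩
    iterate 6 (simp only [bRC_α, bRC_neg, Ne, rt_eq_iff, Fin.rev_rev, Fin.rev_inj]; grind)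
    · have e1 := I_mem ht (Sym2.mem_mk_right _ _) (by simp; grind)
      have e2 := I_mem (bRC_I_symm ht) (Sym2.mem_mk_left _ _) (by simp; grind)
      rw [show t = (bRC hm).α i from Subtype.ext (Sym2.eq_of_ne_mem hab e2 e1
        (Sym2.mem_mk_left _ _) (Sym2.mem_mk_right _ _))]
      exact (bRC hm).pos_α i
    · rw [bRC_α, Φ.X0_long hab, Φ.X0_long (ne_of_sup k1), Φ.X0_long (ne_of_sup k4)]
      exact (XL_120 k1 k2 k3).ge.trans le_sup_left
  · obtain ⟨x, hx, c, h0, hc⟩ := Φ.short.1 rfl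
    obtain ⟨b, k, hb⟩ : ∃ b, sup (sa true i) ≠ sup b ∧ (b = sb i ∨ (i = Fin.last m ∧ b = 0)) := by
      by_cases e : i = Fin.last m
      · exact ⟨0, by simp [e, Fin.ext_iff, sup_val, sa_val]; omega, Or.inr ⟨e, rfl⟩⟩
      · refine ⟨_, sup_ne_of (fun e' => e ?_) (sb_ne i), Or.inl rfl⟩
        simp only [Fin.ext_iff, sa_val, sb_val, Fin.val_last] at e' ⊢
        split_ifs at e' <;> omega
    have k' : sup (sa true i) ≠ sup b.rev := by simpa
    have p1 : (bRC hm).pos (rt (sa true i) (sa true i) (rev_ne _).symm fun _ => rfl) := by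
      rw [bRC_pos, sa_val]; simp; omega
    have p2 : (bRC hm).pos (rt (sa true i) b (ne_rev_of_sup k) fun _ => rfl) := by
      rcases hb with rfl | ⟨-, rfl⟩
      · exact (bRC hm).pos_α i
      · exact pos_of_mem (Sym2.mem_mk_right _ _)
    have := ne_of_sup k; have := ne_of_sup k'; have := ne_rev_of_sup k
    have := rev_ne b; have := rev_ne (sa true i)
    have e0 : i = Fin.last m → sb i = sa true i := fun e => e ▸ Frame.sa_last.symm
    refine ⟨rt b b (rev_ne b).symm fun _ => rfl, rt _ _ (ne_rev_of_sup k') fun _ => rfl,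
      ?_, ?_, ?_, ?_, ?_, ?_, fun t ht => ?_, ?_⟩
    iterate 6 (simp only [bRC_α, bRC_neg, Ne, rt_eq_iff, Fin.rev_rev, Fin.rev_inj]; grind)
    · rcases I_sl k ht with e | e
      · exact Subtype.ext (a2 := rt _ _ (rev_ne _).symm fun _ => rfl) e ▸ p1
      · exact Subtype.ext (a2 := rt _ _ (ne_rev_of_sup k) fun _ => rfl) e ▸ p2
    · rw [Φ.X0_short, Φ.X0_long (ne_of_sup k')]
      have key := fun y hy d hd s => comm_sl (Φ := Φ) k (x := y) hy (c := d) hd s ▸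
        commutator_mem_commutator (xs_mem b hy hd) (xl_mem _ _ _)
      rcases hb with rfl | ⟨e, rfl⟩
      · rw [bRC_α, Φ.X0_long (ne_of_sup k)]
        refine XL_le k fun t => ?_
        have e1 : t = -(π.ε * c * -(π.ε * t / c)) := by
          field_simp; linear_combination -t * π.eps_sq
        rw [e1, ← mul_mem_cancel_left (mem_sup_right (Φ.short_mem (fun _ => And.intro p1 (by
          simp only [bRC_α, Ne, rt_eq_iff]; grind)) (Submodule.smul_mem _ _ hx) (qeq_sl hc _)))]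
        exact mem_sup_left (key x hx c hc _)
      · rw [Frame.α_short hm (e0 e).symm, Φ.X0_short, e0 e]
        refine XS_le fun y hy d hd => ?_
        have := mem_sup_left (T := US Φ.X0 ((bRC hm).Pi i)) (key y hy _ hd.conj 1)
        rw [xl, mul_mem_cancel_right (mem_sup_right (Φ.long_mem (ne_rev_of_sup k) (ne_of_sup k)
          (And.intro p2 (by simp only [bRC_α, Ne, rt_eq_iff]; grind)) _))] at this
        simpa [π.tau_eps, π.tau_tau, π.eps_mul_eps, XS, XL] using this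

theorem nw_mono (hm : sh = false → 1 ≤ m) {l : List (Fin (m + 1))} {n : P.Iso}
    (h : (bRC hm).NW Φ.X0 l n) : ∃ s : Ix m → Ix m, Φ.Mono n s ∧
      ∀ r, ((bRC hm).wd l r).1 = r.1.map s := by
  induction h with
  | nil => exact ⟨id, Φ.Dg.one_mem, fun r => (congrFun Sym2.map_id _).symm⟩
  | @cons i l g n h _ ih =>
    obtain ⟨s, h1, h2⟩ := ih
    rw [← Frame.X_id] at h
    exact ⟨_, (Φ.isM_mono (idSys P) hm h).mul h1, fun r => by
      rw [RC.wd_cons, ← Sym2.map_map, ← h2]; rfl⟩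

variable (sh) in
/-- the roots containing a given index -/
def Rs (j : Ix m) : Set (BRoot m sh) := {r | j ∈ r.1}

theorem mem_Rs {j : Ix m} {r : BRoot m sh} : r ∈ Rs sh j ↔ j ∈ r.1 := Iff.rfl

theorem rt_mem_Rs (a b : Ix m) (h h') : rt a b h h' ∈ Rs sh a := Sym2.mem_mk_left a b

theorem rt_mem_Rs' (a b : Ix m) (h h') : rt a b h h' ∈ Rs sh b := Sym2.mem_mk_right a b

theorem U_eq (a : Ix m) : US Φ.X0 (Rs sh a) = P.U (Φ.v a) := by
  refine le_antisymm (US_le fun r hr => Φ.X0_le_U' hr) ?_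
  have hT : ∀ c ∈ π.Λ, P.eich (Φ.v a) 0 c ∈ US Φ.X0 (Rs sh a) := fun c hc =>
    Φ.short_mem (fun _ => rt_mem_Rs _ _ _ _) (zero_mem _) (qeq_lam hc)
  refine (Φ.hyp a).U_le_of_vecs hT fun w hw => ?_
  rw [mem_perp_pair] at hw
  rw [← sub_add_cancel w (∑ b, P.B w (Φ.d b) • Φ.v b)]
  refine add_mem ⟨_, Φ.eOk0 a (Φ.decomp w) (QEq.self _),
    Φ.short_mem (fun _ => rt_mem_Rs _ _ _ _) (Φ.decomp w) (QEq.self _)⟩ (sum_mem fun b _ => ?_)
  by_cases e1 : b = a
  · rw [e1, hw.2, zero_smul]; exact zero_mem _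
  by_cases e2 : b = a.rev
  · have : P.B w (Φ.d b) = 0 := by rw [e2, Frame.d, Fin.rev_rev, B_smul_right, hw.1, mul_zero]
    rw [this, zero_smul]; exact zero_mem _
  exact ⟨0, eOk_smul (Φ.ok e2) _, Φ.long_mem e2 (Ne.symm e1) (rt_mem_Rs _ _ _ _) _⟩

theorem v_inj {a b : Ix m} {s t : F} (hs : s ≠ 0) (h : s • Φ.v a = t • Φ.v b) : a = b := by
  by_contra e
  have := congrArg (P.B · (Φ.d a)) h
  simp [(Φ.hyp a).pair, Φ.B_d e, hs] at this

section usys
variable {G : Type*} [Group G] {θ : G →* P.Iso} {W : BRoot m sh → Subgroup G}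
  {hm : sh = false → 1 ≤ m}

theorem nw_map (o : RC.Over θ W Φ.X0) {l : List (Fin (m + 1))} {n : G} (h : (bRC hm).NW W l n) :
    (bRC hm).NW Φ.X0 l (θ n) := by
  induction h with
  | nil => rw [map_one]; exact .nil
  | cons h _ ih => rw [map_mul]; exact .cons (o.isM h) ih

theorem decomp0 (o : RC.Over θ W Φ.X0) (h : (bRC hm).IsRGD W) {g : G} (hg : g ∈ US W Set.univ) :
    ∃ a j, ∃ t : F, t ≠ 0 ∧ θ a • Φ.v 0 = Φ.v 0 ∧ cj a (US W (Rs sh 0)) = US W (Rs sh 0) ∧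
      θ g • Φ.v 0 = t • θ a • Φ.v j ∧ cj g (US W (Rs sh 0)) = cj a (US W (Rs sh j)) := by
  have k1 : US W (bRC hm).Pos ≤ (MulAction.stabilizer P.Iso (Φ.v 0)).comap θ :=
    US_le (rt_ind fun a b k k' hp x hx => by
      have := pos_not_mem hp
      simp only [Sym2.mem_iff, not_or] at this
      exact Φ.X0_fix (Ne.symm this.1) (Ne.symm this.2) (o.mem hx))
  have k2 : US W (bRC hm).Pos ≤ normalizer (US W (Rs sh 0) : Set G) :=
    US_le fun r hr => norm_US fun s hs => by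
      by_cases e : s = r
      · exact Or.inl (le_US (e ▸ hs))
      · exact Or.inr ((h.comm r s e ((bRC hm).ne_neg_of_pos hr (pos_of_mem hs))).trans
          (US_mono fun t ht => I_mem (bRC_I_symm ht) hs (pos_not_mem hr)))
  obtain ⟨a, ha, l, n, hn, b, hb, rfl⟩ := h.bruhat hg
  obtain ⟨s, h1, h2⟩ := nw_mono hm (nw_map o hn)
  obtain ⟨t, ht, h3⟩ := h1 0
  refine ⟨a, s 0, t, ht, k1 ha, mem_normalizer_iff_cj.1 (k2 ha), ?_, ?_⟩
  · rw [map_mul, map_mul, mul_smul, mul_smul, k1 hb, h3, act_smul]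
  · rw [cj_mul, cj_mul, mem_normalizer_iff_cj.1 (k2 hb)]
    congr 1
    refine cj_eq_of_le (hn.acts.cj_US fun r hr => ?_) (hn.acts.inv.cj_US fun r hr => ?_)
    · rw [mem_Rs, h2]; exact Sym2.mem_map.2 ⟨0, hr, rfl⟩
    · rw [← (bRC hm).wd_wd_reverse l r, mem_Rs, h2] at hr
      obtain ⟨x, h4, h5⟩ := Sym2.mem_map.1 hr
      obtain ⟨t', ht', h6⟩ := h1 x
      have : t • Φ.v x = t' • Φ.v 0 := by
        rw [← smul_left_cancel_iff (θ n), act_smul, act_smul, h3, h6, h5, smul_comm]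
      rwa [v_inj ht this] at h4

theorem compat_aux (o : RC.Over θ W Φ.X0) (k3 : US W (Rs sh 0) ⊓ θ.ker = ⊥) {e e' w w' : V}
    (k : Hyp2 P e e' w w') {g x : G} {t s : F} {j : Ix m} (h1 : t ≠ 0) (h2 : s ≠ 0)
    (e1 : θ g • Φ.v 0 = t • e) (e2 : θ g • Φ.v j = s • w) (hx : x ∈ cj g (US W (Rs sh 0)))
    (hx' : θ x ∈ Xl P e w) : x ∈ cj g (US W (Rs sh j)) := by
  have e3 : j ≠ (0 : Ix m).rev := fun e => by
    have := B_smul_smul (θ g) (Φ.v 0) (Φ.v j)
    rw [e1, e2, e, Φ.B_rev, B_smul_left, B_smul_right, k.symm.we, mul_zero, mul_zero] at this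
    exact Φ.κ_ne 0 this.symm
  have e4 : 0 ≠ j := fun e => by
    subst e
    have := congrArg (P.B · e') (e1.symm.trans e2)
    simp [k.h1.pair, k.we', h1] at this
  rw [mem_cj] at hx ⊢
  have e5 : θ (g⁻¹ * x * g) ∈ Φ.X0 (rt 0 j e3 fun e => absurd e e4) := by
    rw [Φ.X0_long e4, map_mul, map_mul, map_inv]
    refine cj_Xl_le k.ok (g := (θ g)⁻¹) (inv_ne_zero h1) (t := s⁻¹) ?_ ?_
      (by simpa using conj_mem_cj (m := (θ g)⁻¹) hx') <;> rw [inv_smul_eq_iff, act_smul]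
    · rw [e1, smul_smul, inv_mul_cancel₀ h1, one_smul]
    · rw [e2, smul_smul, inv_mul_cancel₀ h2, one_smul]
  obtain ⟨z, hz, e6⟩ := o.exists_mem e5
  rw [← eq_of_inf_ker k3 (le_US (rt_mem_Rs _ _ _ _) hz) hx e6]
  exact le_US (rt_mem_Rs' _ _ _ _) hz

theorem exists_usys [FiniteDimensional F V] (hP : P.ND) (hr : P.Rich) (o : RC.Over θ W Φ.X0)
    (h : (bRC hm).IsRGD W) (ht : US W Set.univ = ⊤) (hj : ∀ j, ∃ g, ∃ t : F, t ≠ 0 ∧
      θ g • Φ.v 0 = t • Φ.v j ∧ US W (Rs sh j) ≤ cj g (US W (Rs sh 0))) :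
    ∃ σ : USys P G, σ.θ = θ ∧ US (Φ.X σ) Set.univ = ⊤ := by
  obtain ⟨Y, hY⟩ : ∃ Y : V → Subgroup G, ∀ e, Y e =
    ⨆ (g : G) (_ : ∃ t : F, t ≠ 0 ∧ θ g • Φ.v 0 = t • e), cj g (US W (Rs sh 0)) := ⟨_, fun _ => rfl⟩
  have d0 := fun g => decomp0 o h (ht.ge (mem_top g))
  have k1 : ∀ g e (t : F), t ≠ 0 → θ g • Φ.v 0 = t • e → Y e = cj g (US W (Rs sh 0)) := by
    intro g e t h1 h2
    rw [hY]
    refine le_antisymm (iSup₂_le fun g' ⟨t', h3, h4⟩ => ?_) (le_iSup₂_of_le g ⟨t, h1, h2⟩ le_rfl)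
    obtain ⟨a, j, s, h5, h6, h7, h8, h9⟩ := d0 (g⁻¹ * g')
    have : (t * s) • Φ.v j = t' • Φ.v 0 := by
      rw [← smul_left_cancel_iff (θ a), act_smul, act_smul, h6, mul_smul, ← h8,
        ← smul_left_cancel_iff (θ g), act_smul, act_smul, h2, ← mul_smul (θ g), ← map_mul,
        mul_inv_cancel_left, h4, smul_comm]
    rw [v_inj (mul_ne_zero h1 h5) this, h7] at h9
    rw [← cj_cj_inv g (cj g' _), ← cj_mul g⁻¹, h9]
  have k2 : ∀ {e f}, P.Hyp e f → ∃ g, ∃ t : F, t ≠ 0 ∧ θ g • Φ.v 0 = t • e := fun k => by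
    obtain ⟨t, h1, g, hg, h2⟩ := hP.exists_EG_point hr (Φ.sing 0) k.left (Φ.hyp 0).left_ne_zero
      k.left_ne_zero
    rw [← Φ.US_X0 hP, ← o.map_US] at hg
    obtain ⟨g, -, rfl⟩ := hg
    exact ⟨g, t, h1, h2⟩
  have k3 : US W (Rs sh 0) ⊓ θ.ker = ⊥ := inf_ker_mono
    (US_mono (T := (bRC hm).Pos) fun _ k => pos_of_mem (hm := hm) k) (o.pos_ker h.comm.commPos (Φ.isRGD0 hm).nf)
  have k4 : ∀ g e, cj g (Y e) ≤ Y (θ g • e) := fun g e => by
    rw [hY, hY]
    exact cj_iSup_le fun g' => cj_iSup_le fun ⟨t, h1, h2⟩ => le_iSup₂_of_le (g * g')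
      ⟨t, h1, by rw [map_mul, mul_smul, h2, act_smul]⟩ (cj_mul _ _ _).ge
  have k5 : ∀ e (t : F), t ≠ 0 → Y (t • e) ≤ Y e := fun e t h0 => by
    rw [hY, hY]
    exact iSup₂_le fun g ⟨s, h1, h2⟩ => le_iSup₂_of_le g ⟨s * t, mul_ne_zero h1 h0, by
      rw [h2, smul_smul]⟩ le_rfl
  let σ : USys P G :=
    { θ := θ
      Y := Y
      map_Y := fun k => by
        obtain ⟨g, t, h1, h2⟩ := k2 k
        rw [k1 g _ t h1 h2, map_cj, o.map_US, U_eq, cj_U, h2, U_smul h1]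
      ker_Y := fun k => by
        obtain ⟨g, t, h1, h2⟩ := k2 k
        rw [k1 g _ t h1 h2, ← cj_ker θ g, ← cj_inf, k3, cj_eq_bot]
      conj := fun g e => cj_eq_of_le (k4 g e) (by simpa using k4 g⁻¹ (θ g • e))
      smul := fun e t h0 => le_antisymm (k5 e t h0)
        (by simpa [smul_smul, h0] using k5 (t • e) t⁻¹ (inv_ne_zero h0))
      compat := fun {e e' w w'} k x hx hx' => by
        obtain ⟨g, t, h1, h2⟩ := k2 k.h1
        obtain ⟨g', t', h3, h4⟩ := k2 k.h2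
        obtain ⟨a, j, s, h5, h6, h7, h8, h9⟩ := d0 (g⁻¹ * g')
        have e1 : θ (g * a) • Φ.v 0 = t • e := by rw [map_mul, mul_smul, h6, h2]
        have e2 : θ (g * a) • Φ.v j = (s⁻¹ * t') • w := by
          rw [mul_smul, ← h4, ← mul_inv_cancel_left g g', map_mul θ g (_ * _), mul_smul, h8, act_smul,
            smul_smul, inv_mul_cancel₀ h5, one_smul, map_mul, mul_smul]
        rw [k1 _ _ t' h3 h4, ← mul_inv_cancel_left g g', cj_mul, h9, ← cj_mul]
        exact compat_aux o k3 k h1 (mul_ne_zero (inv_ne_zero h5) h3) e1 e2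
          ((k1 _ _ t h1 e1).le hx) hx' }
  refine ⟨σ, rfl, eq_top_iff.2 (ht.ge.trans (US_mono' fun r _ => ?_))⟩
  induction r using rt_ind with
  | _ a b k k' =>
    intro x hx
    obtain ⟨g, t, h1, h2, h3⟩ := hj a
    exact Frame.mem_X.2 ⟨o.mem hx, (k1 g _ t h1 h2).ge (h3 (le_US (rt_mem_Rs _ _ _ _) hx))⟩

end usys

variable (Φ) in
/-- the commutator relations of a family of lifted root groups -/
structure Core {G : Type*} [Group G] (θ : G →* P.Iso) (L : Ix m → Ix m → Subgroup G)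
    (S : Ix m → Subgroup G) : Prop where
  symm : ∀ {a b}, sup a ≠ sup b → L b a = L a b
  mapL : ∀ {a b}, sup a ≠ sup b → (L a b).map θ = XL Φ a b
  kerL : ∀ {a b}, sup a ≠ sup b → L a b ⊓ θ.ker = ⊥
  mapS : ∀ a, (S a).map θ = XS Φ a
  kerS : ∀ a, S a ⊓ θ.ker = ⊥
  ll60 : ∀ {a b c}, sup a ≠ sup b → sup a ≠ sup c → sup b ≠ sup c → ⁅L a b, L a c⁆ = ⊥
  ll120 : ∀ {a b c}, sup a ≠ sup b → sup a ≠ sup c → sup b ≠ sup c → ⁅L b.rev c, L a b⁆ ≤ L a c
  ll90 : ∀ {a b c d}, sup a ≠ sup b → sup a ≠ sup c → sup a ≠ sup d → sup b ≠ sup c →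
    sup b ≠ sup d → sup c ≠ sup d → ⁅L a b, L c d⁆ = ⊥
  sl0 : ∀ {a b c}, sup a ≠ sup b → sup a ≠ sup c → sup b ≠ sup c → ⁅S a, L b c⁆ = ⊥
  sl1 : ∀ {a b}, sup a ≠ sup b → ⁅S a, L a b⁆ = ⊥
  ss : ∀ {a b}, sup a ≠ sup b → ⁅S b, S a⁆ ≤ L a b
  q : ∀ {a b}, sup a ≠ sup b → L a b.rev ≤ normalizer (S b ⊔ (S a ⊔ L a b) : Subgroup G)

theorem sup_inf_ker {G H : Type*} [Group G] [Group H] {θ : G →* H} {A B : Subgroup G}
    (h : A ≤ normalizer (B : Set G)) (hA : A ⊓ θ.ker = ⊥) (hB : B ⊓ θ.ker = ⊥)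
    (hAB : A.map θ ⊓ B.map θ = ⊥) : (A ⊔ B) ⊓ θ.ker = ⊥ := by
  rw [eq_bot_iff]
  rintro _ ⟨hx, hk⟩
  obtain ⟨a, ha, b, hb, rfl⟩ := mem_sup_norm h hx
  have e : θ a = (θ b)⁻¹ := by rw [eq_inv_iff_mul_eq_one, ← map_mul]; exact hk
  have : θ a ∈ A.map θ ⊓ B.map θ := ⟨mem_map_of_mem _ ha, e ▸ Subgroup.inv_mem _ (mem_map_of_mem _ hb)⟩
  rw [hAB] at this
  rw [eq_of_inf_ker hA ha (one_mem _) (this.trans (map_one θ).symm), one_mul] at hk ⊢
  exact hB.le ⟨hb, hk⟩

theorem norm_of_comm_le {G : Type*} [Group G] {A B : Subgroup G} (h : ⁅A, B⁆ ≤ B) :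
    A ≤ normalizer (B : Set G) := by
  rw [le_normalizer_iff]
  intro a ha b hb
  simpa [commutatorElement_def] using mul_mem (h (commutator_mem_commutator ha hb)) hb

theorem comm_le_of_norm {G : Type*} [Group G] {A B C : Subgroup G} (h : A ≤ normalizer (C : Set G))
    (h' : B ≤ C) : ⁅A, B⁆ ≤ C := commutator_le.2 fun a ha b hb =>
  mul_mem ((mem_normalizer_iff.1 (h ha) _).1 (h' hb)) (inv_mem (h' hb))

theorem norm_sup {G : Type*} [Group G] {A B C : Subgroup G} (h : ⁅A, B⁆ ≤ B ⊔ C)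
    (h' : ⁅A, C⁆ ≤ B ⊔ C) : A ≤ normalizer (B ⊔ C : Subgroup G) := by
  rw [le_normalizer_iff]
  intro a ha
  refine cj_le_iff.1 ((cj_sup a B C).le.trans (sup_le (cj_le_iff.2 fun b hb => ?_)
    (cj_le_iff.2 fun b hb => ?_)))
  · simpa [commutatorElement_def] using
      mul_mem (h (commutator_mem_commutator ha hb)) (mem_sup_left hb)
  · simpa [commutatorElement_def] using
      mul_mem (h' (commutator_mem_commutator ha hb)) (mem_sup_right hb)

namespace Core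

variable {G : Type*} [Group G] {θ : G →* P.Iso} {L : Ix m → Ix m → Subgroup G}
  {S : Ix m → Subgroup G} (C : Core Φ θ L S)
include C

theorem Q_ker {a b : Ix m} (h : sup a ≠ sup b) : (S b ⊔ (S a ⊔ L a b)) ⊓ θ.ker = ⊥ := by
  refine sup_inf_ker (norm_sup ((C.ss h).trans le_sup_right) ?_) (C.kerS b)
    (sup_inf_ker (norm_of_comm_bot (C.sl1 h)) (C.kerS a) (C.kerL h) ?_) ?_
  · rw [← C.symm h, C.sl1 h.symm]; exact bot_le
  · rw [C.mapS, C.mapL h, eq_bot_iff, ← XS_inf_U (ne_of_sup h), ← XL_symm]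
    exact inf_le_inf_left _ (XL_le_U h.symm)
  · rw [Subgroup.map_sup, C.mapS, C.mapS, C.mapL h, eq_bot_iff, ← XS_inf_U (ne_of_sup h).symm]
    exact inf_le_inf_left _ (sup_le (XS_le_U a) (XL_le_U h))

theorem q1 {a b : Ix m} (h : sup a ≠ sup b) : ⁅S b, L a b.rev⁆ ≤ S a ⊔ L a b := by
  refine le_of_map_le (C.Q_ker h) ?_ le_sup_right ?_
  · rw [commutator_comm]; exact comm_le_of_norm (C.q h) le_sup_left
  · rw [map_commutator, Subgroup.map_sup, C.mapS, C.mapS, C.mapL h, C.mapL (by simpa)]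
    exact XS_XL h

theorem q2 {a b : Ix m} (h : sup a ≠ sup b) : ⁅L b.rev a, L a b⁆ ≤ S a := by
  have h' : sup a ≠ sup b.rev := by simpa
  refine le_of_map_le (C.Q_ker h) ?_ (le_sup_of_le_right le_sup_left) ?_
  · rw [C.symm h']; exact comm_le_of_norm (C.q h) (le_sup_of_le_right le_sup_right)
  · rw [map_commutator, C.mapS, C.mapL h, C.mapL h'.symm]
    exact XL_90 h

theorem sl {a b c : Ix m} (h : sup b ≠ sup c) (h1 : a ≠ b.rev) (h2 : a ≠ c.rev) :
    ⁅S a, L b c⁆ = ⊥ := by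
  by_cases e1 : a = b
  · exact e1 ▸ C.sl1 (e1 ▸ h)
  by_cases e2 : a = c
  · subst e2; rw [← C.symm h]; exact C.sl1 h.symm
  · exact C.sl0 (sup_ne_of e1 (ne_rev_symm h1)) (sup_ne_of e2 (ne_rev_symm h2)) h

theorem ll {a b c d : Ix m} (h : sup a ≠ sup b) (h' : sup c ≠ sup d) (h1 : a ≠ c.rev)
    (h2 : b ≠ c.rev) (h3 : a ≠ d.rev) (h4 : b ≠ d.rev) (h5 : s(a, b) ≠ s(c, d)) :
    ⁅L a b, L c d⁆ = ⊥ := by
  rw [Ne, Sym2.eq_iff] at h5
  by_cases e1 : a = c
  · subst e1; exact C.ll60 h h' (sup_ne_of (by tauto) (ne_rev_symm h4))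
  by_cases e2 : a = d
  · subst e2; rw [← C.symm h']; exact C.ll60 h h'.symm (sup_ne_of (by tauto) (ne_rev_symm h2))
  have k1 := sup_ne_of e1 (ne_rev_symm h1)
  have k2 := sup_ne_of e2 (ne_rev_symm h3)
  by_cases e3 : b = c
  · subst e3; rw [← C.symm h]; exact C.ll60 h.symm h' k2
  by_cases e4 : b = d
  · subst e4; rw [← C.symm h, ← C.symm h']; exact C.ll60 h.symm h'.symm k1
  · exact C.ll90 h k1 k2 (sup_ne_of e3 (ne_rev_symm h2)) (sup_ne_of e4 (ne_rev_symm h4)) h'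

end Core

variable (sh) in
/-- the family of lifted root groups -/
def fam {G : Type*} [Group G] (L : Ix m → Ix m → Subgroup G) (S : Ix m → Subgroup G)
    (r : BRoot m sh) : Subgroup G :=
  Sym2.lift ⟨fun a b => if a = b then S a else L a b ⊓ L b a, fun a b => by
    by_cases h : a = b
    · simp [h]
    · simp only [h, Ne.symm h, if_false, inf_comm]⟩ r.1

namespace Core

variable {G : Type*} [Group G] {θ : G →* P.Iso} {L : Ix m → Ix m → Subgroup G}
  {S : Ix m → Subgroup G} (C : Core Φ θ L S)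

theorem fam_S (a : Ix m) (h h') : fam sh L S (rt a a h h') = S a := if_pos rfl

include C

theorem fam_L {a b : Ix m} (e : a ≠ b) (h h') : fam sh L S (rt a b h h') = L a b :=
  (if_neg e).trans (by rw [C.symm (sup_ne_of e h), inf_idem])

theorem isOver : RC.Over θ (fam sh L S) Φ.X0 := by
  refine ⟨rt_ind fun a b h h' => ?_, rt_ind fun a b h h' => ?_⟩ <;> by_cases e : a = b
  · subst e; rw [fam_S, Φ.X0_short]; exact C.mapS a
  · rw [C.fam_L e, Φ.X0_long e]; exact C.mapL (sup_ne_of e h)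
  · subst e; rw [fam_S]; exact C.kerS a
  · rw [C.fam_L e]; exact C.kerL (sup_ne_of e h)

theorem S_le {T : Set (BRoot m sh)} {a : Ix m} (hT : ∀ h', rt a a (rev_ne a).symm h' ∈ T) :
    S a ≤ US (fam sh L S) T := by
  by_cases h : sh = true
  · exact (fam_S a _ fun _ => h).ge.trans (le_US (hT _))
  · refine le_trans (fun x hx => ?_) bot_le
    rw [← C.kerS a]
    exact ⟨hx, ((C.mapS a).trans (XS_bot (eq_false_of_ne_true h) a)).le (mem_map_of_mem θ hx)⟩

theorem L_le {T : Set (BRoot m sh)} {a b : Ix m} (h : sup a ≠ sup b)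
    (hT : rt a b (ne_rev_of_sup h) (fun e => absurd e (ne_of_sup h)) ∈ T) :
    L a b ≤ US (fam sh L S) T := (C.fam_L (ne_of_sup h) _ _).ge.trans (le_US hT)

variable (hm : sh = false → 1 ≤ m)

theorem comm_aux {a b c d : Ix m} {h h' k k'} (h1 : a ≠ c.rev) (h2 : b ≠ c.rev)
    (hne : (rt a b h h' : BRoot m sh) ≠ rt c d k k') :
    ⁅fam sh L S (rt a b h h'), fam sh L S (rt c d k k')⁆ ≤
      US (fam sh L S) ((bRC hm).I (rt a b h h') (rt c d k k')) := by
  have long : ∀ {a b h h'}, a ≠ c.rev → b ≠ c.rev → (rt a b h h' : BRoot m sh) ≠ rt c d k k' →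
      a ≠ b → c ≠ d → d ≠ b.rev → ⁅L a b, L c d⁆ ≤
      US (fam sh L S) ((bRC hm).I (rt a b h h') (rt c d k k')) := by
    intro a b h h' h1 h2 hne hab hcd hdb
    have k1 := sup_ne_of hcd k
    by_cases e : a = d.rev
    · subst e
      by_cases e : b = c
      · subst e
        refine (C.q2 k1).trans (C.S_le fun _ => mem_bRC_I hne one_pos one_pos fun φ => ?_)
        simp [φ.2]; ring
      · have k2 := sup_ne_of (Ne.symm e) h2
        refine (C.ll120 k1 k2 (by simpa using sup_ne_of hab h)).trans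
          (C.L_le k2 (mem_bRC_I hne one_pos one_pos fun φ => ?_))
        simp [φ.2]; ring
    · rw [C.ll (sup_ne_of hab h) k1 h1 h2 e (ne_rev_symm hdb) fun e => hne (Subtype.ext e)]
      exact bot_le
  by_cases e1 : a = b <;> by_cases e2 : c = d
  · subst e1 e2
    have k1 := sup_ne_of (a := c) (b := a) (fun e => hne (by subst e; rfl)) h1
    rw [fam_S, fam_S]
    refine (C.ss k1).trans (C.L_le k1 (mem_bRC_I hne one_half_pos one_half_pos fun φ => ?_))
    simp; ring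
  · subst e1
    rw [fam_S, C.fam_L e2]
    by_cases e : d = a.rev
    · subst e
      have k1 : sup c ≠ sup a := by simpa using sup_ne_of e2 k
      refine (C.q1 k1).trans (sup_le (C.S_le fun _ => mem_bRC_I hne one_pos two_pos fun φ => ?_)
        (C.L_le k1 (mem_bRC_I hne one_pos one_pos fun φ => ?_))) <;> simp [φ.2] <;> ring
    · rw [C.sl (sup_ne_of e2 k) h1 (ne_rev_symm e)]; exact bot_le
  · subst e2
    rw [fam_S, C.fam_L e1, commutator_comm,
      C.sl (sup_ne_of e1 h) (ne_rev_symm h1) (ne_rev_symm h2)]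
    exact bot_le
  · rw [C.fam_L e1, C.fam_L e2]
    by_cases e : d = b.rev
    · have e1' : (rt a b h h' : BRoot m sh) = rt b a (ne_rev_symm h) fun e => h' e.symm := rt_swap
      rw [← C.symm (sup_ne_of e1 h), e1']
      exact long h2 h1 (e1' ▸ hne) (Ne.symm e1) e2
        (fun e' => e1 (Fin.rev_injective (e'.symm.trans e)))
    · exact long h1 h2 hne e1 e2 e

theorem commRel : (bRC hm).CommRel (fam sh L S) := by
  refine rt_ind fun a b h h' => rt_ind fun c d k k' h1 h2 => ?_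
  have e1 : (rt a b h h' : BRoot m sh) = rt b a (ne_rev_symm h) fun e => h' e.symm := rt_swap
  have e2 : (rt c d k k' : BRoot m sh) = rt d c (ne_rev_symm k) fun e => k' e.symm := rt_swap
  by_cases c1 : a ≠ c.rev ∧ b ≠ c.rev
  · exact C.comm_aux hm c1.1 c1.2 h1.symm
  by_cases c2 : a ≠ d.rev ∧ b ≠ d.rev
  · rw [e2] at h1 ⊢; exact C.comm_aux hm c2.1 c2.2 h1.symm
  rw [commutator_comm]
  refine le_trans ?_ (US_mono fun _ => bRC_I_symm)
  by_cases c3 : c ≠ a.rev ∧ d ≠ a.rev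
  · exact C.comm_aux hm c3.1 c3.2 h1
  by_cases c4 : c ≠ b.rev ∧ d ≠ b.rev
  · rw [e1] at h1 ⊢; exact C.comm_aux hm c4.1 c4.2 h1
  exfalso
  rw [bRC_neg, Ne, rt_eq_iff] at h2
  have := a.2; have := b.2; have := c.2; have := d.2
  simp only [Ne, Fin.ext_iff, Fin.val_rev] at *
  omega

end Core

end Cfsg.Agent.CP
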