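import Cfsg.Agent.CP.SU

/-! Generation of classical groups from a signed cycle. -/

set_option autoImplicit false
set_option linter.unusedSectionVars false
set_option linter.unusedVariables false

namespace Cfsg.Agent.CP

open Subgroup Cfsg.Agent.RGD Cfsg.Agent.RG Cfsg.Agent.Polar Cfsg.Agent.Polar.PQ Cfsg.Agent.Cl
open Cfsg.Agent.Pres hiding rt
open Equiv Equiv.Perm Module
open scoped commutatorElement

section grp
variable {G : Type*} [Group G] {H A : Subgroup G} {b x h h' : G}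

theorem cj_le_iff_of_mem (hb : b ∈ H) : cj b A ≤ H ↔ A ≤ H :=
  ⟨fun e x hx => by
    simpa [mul_assoc] using mul_mem (mul_mem (inv_mem hb) (e (conj_mem_cj hx))) hb,
    fun e => cj_le_iff.2 fun x hx => mul_mem (mul_mem hb (e hx)) (inv_mem hb)⟩

theorem cj_of_commute (e : ∀ x ∈ A, Commute b x) : cj b A = A :=
  cj_eq_of_le (cj_le_iff.2 fun x hx => by rwa [(e x hx).eq, mul_inv_cancel_right])
    (cj_le_iff.2 fun x hx => by rwa [(e x hx).inv_left.eq, mul_inv_cancel_right])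

theorem split_mem {q : ℕ} (hc : Commute h x) (hx : x ^ q = 1) (hh : h ^ q = h) (e : x * h ∈ H) :
    x ∈ H ∧ h ∈ H := by
  have := pow_mem e q
  rw [hc.symm.mul_pow, hx, hh, one_mul] at this
  exact ⟨(mul_mem_cancel_right this).1 e, this⟩

theorem comm_trick {n : G} (hc : Commute h (n * h * n⁻¹)) (h1 : h ∈ H) (h2 : x * n ∈ H) :
    h * (x * (n * h * n⁻¹ * x * (n * h * n⁻¹)⁻¹)⁻¹) * h⁻¹ *
      (x * (n * h * n⁻¹ * x * (n * h * n⁻¹)⁻¹)⁻¹)⁻¹ ∈ H := by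
  have k := mul_mem (mul_mem h2 h1) (inv_mem h2)
  have := mul_mem (mul_mem (mul_mem h1 k) (inv_mem h1)) (inv_mem k)
  rw [show x * n * h * (x * n)⁻¹ = x * (n * h * n⁻¹) * x⁻¹ by group] at this
  generalize n * h * n⁻¹ = h' at *
  convert this using 1
  rw [mul_inv_eq_iff_eq_mul, show ∀ a b : G, h * a * h⁻¹ = b ↔ h * a * h' * h⁻¹ = b * h' from fun a b => by
    rw [mul_assoc _ h', hc.inv_left.symm.eq, ← mul_assoc, mul_left_inj]]
  group

end grp

variable {F : Type*} [Field F] {τ : F →+* F} {π : FP F τ}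
variable {V : Type*} [AddCommGroup V] [Module F V] {P : PQ π V}
variable {m : ℕ} {sh : Bool} {Φ : Frame P m sh} {H : Subgroup P.Iso}

theorem spanBy_single {ω e : F} (h : Spans ω) (he : e ≠ 0) : SpanBy ω [e] := fun a => by
  have := AddSubmonoid.mem_map_of_mem (AddMonoidHom.mulRight e) (h (a / e))
  rw [AddMonoidHom.map_mclosure, AddMonoidHom.mulRight_apply, div_mul_cancel₀ _ he] at this
  exact AddSubmonoid.closure_mono (by rintro _ ⟨_, ⟨i, rfl⟩, rfl⟩; exact ⟨e, by simp, i, rfl⟩) this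

theorem GenBy.le {G : Type*} [Group G] {t u : G} {A H : Subgroup G} (h : GenBy t [u] A) (ht : t ∈ H)
    (hu : u ∈ H) : A ≤ H :=
  h H (fun x hx => mul_mem (mul_mem ht hx) (inv_mem ht)) (by simpa)

theorem Mn.pow_card [Fintype F] {t : P.Iso} {s : Ix m → F} (h : Mn Φ t (fun x => x) s) :
    t ^ Fintype.card F = t := (h.pow _).ext h (fun _ => rfl) fun _ => FiniteField.pow_card _

theorem add_pow_card [Fintype F] {G : Type*} [Group G] {x : F → G}
    (h : ∀ a b, x (a + b) = x a * x b) (a : F) : x a ^ Fintype.card F = 1 := by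
  rw [← SL2Pres.phi_nsmul h, FiniteField.cast_card_eq_zero, zero_mul, SL2Pres.phi_zero h]

theorem transfer {a b : Ix m} (h1 : sup a ≠ sup b) {x : V} (ha : P.B x (Φ.v a) = 0)
    (hb : P.B x (Φ.v b) = 0) (hb' : P.B x (Φ.v b.rev) = 0) {c : F} (hc : P.QEq x c)
    (h2 : XL Φ a b ≤ H) (h3 : ∀ t, ⁅P.eich (Φ.v b) x c, xl Φ a b.rev t⁆ ∈ H) (s : F) :
    P.eich (Φ.v a) (s • x) (s * τ s * (π.ε * τ c)) ∈ H := by
  have h4 : sup a ≠ sup b.rev := by simpa
  have k := κ_sq (Φ := Φ) b.rev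
  have o' : P.EOk (Φ.v b) x c := ⟨Φ.sing b, hb, hc⟩
  have e : P.eich (Φ.v b) x c • (s * Φ.κ b.rev) • Φ.v b.rev =
      (s * Φ.κ b.rev) • Φ.v b.rev + (s • x + -(π.ε * c * s) • Φ.v b) := by
    rw [o'.eich_smul]
    simp only [B_smul_left, B_rev', B_swap_zero hb', mul_assoc, k]
    module
  obtain ⟨o, e2⟩ := comm_eich_fix (okL (Φ := Φ) h4 (s * Φ.κ b.rev)) (g := P.eich (Φ.v b) x c)
    (by simp [o'.eich_smul, B_vv h1, B_swap_zero ha])
  have e3 : P.B ((s * Φ.κ b.rev) • Φ.v b.rev) ((s * Φ.κ b.rev) • Φ.v b.rev) -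
      P.B ((s * Φ.κ b.rev) • Φ.v b.rev) ((s * Φ.κ b.rev) • Φ.v b.rev + (s • x + -(π.ε * c * s) • Φ.v b)) =
      s * τ s * (π.ε * τ c) := by
    simp only [map_add, B_smul_left, B_smul_right, B_rev', B_swap_zero hb', map_neg, map_mul, π.tau_eps]
    linear_combination (s * τ s * π.ε * τ c) * k
  rw [e, add_sub_cancel_left, e3] at o e2
  have := h3 (s * Φ.κ b.rev)
  rw [xl, e2, (eich_split o (okL h1 _) (by simp [B_swap_zero hb])).2] at this
  exact (mul_mem_cancel_right (h2 (xl_mem _ _ _))).1 this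

theorem transfer' {a b : Ix m} (h1 : sup a ≠ sup b) {x : V} (ha : P.B x (Φ.v a) = 0)
    (hb : P.B x (Φ.v b) = 0) (hb' : P.B x (Φ.v b.rev) = 0) {c : F} (hc : P.QEq x c)
    (h2 : XL Φ a b ≤ H) (h2' : XL Φ a b.rev ≤ H) (h3 : P.eich (Φ.v b) x c ∈ H) (s : F) :
    P.eich (Φ.v a) (s • x) (s * τ s * (π.ε * τ c)) ∈ H :=
  transfer h1 ha hb hb' hc h2 (fun t => by
    have := h2' (xl_mem _ _ t)
    exact mul_mem (mul_mem (mul_mem h3 this) (inv_mem h3)) (inv_mem this)) s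

theorem XL_120_le {a b c : Ix m} (d : D3 a b c) (h1 : XL Φ b.rev c ≤ H) (h2 : XL Φ a b ≤ H) :
    XL Φ a c ≤ H := by
  rw [← XL_120 d.ab d.bc d.ac]; exact (commutator_le_sup _ _).trans (sup_le h1 h2)

theorem EG_le (hP : P.ND) (h1 : ∀ {a b}, sup a ≠ sup b → XL Φ a b ≤ H) (h2 : ∀ a, XS Φ a ≤ H) :
    P.EG ≤ H := (EG_le_NN hP).trans (NN_le h1 h2)

theorem XL_le_of_XS (hV : ∃ x ∈ Φ.V0, ∃ y ∈ Φ.V0, P.B y x ≠ 0) (h2 : ∀ a, XS Φ a ≤ H) {a b : Ix m}
    (h : sup a ≠ sup b) : XL Φ a b ≤ H := by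
  obtain ⟨x, hx, y, hy, e⟩ := hV
  exact (XS_XS_eq h hx hy e).trans ((commutator_le_sup _ _).trans (sup_le (h2 _) (h2 _)))

variable (Φ) in
/-- a monomial element inducing a signed cycle -/
structure Cy (l : ℕ) (f : ℕ → Ix m) (n : P.Iso) : Prop where
  rev : ∀ k, f (k + l) = (f k).rev
  sup_eq : ∀ i j, sup (f i) = sup (f j) ↔ i ≡ j [MOD l]
  act : ∀ k, ∃ s : F, s ≠ 0 ∧ n • Φ.v (f k) = s • Φ.v (f (k + 1))
  cover : ∀ a, (sup a : ℕ) < l → ∃ k < 2 * l, f k = a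
  lt : ∀ k, (sup (f k) : ℕ) < l

theorem exists_perm [FiniteDimensional F V] (hP : P.ND) (σ : Perm (Fin (m + 1))) :
    ∃ g ∈ P.EG, ∃ s, Mn Φ g (pact σ) s := by
  obtain ⟨pm, hpm⟩ := exists_pm hP Φ
  induction σ using swap_induction_on with
  | one => exact ⟨1, one_mem _, _, Mn.one.congr (fun a => (mkI_sup_sgn a).symm) fun _ => rfl⟩
  | swap_mul σ i j hij ih =>
    obtain ⟨g, h1, s, h2⟩ := ih
    obtain ⟨d, hd⟩ := exists_mono (Φ := Φ) hP (fun a => a) (fun _ _ e => e) (fun _ => rfl)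
      (fun x => if sup x = j then -1 else 1) fun a => by
        simp only [sup_rev]; split_ifs <;> simp
    exact ⟨_, mul_mem (swap_mem hij (hpm _) hd) h1, _,
      (((hpm _).mul hd).mul h2).congr (fun a => by simp [pact]) fun _ => rfl⟩

theorem exists_cy [FiniteDimensional F V] (hP : P.ND) {l : ℕ} (h1 : l ≤ m) {z : V} {c : F}
    (hz : ∀ a, (sup a : ℕ) ≤ l → P.B z (Φ.v a) = 0) (hc : P.QEq z c) (h0 : c ≠ 0) :
    ∃ f, ∃ n ∈ P.EG, Cy Φ (l + 1) f n ∧ (∀ x ∈ Φ.V0, n • x = x - (P.B x z / c) • z) ∧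
      ∀ a, l < sup a → ∃ s : F, s ≠ 0 ∧ n • Φ.v a = s • (Φ.v a - (P.B (Φ.v a) z / c) • z) := by
  obtain ⟨g, hg, s, hs⟩ := exists_perm (Φ := Φ) hP (Fin.cycleRange ⟨l, by omega⟩)
  have hd : Φ.d (mkI 0 1) = Φ.v (mkI 0 (-1)) := by rw [Frame.d, κ_pos, one_smul, mkI_rev]
  obtain ⟨h2, h3, h4⟩ := ws_act (Φ.hyp (mkI 0 1)) (x := z)
    (mem_perp_pair.2 ⟨hz _ (by simp), hd ▸ hz _ (by simp)⟩) hc h0
  let f : ℕ → Ix m := fun k => mkI ⟨k % (l + 1), by have := Nat.mod_lt k (Nat.add_one_pos l); omega⟩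
    ((-1) ^ (k / (l + 1)))
  have hf : ∀ q r (h : r ≤ l), f ((l + 1) * q + r) = mkI ⟨r, by omega⟩ ((-1) ^ q) := fun q r h => by
    simp only [f, Nat.mul_add_mod, Nat.mod_eq_of_lt (Nat.lt_succ_of_le h),
      Nat.mul_add_div l.succ_pos, Nat.div_eq_of_lt (Nat.lt_succ_of_le h), add_zero]
  refine ⟨f, _, mul_mem (ws_mem (Φ.v (mkI 0 1)) (Φ.d (mkI 0 1)) z c) hg, ⟨fun k => ?_, fun i j => ?_, fun k => ?_,
    fun a ha => ?_, fun k => ?_⟩, fun x hx => ?_, fun a ha => ⟨s a, hs.ne a, ?_⟩⟩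
  · simp [f, mkI_rev, pow_succ]
  · simp [f, Nat.ModEq]
  · obtain ⟨q, r, hr, rfl⟩ : ∃ q r, r ≤ l ∧ k = (l + 1) * q + r :=
      ⟨_, _, Nat.le_of_lt_succ (Nat.mod_lt k l.succ_pos), (Nat.div_add_mod _ _).symm⟩
    rw [hf _ _ hr, mul_smul, hs.1, act_smul, pact, sup_mkI, sgn_mkI]
    rcases hr.eq_or_lt with rfl | hr'
    · rw [Fin.cycleRange_self, add_assoc, ← Nat.mul_succ, ← add_zero (_ * _), hf _ _ (Nat.zero_le _),
        pow_succ]
      rcases Int.units_eq_one_or ((-1) ^ q) with e | e <;> rw [e]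
      · exact ⟨_, mul_ne_zero (hs.ne _) (show -(π.ε * (τ c)⁻¹) ≠ 0 by simp [h0, π.eps_ne_zero]), by
          rw [h2, hd, smul_smul]; rfl⟩
      · exact ⟨_, mul_ne_zero (hs.ne _) (neg_ne_zero.2 h0), by
          rw [← hd, h3, smul_smul]; rfl⟩
    · rw [add_assoc, hf _ _ hr', Fin.cycleRange_of_lt (by simpa),
        show (⟨r, _⟩ + 1 : Fin (m + 1)) = ⟨r + 1, by omega⟩ from
          Fin.ext (Fin.val_add_one_of_lt' (by simp; omega)), h4 _ (v_mem_perp (by simp)),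
        B_swap_zero (hz _ (by simpa))]
      exact ⟨_, hs.ne _, by rw [zero_div, zero_smul, sub_zero]⟩
  · rw [← mkI_sup_sgn a]
    rcases Int.units_eq_one_or (sgn a) with e | e <;> rw [e]
    · exact ⟨_, by omega, hf 0 (sup a) (by omega)⟩
    · exact ⟨_, by omega, hf 1 (sup a) (by omega)⟩
  · simpa [f] using Nat.mod_lt k l.succ_pos
  · rw [mul_smul, hs.2 x hx, h4 x (Φ.V0_le _ hx)]
  · rw [mul_smul, hs.1, act_smul, pact, Fin.cycleRange_of_gt (by simpa), mkI_sup_sgn,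
      h4 _ (v_mem_perp (by simp [Fin.ext_iff]; omega))]

namespace Cy

variable {l : ℕ} {f : ℕ → Ix m} {n : P.Iso} (C : Cy Φ l f n)
include C

theorem ne {i j : ℕ} (h : i < j) (h1 : j < i + 2 * l) (h2 : j ≠ i + l) : sup (f i) ≠ sup (f j) := by
  rw [Ne, C.sup_eq, Nat.modEq_iff_dvd' h.le]
  rintro ⟨k, hk⟩
  rcases k with _ | _ | k
  · omega
  · omega
  · have : l * 2 ≤ l * (k + 1 + 1) := Nat.mul_le_mul_left _ (by omega)
    omega

theorem succ {i j : ℕ} (h : sup (f i) ≠ sup (f j)) : sup (f (i + 1)) ≠ sup (f (j + 1)) :=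
  fun e => h ((C.sup_eq _ _).2 (Nat.ModEq.add_right_cancel' 1 ((C.sup_eq _ _).1 e)))

theorem per (k : ℕ) : f (k + 2 * l) = f k := by rw [two_mul, ← add_assoc, C.rev, C.rev, Fin.rev_rev]

theorem conj_xl {i j : ℕ} (h : sup (f i) ≠ sup (f j)) :
    ∃ s : F, s ≠ 0 ∧ ∀ t, n * xl Φ (f i) (f j) t * n⁻¹ = xl Φ (f (i + 1)) (f (j + 1)) (s * t) := by
  obtain ⟨s, h1, h2⟩ := C.act i
  obtain ⟨t, h3, h4⟩ := C.act j
  exact ⟨τ s * t, by simp [h1, h3], conj_eich_long (okS h) h1 h2 h4⟩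

theorem cjL {i j : ℕ} (h : sup (f i) ≠ sup (f j)) :
    cj n (XL Φ (f i) (f j)) = XL Φ (f (i + 1)) (f (j + 1)) := by
  obtain ⟨s, h1, h2⟩ := C.conj_xl h
  refine le_antisymm (cj_le_iff.2 fun x hx => ?_) (XL_le (C.succ h) fun t => ?_)
  · obtain ⟨t, rfl⟩ := (mem_XL h).1 hx
    rw [h2]; exact xl_mem _ _ _
  · rw [← mul_inv_cancel_left₀ h1 t, ← h2]; exact conj_mem_cj (xl_mem _ _ _)

theorem all (h : ∀ i, XL Φ (f i) (f (i + 1 + l)) ≤ H) {a b : Ix m} (ha : (sup a : ℕ) < l)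
    (hb : (sup b : ℕ) < l) (hab : sup a ≠ sup b) : XL Φ a b ≤ H := by
  have k : ∀ k, k + 1 < l → ∀ i, XL Φ (f i) (f (i + (k + 1) + l)) ≤ H := fun k hk i => by
    induction k with
    | zero => exact h i
    | succ k ih =>
      refine XL_120_le ⟨C.ne (j := i + (k + 1) + l) (by omega) (by omega) (by omega),
        C.ne (by omega) (by omega) (by omega), C.ne (by omega) (by omega) (by omega)⟩ ?_ (ih (by omega))
      rw [C.rev, Fin.rev_rev]; exact h _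
  obtain ⟨i, hi, rfl⟩ := C.cover a ha
  obtain ⟨j, hj, rfl⟩ := C.cover b hb
  wlog hij : i < j generalizing i j
  · rw [XL_symm]
    exact this j hj hb i hi ha hab.symm (lt_of_le_of_ne (not_lt.1 hij) (by rintro rfl; exact hab rfl))
  have : j ≠ i + l := by rintro rfl; simp [C.rev] at hab
  by_cases e : j < i + l
  · have := k (i + l - j - 1) (by omega) j
    rwa [show j + (i + l - j - 1 + 1) + l = i + 2 * l by omega, C.per, XL_symm] at this
  · have := k (j - i - l - 1) (by omega) i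
    rwa [show i + (j - i - l - 1 + 1) + l = j by omega] at this

theorem of_per {p : ℕ → Prop} (hl : 0 < l) (h : ∀ i, p i → p (i + 1)) (h' : ∀ i, p (i + 2 * l) → p i)
    {j : ℕ} (hj : p j) (i : ℕ) : p i := by
  have k : ∀ k, p (i + k * (2 * l)) → p i := fun k => by
    induction k with
    | zero => simp
    | succ k ih => exact fun e => ih (h' _ (by rwa [add_mul, one_mul, ← add_assoc] at e))
  exact k j (Nat.le_induction (P := fun i _ => p i) hj (fun k _ => h k) _ (by nlinarith))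

theorem all' (hn : n ∈ H) (hl : 2 ≤ l) {j : ℕ} (h : XL Φ (f j) (f (j + 1 + l)) ≤ H) {a b : Ix m}
    (ha : (sup a : ℕ) < l) (hb : (sup b : ℕ) < l) (hab : sup a ≠ sup b) : XL Φ a b ≤ H := by
  refine C.all (C.of_per (by omega) (fun i e => ?_) (fun i e => ?_) h) ha hb hab
  · rwa [add_right_comm (i + 1) 1, ← C.cjL (C.ne (by omega) (by omega) (by omega)), cj_le_iff_of_mem hn]
  · rwa [C.per, show i + 2 * l + 1 + l = i + 1 + l + 2 * l by omega, C.per] at e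

theorem cjS (hn : ∀ x ∈ Φ.V0, n • x ∈ Φ.V0) (hn' : ∀ x ∈ Φ.V0, n⁻¹ • x ∈ Φ.V0) (i : ℕ) :
    cj n (XS Φ (f i)) = XS Φ (f (i + 1)) := by
  obtain ⟨s, h1, h2⟩ := C.act i
  exact cj_eq_of_le (cj_UW_le (Φ.sing _) h1 h2 hn) (cj_UW_le (Φ.sing _) (inv_ne_zero h1)
    (by rw [inv_smul_eq_iff, act_smul, h2, smul_smul, inv_mul_cancel₀ h1, one_smul]) hn')

end Cy

theorem Cy.V0 {f : ℕ → Ix m} {n : P.Iso} (C : Cy Φ (m + 1) f n) :
    (∀ x ∈ Φ.V0, n • x ∈ Φ.V0) ∧ ∀ x ∈ Φ.V0, n⁻¹ • x ∈ Φ.V0 := by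
  refine ⟨fun x hx => Φ.mem_V0.2 fun a => ?_, fun x hx => Φ.mem_V0.2 fun a => ?_⟩
  · obtain ⟨k, -, rfl⟩ := C.cover a (sup a).2
    obtain ⟨s, h1, h2⟩ := C.act (k + 2 * m + 1)
    have := B_smul_smul n x (Φ.v (f (k + 2 * m + 1)))
    rw [h2, show k + 2 * m + 1 + 1 = k + 2 * (m + 1) by ring, C.per, B_x_v hx, B_smul_right] at this
    simpa [h1] using this
  · obtain ⟨k, -, rfl⟩ := C.cover a (sup a).2
    obtain ⟨s, h1, h2⟩ := C.act k
    rw [← B_smul_smul n, smul_inv_smul, h2, B_smul_right, B_x_v hx, mul_zero]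

theorem Cy.allS {f : ℕ → Ix m} {n : P.Iso} (C : Cy Φ (m + 1) f n) (hn : n ∈ H) {j : ℕ}
    (h : XS Φ (f j) ≤ H) (a : Ix m) : XS Φ a ≤ H := by
  obtain ⟨k, -, rfl⟩ := C.cover a (sup a).2
  refine C.of_per (p := fun i => XS Φ (f i) ≤ H) (by omega) (fun i e => ?_) (fun i e => ?_) h k
  · rwa [← C.cjS C.V0.1 C.V0.2, cj_le_iff_of_mem hn]
  · rwa [C.per] at e

theorem Cy.genD [Fintype F] {l : ℕ} {f : ℕ → Ix m} {n : P.Iso} (C : Cy Φ l f n) (hl : 3 ≤ l) {ζ : F}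
    (hζ : ζ ≠ 0) (hs : Spans (ζ * τ ζ)) {w : V} {c : F} (hw : ∀ k, P.B w (Φ.v (f k)) = 0)
    (hc : P.QEq w c) : ∃ a ∈ P.EG, ∀ H : Subgroup P.Iso, a ∈ H → n * P.eich (Φ.v (f 0)) w c ∈ H →
      (∀ {a b}, (sup a : ℕ) < l → (sup b : ℕ) < l → sup a ≠ sup b → XL Φ a b ≤ H) ∧
      P.eich (Φ.v (f 0)) w c ∈ H ∧ n ∈ H := by
  have h0 : sup (f 0) ≠ sup (f (1 + l)) := C.ne (by omega) (by omega) (by omega)
  have h1 : sup (f 1) ≠ sup (f (2 + l)) := C.ne (by omega) (by omega) (by omega)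
  have h2 : sup (f 0) ≠ sup (f (2 + l)) := C.ne (by omega) (by omega) (by omega)
  obtain ⟨s, ⟨h, h3, h4⟩, h5, h6⟩ := wt_norm (Φ := Φ) hζ h2
  refine ⟨xl Φ (f 0) (f (1 + l)) 1 * h, mul_mem (eich_mem_EG _ _ _) (TT_le (fun _ => k0_mem _ _ _) h3),
    fun H e1 e2 => ?_⟩
  obtain ⟨e3, e4⟩ := split_mem (h4.commute_xl h0 1 rfl rfl (by
    rw [h6 _ h2, h6 _ (C.ne (by omega) (by omega) (by omega))]; simp))
    (add_pow_card (xl_add h0) 1) h4.pow_card e1
  have o : P.EOk (Φ.v (f 0)) w c := ⟨Φ.sing _, hw 0, hc⟩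
  have g : ∀ i, i < 2 * l → i ≠ l → P.B (Φ.v (f i)) (Φ.v (f 0)) = 0 := fun i h h' => by
    rcases i with _ | i
    exacts [B_self _, B_vv (C.ne (by omega) (by omega) (by omega)).symm]
  have k0 : ∀ i j t, i < 2 * l → i ≠ l → j < 2 * l → j ≠ l → sup (f i) ≠ sup (f j) →
      Commute (P.eich (Φ.v (f 0)) w c) (xl Φ (f i) (f j) t) := fun i j t a1 a2 a3 a4 a5 =>
    commute_eich_eich o (okL a5 t) (g i a1 a2) (B_swap_zero (hw i)) (by simp [g j a3 a4])
      (by simp [B_swap_zero (hw j)])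
  have k1 : ∀ i j, i < 2 * l → i ≠ l → j < 2 * l → j ≠ l → sup (f i) ≠ sup (f j) →
      (XL Φ (f (i + 1)) (f (j + 1)) ≤ H ↔ XL Φ (f i) (f j) ≤ H) := fun i j a1 a2 a3 a4 a5 => by
    rw [← C.cjL a5, ← cj_le_iff_of_mem (A := XL Φ (f i) (f j)) e2, cj_mul,
      cj_of_commute (b := P.eich _ _ _) fun x hx => ?_]
    obtain ⟨t, rfl⟩ := (mem_XL a5).1 hx
    exact k0 i j t a1 a2 a3 a4 a5
  have k2 : XL Φ (f 1) (f (2 + l)) ≤ H := by
    obtain ⟨t, h7, h8⟩ := C.conj_xl h0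
    refine (genBy_xl h4 h1 (E := [t * 1]) (by rw [h5, h6 _ h1, map_one, one_mul])
      (spanBy_single hs (by simpa))).le e4 ?_
    have := mul_mem (mul_mem e2 e3) (inv_mem e2)
    rwa [mul_assoc n, (k0 0 (1 + l) 1 (by omega) (by omega) (by omega) (by omega) h0).eq, mul_inv_rev,
      ← mul_assoc, ← mul_assoc, mul_inv_cancel_right, h8, add_right_comm 1 l] at this
  have k3 : XL Φ (f 0) (f (1 + l)) ≤ H :=
    (k1 0 (1 + l) (by omega) (by omega) (by omega) (by omega) h0).1 (by rwa [add_right_comm 1 l])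
  have k4 : ∀ i, i + 2 ≤ l → XL Φ (f i) (f (i + 1 + l)) ≤ H → XL Φ (f (i + 1)) (f (i + 1 + 1 + l)) ≤ H :=
    fun i hi e => add_right_comm (i + 1) l 1 ▸ (k1 i _ (by omega) (by omega) (by omega) (by omega)
      (C.ne (by omega) (by omega) (by omega))).2 e
  have k5 : ∀ i < l, XL Φ (f i) (f (i + 1 + l)) ≤ H := fun i hi => by
    induction i with
    | zero => simpa using k3
    | succ i ih => exact k4 i (by omega) (ih (by omega))
  obtain ⟨l, rfl⟩ : ∃ k, l = k + 1 := ⟨l - 1, by omega⟩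
  have k6 : XL Φ (f l) (f 0) ≤ H := by
    have := k5 l (by omega); rwa [← two_mul, ← zero_add (2 * _), C.per] at this
  have k7 := (k1 l 0 (by omega) (by omega) (by omega) (by omega)
    (C.ne (by omega) (by omega) (by omega)).symm).2 k6
  have r0 : f (l + 1) = (f 0).rev := by rw [← C.rev, zero_add]
  have k8 : XL Φ (f l) (f 1) ≤ H := XL_120_le ⟨(C.ne (i := 0) (by omega) (by omega) (by omega)).symm,
    (C.ne (by omega) (by omega) (by omega)).symm, C.ne (by omega) (by omega) (by omega)⟩ (r0 ▸ k7) k6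
  have k9 := (k1 l 1 (by omega) (by omega) (by omega) (by omega)
    (C.ne (by omega) (by omega) (by omega)).symm).2 k8
  have k10 : XL Φ (f (1 + (l + 1))) (f 2) ≤ H :=
    XL_120_le ⟨h0.symm, (C.ne (by omega) (by omega) (by omega)).symm,
      C.ne (by omega) (by omega) (by omega)⟩ (r0 ▸ k9) ((XL_symm _ _).trans_le k3)
  have k11 : ∀ i, 1 ≤ i → i ≤ l → XL Φ (f (i + (l + 1))) (f (i + 1)) ≤ H := fun i h hi => by
    induction i, h using Nat.le_induction with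
    | base => exact k10
    | succ i _ ih =>
      exact add_right_comm i (l + 1) 1 ▸ (k1 _ _ (by omega) (by omega) (by omega) (by omega)
        (C.ne (by omega) (by omega) (by omega)).symm).2 (ih (by omega))
  have k12 : ∀ i, XL Φ (f i) (f (i + 1 + (l + 1))) ≤ H := fun i => by
    induction i using Nat.strong_induction_on with
    | _ i ih =>
    by_cases a1 : i < l + 1
    · exact k5 i a1
    obtain ⟨i, rfl⟩ : ∃ k, i = k + (l + 1) := ⟨i - (l + 1), by omega⟩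
    rw [show i + (l + 1) + 1 + (l + 1) = i + 1 + 2 * (l + 1) by omega, C.per]
    by_cases a2 : i < l + 1
    · rcases i with _ | i
      exacts [by simpa using k7, k11 _ (by omega) (by omega)]
    obtain ⟨i, rfl⟩ : ∃ k, i = k + (l + 1) := ⟨i - (l + 1), by omega⟩
    rw [add_assoc i, ← two_mul, C.per, add_right_comm]
    exact ih i (by omega)
  have k13 : ∀ {a b}, (sup a : ℕ) < l + 1 → (sup b : ℕ) < l + 1 → sup a ≠ sup b → XL Φ a b ≤ H :=
    C.all k12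
  have h01 : sup (f 1) ≠ sup (f 0) := (C.ne (by omega) (by omega) (by omega)).symm
  have h01' : sup (f 1) ≠ sup (f (l + 1)) := by simpa [r0]
  have k14 := transfer (H := H) h01 (x := -w) (by simp [hw]) (by simp [hw]) (by simp [← r0, hw])
    o.neg.val (k13 (C.lt _) (C.lt _) h01) (fun t => by
      have a1 := k13 (C.lt _) (C.lt _) h01' (xl_mem _ _ t)
      have a2 := (cj_le_iff_of_mem (inv_mem e2)).2 (k13 (C.lt _) (C.lt _) (C.succ h01'))
      rw [← C.cjL h01', mul_inv_rev, cj_mul, cj_inv_cj, o.eich_inv] at a2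
      rw [← r0]
      exact mul_mem (a2 (conj_mem_cj (xl_mem _ _ t))) (inv_mem a1)) (-1)
  have e : ((-1 : F) * τ (-1) * (π.ε * τ (π.ε * τ c))) = c := by
    rw [map_mul, π.tau_tau, π.tau_eps, ← mul_assoc π.ε, π.eps_sq]; simp
  rw [e, neg_one_smul, neg_neg] at k14
  have k15 := transfer' h01.symm (hw 0) (hw 1) (by rw [← C.rev]; exact hw _) hc
    (k13 (C.lt _) (C.lt _) h01.symm) (k13 (C.lt _) (by simpa using C.lt _) (by simpa using h01.symm))
    k14 (-1)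
  have k16 : P.eich (Φ.v (f 0)) w c ∈ H := by
    rw [← inv_mem_iff, o.eich_inv]; simpa using k15
  exact ⟨k13, k16, (mul_mem_cancel_right k16).1 e2⟩

end Cfsg.Agent.CP
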