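import Cfsg.Agent.CP.WB
import Cfsg.Agent.Cl.Sp
import Cfsg.Agent.Pres.Two
import Cfsg.Agent.SymAlt.PresFinal

/-! Finishing lemmas. -/

set_option autoImplicit false
set_option linter.unusedSectionVars false
set_option linter.unusedVariables false

namespace Cfsg.Agent.CP

open Subgroup Cfsg.Agent.RGD Cfsg.Agent.RG Cfsg.Agent.Polar Cfsg.Agent.Polar.PQ Cfsg.Agent.Cl
open Cfsg.Agent.Pres hiding rt
open Cfsg.Agent.SymAlt Equiv Equiv.Perm
open scoped commutatorElement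

section cost
variable {X : Type} {H : Type*} [Group H] {f : X → H} {r : ℕ}

/-- the universal cover for a set of relations -/
def univCov (R : Finset (FreeGroup X)) (h : ∀ w ∈ R, FreeGroup.lift f w = 1) : Cov f where
  G := FreeGroup X ⧸ normalClosure (R : Set (FreeGroup X))
  ev := QuotientGroup.mk' _
  θ := QuotientGroup.lift _ (FreeGroup.lift f) (normalClosure_le_normal fun w hw => h w hw)
  comp _ := rfl
  surj := QuotientGroup.mk'_surjective _

theorem Cost.exists {P : Cov f → Prop} (h : Cost f r P) : ∃ C, P C := by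
  obtain ⟨R, -, h2, h3⟩ := h
  exact ⟨_, h3 (univCov R h2) fun w hw => (QuotientGroup.eq_one_iff _).2 (subset_normalClosure hw)⟩

theorem Cov.range (C : Cov f) : C.θ.range = closure (Set.range f) := by
  rw [← FreeGroup.range_lift_eq_closure]
  ext x
  exact ⟨fun ⟨g, e⟩ => by obtain ⟨w, rfl⟩ := C.surj g; exact ⟨w, by rw [← e, C.comp]⟩,
    fun ⟨w, e⟩ => ⟨_, (C.comp w).trans e⟩⟩

theorem Cost.cyclic (h : Cost f r fun C => IsCyclic C.θ.ker) : HasRels f (r + 1) := by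
  obtain ⟨R, h1, h2, h3⟩ := h
  have := h3 (univCov R h2) fun w hw => (QuotientGroup.eq_one_iff _).2 (subset_normalClosure hw)
  obtain ⟨z, hz⟩ := IsCyclic.exists_generator (α := (univCov R h2).θ.ker)
  obtain ⟨w, hw⟩ := (univCov R h2).surj z.1
  have hw' : FreeGroup.lift f w = 1 := by rw [← (univCov R h2).comp, hw]; exact z.2
  refine Cost.hasRels ((Cost.and ⟨R, h1, h2, fun C hC => hC⟩ (cost_one w hw')).imp ?_)
  rintro C ⟨k1, k2⟩
  rw [injective_iff_map_eq_one]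
  intro g hg
  obtain ⟨v, rfl⟩ := C.surj g
  obtain ⟨n, hn⟩ := hz ⟨(univCov R h2).ev v, by rw [MonoidHom.mem_ker, Cov.comp, ← C.comp, hg]⟩
  have e : (univCov R h2).ev (w ^ n) = (univCov R h2).ev v := by
    rw [map_zpow, hw]; exact congrArg Subtype.val hn
  have : (w ^ n)⁻¹ * v ∈ C.ev.ker :=
    normalClosure_le_normal (fun w hw => k1 w hw) (QuotientGroup.eq.1 e)
  simpa [MonoidHom.mem_ker, k2] using this

theorem hasRels_sub {X : Type*} {f : X → H} {K : Subgroup H} (h : HasRels f r)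
    (hK : closure (Set.range f) = K) : ∃ g : X → K, HasRels g r ∧ closure (Set.range g) = ⊤ := by
  subst hK
  refine ⟨fun x => ⟨f x, subset_closure ⟨x, rfl⟩⟩, HasRels.of_comp _ (subtype_injective _) h, ?_⟩
  refine map_injective (subtype_injective _) ?_
  rw [MonoidHom.map_closure, ← Set.range_comp, ← MonoidHom.range_eq_map, range_subtype]; rfl

theorem hasRels_equiv {X K : Type*} [Group K] {g : X → K} (h : HasRels g r)
    (hg : closure (Set.range g) = ⊤) (e : H ≃* K) :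
    ∃ g : X → H, HasRels g r ∧ closure (Set.range g) = ⊤ :=
  ⟨_, h.comp e.symm.toMonoidHom e.symm.injective, closure_range_comp hg _ e.symm.surjective⟩

/-- `H` has a presentation with `d` generators and `r` relations -/
def Pr (H : Type*) [Group H] (d r : ℕ) : Prop :=
  ∃ g : Fin d → H, HasRels g r ∧ closure (Set.range g) = ⊤

theorem Pr.pad {d r d' r' : ℕ} (h : Pr H d r) (h1 : d ≤ d') (h2 : r + d' ≤ r' + d) : Pr H d' r' := by
  obtain ⟨g, h3, h4⟩ := h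
  exact hasRels_fin h3 h4 (by simpa) (by simpa)

theorem Pr.equiv {K : Type*} [Group K] {d r : ℕ} (h : Pr K d r) (e : H ≃* K) : Pr H d r := by
  obtain ⟨g, h3, h4⟩ := h
  exact hasRels_equiv h3 h4 e

theorem Pr.out {d r : ℕ} (h : Pr H d r) : ∃ rels : Finset (FreeGroup (Fin d)), rels.card ≤ r ∧
    Nonempty (PresentedGroup (↑rels : Set (FreeGroup (Fin d))) ≃* H) := by
  obtain ⟨g, h3, h4⟩ := h
  exact hasRels_out h3 h4

theorem Pr.center {d r : ℕ} (h : Pr H d r) (hc : IsCyclic (center H)) :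
    Pr (H ⧸ center H) d (r + 1) := by
  obtain ⟨g, h3, h4⟩ := h
  exact ⟨_, hasRels_center h3 h4 hc, closure_range_comp h4 _ (QuotientGroup.mk'_surjective _)⟩

theorem Pr.two {d r s : ℕ} (h : Pr H d r) {a b : H} (hab : closure {a, b} = ⊤) (hs : r + 2 ≤ s) :
    ∃ rels : Finset (FreeGroup (Fin 2)), rels.card ≤ s ∧
      Nonempty (PresentedGroup (↑rels : Set (FreeGroup (Fin 2))) ≃* H) := by
  obtain ⟨g, h3, h4⟩ := h
  exact two_gen_out h3 h4 hab hs

theorem pr_of {Y : Type*} [Fintype Y] {g : Y → H} (h : HasRels g r)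
    (hg : closure (Set.range g) = ⊤) : Pr H (Fintype.card Y) r := hasRels_fin h hg le_rfl le_rfl

theorem isCyclic_center_equiv {K : Type*} [Group K] (e : H ≃* K) (h : IsCyclic (center K)) :
    IsCyclic (center H) :=
  isCyclic_of_surjective _ (Subgroup.centerCongr e).symm.surjective

end cost

theorem Pr.sym {α : Type*} [DecidableEq α] [Fintype α] {d r : ℕ} (h : Pr (alternatingGroup α) d r)
    {u v : α} (huv : u ≠ v) : Pr (Perm α) (d + 1) (r + d + 1) := by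
  obtain ⟨g, hg, htop⟩ := h
  set f : Fin d ⊕ Unit → Perm α := Sum.elim (fun y => (g y).1) fun _ => swap u v with hf
  obtain ⟨W, hW, c0⟩ := cost_hom (f := f) hg htop (alternatingGroup α).subtype
    (fun y => FreeGroup.of (.inl y)) (fun y => by simp [hf])
  set U : FreeGroup (Fin d ⊕ Unit) := FreeGroup.of (.inr ())
  have hu : FreeGroup.lift f U = swap u v := by simp [U, hf]
  let φ : alternatingGroup α →* alternatingGroup α :=
    (MulAut.conjNormal (H := alternatingGroup α) (swap u v)).toMonoidHom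
  have c1 := cost_list (f := f) (List.finRange d) fun y _ =>
    cost_eq (U * W (g y) * U⁻¹) (W (φ (g y))) (by simp [hu, hW, φ])
  have c2 := cost_one (f := f) (U * U) (by simp [hu])
  have e := pr_of (g := f) (r := r + d + 1) (Cost.hasRels ?_) ?_
  · simpa using e
  · refine ((c0.and c1).and c2).mono (by simp) ?_
    rintro C ⟨⟨⟨ρ, hρ, hρg⟩, k1⟩, k2⟩
    simp only [map_mul, map_inv, ← hρ] at k1 k2
    have k3 : ∀ σ, C.ev U * ρ σ * (C.ev U)⁻¹ = ρ (φ σ) := fun σ =>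
      DFunLike.congr_fun (MonoidHom.eq_of_eqOn_dense htop
        (f := (MulAut.conj (C.ev U)).toMonoidHom.comp ρ)
        (g := ρ.comp φ) (by rintro _ ⟨y, rfl⟩; exact k1 y (List.mem_finRange y))) σ
    have k4 : zpowers (C.ev U) ≤ normalizer (ρ.range : Set C.G) := by
      have : cj (C.ev U) ρ.range ≤ ρ.range := cj_le_iff.2 (by rintro _ ⟨σ, rfl⟩; exact ⟨_, (k3 σ).symm⟩)
      exact zpowers_le.2 (mem_normalizer_iff_cj.2 (cj_eq_of_le this
        (by rwa [inv_eq_of_mul_eq_one_right k2])))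
    have k5 : zpowers (C.ev U) ⊔ ρ.range = ⊤ := C.top (by
      rintro (y | _)
      exacts [mem_sup_right ⟨g y, hρg y⟩, mem_sup_left (mem_zpowers _)])
    rw [injective_iff_map_eq_one]
    intro x hx
    obtain ⟨_, ⟨n, rfl⟩, _, ⟨σ, rfl⟩, rfl⟩ := mem_sup_norm k4 (k5.ge (mem_top x))
    rw [map_mul, map_zpow, C.comp, hu, hρ, C.comp, hW] at hx
    rcases Int.even_or_odd' n with ⟨k, rfl | rfl⟩
    · simp only [zpow_mul, zpow_two, k2, swap_mul_self, one_zpow, one_mul] at hx ⊢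
      rw [show σ = 1 from Subtype.ext hx, map_one]
    · have := congrArg sign hx
      simp [zpow_add_one, zpow_mul, sign_swap huv, mem_alternatingGroup.1 σ.2] at this
  · refine eq_top_of_alt_le_of_odd (g := swap u v) (fun σ hσ => ?_)
      (subset_closure ⟨.inr (), rfl⟩) (sign_swap huv)
    have : (⟨σ, hσ⟩ : alternatingGroup α) ∈ (closure (Set.range f)).comap (Subgroup.subtype _) := by
      refine (closure_le _).2 ?_ (htop ▸ mem_top _)
      rintro _ ⟨y, rfl⟩; exact subset_closure ⟨.inl y, rfl⟩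
    exact this

theorem pr_subsingleton {H : Type*} [Group H] [Subsingleton H] : Pr H 0 0 :=
  ⟨Fin.elim0, ⟨∅, le_rfl, Subsingleton.elim _ _⟩, Subsingleton.elim _ _⟩

theorem pr_S2 : Pr (Perm (Fin 2)) 1 1 := by
  have : Subsingleton (alternatingGroup (Fin 2)) := ⟨by decide⟩
  exact pr_subsingleton.sym (u := 0) (v := 1) (by decide)

theorem pr_S4 : Pr (Perm (Fin 4)) 3 6 := Pr.sym alt_four (u := 0) (v := 1) (by decide)

theorem pr_S {n : ℕ} (h : 5 ≤ n) : Pr (Perm (Fin n)) 3 7 := by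
  obtain ⟨f, h1, h2, -⟩ := sym_three n h
  exact ⟨f, h1, h2⟩

theorem pr_A {n : ℕ} (h : 5 ≤ n) : Pr (alternatingGroup (Fin n)) 3 7 := by
  obtain ⟨f, h1, h2, -⟩ := alt_three n h
  exact ⟨f, h1, h2⟩

theorem pr_A2 {n : ℕ} (h : 5 ≤ n) : Pr (alternatingGroup (Fin n)) 2 8 := by
  obtain ⟨f, h1, h2, i, g, h3⟩ := alt_three n h
  exact ⟨_, by simpa using h1.tietze_shared (g := ![f i, g]) (h2.trans h3.symm) i 0 rfl, h3⟩

theorem Pr.wb {m d r : ℕ} (h : Pr (Perm (Fin (m + 1))) d r) (hm : 1 ≤ m) :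
    Pr (WB (m + 1)) (d + 1) (r + min 2 (m - 1) + 1) := by
  obtain ⟨g, h1, h2⟩ := h
  obtain ⟨f, h3, h4⟩ := presB h1 h2 hm
  simpa using pr_of h3 h4

variable {F : Type*} [Field F] {τ : F →+* F} {π : FP F τ}
variable {V : Type*} [AddCommGroup V] [Module F V] {P : PQ π V}
variable {m : ℕ} {sh : Bool} {Φ : Frame P m sh} {ζ : F}

theorem isCyclic_center_EG [Finite F] (hP : P.ND) (hr : P.Rich) (Φ : Frame P m sh) :
    IsCyclic (center P.EG) := by
  let A : Subgroup Fˣ :=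
    { carrier := {μ | ∃ h, P.scal μ h ∈ P.EG}
      one_mem' := ⟨by simp, by
        convert one_mem P.EG using 1; exact iso_ext fun x => one_smul F x⟩
      mul_mem' := fun {a b} ⟨h, e⟩ ⟨h', e'⟩ => ⟨by
        rw [Units.val_mul, map_mul, mul_mul_mul_comm, h, h', one_mul], by
          have := mul_mem e e'
          rwa [show P.scal _ h * P.scal _ h' = P.scal _ _ from
            iso_ext fun x => (mul_smul (a : F) (b : F) x).symm] at this⟩
      inv_mem' := fun {a} ⟨h, e⟩ => ⟨by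
        rw [Units.val_inv_eq_inv_val, map_inv₀, ← mul_inv, h, inv_one], by
          have := inv_mem e
          rwa [show (P.scal _ h)⁻¹ = P.scal _ _ from inv_eq_of_mul_eq_one_right
            (iso_ext fun x => (smul_inv_smul a x))] at this⟩ }
  exact isCyclic_of_surjective _ (centerEquiv hP hr (Φ.hyp 0) A (fun _ h => h.1)
    fun _ h => ⟨fun e => ⟨h, e⟩, fun e => e.2⟩).surjective

variable {X : Type} [Fintype X] {f : X → P.Iso} {r : ℕ}

theorem finish (hP : P.ND)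
    (h : Cost f r fun C => ∃ σ : USys P C.G, σ.θ = C.θ ∧ US (Φ.X σ) Set.univ = ⊤)
    (hk : ∀ (S : Type) [Group S] (σ : USys P S), US (Φ.X σ) Set.univ ⊓ σ.θ.ker = ⊥) :
    Pr P.EG (Fintype.card X) r := by
  obtain ⟨C, σ, h1, h2⟩ := Cost.exists h
  obtain ⟨g, h3, h4⟩ := hasRels_sub (K := P.EG) (Cost.hasRels (h.imp fun C ⟨σ, h1, h2⟩ => by
    rw [← MonoidHom.ker_eq_bot_iff, ← h1, ← hk _ σ, h2, top_inf_eq]))
    (by rw [← Cov.range C, ← h1, MonoidHom.range_eq_map, ← h2, Φ.map_US hP])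
  exact pr_of h3 h4

theorem finish' (hP : P.ND)
    (h : Cost f r fun C => ∃ σ : USys P C.G, σ.θ = C.θ ∧ US (Φ.X σ) Set.univ = ⊤)
    (hk : ∀ (S : Type) [Group S] (σ : USys P S), US (Φ.X σ) Set.univ = ⊤ → IsCyclic σ.θ.ker) :
    Pr P.EG (Fintype.card X) (r + 1) := by
  obtain ⟨C, σ, h1, h2⟩ := Cost.exists h
  obtain ⟨g, h3, h4⟩ := hasRels_sub (K := P.EG) (Cost.cyclic (h.imp fun C ⟨σ, h1, h2⟩ =>
    h1 ▸ hk _ σ h2)) (by rw [← Cov.range C, ← h1, MonoidHom.range_eq_map, ← h2, Φ.map_US hP])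
  exact pr_of h3 h4

theorem xs_lam_add (a : Ix m) {c d : F} (hc : c ∈ π.Λ) (hd : d ∈ π.Λ) :
    P.eich (Φ.v a) 0 (c + d) = P.eich (Φ.v a) 0 c * P.eich (Φ.v a) 0 d := by
  rw [(EOk.lam (Φ.sing a) hc).eich_mul (EOk.lam (Φ.sing a) hd)]; simp

theorem lam_mem {t : P.Iso} {s : Ix m → F} (ht : Mn Φ t (fun x => x) s) {a : Ix m}
    {D : Subgroup P.Iso} (h1 : ∀ x ∈ D, t * x * t⁻¹ ∈ D) {E : List F}
    (hE : ∀ e ∈ E, e ∈ π.Λ ∧ P.eich (Φ.v a) 0 e ∈ D) {l : F}
    (hl : l ∈ AddSubmonoid.closure {y | ∃ e ∈ E, ∃ i : ℕ, y = (s a * τ (s a)) ^ i * e}) :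
    l ∈ π.Λ ∧ P.eich (Φ.v a) 0 l ∈ D := by
  induction hl using AddSubmonoid.closure_induction with
  | mem x hx =>
    obtain ⟨e, he, i, rfl⟩ := hx
    induction i with
    | zero => simpa using hE e he
    | succ i ih =>
      have := h1 _ ih.2
      rw [ht.conj_xs a (zero_mem _) (qeq_lam ih.1), smul_zero] at this
      rw [pow_succ', mul_assoc]
      exact ⟨π.lam_smul _ _ ih.1, this⟩
  | zero => exact ⟨zero_mem _, eich_zero (P := P) _ ▸ one_mem _⟩
  | add x y _ _ hx hy => exact ⟨add_mem hx.1 hy.1, xs_lam_add (Φ := Φ) a hx.1 hy.1 ▸ mul_mem hx.2 hy.2⟩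

theorem sg_lam (hW : Φ.V0 = ⊥) {ω : F} {E : List F} (hE : ∀ e ∈ E, e ∈ π.Λ)
    (h : ∀ l ∈ π.Λ, l ∈ AddSubmonoid.closure {y | ∃ e ∈ E, ∃ i : ℕ, y = (ω * τ ω) ^ i * e}) :
    SG Φ ω (E.map fun e => (0, e)) := by
  refine ⟨fun e he => ?_, fun a t s ht e D h1 h2 => XS_le fun x hx c hc => ?_⟩
  · obtain ⟨e, he', rfl⟩ := List.mem_map.1 he
    exact ⟨zero_mem _, qeq_lam (hE e he')⟩
  · rw [hW, Submodule.mem_bot] at hx
    subst hx e
    exact (lam_mem ht h1 (fun e he => ⟨hE e he, h2 _ (List.mem_map_of_mem (List.mem_map_of_mem he))⟩)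
      (h c ((sing_iff_of_QEq hc).1 sing_zero))).2

theorem SG.AG_eq (hζ : ζ ≠ 0) {e : V × F} (h : SG Φ ζ [e]) {a b : Ix m} (hab : sup b ≠ sup a) :
    AG (k0 Φ ζ b a) (xs Φ a e) = XS Φ a :=
  le_antisymm (AG_le (fun x hx => (k0_mn (Φ := Φ) hζ hab).cj_XS a ▸ conj_mem_cj hx) (h.xs_mem a _ (by simp)))
    (h.gen a _ _ (k0_mn hζ hab) (wt_right hab)).le_AG

theorem Wt.rev {s : Ix m → F} (h : Wt Φ ζ s) (a : Ix m) : s a * τ (s a.rev) = 1 := by
  obtain ⟨t, -, h⟩ := h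
  have := B_smul_smul t (Φ.v a) (Φ.v a.rev)
  rw [h.1, h.1, B_smul_left, B_smul_right, Φ.B_rev, ← mul_assoc] at this
  exact mul_right_cancel₀ (Φ.κ_ne a) (this.trans (one_mul _).symm)

theorem Wt.q {s : Ix m → F} (h : Wt Φ ζ s) {a b : Ix m} (e : s a = s b) : τ (s a) * s b.rev = 1 := by
  have := congrArg τ (h.rev b)
  rwa [map_mul, π.tau_tau, map_one, ← e] at this

theorem wt_two (hζ : ζ ≠ 0) {a b c : Ix m} (d : D3 a b c) :
    ∃ s, Wt Φ ζ s ∧ s a = 1 ∧ s b = ζ :=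
  ⟨_, wt_wt hζ d.bc.symm, wt_ne d.ac.symm d.ab.symm, wt_right d.bc.symm⟩

theorem wt_q (hζ : ζ ≠ 0) {a b c : Ix m} (d : D3 a b c) : ∃ s, Wt Φ ζ s ∧ s a = ζ ∧ s b = ζ :=
  ⟨_, (wt_wt hζ d.ac.symm).mul (wt_wt hζ d.bc.symm),
    by rw [wt_right d.ac.symm, wt_ne d.ac.symm d.ab.symm, mul_one],
    by rw [wt_right d.bc.symm, wt_ne d.bc.symm d.ab, one_mul]⟩

theorem wt_q' (hζ : ζ ≠ 0) {a b : Ix m} (h : sup a ≠ sup b) :
    ∃ s, Wt Φ ζ s ∧ s a = ζ * τ ζ ∧ s b = ζ * τ ζ :=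
  ⟨_, (wt_wt hζ h.symm).mul (wt_wt hζ h), by rw [wt_right h.symm, wt_left h],
    by rw [wt_left h.symm, wt_right h, mul_comm]⟩

theorem wt_four (hζ : ζ ≠ 0) {a b c d : Ix m} (h : D4 a b c d) :
    ∃ s, Wt Φ ζ s ∧ s c = ζ ∧ ∀ x, sup x = sup a ∨ sup x = sup b → s x = 1 :=
  ⟨_, wt_wt hζ h.cd.symm, wt_right h.cd.symm, by
    rintro x (e | e) <;> refine wt_ne ?_ ?_ <;> rw [e]
    exacts [h.ad.symm, h.ac.symm, h.bd.symm, h.bc.symm]⟩

end Cfsg.Agent.CP
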