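import Cfsg.Agent.CP.Cyc
import Cfsg.Agent.Forms.RegSU3

/-! Classical groups are generated by two elements. -/

set_option autoImplicit false
set_option linter.unusedSectionVars false
set_option linter.unusedVariables false

namespace Cfsg.Agent.CP

open Subgroup Cfsg.Agent.RGD Cfsg.Agent.RG Cfsg.Agent.Polar Cfsg.Agent.Polar.PQ Cfsg.Agent.Cl
open Cfsg.Agent.Pres hiding rt
open Equiv Equiv.Perm Module Cfsg.Agent.Forms
open scoped commutatorElement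

section general

variable {F : Type*} [Field F] {τ : F →+* F} {π : FP F τ}
variable {V : Type*} [AddCommGroup V] [Module F V] {P : PQ π V}
variable {m : ℕ} {sh : Bool} {Φ : Frame P m sh} {H : Subgroup P.Iso}

variable (P) in
/-- two-generation -/
def Gen2 : Prop := ∃ a ∈ P.EG, ∃ b ∈ P.EG, ∀ H : Subgroup P.Iso, a ∈ H → b ∈ H → P.EG ≤ H

theorem Gen2.out {G : Type*} [Group G] (h : Gen2 P) (e : G ≃* P.EG) :
    ∃ a b : G ⧸ center G, closure {a, b} = ⊤ := by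
  obtain ⟨a, ha, b, hb, h⟩ := h
  have := RegCl.closure_eq_top e (S := {e.symm ⟨a, ha⟩, e.symm ⟨b, hb⟩}) fun H k =>
    h H (by simpa using k (e.symm ⟨a, ha⟩)) (by simpa using k (e.symm ⟨b, hb⟩))
  refine ⟨(e.symm ⟨a, ha⟩ : G), (e.symm ⟨b, hb⟩ : G), ?_⟩
  rw [← QuotientGroup.range_mk' (center G), MonoidHom.range_eq_map, ← this, MonoidHom.map_closure,
    Set.image_pair]; rfl

theorem Gen2.of {a b : P.Iso} (ha : a ∈ P.EG) (hb : b ∈ P.EG) {p : Subgroup P.Iso → Prop}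
    (h : ∀ H, a ∈ H → b ∈ H → p H) (k : ∀ H, p H → P.EG ≤ H) : Gen2 P :=
  ⟨a, ha, b, hb, fun H e1 e2 => k H (h H e1 e2)⟩

theorem vecs_span {h : P.Iso} {s : Ix m → F} (h1 : Mn Φ h (fun x => x) s) (h2 : h ∈ H) {a : Ix m}
    (hs : Spans (τ (s a))) {x : V} (hx : x ∈ Φ.V0) (h3 : x ∈ P.vecs H (Φ.sing a)) (t : F) :
    t • x ∈ P.vecs H (Φ.sing a) := by
  induction hs t using AddSubmonoid.closure_induction with
  | mem x hx =>
    obtain ⟨i, rfl⟩ := hx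
    induction i with
    | zero => simpa
    | succ i ih =>
      have := RegCl.act_vecs _ h2 (h1.1 a) (h1.ne a) ih
      rw [h1.2 _ (Submodule.smul_mem _ _ hx), smul_smul] at this
      simpa only [pow_succ']
  | zero => rw [zero_smul]; exact zero_mem _
  | add x y _ _ hx hy => rw [add_smul]; exact add_mem hx hy

theorem XS_le_of_vecs {a : Ix m} (h1 : ∀ l ∈ π.Λ, P.eich (Φ.v a) 0 l ∈ H)
    (h2 : ∀ x ∈ Φ.V0, x ∈ P.vecs H (Φ.sing a)) : XS Φ a ≤ H := XS_le fun x hx c hc => by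
  obtain ⟨d, o, e⟩ := h2 x hx
  rw [(Φ.eOk0 a hx hc).eich_eq_mul o]
  exact mul_mem e (h1 _ (hc.sub_mem o.val))

variable {f : ℕ → Ix m} {n : P.Iso}

theorem Cy.conj_mem {l : ℕ} (C : Cy Φ l f n) (hn : n ∈ H) {k : ℕ} {x : V} {c : F}
    (o : P.EOk (Φ.v (f k)) x c) (h : P.eich (Φ.v (f k)) x c ∈ H) : ∃ s : F, s ≠ 0 ∧
      P.EOk (Φ.v (f (k + 1))) (τ s • n • x) (s * τ s * c) ∧
      P.eich (Φ.v (f (k + 1))) (τ s • n • x) (s * τ s * c) ∈ H := by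
  obtain ⟨s, h1, h2⟩ := C.act k
  obtain ⟨h3, h4⟩ := conj_eich_smul o h1 h2
  exact ⟨s, h1, h3, h4 ▸ mul_mem (mul_mem hn h) (inv_mem hn)⟩

theorem Cy.conj_diag (C : Cy Φ (m + 1) f n) (hn : ∀ x ∈ Φ.V0, n • x = x) {h : P.Iso} {s : Ix m → F}
    (h1 : Mn Φ h (fun x => x) s) :
    ∃ s', Mn Φ (n * h * n⁻¹) (fun x => x) s' ∧ ∀ k, s' (f (k + 1)) = s (f k) := by
  have k : ∀ k, (n * h * n⁻¹) • Φ.v (f (k + 1)) = s (f k) • Φ.v (f (k + 1)) := fun k => by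
    obtain ⟨t, h2, h3⟩ := C.act k
    rw [← inv_smul_smul₀ h2 (Φ.v (f (k + 1))), ← h3, act_smul, mul_smul, mul_smul, inv_smul_smul,
      h1.1, act_smul, smul_comm]
  have : ∀ a, ∃ t : F, (n * h * n⁻¹) • Φ.v a = t • Φ.v a := fun a => by
    obtain ⟨i, -, rfl⟩ := C.cover a (sup a).2
    exact ⟨_, C.per i ▸ k (i + 2 * m + 1)⟩
  choose s' hs using this
  exact ⟨s', ⟨hs, fun x hx => by
    rw [mul_smul, mul_smul, inv_smul_eq_iff.2 (hn x hx).symm, h1.2 x hx, hn x hx]⟩,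
    fun i => smul_left_injective F (Φ.hyp _).left_ne_zero ((hs _).symm.trans (k i))⟩

theorem Cy.genA (C : Cy Φ (m + 1) f n) (hm : 1 ≤ m) (hn : ∀ x ∈ Φ.V0, n • x = x) {h : P.Iso}
    {s : Ix m → F} (h1 : Mn Φ h (fun x => x) s) (h2 : Spans (τ (s (f 1)) * s (f (m + 3))))
    (h3 : τ (s (f 1)) * s (f (m + 3)) ≠ 1) (h4 : τ (s (f 0)) * s (f (m + 2)) ≠ 1) (e1 : h ∈ H)
    (e2 : xl Φ (f 1) (f (m + 3)) 1 * n ∈ H) :
    (∀ {a b}, sup a ≠ sup b → XL Φ a b ≤ H) ∧ n ∈ H := by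
  obtain ⟨s', h5, h6⟩ := C.conj_diag hn h1
  have h0 : sup (f 1) ≠ sup (f (m + 3)) := C.ne (by omega) (by omega) (by omega)
  have := comm_trick (h1.commute h5) e1 e2
  rw [h5.conj_xl h0, ← xl_neg h0, ← xl_add h0, h1.conj_xl h0, ← xl_neg h0, ← xl_add h0, h6 0,
    h6 (m + 2), ← neg_one_mul (1 + _), ← add_mul] at this
  have k := (genBy_xl h1 h0 rfl (spanBy_single h2 (mul_ne_zero (by rwa [← sub_eq_add_neg, sub_ne_zero])
    (by rwa [← sub_eq_add_neg, mul_one, sub_ne_zero, ne_comm])))).le e1 this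
  have k1 := (mul_mem_cancel_left (k (xl_mem _ _ _))).1 e2
  exact ⟨C.all' k1 (by omega) (j := 1) (by rwa [show 1 + 1 + (m + 1) = m + 3 by omega])
    (sup _).2 (sup _).2, k1⟩

end general

variable {F : Type*} [Field F] [Fintype F] {V : Type*} [AddCommGroup V] [Module F V]
variable [FiniteDimensional F V] {m : ℕ}

theorem sp_gen2 {P : PQ (spFP F) V} (hP : P.ND) (Φ : Frame P m true) (hm : 1 ≤ m)
    (hF : m = 1 → 2 < Fintype.card F) : Gen2 P := by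
  obtain ⟨ζ, hζ⟩ := exists_prim F
  have hs' : Spans ((ζ : F) * ζ) := sq (ζ : F) ▸ spans_sq hζ
  obtain ⟨f, n, hn, C, h1, -⟩ := exists_cy (Φ := Φ) hP le_rfl (z := 0) (c := 1) (by simp) trivial
    one_ne_zero
  have h01 : sup (f 1) ≠ sup (f 0) := (C.ne (by omega) (by omega) (by omega)).symm
  have k : ∀ H : Subgroup P.Iso, (∀ {a b}, sup a ≠ sup b → XL Φ a b ≤ H) →
      P.eich (Φ.v (f 0)) 0 1 ∈ H → n ∈ H → P.EG ≤ H := fun H e1 e2 e3 => by
    refine EG_le hP e1 (C.allS e3 (j := 1) (XS_le_of_vecs (fun l _ => add_mem_of_spans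
      (fun a b => xs_lam_add (Φ := Φ) _ trivial trivial) hs' (neg_ne_zero.2 one_ne_zero) (fun i => ?_) l)
      fun x hx => Φ.aniso x hx trivial ▸ zero_mem _))
    simpa [mul_pow] using transfer' (Φ := Φ) h01 (by simp) (by simp) (by simp) trivial (e1 h01)
      (e1 (by simpa)) e2 (ζ ^ i)
  rcases hm.eq_or_lt with rfl | hm
  · have hz : (ζ : F) ≠ 1 := fun e => by
      have := Nat.le_of_dvd one_pos (SL2Pres.dvd_of_pow_eq_one hζ (n := 1) (by rw [e, pow_one]))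
      have := hF rfl
      omega
    obtain ⟨h, hh⟩ := exists_mono (Φ := Φ) hP (fun a => a) (fun _ _ e => e) (fun _ => rfl)
      (ew (RingHom.id F) ζ (f 1)) fun a => by
        rw [τ_ew (spFP F), ew_map (ζ : F) Fin.rev_injective (fun _ => rfl),
          mul_inv_cancel₀ (ew_ne_zero ζ.ne_zero _ _), one_mul]
    refine ⟨P.eich (Φ.v (f 0)) 0 1 * h, sp_EG_eq_top hP ▸ trivial, xl Φ (f 1) (f (1 + 3)) 1 * n,
      sp_EG_eq_top hP ▸ trivial, fun H e1 e2 => ?_⟩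
    obtain ⟨e3, e4⟩ := split_mem (hh.commute_xs (zero_mem _) trivial rfl (ew_ne _ h01))
      (add_pow_card (fun a b => xs_lam_add (Φ := Φ) _ trivial trivial) 1) hh.pow_card e1
    have r : f (1 + 3) = f 0 := C.per 0
    have r' : f (1 + 2) = (f 1).rev := C.rev 1
    obtain ⟨e5, e6⟩ := C.genA le_rfl (by simpa using h1) hh
      (by simpa [r, ew_self, ew_ne _ h01] using spans_prim hζ) (by simpa [r, ew_self, ew_ne _ h01] using hz)
      (by simpa [r', ew_rev, ew_ne _ h01] using hz) e4 e2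
    exact k H e5 e3 e6
  · obtain ⟨a, ha, h⟩ := C.genD (by omega) ζ.ne_zero hs' (w := 0) (c := 1) (by simp) trivial
    exact Gen2.of ha (mul_mem hn (eich_mem_EG _ _ _)) h fun H ⟨e3, e4, e5⟩ =>
      k H (e3 (sup _).2 (sup _).2) e4 e5

section O

variable {P : PQ (oFP F) V} {sh : Bool}

theorem o_XS_le {Φ : Frame P m sh} {H : Subgroup P.Iso} {a : Ix m}
    (h2 : ∀ x ∈ Φ.V0, x ∈ P.vecs H (Φ.sing a)) : XS Φ a ≤ H :=
  XS_le_of_vecs (fun l hl => by rw [(mem_oFP_lam l).1 hl, eich_zero]; exact one_mem _) h2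

theorem o_odd_gen2 (hP : P.ND) (Φ : Frame P m sh) (hm : 1 ≤ m) {y : V} (hW : Φ.V0 = F ∙ y)
    (hy : P.B y y ≠ 0) : Gen2 P := by
  obtain ⟨ζ, hζ⟩ := exists_prim F
  have hs' : Spans ((ζ : F) * ζ) := sq (ζ : F) ▸ spans_sq hζ
  have h0 : ∀ a : F, a • y ∈ Φ.V0 := fun a => hW ▸ Submodule.mem_span_singleton.2 ⟨a, rfl⟩
  have h0' : y ∈ Φ.V0 := hW ▸ Submodule.mem_span_singleton_self y
  have hQ : P.Q y ≠ 0 := right_ne_zero_of_mul (o_B_self (P := P) y ▸ hy)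
  obtain ⟨f, n, hn, C, h1, -⟩ := exists_cy (Φ := Φ) hP le_rfl (fun a _ => B_x_v h0' a) (QEq.self y) hQ
  have h01 : sup (f 0) ≠ sup (f 1) := C.ne (by omega) (by omega) (by omega)
  obtain ⟨s, ⟨h, h3, h4⟩, h5, h6⟩ := wt_norm (Φ := Φ) ζ.ne_zero h01
  refine ⟨P.eich (Φ.v (f 0)) ((1 : F) • y) (P.Q ((1 : F) • y)) * h,
    mul_mem (eich_mem_EG _ _ _) (TT_le (fun _ => k0_mem _ _ _) h3), n, hn, fun H e1 e2 => ?_⟩
  obtain ⟨e3, e4⟩ := split_mem (h4.commute_xs (h0 1) (QEq.self _) rfl (h6 _ h01))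
    (add_pow_card (x := fun t : F => P.eich (Φ.v (f 0)) (t • y) (P.Q (t • y))) (fun a b => by
      rw [(Φ.eOk0 _ (h0 a) (QEq.self _)).eich_mul (Φ.eOk0 _ (h0 b) (QEq.self _)), add_smul, o_Q_add,
        o_swap]) 1) h4.pow_card e1
  obtain ⟨t, h7, h8⟩ := C.conj_mem e2 (Φ.eOk0 _ (h0 1) (QEq.self _)) e3
  rw [one_smul, h1 y h0', o_B_self, mul_div_cancel_right₀ _ hQ, two_smul, sub_add_cancel_left,
    smul_neg, ← neg_smul] at h8
  have k := C.allS e2 (j := 1) (o_XS_le fun x hx => by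
    obtain ⟨r, rfl⟩ := Submodule.mem_span_singleton.1 (hW ▸ hx)
    simpa [smul_smul, h7] using vecs_span h4 e4 (h5 ▸ hs') (h0 _) ⟨_, h8⟩ (-(r / t)))
  exact EG_le hP (XL_le_of_XS ⟨y, h0', y, h0', hy⟩ k) k

theorem o_minus_gen2 (hP : P.ND) (Φ : Frame P m sh) (hm : 2 ≤ m) {w z : V} (hw : w ∈ Φ.V0)
    (hz : z ∈ Φ.V0) (hQ : P.Q z ≠ 0) (hB : P.B w z ≠ 0) (hW : ∀ x ∈ Φ.V0, ∃ s t : F, x = s • w + t • z) :
    Gen2 P := by
  obtain ⟨ζ, hζ⟩ := exists_prim F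
  have hs' : Spans ((ζ : F) * ζ) := sq (ζ : F) ▸ spans_sq hζ
  obtain ⟨f, n, hn, C, h1, -⟩ := exists_cy (Φ := Φ) hP le_rfl (fun a _ => B_x_v hz a) (QEq.self z) hQ
  obtain ⟨a, ha, h⟩ := C.genD (by omega) ζ.ne_zero hs' (fun k => B_x_v hw _) (QEq.self w)
  refine Gen2.of ha (mul_mem hn (eich_mem_EG _ _ _)) h fun H ⟨e3, e4, e5⟩ => ?_
  have e3 : ∀ {a b}, sup a ≠ sup b → XL Φ a b ≤ H := e3 (sup _).2 (sup _).2
  have k : ∀ i < 2, ∀ x ∈ Φ.V0, x ∈ P.vecs H (Φ.sing (f i)) → ∀ s : F,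
      s • x ∈ P.vecs H (Φ.sing (f 2)) := fun i hi x hx ⟨c, o, e⟩ s => by
    have h2 : sup (f 2) ≠ sup (f i) := (C.ne (by omega) (by omega) (by omega)).symm
    exact ⟨_, Φ.eOk0 _ (Submodule.smul_mem _ _ hx) (qeq_sl o.val s), transfer' h2 (B_x_v hx _)
      (B_x_v hx _) (B_x_v hx _) o.val (e3 h2) (e3 (by simpa)) e s⟩
  obtain ⟨r, h2, h3⟩ := C.conj_mem e5 (Φ.eOk0 _ hw (QEq.self _)) e4
  refine EG_le hP e3 (C.allS e5 (j := 2) (o_XS_le fun x hx => ?_))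
  obtain ⟨s, t, rfl⟩ := hW x hx
  convert sub_mem (k 0 (by omega) w hw ⟨_, Φ.eOk0 _ hw (QEq.self _), e4⟩ (s + t * P.Q z / P.B w z))
    (k 1 (by omega) _ (Submodule.smul_mem _ _ (C.V0.1 w hw)) ⟨_, h3⟩ (t * P.Q z / P.B w z / r)) using 1
  rw [h1 w hw]
  match_scalars <;> simp <;> field_simp
  ring

theorem o_plus_gen2 (hP : P.ND) (Φ : Frame P (m + 1) false) (hm : 2 ≤ m) : Gen2 P := by
  obtain ⟨ζ, hζ⟩ := exists_prim F
  have hs' : Spans ((ζ : F) * ζ) := sq (ζ : F) ▸ spans_sq hζ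
  let e : Ix (m + 1) := mkI (Fin.last _) 1
  have he : ∀ {a : Ix (m + 1)}, (sup a : ℕ) < m + 1 → sup e ≠ sup a := fun h => by
    simp [e, Fin.ext_iff]; omega
  have he' : ∀ {a : Ix (m + 1)}, (sup a : ℕ) < m + 1 → sup e.rev ≠ sup a := fun h => by simpa using he h
  obtain ⟨f, n, hn, C, -, h1⟩ := exists_cy (Φ := Φ) hP (l := m) (by omega) (z := Φ.v e + Φ.v e.rev)
    (fun a h => by simp [B_vv (he (Nat.lt_succ_of_le h)), B_vv (he' (Nat.lt_succ_of_le h))])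
    (QEq.add (Φ.sing e) (Φ.sing e.rev)) (by simp [Φ.B_rev, Φ.κ_ne])
  obtain ⟨a, ha, h⟩ := C.genD (by omega) ζ.ne_zero hs' (fun k => B_vv (he (C.lt k))) (Φ.sing e)
  refine Gen2.of ha (mul_mem hn (eich_mem_EG _ _ _)) h fun H ⟨e3, e4, e5⟩ => ?_
  have k0 : ∀ {a b c : Ix (m + 1)}, (sup a : ℕ) < m + 1 → (sup b : ℕ) < m + 1 → sup a ≠ sup b →
      sup c = sup e → ∀ t : F, t ≠ 0 → xl Φ b c t ∈ H → XL Φ a c ≤ H :=
    fun {a b c} h2 h3 h4 h5 t ht h6 => XL_le (h5 ▸ (he h2).symm) fun s => by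
      simpa [smul_smul, ht, xl] using transfer' h4 (by simp [B_vv (h5 ▸ he h2)]) (by simp [B_vv (h5 ▸ he h3)])
        (by simp [B_vv (h5 ▸ he (a := b.rev) (by rwa [sup_rev]))]) (okL (h5 ▸ (he h3).symm) t).val
        (e3 h2 h3 h4) (e3 h2 (by rwa [sup_rev]) (by simpa)) h6 (s / t)
  have k : ∀ {a b c : Ix (m + 1)}, (sup a : ℕ) < m + 1 → (sup b : ℕ) < m + 1 →
      sup c = sup e → ∀ t : F, t ≠ 0 → xl Φ b c t ∈ H → XL Φ a c ≤ H := fun {a b c} h2 h3 h5 t ht h6 => by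
    obtain ⟨i, hi⟩ := exists_not_mem [sup a, sup b, Fin.last _] (by simp; omega)
    simp only [List.mem_cons, List.not_mem_nil, or_false, not_or] at hi
    have h7 : (sup (mkI i 1 : Ix (m + 1)) : ℕ) < m + 1 := by simpa using Fin.val_lt_last hi.2.2
    exact k0 h2 h7 (by simpa using Ne.symm hi.1) h5 1 one_ne_zero
      (k0 h7 h3 (by simpa using hi.2.1) h5 t ht h6 (xl_mem _ _ _))
  obtain ⟨r, h2, -, h3⟩ := C.conj_mem e5 (okS (he (C.lt 0)).symm) e4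
  obtain ⟨s, h4, h5⟩ := h1 e (by simp [e])
  rw [map_add, B_self, zero_add, zero_add, zero_add, div_self (by simp [Φ.B_rev, Φ.κ_ne]), one_smul,
    sub_add_cancel_left, smul_neg, ← neg_smul] at h5
  rw [h5, smul_smul, mul_zero] at h3
  have k1 : ∀ {a c : Ix (m + 1)}, sup a ≠ sup c → ¬ (sup c : ℕ) < m + 1 → XL Φ a c ≤ H :=
    fun {a c} h6 h7 => by
    have h8 : sup c = sup e := by have := (sup c).2; simp [e, Fin.ext_iff]; omega
    have h9 : (sup a : ℕ) < m + 1 := by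
      have := (sup c).2; have := (sup a).2; simp only [Ne, Fin.ext_iff] at h6; omega
    rcases sup_eq_iff.1 h8 with rfl | rfl
    · exact k h9 (C.lt 0) rfl 1 one_ne_zero (by rwa [xl, one_smul])
    · exact k h9 (C.lt 1) h8 _ (by simp [h2, h4]) h3
  refine EG_le (Φ := Φ) hP (fun {a b} h => ?_) fun a => (XS_bot rfl a).trans_le bot_le
  by_cases h6 : (sup b : ℕ) < m + 1
  · by_cases h7 : (sup a : ℕ) < m + 1
    exacts [e3 h7 h6 h, (XL_symm _ _).trans_le (k1 h.symm h7)]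
  · exact k1 h h6

end O

variable {q : ℕ} {hF : Fintype.card F = q ^ 2} {P : PQ (uFP hF) V}

theorem su_gen2 (hP : P.ND) (Φ : Frame P m true) (hm : 1 ≤ m) : Gen2 P := by
  obtain ⟨ζ, hζ⟩ := exists_prim F
  have hz := ζ.ne_zero
  have h2 : ∀ {x : F}, Spans x → x ≠ 1 := by
    rintro _ h rfl
    obtain ⟨t, ht⟩ := exists_frobq_ne hF
    refine ht (AddSubmonoid.closure_induction (motive := fun t _ => frobq hF t = t) ?_ (map_zero _)
      (fun x y _ _ hx hy => by rw [map_add, hx, hy]) (h t))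
    rintro _ ⟨i, rfl⟩; simp
  obtain ⟨l, hl, h0⟩ := u_exists_lam hF
  obtain ⟨f, n, hn, C, h1, -⟩ := exists_cy (Φ := Φ) hP le_rfl (z := 0) (by simp) (qeq_lam hl) h0
  have h1 : ∀ x ∈ Φ.V0, n • x = x := by simpa using h1
  have h01 : sup (f 0) ≠ sup (f 1) := C.ne (by omega) (by omega) (by omega)
  rcases u_V0 Φ with hW | ⟨y, hW, hy⟩
  · have h3 : sup (f 1) ≠ sup (f (m + 3)) := C.ne (by omega) (by omega) (by omega)
    have h4 : Spans (frobq hF (wt (frobq hF) ζ (f 1) (f (m + 3)) (f 1)) *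
        wt (frobq hF) ζ (f 1) (f (m + 3)) (f (m + 3))) := by
      rw [wt_left h3, wt_right h3, frobq_frobq, ← sq]; exact spans_sq hζ
    refine ⟨_, k0_mem (Φ := Φ) (ζ : F) (f 1) (f (m + 3)), xl Φ (f 1) (f (m + 3)) 1 * n,
      mul_mem (eich_mem_EG _ _ _) hn, fun H e1 e2 => ?_⟩
    obtain ⟨e3, e4⟩ := C.genA hm h1 (k0_mn hz h3) h4 (h2 h4) (by
      rw [show m + 2 = 1 + (m + 1) by omega, C.rev, wt_left' h3, Ne, mul_inv_eq_one₀ hz]
      rcases hm.eq_or_lt with rfl | hm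
      · rw [← C.per 0, wt_right h3]; exact tau_ne hζ
      · rw [wt_ne h01.symm (C.ne (by omega) (by omega) (by omega)).symm, map_one]
        exact (h2 (spans_prim hζ)).symm) e1 e2
    exact EG_le hP e3 (C.allS e4 (j := 0) ((xs_le_comm hW h01).trans
      ((commutator_le_sup _ _).trans (sup_le (e3 (by simpa using h01.symm)) (e3 h01)))))
  have h0 : ∀ a : F, a • y ∈ Φ.V0 := fun a => hW ▸ Submodule.mem_span_singleton.2 ⟨a, rfl⟩
  have h0' : y ∈ Φ.V0 := hW ▸ Submodule.mem_span_singleton_self y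
  refine ⟨_, k0_mem (Φ := Φ) (ζ : F) (f 0) (f 1), _, mul_mem (eich_mem_EG (Φ.v (f 1)) y (P.Q y)) hn, fun H e1 e2 => ?_⟩
  have h3 := k0_mn (Φ := Φ) hz h01
  obtain ⟨s', h5, h6⟩ := C.conj_diag h1 h3
  have := comm_trick (h3.commute h5) e1 e2
  have o := Φ.eOk0 (f 1) h0' (QEq.self y)
  obtain ⟨o1, e3⟩ := conj_eich_smul o (h5.ne _) (h5.1 _)
  rw [e3, o1.eich_inv, o.eich_mul o1.neg] at this
  obtain ⟨o2, e4⟩ := conj_eich_smul (o.add o1.neg) (h3.ne _) (h3.1 _)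
  rw [e4, (o.add o1.neg).eich_inv, o2.eich_mul (o.add o1.neg).neg] at this
  have k0 : _ ∈ P.vecs H (Φ.sing (f 1)) := ⟨_, o2.add (o.add o1.neg).neg, this⟩
  rw [h5.2 y h0', h6 0, wt_left h01, wt_right h01, frobq_frobq, h3.2 _ (add_mem h0' (neg_mem (h0 _))),
    show frobq hF ζ • (y + -((ζ : F) • y)) + -(y + -((ζ : F) • y)) = ((frobq hF ζ - 1) * (1 - ζ)) • y by
      module] at k0
  have k1 : ∀ t : F, t • y ∈ P.vecs H (Φ.sing (f 1)) := fun t => by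
    have := vecs_span h3 e1 (by rw [wt_right h01]; exact spans_tau hζ) (h0 _) k0
      (t / ((frobq hF ζ - 1) * (1 - ζ)))
    rwa [smul_smul, div_mul_cancel₀ _ (mul_ne_zero (sub_ne_zero.2 (h2 (spans_tau hζ)))
      (sub_ne_zero.2 (h2 (spans_prim hζ)).symm))] at this
  have k2 : XS Φ (f 1) ≤ H := XS_le_of_vecs (fun l hl => by
    obtain ⟨s, rfl⟩ := u_gen1 _ hl
    obtain ⟨c1, h5, h6⟩ := k1 1
    obtain ⟨c2, h7, h8⟩ := k1 (s / P.B y y)
    have := mul_mem (mul_mem (mul_mem h6 h8) (inv_mem h6)) (inv_mem h8)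
    rw [eich_comm h5 h7] at this
    simpa [u_fix_B_self, hy] using this) fun x hx => by
      obtain ⟨r, rfl⟩ := Submodule.mem_span_singleton.1 (hW ▸ hx); exact k1 r
  have k := C.allS ((mul_mem_cancel_left (k2 (xs_mem _ h0' (QEq.self y)))).1 e2) k2
  exact EG_le hP (XL_le_of_XS ⟨y, h0', y, h0', hy⟩ k) k

theorem psp_gen2 (F : Type*) [Field F] [Fintype F] {m : ℕ} (hm : 2 ≤ m)
    (hF : m = 2 → 2 < Fintype.card F) : ∃ a b : PSp m F, closure {a, b} = ⊤ := by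
  obtain ⟨m, rfl⟩ : ∃ k, m = k + 1 := ⟨m - 1, by omega⟩
  obtain ⟨Φ⟩ := sp_frame (F := F) m
  exact (sp_gen2 (spStd_nd _) Φ (by omega) fun h => hF (by omega)).out (spEquivEG _)

theorem psu_gen2 (hF : Fintype.card F = q ^ 2) {n : ℕ} (hn : 3 ≤ n) (h : n = 3 → q ≠ 2) :
    ∃ a b : PSU n F q, closure {a, b} = ⊤ := by
  refine Gen2.out ?_ (suEquiv hF n)
  rcases hn.eq_or_lt with rfl | hn
  · obtain ⟨u, f, h1, g, hg, h2⟩ := RegCl.su3_gen2 (uStd_nd hF 3) (by simp) (h rfl)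
    exact ⟨u, h1.mem, _, mul_mem (mul_mem hg h1.mem) (inv_mem hg), h2⟩
  · obtain ⟨Φ⟩ := su_frame hF (n := n) (by omega)
    exact su_gen2 (uStd_nd hF n) Φ (by omega)

theorem podd_gen2 (hq : Odd (Fintype.card F)) {m : ℕ} (hm : 2 ≤ m) :
    ∃ a b : POmega F (quadFormOdd m F), closure {a, b} = ⊤ := by
  obtain ⟨m, rfl⟩ : ∃ k, m = k + 1 := ⟨m - 1, by omega⟩
  have h2 : (2 : F) ≠ 0 := Ring.two_ne_zero fun e => by
    have := FiniteField.even_card_of_char_two e; grind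
  obtain ⟨Φ, ⟨D⟩⟩ := (qeO (F := F) (m + 1)).exists_frame
  refine (o_odd_gen2 (ofQuad_nd (QOdd_nondegenerate _ h2)) Φ (by omega) (y := D.a 1) ?_ ?_).out
    (omegaEquiv (QOdd_nondegenerate _ h2) (by simp; omega))
  · refine D.range.symm.trans ?_
    rw [LinearMap.range_eq_map, ← Ideal.span_singleton_one, Ideal.span,
      Submodule.map_span, Set.image_singleton]
  · rw [o_B_self, D.Q_a, map_one, mul_one]; exact h2

theorem pplus_gen2 {m : ℕ} (hm : 4 ≤ m) :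
    ∃ a b : POmega F (quadFormPlus m F), closure {a, b} = ⊤ := by
  obtain ⟨m, rfl⟩ : ∃ k, m = k + 1 + 1 := ⟨m - 2, by omega⟩
  obtain ⟨Φ⟩ := o_frame (F := F) (m + 1)
  exact (o_plus_gen2 (ofQuad_nd (QPlus_nondegenerate _)) Φ (by omega)).out
    (omegaEquiv (QPlus_nondegenerate _) (by simp; omega))

theorem pminus_gen2 {m : ℕ} (hm : 3 ≤ m) {a b : F}
    (hab : ∀ z₁ z₂ : F, z₁ ^ 2 + a * z₁ * z₂ + b * z₂ ^ 2 = 0 → z₁ = 0 ∧ z₂ = 0) :
    ∃ g h : POmega F (quadFormMinus m F a b), closure {g, h} = ⊤ := by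
  obtain ⟨m, rfl⟩ : ∃ k, m = k + 1 := ⟨m - 1, by omega⟩
  have hP := ofQuad_nd (QMinus_nondegenerate (m + 1) hab)
  have h1 : (ofQuad (QMinus (m + 1) F a b)).Q (Pi.single (.inr 0) 1) = 1 := by
    simp [ofQuad, QMinus_apply]
  obtain ⟨s, hs⟩ : ∃ s : F, 2 * s + a ≠ 0 := by
    by_contra! h
    have h2 : a = 0 := by simpa using h 0
    have h3 : (2 : F) = 0 := by simpa [h2] using h 1
    simpa using congrFun (hP (Pi.single (.inr 0) 1) fun y =>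
      (pol_QMinus _ _ _ _ _).trans (by simp [h2, h3])) (.inr 0)
  let Φ : Frame _ m true := (hsM F (m + 1) a b).frame (fun x hx hs => by
      rw [mem_hsM] at hx
      have := hab (x (.inr 0)) (x (.inr 1)) (by simpa [ofQuad, QMinus_apply, hx] using o_sing_iff.1 hs)
      exact funext (by simp [hx, this]))
    (iff_of_true rfl ⟨_, mem_hsM.2 (by simp), 1, one_ne_zero, o_QEq_iff.2 h1⟩)
  have hV : ∀ {x}, x ∈ Φ.V0 ↔ ∀ i, x (.inl i) = 0 := by
    rw [show Φ.V0 = _ from (hsM F (m + 1) a b).perp_v]; exact mem_hsM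
  refine (o_minus_gen2 hP Φ (by omega) (w := Pi.single (.inr 0) s + Pi.single (.inr 1) 1)
    (hV.2 (by simp)) (hV.2 (by simp)) (h1 ▸ one_ne_zero) ?_ fun x hx =>
      ⟨x (.inr 1), x (.inr 0) - x (.inr 1) * s, funext (by simp [hV.1 hx])⟩).out
    (omegaEquiv (QMinus_nondegenerate _ hab) (by simp; omega))
  exact fun e => hs (((pol_QMinus _ _ _ _ _).trans (by simp)).symm.trans e)

end Cfsg.Agent.CP
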