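import Cfsg.Agent.CP.Mon

/-! Monomial representations of wreath products. -/

set_option autoImplicit false
set_option linter.unusedSectionVars false

namespace Cfsg.Agent.CP

open Subgroup Cfsg.Agent.RGD Cfsg.Agent.RG Cfsg.Agent.Polar Cfsg.Agent.Polar.PQ Cfsg.Agent.Cl
open Cfsg.Agent.Pres hiding rt
open Equiv Equiv.Perm SemidirectProduct Cfsg.Agent.SymAlt

variable {F : Type*} [Field F] {τ : F →+* F} {π : FP F τ}
variable {V : Type*} [AddCommGroup V] [Module F V] {P : PQ π V}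
variable {m : ℕ} {sh : Bool} {Φ : Frame P m sh}

/-- permutations act on signed indices -/
def pact (σ : Perm (Fin (m + 1))) (a : Ix m) : Ix m := mkI (σ (sup a)) (sgn a)

theorem inr_smul {B : Type} [CommGroup B] [SgnHom B] (σ : Perm (Fin (m + 1))) (a : Ix m) :
    (inr σ : Wr B (m + 1)) • a = pact σ a := by
  rw [pact, ← inr_smul_mkI (B := B), mkI_sup_sgn]

theorem exists_pm [FiniteDimensional F V] (hP : P.ND) (Φ : Frame P m sh) :
    ∃ pm : Perm (Fin (m + 1)) →* P.Iso, ∀ σ, Mn Φ (pm σ) (pact σ) fun _ => 1 := by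
  have key : ∀ σ : Perm (Fin (m + 1)), ∃ g, Mn Φ g (pact σ) fun _ => 1 := fun σ => by
    refine exists_mono hP _ (fun a b e => ?_) (fun a => ?_) _ fun a => ?_
    · rw [← inr_smul (B := ℤˣ), ← inr_smul (B := ℤˣ)] at e; exact MulAction.injective _ e
    · rw [← inr_smul (B := ℤˣ), ← inr_smul (B := ℤˣ), wr_smul_rev]
    · rw [map_one, one_mul, one_mul]; exact κ_of_sgn (by simp [pact])
  choose g hg using key
  exact ⟨MonoidHom.mk' g fun σ ρ => (hg _).ext ((hg σ).mul (hg ρ)) (fun a => by simp [pact])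
    fun a => by simp, hg⟩

theorem κ_pos (i : Fin (m + 1)) : Φ.κ (mkI i 1) = 1 := if_pos (sgn_le.1 (by simp))

theorem κ_neg (i : Fin (m + 1)) : Φ.κ (mkI i (-1)) = π.ε := by
  rw [← mkI_rev, κ_rev, κ_pos, mul_one]

theorem swap_mem {g d : P.Iso} {i j : Fin (m + 1)} (hij : i ≠ j)
    (hg : Mn Φ g (pact (swap i j)) fun _ => 1)
    (hd : Mn Φ d (fun a => a) fun x => if sup x = j then -1 else 1) : g * d ∈ P.EG := by
  have h : sup (mkI i 1 : Ix m) ≠ sup (mkI j (-1)) := by simpa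
  obtain ⟨h1, h2, h3, h4⟩ := (hyp2S (Φ := Φ) h).wl_act π.eps_ne_zero
  have e := π.eps_sq
  have e' := π.eps_ne_zero
  have h5 := fun x => (hyp2S (Φ := Φ) h).wl_W π.ε (x := x)
  have h6 := (hyp2S (Φ := Φ) h).wl_mem π.ε
  generalize (hyp2S (Φ := Φ) h).wl π.ε = W at *
  simp only [Frame.d, κ_pos, κ_neg, one_smul, mkI_rev, neg_neg, π.tau_eps, act_smul, smul_smul,
    inv_mul_cancel₀ e', mul_inv_cancel₀ e', e] at h1 h2 h3 h4
  have key : Mn Φ W (pact (swap i j))
      fun x => if sup x = j then -1 else 1 := by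
    refine ⟨fun x => ?_, fun x hx => h5 _ (V0_le_W h hx)⟩
    rw [← mkI_sup_sgn x]
    generalize sup x = k
    generalize sgn x = s
    simp only [pact, sup_mkI, sgn_mkI]
    by_cases e1 : k = i
    · subst e1
      rw [if_neg hij, swap_apply_left, one_smul]
      rcases Int.units_eq_one_or s with rfl | rfl
      exacts [h1, h3]
    by_cases e2 : k = j
    · subst e2
      rw [if_pos rfl, swap_apply_right]
      rcases Int.units_eq_one_or s with rfl | rfl
      · exact smul_right_injective V e' (by simp only [h4, smul_smul]; simp)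
      · exact h2
    · rw [if_neg e2, swap_apply_of_ne_of_ne e1 e2, one_smul]
      exact h5 _ ⟨v_mem_perp (by simpa using Ne.symm e1), v_mem_perp (by simpa using Ne.symm e2)⟩
  rw [(hg.mul hd).ext key (fun _ => rfl) fun _ => mul_one _]
  exact h6

theorem conj_ws {e f x : V} {c : F} (h : P.Hyp e f) (hx : x ∈ P.perp {e, f}) (hc : P.QEq x c)
    (h0 : c ≠ 0) (g : P.Iso) : g * ws P e f x c * g⁻¹ = ws P (g • e) (g • f) (g • x) c := by
  obtain ⟨h1, h2, h3⟩ := eOk_ws h hx hc h0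
  rw [ws, ws, ← act_smul, ← act_smul, ← h1.conj_eich, ← h2.conj_eich, ← h3.conj_eich]; group

theorem mono_all {Γ : Type*} [Group Γ] [MulAction Γ (Ix m)] (ι : Γ →* P.Iso) :
    ∃ K : Subgroup Γ, ∀ γ, γ ∈ K ↔ ∃ s, Mn Φ (ι γ) (fun a => γ • a) s := by
  refine ⟨{ carrier := {γ | ∃ s, Mn Φ (ι γ) (fun a => γ • a) s}
            one_mem' := ⟨_, by rw [map_one]; exact Mn.one.congr (by simp) fun _ => rfl⟩
            mul_mem' := ?_
            inv_mem' := ?_ }, fun _ => Iff.rfl⟩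
  · rintro a b ⟨s, hs⟩ ⟨t, ht⟩
    exact ⟨_, by rw [map_mul]; exact (hs.mul ht).congr (fun _ => (mul_smul _ _ _).symm) fun _ => rfl⟩
  · rintro γ ⟨s, hs⟩
    refine ⟨fun a => (s (γ⁻¹ • a))⁻¹, fun a => ?_, fun x hx => ?_⟩
    · rw [map_inv, inv_smul_eq_iff, act_smul, hs.1, smul_smul, inv_mul_cancel₀ (hs.ne _), one_smul]
      simp
    · rw [map_inv, inv_smul_eq_iff, hs.2 x hx]

theorem wE_smul_eq {B : Type} [CommGroup B] [SgnHom B] {b : B} (hb : SgnHom.χ b = -1)
    (i : Fin (m + 1)) (x : Ix m) : wE i b • x = if sup x = i then x.rev else x := by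
  split_ifs with h
  · rw [← h, wE_smul_of_eq, hb, neg_one_mul, ← mkI_rev, mkI_sup_sgn]
  · exact wE_smul_of_ne b h

theorem χ_one : SgnHom.χ (Multiplicative.ofAdd (1 : ℤ)) = -1 := SgnHom.χ_g0

theorem exists_iotaB [FiniteDimensional F V] (hP : P.ND) (Φ : Frame P m sh) {c : F} (hc : c ∈ π.Λ)
    (h0 : c ≠ 0) : ∃ ι : Wr (Multiplicative ℤ) (m + 1) →* P.Iso, GD Φ ι ∧
      (∀ σ a, σ (sup a) = sup a → ι (inr σ) • Φ.v a = Φ.v a) ∧
      ∀ i a, sup a ≠ i → ι (wZ i) • Φ.v a = Φ.v a := by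
  obtain ⟨pm, hpm⟩ := exists_pm hP Φ
  have hq : P.QEq (0 : V) c := (EOk.lam (Φ.sing 0) hc).val
  set w : Fin (m + 1) → P.Iso := fun i => ws P (Φ.v (mkI i 1)) (Φ.d (mkI i 1)) 0 c with hw
  have hd : ∀ i : Fin (m + 1), Φ.d (mkI i 1) = Φ.v (mkI i (-1)) := fun i => by
    rw [Frame.d, κ_pos, one_smul, mkI_rev]
  have cw : ∀ (g : P.Iso) i j, g • Φ.v (mkI i 1) = Φ.v (mkI j 1) →
      g • Φ.v (mkI i (-1)) = Φ.v (mkI j (-1)) → g * w i * g⁻¹ = w j := fun g i j e1 e2 => by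
    rw [hw, conj_ws (Φ.hyp _) (zero_mem _) hq h0, hd, e1, e2, smul_zero, ← hd]
  have hm : ∀ i, Mn Φ (w i) (fun x => if sup x = i then x.rev else x) fun x =>
      if sup x = i then (if sgn x = 1 then -(π.ε * (τ c)⁻¹) else -c) else 1 := fun i => by
    obtain ⟨h1, h2, h3⟩ := ws_act (Φ.hyp (mkI i 1)) (zero_mem _) hq h0
    refine ⟨fun x => ?_, fun x hx => by simpa using h3 x (Φ.V0_le _ hx)⟩
    by_cases e : sup x = i
    · simp only [if_pos e]
      rw [← mkI_sup_sgn x, e, sgn_mkI, mkI_rev]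
      rcases Int.units_eq_one_or (sgn x) with s | s <;> rw [s]
      · rw [if_pos rfl, ← hd]; exact h1
      · rw [if_neg (by decide), neg_neg, ← hd]; exact h2
    · simpa [e] using h3 _ (v_mem_perp (a := mkI i 1) (x := x) (by simpa using Ne.symm e))
  have fw : ∀ i a, sup a ≠ i → w i • Φ.v a = Φ.v a := fun i a h => by simpa [h] using (hm i).1 a
  obtain ⟨ι, h1, h2⟩ := exists_wr_lift pm (fun i => zpowersHom _ (w i))
    (fun i j h x y => Commute.zpow_zpow (mul_inv_eq_iff_eq_mul.1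
      (cw _ j j (fw _ _ (by simpa using h.symm)) (fw _ _ (by simpa using h.symm)))) _ _)
    fun σ i b => by
      rw [zpowersHom_apply, zpowersHom_apply, ← conj_zpow,
        cw _ i (σ i) (by simpa [pact] using (hpm σ).1 (mkI i 1))
          (by simpa [pact] using (hpm σ).1 (mkI i (-1)))]
  have h3 : ∀ i, ι (wZ i) = w i := fun i => by rw [h2]; simp
  refine ⟨ι, ⟨wr_smul_rev, fun γ => ?_, fun γ => ?_⟩, fun σ a h => ?_, fun i a h => h3 i ▸ fw i a h⟩
  · obtain ⟨K, hK⟩ := mono_all (Φ := Φ) ι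
    refine (hK γ).1 (mem_of_parts (inl_mem fun i => ?_) ((hK _).2 ⟨fun _ => 1, ?_⟩))
    · rw [wE_eq_zpow]
      exact zpow_mem ((hK _).2 ⟨_, by
        rw [h3]; exact (hm i).congr (fun x => (wE_smul_eq χ_one i x).symm) fun _ => rfl⟩) _
    · rw [h1]; exact (hpm _).congr (fun a => (inr_smul _ _).symm) fun _ => rfl
  · have h4 : ∀ i, w i ∈ P.EG := fun i => ws_mem _ _ _ _
    refine mem_of_parts (H := P.EG.comap ι) (inl_mem fun i => ?_) ?_
    · rw [wE_eq_zpow]; exact zpow_mem (by rw [mem_comap, h3]; exact h4 i) _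
    · rw [mem_comap, h1]
      refine (closure_le (K := P.EG.comap pm)).2 ?_ ((closure_isSwap (α := Fin (m + 1))) ▸ mem_top γ.right)
      rintro _ ⟨i, j, hij, rfl⟩
      have h5 := π.lam_max c hc
      have := swap_mem hij (hpm _) (((hm j).mul (hm j)).congr (fun x => by
        by_cases e : sup x = j <;> simp [e]) fun x => by
          by_cases e : sup x = j
          · have h6 : τ c = -(π.ε * c) := by linear_combination π.ε * h5 - τ c * π.eps_sq
            have := π.eps_ne_zero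
            rcases Int.units_eq_one_or (sgn x) with s | s <;> simp [e, s, h6] <;> field_simp
          · simp [e])
      exact (mul_mem_cancel_right (mul_mem (h4 j) (h4 j))).1 this
  · rw [h1, (hpm σ).1, one_smul, pact, h, mkI_sup_sgn]

theorem normalClosure_pD {n : ℕ} {u v w : Fin n} (huv : u ≠ v) (hwu : w ≠ u) (hwv : w ≠ v)
    (hn : 4 ≤ n) : normalClosure ({pD n ⟨c3 u v w, sign_c3 huv hwu⟩} : Set (WD n)) = ⊤ := by
  set N := normalClosure ({pD n ⟨c3 u v w, sign_c3 huv hwu⟩} : Set (WD n))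
  have h1 : ∀ σ, pD n σ ∈ N := fun σ => by
    have : (N.comap (pD n)).Normal := Subgroup.Normal.comap inferInstance _
    refine normalClosure_le_normal (N := N.comap (pD n)) ?_ (normalClosure_c3 huv hwu hwv ▸ mem_top σ)
    rintro _ rfl; exact subset_normalClosure rfl
  refine eq_top_iff.2 fun γ _ => memD_of_parts (k := u) (fun i _ => ?_) (h1 _)
  by_cases h : u = i
  · rw [← h, wD_self]; exact one_mem _
  obtain ⟨k, hk⟩ := exists_not_mem [u, i] (by simp; omega)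
  simp only [List.mem_cons, List.not_mem_nil, or_false, not_or] at hk
  obtain ⟨σ, s1, s2, s3⟩ := exists_even2 (by simpa) hk.1 hk.2
  have e := conj_wD (pD n ⟨σ, s1⟩) k u
  change _ = wD (σ k) (σ u) at e
  rw [s2, s3] at e
  have : wD u i = wD u k * pD n ⟨σ, s1⟩ * (wD u k)⁻¹ * (pD n ⟨σ, s1⟩)⁻¹ := by
    rw [← wD_mul u k i, ← e, inv_eq_of_mul_eq_one_right (a := wD u k) (b := wD k u)
      (by rw [wD_mul, wD_self])]; group
  rw [this]
  exact mul_mem ((normalClosure_normal).conj_mem _ (h1 _) _) (inv_mem (h1 _))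

theorem exists_iotaD [FiniteDimensional F V] (hP : P.ND) (Φ : Frame P m sh) (hε : π.ε = 1)
    (hm : 3 ≤ m) : ∃ ι : WD (m + 1) →* P.Iso, GD Φ ι ∧ ∀ γ a, ι γ • Φ.v a = Φ.v (γ • a) := by
  obtain ⟨pm, hpm⟩ := exists_pm hP Φ
  have hκ : ∀ a, Φ.κ a = 1 := fun a => by unfold Frame.κ; split_ifs; exacts [rfl, hε]
  have key : ∀ γ : Wr ℤˣ (m + 1), ∃ g, Mn Φ g (fun a => γ • a) fun _ => 1 := fun γ =>
    exists_mono hP _ (MulAction.injective γ) (wr_smul_rev γ) _ fun a => by simp [hκ]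
  choose g hg using key
  let ι : Wr ℤˣ (m + 1) →* P.Iso := MonoidHom.mk' g fun σ ρ => (hg _).ext ((hg σ).mul (hg ρ))
    (fun a => mul_smul _ _ _) fun a => by simp
  refine ⟨ι.comp (WD _).subtype, ⟨fun γ => wr_smul_rev γ.1, fun γ => ⟨_, hg γ.1⟩, fun γ => ?_⟩,
    fun γ a => ((hg γ.1).1 a).trans (one_smul _ _)⟩
  have h01 : (⟨0, by omega⟩ : Fin (m + 1)) ≠ ⟨1, by omega⟩ := by simp
  have h20 : (⟨2, by omega⟩ : Fin (m + 1)) ≠ ⟨0, by omega⟩ := by simp
  have h21 : (⟨2, by omega⟩ : Fin (m + 1)) ≠ ⟨1, by omega⟩ := by simp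
  have : (P.EG.comap (ι.comp (WD _).subtype)).Normal := Subgroup.Normal.comap inferInstance _
  refine normalClosure_le_normal (N := P.EG.comap (ι.comp (WD _).subtype)) ?_
    (normalClosure_pD h01 h20 h21 (by omega) ▸ mem_top γ)
  rintro _ rfl
  obtain ⟨d, hd⟩ := exists_mono (Φ := Φ) hP (fun a => a) (fun _ _ e => e) (fun _ => rfl)
    (fun x => if sup x = ⟨0, by omega⟩ then -1 else 1) fun a => by
      simp only [sup_rev]; split_ifs <;> simp
  have k : ∀ σ, Mn Φ (g (inr σ)) (pact σ) fun _ => 1 := fun σ =>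
    (hg _).congr (fun a => inr_smul _ _) fun _ => rfl
  have e1 := swap_mem h01.symm (k _) hd
  have e2 := swap_mem h20 (k _) hd
  rw [swap_comm] at e1 e2
  have e3 : d * d = 1 := (hd.mul hd).ext Mn.one (fun _ => rfl) fun a => by split_ifs <;> simp
  change ι (inr (Equiv.swap _ _ * Equiv.swap _ _)) ∈ P.EG
  rw [map_mul, map_mul]
  have := mul_mem e1 ((EG_normal (P := P)).conj_mem _ e2 d)
  rwa [mul_assoc, ← mul_assoc d, ← mul_assoc d, e3, one_mul, mul_inv_cancel_right] at this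

end Cfsg.Agent.CP
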