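import Cfsg.Agent.CP.Tor
import Cfsg.Agent.Pres.AddSq

/-! The long root groups in a cover. -/

set_option autoImplicit false
set_option linter.unusedSectionVars false
set_option linter.unusedVariables false

namespace Cfsg.Agent.CP

open Subgroup Cfsg.Agent.RGD Cfsg.Agent.RG Cfsg.Agent.Polar Cfsg.Agent.Polar.PQ Cfsg.Agent.Cl
open Cfsg.Agent.Pres hiding rt
open scoped commutatorElement

variable {m : ℕ} {Γ : Type*} [Group Γ] [MulAction Γ (Ix m)] {G : Type*} [Group G] {a0 b0 : Ix m}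
variable {F : Type*} [Field F] {τ : F →+* F} {π : FP F τ}
variable {V : Type*} [AddCommGroup V] [Module F V] {P : PQ π V}
variable {sh : Bool} {Φ : Frame P m sh} {ι : Γ →* P.Iso} {ζ : F}

/-- transported subgroups -/
def Pair.LL (p : Pair Γ a0 b0) (ρ : Γ → G) (A : Subgroup G) (a b : Ix m) : Subgroup G :=
  cj (ρ (p.c a b)) A

theorem Pair.map_LL (p : Pair Γ a0 b0) {G' : Type*} [Group G'] (φ : G →* G') (ρ : Γ → G)
    (A : Subgroup G) (a b : Ix m) :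
    (p.LL ρ A a b).map φ = p.LL (fun γ => φ (ρ γ)) (A.map φ) a b := map_cj _ _ _

variable (Φ) in
/-- lifts of the long root groups -/
structure LLift (θ : G →* P.Iso) (ρ : Γ →* G) (k : Ix m → Ix m → G)
    (L : Ix m → Ix m → Subgroup G) : Prop where
  symm : ∀ {a b}, sup a ≠ sup b → L b a = L a b
  mapL : ∀ {a b}, sup a ≠ sup b → (L a b).map θ = XL Φ a b
  kerL : ∀ {a b}, sup a ≠ sup b → L a b ⊓ θ.ker = ⊥
  cjL : ∀ γ {a b}, sup a ≠ sup b → cj (ρ γ) (L a b) = L (γ • a) (γ • b)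
  kL : ∀ {x y a b}, sup x ≠ sup y → sup a ≠ sup b → k x y ∈ normalizer (L a b : Set G)

theorem cj_inf_ker {H : Type*} [Group H] {θ : G →* H} {A : Subgroup G} (h : A ⊓ θ.ker = ⊥) (g : G) :
    cj g A ⊓ θ.ker = ⊥ := by rw [← cj_ker θ g, ← cj_inf, h, cj_eq_bot]

theorem norm_cj {A : Subgroup G} {g t : G} (h : g⁻¹ * t * g ∈ normalizer (A : Set G)) :
    t ∈ normalizer (cj g A : Set G) := by
  rw [mem_normalizer_iff_cj] at h ⊢
  rw [← cj_mul, show t * g = g * (g⁻¹ * t * g) by group, cj_mul, h]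

variable {ρ : Γ →* G} {q : ℕ} {k : Ix m → Ix m → G} {θ : G →* P.Iso}

theorem Eqv.norm_cj (E : Eqv ρ q k) (p : Pair Γ a0 b0) {A : Subgroup G}
    (h : ∀ {x y}, sup x ≠ sup y → k x y ∈ normalizer (A : Set G)) (γ : Γ) {x y : Ix m}
    (hxy : sup x ≠ sup y) : k x y ∈ normalizer (cj (ρ γ) A : Set G) := by
  refine CP.norm_cj ?_
  have := E.conj γ⁻¹ hxy
  rw [map_inv, inv_inv] at this
  exact this ▸ h (p.smul_ne _ hxy)

theorem Pair.norm_stab (p : Pair Γ a0 b0) {A : Subgroup G}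
    (hA : ∀ σ ∈ p.l, ρ σ ∈ normalizer (A : Set G)) {σ : Γ}
    (h : σ • a0 = a0 ∧ σ • b0 = b0 ∨ σ • a0 = b0 ∧ σ • b0 = a0) : ρ σ ∈ normalizer (A : Set G) :=
  (closure_le (K := (normalizer (A : Set G)).comap ρ)).2 hA (p.hl' σ h)

theorem Pair.llift (p : Pair Γ a0 b0) (D : GD Φ ι) (hθ : ∀ γ, θ (ρ γ) = ι γ) (T : TorR ρ q k)
    {A : Subgroup G} (hA : ∀ σ ∈ p.l, ρ σ ∈ normalizer (A : Set G))
    (hk : ∀ x, sup x ≠ sup b0 → k x b0 ∈ normalizer (A : Set G)) (h1 : A.map θ = XL Φ a0 b0)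
    (h2 : A ⊓ θ.ker = ⊥) : LLift Φ θ ρ k (p.LL ρ A) := by
  have s := fun σ hσ => mem_normalizer_iff_cj.1 (p.norm_stab hA (σ := σ) hσ)
  refine ⟨fun {a b} h => ?_, fun {a b} h => ?_, fun _ => cj_inf_ker h2 _, fun γ a b h => ?_,
    fun h _ => T.norm_cj p (T.gen hk) _ h⟩
  · rw [LL, LL]
    conv_rhs => rw [← s ((p.c a b)⁻¹ * p.c b a) (Or.inr (by
      simp only [mul_smul, inv_smul_eq_iff, p.hc1 h, p.hc2 h, p.hc1 h.symm, p.hc2 h.symm, and_self]))]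
    rw [← cj_mul, ← map_mul, mul_inv_cancel_left]
  · rw [p.map_LL, h1, LL, hθ, D.cj_XL _ p.ne, p.hc1 h, p.hc2 h]
  · rw [LL, LL]
    conv_rhs => rw [← s _ (Or.inl (p.stab γ h))]
    rw [← cj_mul, ← cj_mul, ← map_mul, ← map_mul, mul_assoc, mul_inv_cancel_left]

theorem TorR.norm3 (T : TorR ρ q k) (p : Pair Γ a0 b0) {c0 : Ix m} (t : Tr3 Γ a0 b0 c0)
    {B : Subgroup G} (hB : ∀ σ : Γ, σ • a0 = a0 ∧ σ • b0 = b0 ∨ σ • a0 = b0 ∧ σ • b0 = a0 → ρ σ ∈ B)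
    (h1 : k a0 b0 ∈ B) (h2 : k c0 b0 ∈ B) (x : Ix m) (hx : sup x ≠ sup b0) : k x b0 ∈ B := by
  have k1 : ∀ {x y}, sup x ≠ sup y → k x y ∈ B → ∀ σ, ρ σ ∈ B → k (σ • x) (σ • y) ∈ B :=
    fun h e σ hσ => T.conj σ h ▸ mul_mem (mul_mem hσ e) (inv_mem hσ)
  have k2 : ∀ {c}, D3 a0 b0 c → k c b0 ∈ B := fun {c} d => by
    rcases t.p3 d with ⟨γ, e1, e2, e3⟩ | ⟨γ, e1, e2, e3⟩
    · simpa only [e2, e3] using k1 t.d.bc.symm h2 γ (hB γ (Or.inl ⟨e1, e2⟩))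
    · have := k1 t.d.bc.symm h2 γ (hB γ (Or.inr ⟨e1, e2⟩))
      rw [e2, e3, ← inv_mem_iff, ← T.inv d.r3.ac.symm, Fin.rev_rev] at this
      have e := T.t1 d.s13.s23.r2
      rw [Fin.rev_rev, T.sw d.r1.ac] at e
      exact e ▸ mul_mem (pow_mem this _) h1
  by_cases e : sup x = sup a0
  · rcases sup_eq_iff.1 e with rfl | rfl
    · exact h1
    rw [← T.t1 t.d.r1.s23]
    refine mul_mem ?_ (k2 t.d.r3)
    have e1 := T.inv t.d.r3.ac.symm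
    rw [Fin.rev_rev] at e1
    rw [e1, inv_mem_iff]
    obtain ⟨γ, h3, h4, -⟩ := p.sw2
    have h5 := (p.hl γ h3).resolve_left fun e => ne_of_sup p.ne (e.1.symm.trans h4)
    have d : D3 a0 b0 (γ⁻¹ • c0.rev) := by
      refine ⟨p.ne, ?_, ?_⟩
      · have := p.smul_ne γ⁻¹ t.d.r3.bc
        rwa [← h5.1, inv_smul_smul] at this
      · have := p.smul_ne γ⁻¹ t.d.r3.ac
        rwa [← h5.2, inv_smul_smul] at this
    simpa only [smul_inv_smul, h5.2] using k1 d.bc.symm (k2 d) γ (hB γ (Or.inr h5))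
  · exact k2 ⟨p.ne, Ne.symm e, hx.symm⟩

theorem isAdd_xl (hζ : ζ ≠ 0) {a b x y : Ix m} (h : sup a ≠ sup b) (h' : sup x ≠ sup y) {c : F}
    (hc : τ (wt τ ζ x y a) * wt τ ζ x y b = c) : IsAdd (xl Φ a b) (k0 Φ ζ x y) (xl Φ a b 1) c :=
  ⟨xl_add h, rfl, fun t => by rw [k0_xl hζ h' h, hc]⟩

theorem isAdd_h (hζ : ζ ≠ 0) {a b : Ix m} (h : sup a ≠ sup b) :
    IsAdd (xl Φ a b) (k0 Φ ζ a b) (xl Φ a b 1) (ζ ^ 2) :=
  isAdd_xl hζ h h (by rw [wt_left h, wt_right h, π.tau_tau, sq])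

theorem AG_xl (hζ : ζ ≠ 0) (hs : Spans (ζ ^ 2)) {a b : Ix m} (h : sup a ≠ sup b) :
    AG (k0 Φ ζ a b) (xl Φ a b 1) = XL Φ a b := by
  ext y; rw [(isAdd_h hζ h).mem_AG hs, mem_XL h]; simp only [eq_comm]

theorem IsAdd.of_commute {K : Type*} [Field K] {φ : K → G} {g h u : G} {c d : K}
    (H : IsAdd φ g u c) (hc : Spans c) (h1 : Commute g h) (h2 : h * u * h⁻¹ = φ d) :
    IsAdd φ h u d := by
  refine ⟨H.add, H.one, fun a => ?_⟩
  refine IsAdd.unique (φ := fun a => h * φ a * h⁻¹) (ψ := fun a => φ (d * a)) (g := g)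
    (u := φ d) ⟨fun a b => ?_, ?_, fun a => ?_⟩ ⟨fun a b => ?_, ?_, fun a => ?_⟩ hc a
  · rw [H.add, conj_mul]
  · rw [H.one, h2]
  · rw [← H.conj, ← mul_assoc, ← mul_assoc, h1.eq, mul_assoc _ h⁻¹, h1.symm.inv_inv.eq]; group
  · rw [mul_add, H.add]
  · rw [mul_one]
  · rw [H.conj, mul_left_comm]

variable [Fintype F] {X : Type} {f : X → P.Iso} {W : Γ → FreeGroup X} {hW uW : FreeGroup X}

theorem cost_long (p : Pair Γ a0 b0) (D : GD Φ ι) {ζ : Fˣ} (hζ : orderOf ζ = Fintype.card F - 1)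
    (e1 : ∀ γ, FreeGroup.lift f (W γ) = ι γ) (e2 : FreeGroup.lift f hW = k0 Φ ζ a0 b0)
    (e3 : FreeGroup.lift f uW = xl Φ a0 b0 1) (ht : m = 1 ∨ ∃ c0, Tr3 Γ a0 b0 c0) :
    Cost f (p.l.length + (5 + if m = 1 then 1 else 0)) fun C => ∀ ρ : Γ →* C.G,
      (∀ γ, ρ γ = C.ev (W γ)) → TorR ρ q (p.tr ρ (C.ev hW)) → p.tr ρ (C.ev hW) a0 b0 = C.ev hW →
      LLift Φ C.θ ρ (p.tr ρ (C.ev hW)) (p.LL ρ (AG (C.ev hW) (C.ev uW))) := by
  have hz := ζ.ne_zero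
  have hs := spans_sq hζ
  have hne := p.ne
  have eA : (AG hW uW).map (FreeGroup.lift f) = XL Φ a0 b0 := by
    rw [map_AG, e2, e3, AG_xl hz hs hne]
  have kk := fun {a b} => p.lift_tr (a := a) (b := b) D hz e1 e2
  have c1 := cost_list (f := f) p.l (P := fun σ C => C.ev (W σ) * C.ev uW * (C.ev (W σ))⁻¹ ∈
      AG (C.ev hW) (C.ev uW)) fun σ hσ => by
    refine (cost_mem (W σ * uW * (W σ)⁻¹) (AG hW uW) ?_).imp
      fun C hC => by simpa [map_AG] using hC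
    rw [eA, map_mul, map_mul, map_inv, e1, e3]
    have := D.cj_XL σ hne ▸ conj_mem_cj (m := ι σ) (xl_mem (Φ := Φ) a0 b0 1)
    rcases p.hl σ hσ with ⟨h1, h2⟩ | ⟨h1, h2⟩ <;> rw [h1, h2] at this
    exacts [this, XL_symm (Φ := Φ) a0 b0 ▸ this]
  have c2 : Cost f (5 + if m = 1 then 1 else 0) fun C => ∀ ρ : Γ →* C.G,
      (∀ γ, ρ γ = C.ev (W γ)) → TorR ρ q (p.tr ρ (C.ev hW)) → p.tr ρ (C.ev hW) a0 b0 = C.ev hW →
      ∃ φ, IsAdd φ (C.ev hW) (C.ev uW) ((ζ : F) ^ 2) ∧ ((∀ σ : Γ, σ • a0 = a0 ∧ σ • b0 = b0 ∨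
        σ • a0 = b0 ∧ σ • b0 = a0 → ρ σ ∈ normalizer (AG (C.ev hW) (C.ev uW) : Set C.G)) →
        ∀ x, sup x ≠ sup b0 →
          p.tr ρ (C.ev hW) x b0 ∈ normalizer (AG (C.ev hW) (C.ev uW) : Set C.G)) := by
    by_cases hm : m = 1
    · rw [if_pos hm]
      have h' : sup a0.rev ≠ sup b0 := by simpa
      refine ((cost_add_sq hζ (x := xl Φ a0 b0) (g := hW) (u := uW) (e2 ▸ e3 ▸ isAdd_h hz hne)).and
        (cost_mem (p.tr W hW a0.rev b0 * uW * (p.tr W hW a0.rev b0)⁻¹) (AG hW uW) ?_)).imp ?_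
      · rw [eA, map_mul, map_mul, map_inv, kk h', e3, k0_xl hz h' hne]; exact xl_mem _ _ _
      · rintro C ⟨⟨φ, h1⟩, h2⟩ ρ hρ T e
        simp only [map_mul, map_inv, p.map_tr, ← hρ, map_AG] at h2
        have := h1.finite hs
        refine ⟨φ, h1, fun _ x hx => ?_⟩
        rcases sup_cases hm hne hx with rfl | rfl
        · rw [e]; exact self_norm_AG
        · exact norm_AG_of_commute (by simpa only [e] using T.comm h' hne) h2
    · rw [if_neg hm]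
      obtain ⟨c0, t⟩ := ht.resolve_left hm
      have h' := t.d.bc.symm
      have a1 : IsAdd (xl Φ a0 b0) (k0 Φ ζ c0 b0) (xl Φ a0 b0 1) (ζ : F) :=
        isAdd_xl hz hne h' (by rw [wt_right h', wt_ne t.d.ac.symm hne.symm, map_one, one_mul])
      refine ((cost_add hζ (x := xl Φ a0 b0) (g := p.tr W hW c0 b0) (u := uW)
        (kk h' ▸ e3 ▸ a1)).and (cost_eq (hW * uW * hW⁻¹)
          (p.tr W hW c0 b0 ^ 2 * uW * (p.tr W hW c0 b0 ^ 2)⁻¹) ?_)).imp ?_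
      · simp only [map_mul, map_inv, map_pow, kk h', e2, e3, a1.conj_pow, (isAdd_h hz hne).conj]
      · rintro C ⟨⟨φ, h1⟩, h2⟩ ρ hρ T e
        simp only [map_mul, map_inv, map_pow, p.map_tr, ← hρ] at h1 h2
        have h3 : Commute (p.tr ρ (C.ev hW) c0 b0) (C.ev hW) := by
          simpa only [e] using T.comm h' hne
        have h4 := IsAdd.of_commute h1 (spans_prim hζ) h3 (d := (ζ : F) ^ 2) (by
          rw [h2, ← h1.one, h1.conj_pow, mul_one])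
        have := h4.finite hs
        refine ⟨φ, h4, fun hB => T.norm3 p t hB (by rw [e]; exact self_norm_AG)
          (norm_AG_of_commute h3 ?_)⟩
        rw [h4.mem_AG hs, ← h1.one, h1.conj]; exact ⟨_, rfl⟩
  refine (c1.and c2).imp ?_
  rintro C ⟨h1, h2⟩ ρ hρ T e
  obtain ⟨φ, h3, h4⟩ := h2 ρ hρ T e
  have := h3.finite hs
  have hA : ∀ σ ∈ p.l, ρ σ ∈ normalizer (AG (C.ev hW) (C.ev uW) : Set C.G) := fun σ hσ => by
    refine norm_AG ?_ (hρ σ ▸ h1 σ hσ)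
    have := T.conj σ hne
    rw [e] at this
    rcases p.hl σ hσ with ⟨h5, h6⟩ | ⟨h5, h6⟩ <;> rw [this, h5, h6]
    · rw [e]; exact self_norm_AG
    · rw [T.sw hne, e]; exact pow_mem self_norm_AG _
  refine p.llift D (fun γ => by rw [hρ, C.comp, e1]) T hA (h4 fun σ => p.norm_stab hA) ?_
    (h3.inf_ker hs (x := xl Φ a0 b0) ?_ fun a => xl_eq_one hne)
  · rw [map_AG, C.comp, C.comp, e2, e3, AG_xl hz hs hne]
  · rw [C.comp, C.comp, e2, e3]; exact isAdd_h hz hne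

end Cfsg.Agent.CP
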