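import Cfsg.Agent.CP.CR

/-! Assembling the presentation. -/

set_option autoImplicit false
set_option linter.unusedSectionVars false
set_option linter.unusedVariables false

namespace Cfsg.Agent.CP

open Subgroup Cfsg.Agent.RGD Cfsg.Agent.RG Cfsg.Agent.Polar Cfsg.Agent.Polar.PQ Cfsg.Agent.Cl
open Cfsg.Agent.Pres hiding rt
open Cfsg.Agent.SymAlt
open scoped commutatorElement

variable {m : ℕ} {Γ : Type*} [Group Γ] [MulAction Γ (Ix m)] {G : Type*} [Group G] {a0 b0 : Ix m}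
variable {F : Type*} [Field F] {τ : F →+* F} {π : FP F τ}
variable {V : Type*} [AddCommGroup V] [Module F V] {P : PQ π V}
variable {sh : Bool} {Φ : Frame P m sh} {ι : Γ →* P.Iso} {ζ : F}

/-- the group generated by the root groups -/
def NN (L : Ix m → Ix m → Subgroup G) (S : Ix m → Subgroup G) : Subgroup G :=
  (⨆ (a) (b) (_ : sup a ≠ sup b), L a b) ⊔ ⨆ a, S a

theorem L_le_NN {L : Ix m → Ix m → Subgroup G} {S : Ix m → Subgroup G} {a b : Ix m}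
    (h : sup a ≠ sup b) : L a b ≤ NN L S :=
  le_sup_of_le_left (le_iSup₂_of_le a b (le_iSup_of_le h le_rfl))

theorem S_le_NN {L : Ix m → Ix m → Subgroup G} {S : Ix m → Subgroup G} (a : Ix m) : S a ≤ NN L S :=
  le_sup_of_le_right (le_iSup S a)

theorem NN_le {L : Ix m → Ix m → Subgroup G} {S : Ix m → Subgroup G} {B : Subgroup G}
    (h1 : ∀ {a b}, sup a ≠ sup b → L a b ≤ B) (h2 : ∀ a, S a ≤ B) : NN L S ≤ B :=
  sup_le (iSup₂_le fun _ _ => iSup_le h1) (iSup_le h2)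

theorem map_NN {G' : Type*} [Group G'] (φ : G →* G') (L : Ix m → Ix m → Subgroup G)
    (S : Ix m → Subgroup G) :
    (NN L S).map φ = NN (fun a b => (L a b).map φ) fun a => (S a).map φ := by
  simp only [NN, Subgroup.map_sup, Subgroup.map_iSup]

theorem cj_NN_le {L : Ix m → Ix m → Subgroup G} {S : Ix m → Subgroup G} {g : G}
    (h1 : ∀ {a b}, sup a ≠ sup b → cj g (L a b) ≤ NN L S) (h2 : ∀ a, cj g (S a) ≤ NN L S) :
    cj g (NN L S) ≤ NN L S := by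
  rw [cj, map_NN]; exact NN_le h1 h2

theorem EG_le_NN (hP : P.ND) : P.EG ≤ NN (XL Φ) (XS Φ) := by
  rw [← Φ.US_X0 hP]
  refine US_le (rt_ind fun a b h h' _ => ?_)
  by_cases e : a = b
  · subst e; rw [Φ.X0_short]; exact S_le_NN (S := XS Φ) a
  · rw [Φ.X0_long e]; exact L_le_NN (L := XL Φ) (sup_ne_of e h)

theorem exists_ne_sup (hm : 1 ≤ m) (a : Ix m) : ∃ b, sup a ≠ sup b := by
  obtain ⟨i, hi⟩ := exists_not_mem [sup a] (by simp; omega)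
  exact ⟨mkI i 1, by simpa [eq_comm] using hi⟩

theorem Pair.one_le (p : Pair Γ a0 b0) : 1 ≤ m := by
  have := p.ne; have := (sup a0).2; have := (sup b0).2
  simp only [Ne, Fin.ext_iff] at *; omega

theorem Pair.trans1 (p : Pair Γ a0 b0) (a b : Ix m) : ∃ γ : Γ, γ • a = b := by
  obtain ⟨a', h⟩ := exists_ne_sup p.one_le a
  obtain ⟨b', h'⟩ := exists_ne_sup p.one_le b
  exact ⟨p.c b b' * (p.c a a')⁻¹, by
    rw [mul_smul, (inv_smul_eq_iff.2 (p.hc1 h).symm : _ • a = a0), p.hc1 h']⟩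

namespace Lift

variable {q : ℕ} {θ : G →* P.Iso} {ρ : Γ →* G} {k : Ix m → Ix m → G}
  {L : Ix m → Ix m → Subgroup G} {S : Ix m → Subgroup G} (l : Lift Φ ι ζ q θ ρ k L S)
include l

theorem usys [FiniteDimensional F V] (hP : P.ND) (hr : P.Rich) (C : Core Φ θ L S) (D : GD Φ ι)
    (p : Pair Γ a0 b0) (h2 : sh = false → 2 ≤ m) (ht : NN L S = ⊤) :
    ∃ σ : USys P G, σ.θ = θ ∧ US (Φ.X σ) Set.univ = ⊤ := by
  have hm : sh = false → 1 ≤ m := fun _ => p.one_le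
  refine exists_usys (hm := hm) hP hr C.isOver
    (C.isOver.good (C.commRel hm) (Φ.good0 hm) (genHyp Φ hm p.one_le h2)).toIsRGD
    (eq_top_iff.2 (ht.ge.trans (NN_le (fun h => C.L_le h trivial) fun a => C.S_le fun _ => trivial)))
    fun j => ?_
  obtain ⟨γ, rfl⟩ := p.trans1 0 j
  obtain ⟨s, hs⟩ := D.mono γ
  refine ⟨ρ γ, s 0, hs.ne 0, by rw [l.θρ, hs.1], US_le fun r hr => ?_⟩
  obtain ⟨b, hb⟩ := Sym2.mem_iff_exists.1 hr
  obtain ⟨b, rfl⟩ := MulAction.surjective γ b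
  obtain ⟨r, hr'⟩ := r
  subst hb
  change fam sh L S (rt _ _ hr'.1 hr'.2) ≤ _
  by_cases e : 0 = b
  · subst e
    rw [Core.fam_S, ← l.cjS]
    exact cj_mono _ (C.S_le fun _ => rt_mem_Rs _ _ _ _)
  · have h : sup 0 ≠ sup b := sup_ne_of e fun e' => hr'.1 (e' ▸ D.rev γ 0)
    rw [C.fam_L (ne_of_sup (D.ne γ h)), ← l.cjL γ h]
    exact cj_mono _ (C.L_le h (rt_mem_Rs _ _ _ _))

theorem ρ_mem (p : Pair Γ a0 b0) {s : Set Γ} (hn : normalClosure s = ⊤)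
    (hs : ∀ γ ∈ s, ρ γ ∈ NN L S) (γ : Γ) : ρ γ ∈ NN L S := by
  have k : ∀ γ, cj (ρ γ) (NN L S) ≤ NN L S := fun γ =>
    cj_NN_le (fun h => l.cjL γ h ▸ L_le_NN (p.smul_ne γ h)) fun a => l.cjS γ a ▸ S_le_NN _
  exact mem_of_normalClosure (fun γ => cj_eq_of_le (k γ) (map_inv ρ γ ▸ k γ⁻¹)) hs hn γ

theorem k_mem (p : Pair Γ a0 b0) (hm : 2 ≤ m) (h : ∀ γ, ρ γ ∈ NN L S) : k a0 b0 ∈ NN L S := by
  have k0 : ∀ t ∈ TT k, cj t (NN L S) ≤ NN L S := fun t ht =>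
    cj_NN_le (fun h => (mem_normalizer_iff_cj.1 (l.TL h ht)).symm ▸ L_le_NN h)
      fun a => (mem_normalizer_iff_cj.1 (l.TS a ht)).symm ▸ S_le_NN _
  have k1 : ∀ {a b}, sup a ≠ sup b → (k a0 b0)⁻¹ * k a b ∈ NN L S := fun {a b} e => by
    have := l.conj (p.c a b) p.ne
    rw [p.hc1 e, p.hc2 e] at this
    rw [← this, ← mul_assoc, ← mul_assoc]
    exact mul_mem (by simpa using cj_le_iff.1 (k0 _ (inv_mem (mem_TT p.ne))) _ (h _))
      (inv_mem (h _))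
  obtain ⟨c, d⟩ := exists_D3 hm p.ne
  have e := mul_mem (k1 d.ac) (inv_mem (k1 d.r2.bc))
  rw [← l.t1 d] at e
  simpa using e

end Lift

variable [Fintype F] [FiniteDimensional F V] {X : Type} {f : X → P.Iso}

theorem cost_main (hP : P.ND) (hr : P.Rich) (h2 : sh = false → 2 ≤ m) (p : Pair Γ a0 b0)
    (D : GD Φ ι) (ht : m = 1 ∨ ∃ c0, Tr3 Γ a0 b0 c0) {ζ : Fˣ}
    (hζ : orderOf ζ = Fintype.card F - 1) {q : ℕ} (hq : ∀ x, τ x = x ^ q) {Y : Type*} {g : Y → Γ}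
    {r0 : ℕ} (hg : HasRels g r0) (htop : closure (Set.range g) = ⊤) (lN : List Γ)
    (hN : normalClosure {γ | γ ∈ lN} = ⊤) (j : Y → FreeGroup X)
    (hj : ∀ y, FreeGroup.lift f (j y) = ι (g y)) {hW uW : FreeGroup X}
    (e2 : FreeGroup.lift f hW = k0 Φ ζ a0 b0) (e3 : FreeGroup.lift f uW = xl Φ a0 b0 1) {rS rC : ℕ}
    (hS : ∀ W : Γ → FreeGroup X, (∀ γ, FreeGroup.lift f (W γ) = ι γ) →
      ∃ SW : Ix m → Subgroup (FreeGroup X), (∀ a, (SW a).map (FreeGroup.lift f) = XS Φ a) ∧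
      Cost f rS fun C => ∀ ρ : Γ →* C.G, (∀ γ, ρ γ = C.ev (W γ)) → TorR ρ q (p.tr ρ (C.ev hW)) →
        SLift Φ C.θ ρ (p.tr ρ (C.ev hW)) (fun a => (SW a).map C.ev) ∧
        ∀ x, FreeGroup.of x ∈ Set.range j ∨ FreeGroup.of x = hW ∨ FreeGroup.of x = uW ∨
          ∃ a, C.ev (FreeGroup.of x) ∈ (SW a).map C.ev)
    (hC : ∀ s : Setup Φ f, Cost f rC fun C => ∀ ρ, s.Lf ι ζ q C ρ → Core Φ C.θ (s.LC C) (s.SC C)) :
    Cost f (r0 + 2 * p.l.length + lN.length + 7 + (if m = 1 then 2 else 0) + rS + rC)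
      fun C => ∃ σ : USys P C.G, σ.θ = C.θ ∧ US (Φ.X σ) Set.univ = ⊤ := by
  have hz := ζ.ne_zero
  obtain ⟨W, e1, c0⟩ := cost_hom hg htop ι j hj
  obtain ⟨SW, hSW, c3⟩ := hS W e1
  let s : Setup Φ f :=
    { k := p.tr W hW
      L := p.LL W (AG hW uW)
      S := SW
      mapL := fun {a b} h => by
        rw [p.map_LL, map_AG, e2, e3, AG_xl hz (spans_sq hζ) p.ne, Pair.LL, e1, D.cj_XL _ p.ne,
          p.hc1 h, p.hc2 h]
      mapS := hSW }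
  have hNN : ∀ w, FreeGroup.lift f w ∈ P.EG →
      Cost f 1 fun C => C.ev w ∈ NN (s.LC C) (s.SC C) := fun w hw =>
    (cost_mem w (NN s.L s.S) (by
      rw [map_NN]
      exact (NN_le (fun h => s.mapL h ▸ L_le_NN (L := fun a b => (s.L a b).map _) h)
        fun a => s.mapS a ▸ S_le_NN (S := fun a => (s.S a).map _) a : NN (XL Φ) (XS Φ) ≤ _)
        (EG_le_NN hP hw))).imp fun C hC => by rwa [map_NN] at hC
  have c5 := cost_list (f := f) lN fun γ _ => hNN (W γ) (e1 γ ▸ D.mem γ)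
  have c6 : Cost f (if m = 1 then 1 else 0) fun C => m = 1 → C.ev hW ∈ NN (s.LC C) (s.SC C) := by
    split_ifs with h
    · exact (hNN hW (e2 ▸ k0_mem _ _ _)).imp fun C hC _ => hC
    · exact cost_true fun C h' => absurd h' h
  refine ((((c0.and (cost_tor p D hz hq e1 e2 ht)).and (cost_long (q := q) p D hζ e1 e2 e3 ht)).and
    (c3.and (hC s))).and (c5.and c6)).mono (by split_ifs <;> omega) ?_
  rintro C ⟨⟨⟨⟨⟨ρ, hρ, hρg⟩, k1⟩, k2⟩, k3, k4⟩, k5, k6⟩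
  obtain ⟨T, e⟩ := k1 ρ hρ
  obtain ⟨k7, k8⟩ := k3 ρ hρ T
  have eρ : (fun γ => C.ev (W γ)) = ρ := (funext hρ).symm
  have ek : (fun a b => C.ev (s.k a b)) = p.tr ρ (C.ev hW) := by
    ext a b; rw [← eρ, ← p.map_tr]
  have eL : s.LC C = p.LL ρ (AG (C.ev hW) (C.ev uW)) := by
    ext1 a; ext1 b; rw [← eρ, ← map_AG, ← p.map_LL]
  have l : s.Lf ι ζ q C ρ := by
    rw [Setup.Lf, ek, eL]
    exact ⟨T, k2 ρ hρ T e, k7, fun h => by
      rw [← eρ, ← p.map_tr, C.comp, p.lift_tr D hz e1 e2 h], fun γ => by rw [hρ, C.comp, e1]⟩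
  have hρN := l.ρ_mem p hN fun γ h => hρ γ ▸ k5 γ h
  refine l.usys hP hr (k4 ρ l) D p h2 (C.top fun x => ?_)
  rcases k8 x with ⟨y, h⟩ | h | h | ⟨a, h⟩
  · rw [← h, ← hρg]; exact hρN _
  · rw [h]
    by_cases hm : m = 1
    · exact k6 hm
    · have := l.k_mem p (by have := p.one_le; omega) hρN
      rwa [congrFun (congrFun ek a0) b0, e] at this
  · have := L_le_NN (L := s.LC C) (S := s.SC C) p.ne
    rw [eL, Pair.LL, ← eL, cj_le_iff] at this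
    have e := mul_mem (mul_mem (inv_mem (hρN (p.c a0 b0))) (this _ (self_mem_AG _ _))) (hρN (p.c a0 b0))
    rw [h]; simpa [mul_assoc] using e
  · exact S_le_NN (L := s.LC C) (S := s.SC C) a h

theorem hS_one [Finite P.Iso] (o : One Γ a0 b0) (p : Pair Γ a0 b0) (D : GD Φ ι) (hζ : ζ ≠ 0) {q : ℕ}
    {Y : Type*} (j : Y → FreeGroup X) {hW uW vW : FreeGroup X}
    (e2 : FreeGroup.lift f hW = k0 Φ ζ a0 b0)
    (h0 : AG (k0 Φ ζ b0 a0) (FreeGroup.lift f vW) = XS Φ a0)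
    (ha : ∀ σ ∈ o.la, Commute (ι σ) (FreeGroup.lift f vW)) {r : ℕ}
    (hr : ∀ gW, FreeGroup.lift f gW = k0 Φ ζ b0 a0 →
      Cost f r fun C => AG (C.ev gW) (C.ev vW) ⊓ C.θ.ker = ⊥)
    (hX : ∀ x, FreeGroup.of x ∈ Set.range j ∨ FreeGroup.of x = hW ∨ FreeGroup.of x = uW ∨
      FreeGroup.of x = vW) (W : Γ → FreeGroup X) (e1 : ∀ γ, FreeGroup.lift f (W γ) = ι γ) :
    ∃ SW : Ix m → Subgroup (FreeGroup X), (∀ a, (SW a).map (FreeGroup.lift f) = XS Φ a) ∧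
      Cost f (o.la.length + o.lb.length + 1 + r) fun C => ∀ ρ : Γ →* C.G,
        (∀ γ, ρ γ = C.ev (W γ)) → TorR ρ q (p.tr ρ (C.ev hW)) →
        SLift Φ C.θ ρ (p.tr ρ (C.ev hW)) (fun a => (SW a).map C.ev) ∧
        ∀ x, FreeGroup.of x ∈ Set.range j ∨ FreeGroup.of x = hW ∨ FreeGroup.of x = uW ∨
          ∃ a, C.ev (FreeGroup.of x) ∈ (SW a).map C.ev := by
  have kk := p.lift_tr D hζ e1 e2 p.ne.symm
  refine ⟨o.SS W (AG (p.tr W hW b0 a0) vW), fun a => ?_,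
    (cost_short (q := q) o p D hζ e1 e2 h0 ha (hr _ kk)).imp fun C hC ρ hρ T => ?_⟩
  · rw [o.map_SS, map_AG, kk, h0, One.SS, e1, D.cj_XS, o.hc]
  have e : (fun a => (o.SS W (AG (p.tr W hW b0 a0) vW) a).map C.ev) =
      o.SS ρ (AG (p.tr ρ (C.ev hW) b0 a0) (C.ev vW)) := by
    ext1 a; rw [o.map_SS, map_AG, p.map_tr, ← funext hρ]
  have l := hC ρ hρ T
  refine ⟨e ▸ l, fun x => (hX x).imp_right (Or.imp_right (Or.imp_right fun h =>
    ⟨(o.c a0)⁻¹ • a0, ?_⟩))⟩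
  rw [congrFun e, ← l.cjS, One.SS, map_inv, cj_inv_cj, h]
  exact self_mem_AG _ _

theorem hS_bot (h : sh = false) (p : Pair Γ a0 b0) {q : ℕ} {Y : Type*} (j : Y → FreeGroup X)
    {hW uW : FreeGroup X}
    (hX : ∀ x, FreeGroup.of x ∈ Set.range j ∨ FreeGroup.of x = hW ∨ FreeGroup.of x = uW)
    (W : Γ → FreeGroup X) (e1 : ∀ γ, FreeGroup.lift f (W γ) = ι γ) :
    ∃ SW : Ix m → Subgroup (FreeGroup X), (∀ a, (SW a).map (FreeGroup.lift f) = XS Φ a) ∧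
      Cost f 0 fun C => ∀ ρ : Γ →* C.G,
        (∀ γ, ρ γ = C.ev (W γ)) → TorR ρ q (p.tr ρ (C.ev hW)) →
        SLift Φ C.θ ρ (p.tr ρ (C.ev hW)) (fun a => (SW a).map C.ev) ∧
        ∀ x, FreeGroup.of x ∈ Set.range j ∨ FreeGroup.of x = hW ∨ FreeGroup.of x = uW ∨
          ∃ a, C.ev (FreeGroup.of x) ∈ (SW a).map C.ev :=
  ⟨fun _ => ⊥, fun a => by rw [Subgroup.map_bot, XS_bot h], cost_true fun C ρ _ _ =>
    ⟨by simpa only [Subgroup.map_bot] using slift_bot h,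
      fun x => (hX x).imp_right (Or.imp_right Or.inl)⟩⟩

end Cfsg.Agent.CP
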