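import Cfsg.Agent.Pres.Wr
import Cfsg.Agent.Cl.Long
import Cfsg.Agent.Cl.RGD

/-! Monomial isometries with respect to a hyperbolic frame. -/

set_option autoImplicit false
set_option linter.unusedSectionVars false

namespace Cfsg.Agent.CP

open Subgroup Cfsg.Agent.RGD Cfsg.Agent.RG Cfsg.Agent.Polar Cfsg.Agent.Polar.PQ Cfsg.Agent.Cl
open Cfsg.Agent.Pres hiding rt
open scoped commutatorElement

variable {F : Type*} [Field F] {τ : F →+* F} {π : FP F τ}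
variable {V : Type*} [AddCommGroup V] [Module F V] {P : PQ π V}
variable {m : ℕ} {sh : Bool} (Φ : Frame P m sh)

/-- long root elements -/
noncomputable def xl (a b : Ix m) (t : F) : P.Iso := P.eich (Φ.v a) (t • Φ.v b) 0

/-- long root groups -/
def XL (a b : Ix m) : Subgroup P.Iso := Xl P (Φ.v a) (Φ.v b)

/-- short root groups -/
def XS (a : Ix m) : Subgroup P.Iso := UW P (Φ.v a) Φ.V0

/-- monomial isometries -/
def Mn (g : P.Iso) (σ : Ix m → Ix m) (s : Ix m → F) : Prop :=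
  (∀ a, g • Φ.v a = s a • Φ.v (σ a)) ∧ ∀ x ∈ Φ.V0, g • x = x

variable {Φ}

theorem okS {a b : Ix m} (h : sup a ≠ sup b) : P.EOk (Φ.v a) (Φ.v b) 0 := Φ.ok (ne_rev_of_sup h)

theorem okL {a b : Ix m} (h : sup a ≠ sup b) (t : F) : P.EOk (Φ.v a) (t • Φ.v b) 0 :=
  eOk_smul (okS h) t

theorem B_vv {a b : Ix m} (h : sup a ≠ sup b) : P.B (Φ.v a) (Φ.v b) = 0 :=
  Φ.orth _ _ (ne_rev_of_sup h)

theorem B_self (a : Ix m) : P.B (Φ.v a) (Φ.v a) = 0 := (Φ.sing a).B_self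

theorem B_rev' (a : Ix m) : P.B (Φ.v a.rev) (Φ.v a) = Φ.κ a.rev := by
  simpa using Φ.B_rev a.rev

theorem B_x_v {x : V} (hx : x ∈ Φ.V0) (a : Ix m) : P.B x (Φ.v a) = 0 := Φ.mem_V0.1 hx a

theorem B_v_x {x : V} (hx : x ∈ Φ.V0) (a : Ix m) : P.B (Φ.v a) x = 0 := B_swap_zero (B_x_v hx a)

theorem hyp2S {a b : Ix m} (h : sup a ≠ sup b) : Hyp2 P (Φ.v a) (Φ.d a) (Φ.v b) (Φ.d b) :=
  Φ.hyp2 (ne_rev_of_sup h) (ne_of_sup h)

theorem κ_sq (a : Ix m) : Φ.κ a * Φ.κ a = 1 := by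
  unfold Frame.κ; split_ifs
  exacts [one_mul _, π.eps_sq]

theorem τ_κ (a : Ix m) : τ (Φ.κ a) = Φ.κ a := by
  unfold Frame.κ; split_ifs
  exacts [map_one _, π.tau_eps]

theorem κ_rev (a : Ix m) : Φ.κ a.rev = π.ε * Φ.κ a := by
  rw [← B_rev', P.symm, Φ.B_rev, τ_κ]

theorem κ_of_sgn {a b : Ix m} (h : sgn a = sgn b) : Φ.κ a = Φ.κ b := by
  unfold Frame.κ
  rw [if_congr sgn_le.symm rfl rfl, if_congr sgn_le.symm rfl rfl, h]

theorem xl_add {a b : Ix m} (h : sup a ≠ sup b) (t u : F) :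
    xl Φ a b (t + u) = xl Φ a b t * xl Φ a b u := eich_long_add (okS h) t u

theorem xl_zero (a b : Ix m) : xl Φ a b 0 = 1 := by rw [xl, zero_smul, eich_zero]

theorem xl_neg {a b : Ix m} (h : sup a ≠ sup b) (t : F) : xl Φ a b (-t) = (xl Φ a b t)⁻¹ :=
  SL2Pres.phi_neg (xl_add h) t

theorem xl_eq_one {a b : Ix m} (h : sup a ≠ sup b) {t : F} (e : xl Φ a b t = 1) : t = 0 :=
  (hyp2S h).eich_eq_one e

theorem xl_swap {a b : Ix m} (h : sup a ≠ sup b) (t : F) :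
    xl Φ b a t = xl Φ a b (-(π.ε * τ t)) := eich_long_swap (okS h) t

theorem mem_XL {a b : Ix m} (h : sup a ≠ sup b) {g : P.Iso} :
    g ∈ XL Φ a b ↔ ∃ t, g = xl Φ a b t := mem_Xl (okS h)

theorem xl_mem (a b : Ix m) (t : F) : xl Φ a b t ∈ XL Φ a b := eich_mem_Xl _ _ _

theorem XL_symm (a b : Ix m) : XL Φ b a = XL Φ a b := Xl_swap' _ _

theorem XL_le {a b : Ix m} (h : sup a ≠ sup b) {A : Subgroup P.Iso} (hA : ∀ t, xl Φ a b t ∈ A) :
    XL Φ a b ≤ A := Xl_le (okS h) hA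

theorem mem_XS {a : Ix m} {g : P.Iso} :
    g ∈ XS Φ a ↔ ∃ x ∈ Φ.V0, ∃ c, P.QEq x c ∧ g = P.eich (Φ.v a) x c :=
  (mem_UW (Φ.sing a)).trans
    ⟨fun ⟨x, hx, c, h, e⟩ => ⟨x, hx, c, h.val, e⟩, fun ⟨x, hx, c, h, e⟩ => ⟨x, hx, c, Φ.eOk0 a hx h, e⟩⟩

theorem xs_mem (a : Ix m) {x : V} (hx : x ∈ Φ.V0) {c : F} (hc : P.QEq x c) :
    P.eich (Φ.v a) x c ∈ XS Φ a := mem_XS.2 ⟨x, hx, c, hc, rfl⟩

theorem XS_le {a : Ix m} {A : Subgroup P.Iso}
    (hA : ∀ x ∈ Φ.V0, ∀ c, P.QEq x c → P.eich (Φ.v a) x c ∈ A) : XS Φ a ≤ A := fun _ hg => by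
  obtain ⟨x, hx, c, h, rfl⟩ := mem_XS.1 hg; exact hA x hx c h

namespace Mn

variable {g g' : P.Iso} {σ σ' : Ix m → Ix m} {s s' : Ix m → F}

theorem ne (h : Mn Φ g σ s) (a : Ix m) : s a ≠ 0 := fun e =>
  act_ne_zero g (Φ.hyp a).left_ne_zero (by rw [h.1, e, zero_smul])

theorem congr (h : Mn Φ g σ s) (h1 : ∀ a, σ a = σ' a) (h2 : ∀ a, s a = s' a) : Mn Φ g σ' s' :=
  ⟨fun a => by rw [← h1, ← h2, h.1], h.2⟩

theorem mul (h : Mn Φ g σ s) (h' : Mn Φ g' σ' s') :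
    Mn Φ (g * g') (fun a => σ (σ' a)) fun a => s' a * s (σ' a) :=
  ⟨fun a => by rw [mul_smul, h'.1, act_smul, h.1, smul_smul],
    fun x hx => by rw [mul_smul, h'.2 x hx, h.2 x hx]⟩

theorem one : Mn Φ 1 (fun a => a) fun _ => 1 := ⟨fun a => by simp, fun x _ => by simp⟩

theorem ext (h : Mn Φ g σ s) (h' : Mn Φ g' σ' s') (h1 : ∀ a, σ a = σ' a) (h2 : ∀ a, s a = s' a) :
    g = g' :=
  Φ.iso_ext (fun a => by rw [h.1, h'.1, h1, h2]) fun x hx => by rw [h.2 x hx, h'.2 x hx]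

theorem inv (h : Mn Φ g (fun a => a) s) : Mn Φ g⁻¹ (fun a => a) fun a => (s a)⁻¹ :=
  ⟨fun a => by rw [inv_smul_eq_iff, act_smul, h.1, smul_smul, inv_mul_cancel₀ (h.ne a), one_smul],
    fun x hx => by rw [inv_smul_eq_iff, h.2 x hx]⟩

theorem pow (h : Mn Φ g (fun a => a) s) (n : ℕ) : Mn Φ (g ^ n) (fun a => a) fun a => s a ^ n := by
  induction n with
  | zero => simpa using one
  | succ n ih => rw [pow_succ]; exact (ih.mul h).congr (fun _ => rfl) fun a => (pow_succ' _ _).symm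

theorem commute (h : Mn Φ g (fun a => a) s) (h' : Mn Φ g' (fun a => a) s') : Commute g g' :=
  (h.mul h').ext (h'.mul h) (fun _ => rfl) fun _ => mul_comm _ _

theorem conj_diag {d d' : P.Iso} {e e' : Ix m → F} (h : Mn Φ g σ s) (hd : Mn Φ d (fun a => a) e)
    (hd' : Mn Φ d' (fun a => a) e') (he : ∀ a, e' (σ a) = e a) : g * d * g⁻¹ = d' := by
  rw [mul_inv_eq_iff_eq_mul]
  exact (h.mul hd).ext (hd'.mul h) (fun _ => rfl) fun a => by rw [he, mul_comm]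

theorem conj_xl (h : Mn Φ g σ s) {a b : Ix m} (hab : sup a ≠ sup b) (t : F) :
    g * xl Φ a b t * g⁻¹ = xl Φ (σ a) (σ b) (τ (s a) * s b * t) :=
  conj_eich_long (okS hab) (h.ne a) (h.1 a) (h.1 b) t

theorem conj_xs (h : Mn Φ g σ s) (a : Ix m) {x : V} (hx : x ∈ Φ.V0) {c : F} (hc : P.QEq x c) :
    g * P.eich (Φ.v a) x c * g⁻¹ = P.eich (Φ.v (σ a)) (τ (s a) • x) (s a * τ (s a) * c) := by
  rw [(conj_eich_smul (Φ.eOk0 a hx hc) (h.ne a) (h.1 a)).2, h.2 x hx]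

theorem cj_XL (h : Mn Φ g σ s) {a b : Ix m} (hab : sup a ≠ sup b) (hab' : sup (σ a) ≠ sup (σ b)) :
    cj g (XL Φ a b) = XL Φ (σ a) (σ b) := by
  refine le_antisymm (cj_le_iff.2 fun x hx => ?_) (XL_le hab' fun t => ?_)
  · obtain ⟨t, rfl⟩ := (mem_XL hab).1 hx
    rw [h.conj_xl hab]; exact xl_mem _ _ _
  · have h1 : τ (s a) * s b ≠ 0 := mul_ne_zero ((map_ne_zero τ).2 (h.ne a)) (h.ne b)
    rw [← mul_inv_cancel_left₀ h1 t, ← h.conj_xl hab]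
    exact conj_mem_cj (xl_mem _ _ _)

theorem cj_XS (h : Mn Φ g σ s) (a : Ix m) : cj g (XS Φ a) = XS Φ (σ a) := by
  refine le_antisymm (cj_le_iff.2 fun y hy => ?_) (XS_le fun x hx c hc => ?_)
  · obtain ⟨x, hx, c, hc, rfl⟩ := mem_XS.1 hy
    rw [h.conj_xs a hx hc]
    exact xs_mem _ (Submodule.smul_mem _ _ hx) ((hc.smul _).congr (by rw [π.tau_tau]; ring))
  · have h1 := h.ne a
    have h2 : τ (s a) ≠ 0 := (map_ne_zero τ).2 h1
    have h3 := Submodule.smul_mem _ (τ (s a))⁻¹ hx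
    have h4 := hc.smul (τ (s a))⁻¹
    have := h.conj_xs a h3 h4
    rw [smul_smul, mul_inv_cancel₀ h2, one_smul, map_inv₀, π.tau_tau,
      show s a * τ (s a) * ((τ (s a))⁻¹ * (s a)⁻¹ * c) = c by field_simp] at this
    rw [← this]
    exact conj_mem_cj (xs_mem _ h3 (by rwa [map_inv₀, π.tau_tau] at h4))

theorem commute_xl (h : Mn Φ g σ s) {a b : Ix m} (hab : sup a ≠ sup b) (t : F) (h1 : σ a = a)
    (h2 : σ b = b) (h3 : τ (s a) * s b = 1) : Commute g (xl Φ a b t) := by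
  rw [Commute, SemiconjBy, ← mul_inv_eq_iff_eq_mul, h.conj_xl hab, h1, h2, h3, one_mul]

theorem commute_xs (h : Mn Φ g σ s) {a : Ix m} {x : V} (hx : x ∈ Φ.V0) {c : F} (hc : P.QEq x c)
    (h1 : σ a = a) (h3 : s a = 1) : Commute g (P.eich (Φ.v a) x c) := by
  rw [Commute, SemiconjBy, ← mul_inv_eq_iff_eq_mul, h.conj_xs a hx hc, h1, h3]; simp

end Mn

theorem span_ind {p : V → Prop} (h0 : ∀ x ∈ Φ.V0, p x) (h1 : ∀ a, p (Φ.v a))
    (h2 : ∀ x y, p x → p y → p (x + y)) (h3 : ∀ (t : F) x, p x → p (t • x)) (x : V) : p x := by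
  rw [← sub_add_cancel x (∑ a, P.B x (Φ.d a) • Φ.v a)]
  exact h2 _ _ (h0 _ (Φ.decomp x)) (Finset.sum_induction _ p h2 (h0 0 (zero_mem _))
    fun a _ => h3 _ _ (h1 a))

theorem exists_mono [FiniteDimensional F V] (hP : P.ND) (σ : Ix m → Ix m)
    (hi : Function.Injective σ) (hr : ∀ a, σ a.rev = (σ a).rev) (s : Ix m → F)
    (hs : ∀ a, s a * τ (s a.rev) * Φ.κ (σ a) = Φ.κ a) : ∃ g, Mn Φ g σ s := by
  let f : V →ₗ[F] V := LinearMap.id +
    ∑ a, (P.B.flip (Φ.d a)).smulRight (s a • Φ.v (σ a) - Φ.v a)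
  have f1 : ∀ a, f (Φ.v a) = s a • Φ.v (σ a) := fun a => by
    simp only [f, LinearMap.add_apply, LinearMap.id_apply, LinearMap.sum_apply,
      LinearMap.smulRight_apply, LinearMap.flip_apply]
    rw [Finset.sum_eq_single a (fun b _ hb => by rw [Φ.B_d hb, zero_smul]) (by simp),
      (Φ.hyp a).pair, one_smul, add_sub_cancel]
  have f2 : ∀ x ∈ Φ.V0, f x = x := fun x hx => by
    simp [f, Frame.d, B_x_v hx]
  have hB : ∀ x y, P.B (f x) (f y) = P.B x y := by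
    have k1 : ∀ a y, P.B (f (Φ.v a)) (f y) = P.B (Φ.v a) y := fun a =>
      span_ind (Φ := Φ) (fun y hy => by rw [f1, f2 y hy, B_smul_left, B_v_x hy, B_v_x hy, mul_zero])
        (fun b => by
          rw [f1, f1, B_smul_left, B_smul_right]
          by_cases e : b = a.rev
          · rw [e, hr, Φ.B_rev, Φ.B_rev, ← mul_assoc, hs]
          · rw [Φ.orth _ _ e, Φ.orth _ _ fun e' => e (hi (e'.trans (hr a).symm)), mul_zero, mul_zero])
        (fun x y hx hy => by simp [hx, hy]) fun t x hx => by simp [hx]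
    have k2 : ∀ x ∈ Φ.V0, ∀ y, P.B (f x) (f y) = P.B x y := fun x hx =>
      span_ind (Φ := Φ) (fun y hy => by rw [f2 x hx, f2 y hy])
        (fun b => by rw [f1, f2 x hx, B_smul_right, B_x_v hx, B_x_v hx, mul_zero])
        (fun x y hx hy => by simp [hx, hy]) fun t x hx => by simp [hx]
    exact span_ind (Φ := Φ) k2 k1 (fun x y hx hy z => by simp [hx, hy]) fun t x hx z => by simp [hx]
  obtain ⟨g, hg⟩ := exists_iso hP f hB (span_ind (Φ := Φ)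
    (fun x hx => by rw [f2 x hx]; exact QEq.self x)
    (fun a => by
      rw [f1]; exact ((Φ.sing _).smul _).of_sub_mem (by simpa using π.Λ.neg_mem (Φ.sing a)))
    (fun x y hx hy => by
      rw [map_add]
      refine (hx.add hy).of_sub_mem ?_
      rw [hB]; simpa using π.Λ.neg_mem (P.Q_add x y))
    fun t x hx => by
      rw [map_smul]
      exact (hx.smul t).of_sub_mem (by simpa using π.Λ.neg_mem (P.Q_smul t x)))
  exact ⟨g, fun a => by rw [hg, f1], fun x hx => by rw [hg, f2 x hx]⟩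

/-! ### the torus -/

variable (τ) in
/-- the weights of the basic diagonal element -/
def ew (ζ : F) (a x : Ix m) : F := if x = a then ζ else if x = a.rev then (τ ζ)⁻¹ else 1

theorem ew_self (ζ : F) (a : Ix m) : ew τ ζ a a = ζ := if_pos rfl

theorem ew_rev (ζ : F) (a : Ix m) : ew τ ζ a a.rev = (τ ζ)⁻¹ := by simp [ew, rev_ne]

theorem ew_rev' (ζ : F) (a : Ix m) : ew τ ζ a.rev a = (τ ζ)⁻¹ := by
  simpa using ew_rev (τ := τ) ζ a.rev

theorem ew_ne (ζ : F) {a x : Ix m} (h : sup a ≠ sup x) : ew τ ζ a x = 1 := by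
  simp [ew, (ne_of_sup h).symm, ne_rev_of_sup h]

theorem ew_ne_zero {ζ : F} (h : ζ ≠ 0) (a x : Ix m) : ew τ ζ a x ≠ 0 := by
  unfold ew; split_ifs <;> simp [h]

theorem τ_ew (π : FP F τ) (ζ : F) (a x : Ix m) : τ (ew τ ζ a x) = (ew τ ζ a.rev x)⁻¹ := by
  have := rev_ne a
  unfold ew; split_ifs <;> simp_all [π.tau_tau]

theorem ew_map (ζ : F) {σ : Ix m → Ix m} (hi : Function.Injective σ)
    (hr : ∀ a, σ a.rev = (σ a).rev) (a x : Ix m) : ew τ ζ (σ a) (σ x) = ew τ ζ a x := by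
  simp only [ew, ← hr, hi.eq_iff]

variable (τ) in
/-- the weights of the coroot -/
def wt (ζ : F) (a b x : Ix m) : F := ew τ ζ b x / ew τ ζ a.rev x

variable (Φ) in
/-- the coroot -/
noncomputable def k0 (ζ : F) (a b : Ix m) : P.Iso :=
  if h : sup a ≠ sup b then (hyp2S (Φ := Φ) h).hl ζ else 1

theorem k0_mem (ζ : F) (a b : Ix m) : k0 Φ ζ a b ∈ P.EG := by
  unfold k0; split_ifs
  exacts [Hyp2.hl_mem _ _, one_mem _]

theorem V0_le_W {a b : Ix m} (h : sup a ≠ sup b) : Φ.V0 ≤ (hyp2S (Φ := Φ) h).W :=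
  le_inf (Φ.V0_le a) (Φ.V0_le b)

theorem v_mem_perp {a x : Ix m} (h : sup a ≠ sup x) : Φ.v x ∈ P.perp {Φ.v a, Φ.d a} :=
  mem_perp_pair.2 ⟨B_vv h.symm, Φ.B_d (ne_of_sup h)⟩

theorem wt_left {ζ : F} {a b : Ix m} (h : sup a ≠ sup b) : wt τ ζ a b a = τ ζ := by
  simp [wt, ew_rev', ew_ne ζ h.symm]

theorem wt_right {ζ : F} {a b : Ix m} (h : sup a ≠ sup b) : wt τ ζ a b b = ζ := by
  rw [wt, ew_self, ew_ne ζ (by simpa using h), div_one]

theorem wt_left' {ζ : F} {a b : Ix m} (h : sup a ≠ sup b) : wt τ ζ a b a.rev = ζ⁻¹ := by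
  rw [wt, ew_self, ew_ne ζ (by simpa using h.symm), one_div]

theorem wt_right' {ζ : F} {a b : Ix m} (h : sup a ≠ sup b) : wt τ ζ a b b.rev = (τ ζ)⁻¹ := by
  rw [wt, ew_rev, ew_ne ζ (by simpa using h), div_one]

theorem wt_ne {ζ : F} {a b x : Ix m} (h : sup a ≠ sup x) (h' : sup b ≠ sup x) :
    wt τ ζ a b x = 1 := by
  rw [wt, ew_ne ζ h', ew_ne ζ (by simpa using h), div_one]

theorem k0_mn {ζ : F} (hζ : ζ ≠ 0) {a b : Ix m} (h : sup a ≠ sup b) :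
    Mn Φ (k0 Φ ζ a b) (fun x => x) (wt τ ζ a b) := by
  rw [k0, dif_pos h]
  obtain ⟨h1, h2, h3, h4⟩ := (hyp2S (Φ := Φ) h).hl_act hζ
  refine ⟨fun x => ?_, fun x hx => Hyp2.hl_W _ _ (V0_le_W h hx)⟩
  by_cases e1 : sup a = sup x
  · rcases sup_eq_iff.1 e1.symm with rfl | rfl
    · rw [h1, wt_left h]
    · rw [wt_left' h, Φ.v_rev, act_smul, h3, smul_comm]
  by_cases e2 : sup b = sup x
  · rcases sup_eq_iff.1 e2.symm with rfl | rfl
    · rw [h2, wt_right h]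
    · rw [wt_right' h, Φ.v_rev, act_smul, h4, smul_comm]
  rw [wt_ne e1 e2, one_smul]
  exact Hyp2.hl_W _ _ ⟨v_mem_perp e1, v_mem_perp e2⟩

section
variable {ζ : F} (hζ : ζ ≠ 0)
include hζ

theorem k0_t1 {a b c : Ix m} (h1 : sup a ≠ sup b) (h2 : sup a ≠ sup c) (h3 : sup b ≠ sup c) :
    k0 Φ ζ a b * k0 Φ ζ b.rev c = k0 Φ ζ a c :=
  ((k0_mn hζ h1).mul (k0_mn hζ (by simpa using h3))).ext (k0_mn hζ h2) (fun _ => rfl) fun x => by
    have := ew_ne_zero (τ := τ) hζ b x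
    simp only [wt, Fin.rev_rev]; field_simp

theorem k0_inv {a b : Ix m} (h : sup a ≠ sup b) : k0 Φ ζ b.rev a.rev = (k0 Φ ζ a b)⁻¹ :=
  (k0_mn hζ (by simpa using h.symm)).ext (k0_mn hζ h).inv (fun _ => rfl) fun x => by simp [wt]

theorem k0_sw {q : ℕ} (hq : ∀ x, τ x = x ^ q) {a b : Ix m} (h : sup a ≠ sup b) :
    k0 Φ ζ b a = k0 Φ ζ a b ^ q :=
  (k0_mn hζ h.symm).ext ((k0_mn hζ h).pow q) (fun _ => rfl) fun x => by
    rw [← hq, wt, wt, map_div₀, τ_ew π, τ_ew π, Fin.rev_rev, inv_div_inv]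

theorem k0_commute (a b c d : Ix m) : Commute (k0 Φ ζ a b) (k0 Φ ζ c d) := by
  by_cases h : sup a ≠ sup b
  · by_cases h' : sup c ≠ sup d
    · exact (k0_mn hζ h).commute (k0_mn hζ h')
    · rw [k0.eq_def _ _ c, dif_neg h']; exact Commute.one_right _
  · rw [k0.eq_def _ _ a, dif_neg h]; exact Commute.one_left _

theorem k0_xl {a b : Ix m} (h : sup a ≠ sup b) {x y : Ix m} (h' : sup x ≠ sup y) (t : F) :
    k0 Φ ζ a b * xl Φ x y t * (k0 Φ ζ a b)⁻¹ = xl Φ x y (τ (wt τ ζ a b x) * wt τ ζ a b y * t) :=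
  (k0_mn hζ h).conj_xl h' t

end

/-- monomial representations of groups acting on the signed indices -/
structure GD (Φ : Frame P m sh) {Γ : Type*} [Group Γ] [MulAction Γ (Ix m)] (ι : Γ →* P.Iso) :
    Prop where
  rev : ∀ (γ : Γ) (a : Ix m), γ • a.rev = (γ • a).rev
  mono : ∀ γ, ∃ s, Mn Φ (ι γ) (fun a => γ • a) s
  mem : ∀ γ, ι γ ∈ P.EG

theorem sup_smul_ne {Γ : Type*} [Group Γ] [MulAction Γ (Ix m)]
    (hr : ∀ (γ : Γ) (a : Ix m), γ • a.rev = (γ • a).rev) (γ : Γ) {a b : Ix m}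
    (h : sup a ≠ sup b) : sup (γ • a) ≠ sup (γ • b) := fun e => by
  rcases sup_eq_iff.1 e with e | e
  · exact ne_of_sup h (MulAction.injective γ e)
  · rw [← hr] at e; exact ne_rev_of_sup h.symm (MulAction.injective γ e)

namespace GD

variable {Γ : Type*} [Group Γ] [MulAction Γ (Ix m)] {ι : Γ →* P.Iso} (D : GD Φ ι)
include D

theorem ne (γ : Γ) {a b : Ix m} (h : sup a ≠ sup b) : sup (γ • a) ≠ sup (γ • b) :=
  sup_smul_ne D.rev γ h

theorem cj_XL (γ : Γ) {a b : Ix m} (h : sup a ≠ sup b) :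
    cj (ι γ) (XL Φ a b) = XL Φ (γ • a) (γ • b) := by
  obtain ⟨s, hs⟩ := D.mono γ
  exact hs.cj_XL h (D.ne γ h)

theorem cj_XS (γ : Γ) (a : Ix m) : cj (ι γ) (XS Φ a) = XS Φ (γ • a) := by
  obtain ⟨s, hs⟩ := D.mono γ
  exact hs.cj_XS a

theorem conj_k0 {ζ : F} (hζ : ζ ≠ 0) (γ : Γ) {a b : Ix m} (h : sup a ≠ sup b) :
    ι γ * k0 Φ ζ a b * (ι γ)⁻¹ = k0 Φ ζ (γ • a) (γ • b) := by
  obtain ⟨s, hs⟩ := D.mono γ
  refine hs.conj_diag (k0_mn hζ h) (k0_mn hζ (D.ne γ h)) fun x => ?_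
  rw [wt, wt, ← D.rev, ew_map ζ (MulAction.injective γ) (D.rev γ),
    ew_map ζ (MulAction.injective γ) (D.rev γ)]

end GD

end Cfsg.Agent.CP
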