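import Cfsg.Agent.CP.Fin

/-! Weyl group data of type `D`. -/

set_option autoImplicit false
set_option linter.unusedSectionVars false
set_option linter.unusedVariables false

namespace Cfsg.Agent.CP

open Subgroup Cfsg.Agent.RGD Cfsg.Agent.RG
open Cfsg.Agent.Pres hiding rt
open Equiv Equiv.Perm SemidirectProduct Cfsg.Agent.SymAlt

theorem gen_fix_swap {α : Type*} [DecidableEq α] [Fintype α] (T : Set α) (hT : 2 ≤ T.ncard) :
    ∃ κ : Perm α, ∃ c ∈ T, ∃ d ∈ T, c ≠ d ∧ (∀ x, x ∉ T → κ x = x) ∧ ∀ B : Subgroup (Perm α),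
      κ ∈ B → swap c d ∈ B → ∀ g : Perm α, (∀ x, x ∉ T → g x = x) → g ∈ B := by
  classical
  have h1 : 2 ≤ (Finset.univ : Finset T).toList.length := by
    rwa [Finset.length_toList, Finset.card_univ, ← Nat.card_eq_fintype_card]
  have h2 := List.isCycle_formPerm (Finset.nodup_toList _) h1
  have h3 := List.support_formPerm_of_nodup _ (Finset.nodup_toList (Finset.univ : Finset T))
    fun x e => by simp [e] at h1
  rw [Finset.toList_toFinset] at h3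
  generalize List.formPerm (Finset.univ : Finset T).toList = σ at h2 h3
  obtain ⟨x, hx, -⟩ := id h2
  refine ⟨ofSubtype σ, x, x.2, σ x, (σ x).2, fun e => hx (Subtype.ext e.symm),
    fun x => ofSubtype_apply_of_not_mem σ, fun B h4 h5 g hg => ?_⟩
  have h6 : ∀ x, g x ≠ x → x ∈ T := fun x hx => by by_contra e; exact hx (hg x e)
  have h7 : ∀ x, g x ∈ T ↔ x ∈ T := fun x => by
    by_cases e : g x = x
    · rw [e]
    · exact iff_of_true (h6 _ fun e' => e (g.injective e')) (h6 x e)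
  rw [← ofSubtype_subtypePerm h7 h6]
  refine (closure_le (K := B.comap ofSubtype)).2 ?_ (closure_cycle_adjacent_swap h2 h3 x ▸ mem_top _)
  rintro _ (rfl | rfl)
  · exact h4
  · rw [SetLike.mem_coe, mem_comap, ofSubtype_swap_eq]; exact h5

theorem even_or {α : Type*} [DecidableEq α] [Fintype α] {k : ℕ} (x y : Fin k → α)
    (hx : Function.Injective x) (hy : Function.Injective y) {i j : Fin k} (h : i ≠ j) :
    ∃ σ : Perm α, sign σ = 1 ∧ ((∀ t, σ (x t) = y t) ∨ ∀ t, σ (x t) = y (swap i j t)) := by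
  obtain ⟨σ, hσ⟩ := exists_perm_fin x y hx hy
  by_cases e : sign σ = 1
  · exact ⟨σ, e, Or.inl hσ⟩
  · exact ⟨_, sign_mul_swap e (hx.ne h), Or.inr fun t => by rw [mul_apply, hx.swap_apply, hσ]⟩

theorem twist_sub {α Γ : Type*} [DecidableEq α] [Group Γ] (π : Γ →* Perm α) (H : Subgroup Γ)
    (i j : α) : ∃ B : Subgroup (Perm α), ∀ g, g ∈ B ↔
      g i = i ∧ g j = j ∧ ∃ x ∈ H, π x = g ∨ π x = g * swap i j := by
  have cs : ∀ g : Perm α, g i = i → g j = j → swap i j * g = g * swap i j :=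
    fun g e1 e2 => by rw [mul_swap_eq_swap_mul, e1, e2]
  refine ⟨{ carrier := {g | g i = i ∧ g j = j ∧ ∃ x ∈ H, π x = g ∨ π x = g * swap i j}
            one_mem' := ⟨rfl, rfl, 1, one_mem _, Or.inl (map_one _)⟩
            mul_mem' := ?_
            inv_mem' := ?_ }, fun _ => Iff.rfl⟩
  · rintro a b ⟨a1, a2, x, a3, a4⟩ ⟨b1, b2, x', b3, b4⟩
    refine ⟨by simp [a1, b1], by simp [a2, b2], _, mul_mem a3 b3, ?_⟩
    rcases a4 with e | e <;> rcases b4 with e' | e' <;>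
      simp [e, e', mul_assoc, cs b b1 b2, ← mul_assoc (swap i j)]
  · rintro a ⟨a1, a2, x, a3, a4⟩
    have b1 : a⁻¹ i = i := Perm.inv_eq_iff_eq.2 a1.symm
    have b2 : a⁻¹ j = j := Perm.inv_eq_iff_eq.2 a2.symm
    refine ⟨b1, b2, _, inv_mem a3, ?_⟩
    rcases a4 with e | e <;> simp [e, cs _ b1 b2]

instance {n : ℕ} : Finite (Wr ℤˣ n) := Finite.of_equiv _ SemidirectProduct.equivProd.symm

variable {m : ℕ}

theorem wd_smul (γ : WD (m + 1)) (a : Ix m) : γ • a = γ.1 • a := rfl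

theorem exists_wD {k : ℕ} (hk : k ≤ m) (a b : Fin k → Ix m) (hb : Function.Injective (sup ∘ b))
    {σ : Perm (Fin (m + 1))} (hσ : sign σ = 1) (h : ∀ i, σ (sup (a i)) = sup (b i)) :
    ∃ γ : WD (m + 1), γ.1.right = σ ∧ ∀ i, γ • a i = b i := by
  obtain ⟨ν, hν⟩ := exists_signs (B := ℤˣ) a b hb
  obtain ⟨x, hx⟩ := exists_not_mem (List.ofFn (sup ∘ b)) (by simp; omega)
  refine ⟨⟨⟨ν * Pi.mulSingle x (∏ i, ν i), σ⟩, by simp [Finset.prod_mul_distrib], hσ⟩, rfl,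
    fun i => smul_eq_iff.2 ⟨h i, ?_⟩⟩
  rw [← hν i]
  have : sup (b i) ≠ x := fun e => hx (List.mem_ofFn.2 ⟨i, e⟩)
  simp [Pi.mulSingle_eq_of_ne this]

theorem exists_wD_or {k : ℕ} (hk : k ≤ m) (a b b' : Fin k → Ix m)
    (ha : Function.Injective (sup ∘ a)) (hb : Function.Injective (sup ∘ b)) {i j : Fin k}
    (h : i ≠ j) (hb' : ∀ t, sup (b' t) = sup (b (swap i j t))) :
    (∃ γ : WD (m + 1), ∀ t, γ • a t = b t) ∨ ∃ γ : WD (m + 1), ∀ t, γ • a t = b' t := by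
  obtain ⟨σ, h1, h2 | h2⟩ := even_or _ _ ha hb h
  · exact Or.inl ((exists_wD hk a b hb h1 h2).imp fun _ => And.right)
  · refine Or.inr ((exists_wD hk a b' ?_ h1 fun t => (h2 t).trans (hb' t).symm).imp
      fun _ => And.right)
    exact (funext hb' : sup ∘ b' = (sup ∘ b) ∘ swap i j) ▸ hb.comp (swap i j).injective

theorem exists_wD_all {k : ℕ} (hk : k + 1 ≤ m) (a b : Fin k → Ix m)
    (ha : Function.Injective (sup ∘ a)) (hb : Function.Injective (sup ∘ b)) :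
    ∃ γ : WD (m + 1), ∀ t, γ • a t = b t := by
  obtain ⟨σ, h1, h2⟩ := exists_even_fin _ _ ha hb (by simpa) 1
  exact (exists_wD (by omega) a b hb h1 h2).imp fun _ => And.right

theorem r3_or (hm : 3 ≤ m) {a0 b0 c0 a b c a' b' c' : Ix m} (d : D3 a0 b0 c0) (e : D3 a b c)
    {i j : Fin 3} (h : i ≠ j) (h' : ∀ t, sup (![a', b', c'] t) = sup (![a, b, c] (swap i j t))) :
    R3 (WD (m + 1)) a0 b0 c0 a b c ∨ R3 (WD (m + 1)) a0 b0 c0 a' b' c' :=
  (exists_wD_or hm _ _ _ (sinj3 d.ab d.ac d.bc) (sinj3 e.ab e.ac e.bc) h h').imp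
    (fun ⟨γ, e⟩ => ⟨γ, e 0, e 1, e 2⟩) fun ⟨γ, e⟩ => ⟨γ, e 0, e 1, e 2⟩

theorem r3_p1 (hm : 3 ≤ m) {a0 b0 c0 a b c : Ix m} (d : D3 a0 b0 c0) (e : D3 a b c) :
    R3 (WD (m + 1)) a0 b0 c0 a b c ∨ R3 (WD (m + 1)) a0 b0 c0 a c b :=
  r3_or hm d e (i := 1) (j := 2) (by decide) fun t => by fin_cases t <;> rfl

theorem tr3D (hm : 3 ≤ m) {a0 b0 c0 : Ix m} (d : D3 a0 b0 c0) : Tr3 (WD (m + 1)) a0 b0 c0 :=
  ⟨d, r3_p1 hm d,
    fun e => r3_or hm d e (i := 0) (j := 2) (by decide) fun t => by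
      fin_cases t; exacts [rfl, sup_rev _, rfl],
    fun e => r3_or hm d e (i := 0) (j := 1) (by decide) fun t => by
      fin_cases t; exacts [rfl, rfl, sup_rev _]⟩

theorem quadD (hm : 3 ≤ m) {a0 b0 : Ix m} (h : sup a0 ≠ sup b0) :
    ∃ D0, D0.length = (if m = 3 then 2 else 1) ∧ Quad (WD (m + 1)) a0 b0 D0 := by
  obtain ⟨c, d⟩ := exists_D3 (by omega) h
  obtain ⟨d, e⟩ := exists_D4 hm d
  have h0 := sinj4 e.ab e.ac e.ad e.bc e.bd e.cd
  split_ifs with h3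
  · refine ⟨[(c, d), (c, d.rev)], rfl, ?_, fun {a b x y} k => ?_⟩
    · simpa using ⟨e, e.toD3, by simpa using e.ad, by simpa using e.bd, by simpa using e.cd⟩
    have key : ∀ {x y}, D4 a b x y → ∀ σ : Perm (Fin (m + 1)), sign σ = 1 →
        (∀ t, σ (sup (![a0, b0, c, d] t)) = sup (![a, b, x, y] t)) → ∃ z ∈ [(c, d), (c, d.rev)],
        ∃ γ : WD (m + 1), γ • a0 = a ∧ γ • b0 = b ∧ γ • z.1 = x ∧ γ • z.2 = y := fun k σ h1 h2 => by
      obtain ⟨γ, h4, h5⟩ := exists_wD hm ![a0, b0, c] _ (sinj3 k.ab k.ac k.bc) h1 fun t => by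
        fin_cases t; exacts [h2 0, h2 1, h2 2]
      rcases sup_eq_iff.1 ((sup_smul γ.1 d).trans (h4 ▸ h2 3)) with e | e
      · exact ⟨_, List.mem_cons_self, γ, h5 0, h5 1, h5 2, e⟩
      · exact ⟨(c, d.rev), by simp, γ, h5 0, h5 1, h5 2,
          (wr_smul_rev _ _).trans (by rw [e]; exact Fin.rev_rev _)⟩
    obtain ⟨σ, h1, h2 | h2⟩ := even_or _ _ h0 (sinj4 k.ab k.ac k.ad k.bc k.bd k.cd) (i := 2) (j := 3)
      (by decide)
    · obtain ⟨z, h4, γ, h5, h6, h7⟩ := key k σ h1 h2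
      exact ⟨z, h4, γ, h5, h6, Or.inl h7⟩
    · obtain ⟨z, h4, γ, h5, h6, h7⟩ := key ⟨⟨k.ab, k.ad, k.bd⟩, k.ac, k.bc, k.cd.symm⟩ σ h1
        fun t => (h2 t).trans (by fin_cases t <;> rfl)
      exact ⟨z, h4, γ, h5, h6, Or.inr h7⟩
  · refine ⟨[(c, d)], rfl, by simpa, fun {a b x y} k => ⟨_, List.mem_singleton_self _, ?_⟩⟩
    rcases exists_wD_or (by omega) _ _ ![a, b, y, x] h0 (sinj4 k.ab k.ac k.ad k.bc k.bd k.cd)
      (i := 2) (j := 3) (by decide) (fun t => by fin_cases t <;> rfl) with ⟨γ, e⟩ | ⟨γ, e⟩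
    exacts [⟨γ, e 0, e 1, Or.inl ⟨e 2, e 3⟩⟩, ⟨γ, e 0, e 1, Or.inr ⟨e 2, e 3⟩⟩]

theorem pD_smul (σ : alternatingGroup (Fin (m + 1))) (i : Fin (m + 1)) (s : ℤˣ) :
    pD _ σ • (mkI i s : Ix m) = mkI (σ.1 i) s := inr_smul_mkI (B := ℤˣ) σ.1 i s

theorem wD_smul {c d : Fin (m + 1)} {a : Ix m} (h : sup a ≠ c) (h' : sup a ≠ d) : wD c d • a = a := by
  rw [wd_smul]
  change (_ * _ : Wr ℤˣ (m + 1)) • a = a
  rw [mul_smul, wE_smul_of_ne _ h', wE_smul_of_ne _ h]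

theorem wd_pos {γ : WD (m + 1)} {i j : Fin (m + 1)} :
    γ • (mkI i 1 : Ix m) = mkI j 1 ↔ γ.1.right i = j ∧ γ.1.left j = 1 := smul_pos

theorem oneD (hm : 3 ≤ m) {i j : Fin (m + 1)} (h : i ≠ j) :
    ∃ o : One (WD (m + 1)) (mkI i 1) (mkI j 1), o.la.length = 3 ∧ o.lb.length = 0 := by
  have hne : sup (mkI i 1 : Ix m) ≠ sup (mkI j 1) := by simpa
  choose c hc using fun a => exists_wD_all (by omega) _ _ (sinj1 (mkI i 1 : Ix m)) (sinj1 a)
  obtain ⟨σ, τ, s1, s2, s3, s4, s5⟩ := gen_fix_alt {x | x ≠ i}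
  obtain ⟨c0, d⟩ := exists_D3 (by omega) hne
  have hi : i ≠ sup c0 := by simpa using d.ac
  have hj : j ≠ sup c0 := by simpa using d.bc
  set l := [pD _ ⟨σ, s1⟩, pD _ ⟨τ, s2⟩, wD j (sup c0)]
  have key : ∀ γ : WD (m + 1), γ • (mkI i 1 : Ix m) = mkI i 1 → γ ∈ closure {σ | σ ∈ l} := by
    have k : ∀ g (hg : sign g = 1), g i = i → pD _ ⟨g, hg⟩ ∈ closure {σ | σ ∈ l} := fun g hg e => by
      obtain ⟨g, h1, rfl⟩ := s5 (((closure {σ | σ ∈ l}).comap (pD _)).map (Subgroup.subtype _))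
        ⟨⟨σ, s1⟩, subset_closure (by simp [l]), rfl⟩ ⟨⟨τ, s2⟩, subset_closure (by simp [l]), rfl⟩ g hg
        fun x hx => by simp only [Set.mem_ofPred_eq, not_not] at hx; rw [hx, e]
      exact h1
    intro γ e
    rw [wd_pos] at e
    refine memD_of_parts (k := j) (fun x hx => ?_) (k _ _ e.1)
    by_cases e1 : j = x
    · rw [← e1, wD_self]; exact one_mem _
    obtain ⟨g, h1, h2⟩ := even_or _ _ (inj3 h hi hj) (inj3 (c := x) h (fun e2 => hx (e2 ▸ e.2)) e1)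
      (i := 1) (j := 2) (by decide)
    have h3 := k g h1 (h2.elim (· 0) (· 0))
    have := mul_mem (mul_mem h3 (subset_closure (by simp [l]) : wD j (sup c0) ∈ _)) (inv_mem h3)
    rw [conj_wD] at this
    change wD (g j) (g (sup c0)) ∈ _ at this
    rcases h2 with h2 | h2
    · rwa [show g j = j from h2 1, show g (sup c0) = x from h2 2] at this
    · rwa [show g j = x from h2 1, show g (sup c0) = j from h2 2, wD_comm] at this
  refine ⟨⟨c, fun a => hc a 0, l, [], fun γ hγ => ?_, by simp, fun σ e => by simpa using key σ e,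
    c0, d.ac.symm, conn3 d fun x y e => ?_⟩, rfl, rfl⟩
  · simp only [l, List.mem_cons, List.not_mem_nil, or_false] at hγ
    rcases hγ with rfl | rfl | rfl
    · rw [pD_smul]; exact congrArg (mkI · 1) (s3 i (by simp))
    · rw [pD_smul]; exact congrArg (mkI · 1) (s4 i (by simp))
    · exact wD_smul (by simpa) (by simpa)
  · rcases r3_p1 hm d.s23 e with ⟨γ, e1, e2⟩ | ⟨γ, e1, e2⟩
    exacts [⟨γ, key γ e1, Or.inl e2⟩, ⟨γ, key γ e1, Or.inr e2⟩]

theorem pairD_of (hm : 3 ≤ m) {i j c d : Fin (m + 1)} (h : i ≠ j) (hc : c ≠ i ∧ c ≠ j)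
    (hd : d ≠ i ∧ d ≠ j) (hcd : c ≠ d) {κ : Perm (Fin (m + 1))} (h1 : κ i = i) (h2 : κ j = j)
    (hκ : ∀ B : Subgroup (Perm (Fin (m + 1))), κ ∈ B → swap c d ∈ B →
      ∀ g : Perm (Fin (m + 1)), (∀ x, ¬ (x ≠ i ∧ x ≠ j) → g x = x) → g ∈ B) {y z : WD (m + 1)}
    (hy : y.1.right = κ ∨ y.1.right = κ * swap i j) (hz : z.1.right = swap c d * swap i j)
    (h3 : ∀ x ∈ [y, z], x.1.left i = 1 ∧ x.1.left j = 1) (h4 : wD c d ∈ closure {σ | σ ∈ [y, z]})
    (h5 : z * z = 1 ∨ ∃ e, (e ≠ i ∧ e ≠ j) ∧ e ≠ c ∧ e ≠ d ∧ z * z = wD c d) :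
    ∃ p : Pair (WD (m + 1)) (mkI i 1) (mkI j 1), p.l.length = 2 := by
  have hne : sup (mkI i 1 : Ix m) ≠ sup (mkI j 1) := by simpa
  obtain ⟨t, ht⟩ := exists_c (Γ := WD (m + 1)) fun a b e => by
    obtain ⟨γ, e⟩ := exists_wD_all (by omega) _ _ (sinj2 hne) (sinj2 e)
    exact ⟨γ, e 0, e 1⟩
  set H := closure {σ | σ ∈ [y, z]}
  have zi : z.1.right i = j := by
    rw [hz, mul_apply, swap_apply_left, swap_apply_of_ne_of_ne hc.2.symm hd.2.symm]
  have zj : z.1.right j = i := by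
    rw [hz, mul_apply, swap_apply_right, swap_apply_of_ne_of_ne hc.1.symm hd.1.symm]
  obtain ⟨B, hB⟩ := twist_sub (rightHom.comp (WD (m + 1)).subtype) H i j
  have k1 : ∀ g : Perm (Fin (m + 1)), g i = i → g j = j →
      ∃ x ∈ H, x.1.right = g ∨ x.1.right = g * swap i j := fun g e1 e2 =>
    ((hB g).1 (hκ B ((hB _).2 ⟨h1, h2, y, subset_closure (by simp), hy⟩) ((hB _).2
      ⟨swap_apply_of_ne_of_ne hc.1.symm hd.1.symm, swap_apply_of_ne_of_ne hc.2.symm hd.2.symm,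
        z, subset_closure (by simp), Or.inr hz⟩) g fun x hx => by
      rcases not_and_or.1 hx with e | e <;> rw [not_not.1 e] <;> assumption)).2.2
  have k2 : ∀ x, x ≠ i → x ≠ j → wD c x ∈ H := fun x e1 e2 => by
    by_cases e : c = x
    · rw [← e, wD_self]; exact one_mem _
    obtain ⟨g, g1, g2, g3, g4⟩ := exists_perm4 h hc.1.symm hd.1.symm hc.2.symm hd.2.symm hcd
      h hc.1.symm e1.symm hc.2.symm e2.symm e
    obtain ⟨w, w1, w2⟩ := k1 g g1 g2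
    have := mul_mem (mul_mem w1 h4) (inv_mem w1)
    rw [conj_wD] at this
    rcases w2 with e | e <;> simpa [e, g3, g4, swap_apply_of_ne_of_ne hc.1 hc.2,
      swap_apply_of_ne_of_ne hd.1 hd.2] using this
  have hl : ∀ σ ∈ [y, z], σ • (mkI i 1 : Ix m) = mkI i 1 ∧ σ • (mkI j 1 : Ix m) = mkI j 1 ∨
      σ • (mkI i 1 : Ix m) = mkI j 1 ∧ σ • (mkI j 1 : Ix m) = mkI i 1 := fun σ hσ => by
    simp only [wd_pos, h3 σ hσ, and_true]
    simp only [List.mem_cons, List.not_mem_nil, or_false] at hσ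
    rcases hσ with rfl | rfl
    · rcases hy with e | e <;> simp [e, h1, h2]
    · exact Or.inr ⟨zi, zj⟩
  have hH : ∀ x ∈ H, x.1.left i = 1 ∧ x.1.left j = 1 := fun x hx => by
    have : x • (mkI i 1 : Ix m) = mkI i 1 ∧ x • (mkI j 1 : Ix m) = mkI j 1 ∨
        x • (mkI i 1 : Ix m) = mkI j 1 ∧ x • (mkI j 1 : Ix m) = mkI i 1 := by
      induction hx using closure_induction with
      | mem x hx => exact hl x hx
      | one => simp
      | mul x y _ _ hx hy => rcases hx with e | e <;> rcases hy with e' | e' <;> simp [mul_smul, e, e']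
      | inv x _ hx => rcases hx with e | e <;> simp [inv_smul_eq_iff, e]
    simp only [wd_pos] at this; tauto
  have k3 : ∀ γ : WD (m + 1), γ.1.right i = i → γ.1.right j = j → γ.1.left i = 1 → γ.1.left j = 1 →
      γ ∈ H := fun γ e1 e2 e3 e4 => by
    obtain ⟨x, x1, x2⟩ := k1 _ e1 e2
    have x3 : x.1.right = γ.1.right := x2.resolve_right fun e => by
      have := x.2.2
      rw [e, Perm.sign_mul, γ.2.2, sign_swap h] at this
      simp at this
    refine (mul_mem_cancel_left (inv_mem x1)).1 (memD_of_parts (k := c) (fun w hw => k2 w ?_ ?_) ?_)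
    · rintro rfl
      exact hw (wd_pos.1 (by rw [mul_smul, wd_pos.2 ⟨e1, e3⟩, inv_smul_eq_iff,
        wd_pos.2 ⟨x3 ▸ e1, (hH x x1).1⟩])).2
    · rintro rfl
      exact hw (wd_pos.1 (by rw [mul_smul, wd_pos.2 ⟨e2, e4⟩, inv_smul_eq_iff,
        wd_pos.2 ⟨x3 ▸ e2, (hH x x1).2⟩])).2
    · convert one_mem H using 1
      rw [← map_one (pD _)]; congr 1; ext1; simp [x3]
  have hz' : z ∈ H := subset_closure (by simp)
  have zz : z • (mkI i 1 : Ix m) = mkI j 1 ∧ z • (mkI j 1 : Ix m) = mkI i 1 := by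
    simp [wd_pos, zi, zj, h3]
  refine ⟨⟨hne, fun γ => wr_smul_rev γ.1, t, fun e => (ht _ _ e).1, fun e => (ht _ _ e).2, [y, z], hl,
    fun σ hσ => ?_, z, by simp, zz.1, ?_⟩, rfl⟩
  · have k4 : ∀ γ : WD (m + 1), γ • (mkI i 1 : Ix m) = mkI i 1 → γ • (mkI j 1 : Ix m) = mkI j 1 →
        γ ∈ H := fun γ e1 e2 => k3 γ (wd_pos.1 e1).1 (wd_pos.1 e2).1 (wd_pos.1 e1).2 (wd_pos.1 e2).2
    rcases hσ with ⟨e1, e2⟩ | ⟨e1, e2⟩
    · exact k4 σ e1 e2
    · exact (mul_mem_cancel_left hz').1 (k4 _ (by rw [mul_smul, e1, zz.2]) (by rw [mul_smul, e2, zz.1]))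
  · rw [← closure_toSubmonoid_of_finite]
    rcases h5 with e | ⟨e, e1, e2, e3, e4⟩
    · exact ⟨1, one_mem _, 1, one_mem _, by simp [e]⟩
    · refine ⟨_, k2 e e1.1 e1.2, z, hz', ?_⟩
      have := conj_wD z c e
      rw [hz, mul_apply, mul_apply, swap_apply_of_ne_of_ne hc.1 hc.2, swap_apply_left,
        swap_apply_of_ne_of_ne e1.1 e1.2, swap_apply_of_ne_of_ne e2 e3, mul_inv_eq_iff_eq_mul] at this
      rw [e4, mul_assoc, this, ← mul_assoc, wD_mul]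

theorem coe_pD {n : ℕ} (σ : alternatingGroup (Fin n)) : (pD n σ).1 = inr σ.1 := rfl

theorem exists_pD {n : ℕ} {i j : Fin n} (h : i ≠ j) (g : Perm (Fin n)) :
    ∃ σ : alternatingGroup (Fin n), σ.1 = g ∨ σ.1 = g * swap i j := by
  by_cases e : sign g = 1
  exacts [⟨⟨g, e⟩, Or.inl rfl⟩, ⟨⟨_, sign_mul_swap e h⟩, Or.inr rfl⟩]

theorem pairD (hm : 3 ≤ m) {i j : Fin (m + 1)} (h : i ≠ j) :
    ∃ p : Pair (WD (m + 1)) (mkI i 1) (mkI j 1), p.l.length = 2 := by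
  obtain ⟨κ, c, hc, d, hd, hcd, h1, h2⟩ := gen_fix_swap {x | x ≠ i ∧ x ≠ j}
    (by rw [ncard_ne2 h]; omega)
  have hs : sign (swap c d * swap i j) = 1 := by simp [sign_swap hcd, sign_swap h]
  have e1 : pD _ ⟨_, hs⟩ * pD _ ⟨_, hs⟩ = 1 := by
    rw [← map_mul, ← map_one (pD _)]; congr 1; ext1
    change swap c d * swap i j * (swap c d * swap i j) = 1
    rw [mul_assoc, ← mul_assoc (swap i j), mul_swap_eq_swap_mul (swap i j) c d,
      swap_apply_of_ne_of_ne hc.1 hc.2, swap_apply_of_ne_of_ne hd.1 hd.2]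
    simp
  by_cases h3 : ∃ e, (e ≠ i ∧ e ≠ j) ∧ e ≠ c ∧ e ≠ d
  · obtain ⟨e, h3, h4, h5⟩ := h3
    obtain ⟨σ, hσ⟩ := exists_pD h κ
    have e2 : pD _ ⟨_, hs⟩ * wD d e * (pD _ ⟨_, hs⟩ * wD d e) = wD c d := by
      have := conj_wD (pD _ ⟨_, hs⟩) d e
      change _ = wD ((swap c d * swap i j) d) ((swap c d * swap i j) e) at this
      rw [mul_apply, mul_apply, swap_apply_of_ne_of_ne hd.1 hd.2, swap_apply_right,
        swap_apply_of_ne_of_ne h3.1 h3.2, swap_apply_of_ne_of_ne h4 h5,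
        inv_eq_of_mul_eq_one_right e1] at this
      rw [← mul_assoc, this, wD_comm d, wD_mul]
    refine pairD_of hm h hc hd hcd (h1 i (by simp)) (h1 j (by simp)) h2 (y := pD _ σ)
      (z := pD _ ⟨_, hs⟩ * wD d e) hσ (by simp [coe_pD, wD, wE]) ?_ ?_ (Or.inr ⟨e, h3, h4, h5, e2⟩)
    · simp [coe_pD, wD, wE, arrow_single, Pi.mulSingle_apply, swap_apply_of_ne_of_ne hd.1 hd.2,
        swap_apply_of_ne_of_ne h3.1 h3.2, swap_apply_of_ne_of_ne h4 h5, hc.1.symm, hc.2.symm,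
        h3.1.symm, h3.2.symm]
    · exact e2 ▸ mul_mem (subset_closure (by simp)) (subset_closure (by simp))
  · refine pairD_of (κ := 1) hm h hc hd hcd rfl rfl (fun B _ hB g hg => ?_) (y := wD c d)
      (z := pD _ ⟨_, hs⟩) (Or.inl (by simp [wD, wE])) rfl ?_ (subset_closure (by simp)) (Or.inl e1)
    · have k : ∀ x, x ≠ i ∧ x ≠ j → x = c ∨ x = d := fun x hx => by
        by_contra e; exact h3 ⟨x, hx, not_or.1 e⟩
      rcases eq_one_or_swap {x | x ≠ i ∧ x ≠ j} (by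
        rintro ⟨u, v, w, hu, hv, hw, e1, e2, e3⟩
        rcases k u hu with rfl | rfl <;> rcases k v hv with rfl | rfl <;>
          rcases k w hw with rfl | rfl <;> simp_all) hg with rfl | ⟨x, y, hx, hy, hxy, rfl⟩
      · exact one_mem _
      rcases k x hx with rfl | rfl <;> rcases k y hy with rfl | rfl
      exacts [absurd rfl hxy, hB, by rwa [swap_comm], absurd rfl hxy]
    · simp [coe_pD, wD, wE, hc.1.symm, hc.2.symm, hd.1.symm, hd.2.symm]

theorem Pr.wd {d r : ℕ} (h : Pr (alternatingGroup (Fin (m + 1))) d r) (hm : 3 ≤ m) :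
    Pr (WD (m + 1)) (d + 1) (r + 3) := by
  obtain ⟨g, h1, h2⟩ := h
  have h : (0 : Fin (m + 1)) ≠ Fin.last m := by simp [Fin.ext_iff]; omega
  generalize (0 : Fin (m + 1)) = i at h
  generalize Fin.last m = j at h
  obtain ⟨l, l1, l2, l3, l4⟩ := exists_genSym {x | x ≠ i ∧ x ≠ j}
  rw [ncard_ne2 h] at l2
  choose φ hφ using exists_pD h
  obtain ⟨B, hB⟩ := twist_sub (Subgroup.subtype _) (closure {σ | σ ∈ l.map φ}) i j
  have k : ∀ (σ : alternatingGroup _) (g : Perm (Fin (m + 1))), g i = i → g j = j →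
      σ.1 = g ∨ σ.1 = g * swap i j → σ ∈ closure {σ | σ ∈ l.map φ} := fun σ g e1 e2 e3 => by
    obtain ⟨x, x1, x2⟩ := ((hB g).1 (l4 B (fun σ e => (hB _).2 ⟨l3 σ e i (by simp), l3 σ e j (by simp),
      φ σ, subset_closure (List.mem_map_of_mem e), hφ σ⟩) g fun x hx => by
        rcases not_and_or.1 hx with e | e <;> rw [not_not.1 e] <;> assumption)).2.2
    have a1 := mem_alternatingGroup.1 σ.2
    have a2 := mem_alternatingGroup.1 x.2
    rw [coe_subtype] at x2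
    convert x1 using 1
    ext1
    rcases e3 with e | e <;> rcases x2 with e' | e' <;> simp_all [sign_swap h]
  obtain ⟨f, h3, h4⟩ := hasRels_WD (by omega) h1 h2 h (l.map φ) (fun σ hσ => by
    obtain ⟨σ, e, rfl⟩ := List.mem_map.1 hσ
    rcases hφ σ with e' | e' <;> simp [e', l3 σ e]) fun σ hσ => hσ.elim
      (fun e => k σ _ e.1 e.2 (Or.inl rfl)) fun e =>
        k σ (σ.1 * swap i j) (by simp [e]) (by simp [e]) (Or.inr (by simp [mul_assoc]))
  simpa using pr_of (h3.mono (s := r + 3) (by simp; split_ifs <;> omega)) h4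

end Cfsg.Agent.CP
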