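import Cfsg.Agent.CP.Sp
import Cfsg.Agent.CP.WDD
import Cfsg.Agent.Cl.OStd

/-! Presentations of orthogonal groups of plus type. -/

set_option autoImplicit false
set_option linter.unusedSectionVars false
set_option linter.unusedVariables false

namespace Cfsg.Agent.CP

open Subgroup Cfsg.Agent.RGD Cfsg.Agent.RG Cfsg.Agent.Polar Cfsg.Agent.Polar.PQ Cfsg.Agent.Cl
open Cfsg.Agent.Pres hiding rt
open Cfsg.Agent.SymAlt Equiv Equiv.Perm Module Cfsg.Agent.Forms
open scoped commutatorElement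

theorem isCyclic_of_two {G : Type*} [Group G] {K : Subgroup G} (z : G)
    (h : ∀ x ∈ K, x = 1 ∨ x = z) : IsCyclic K := by
  by_cases e : z ∈ K
  · refine ⟨⟨z, e⟩, fun x => ?_⟩
    rcases h x x.2 with e' | e'
    exacts [⟨0, Subtype.ext (by simp [e'])⟩, ⟨1, Subtype.ext (by simp [e'])⟩]
  · exact ⟨1, fun x => ⟨0, Subtype.ext (by simp [(h x x.2).resolve_right fun e' => e (e' ▸ x.2)])⟩⟩

theorem normD {m : ℕ} (hm : 3 ≤ m) : ∃ γ : WD (m + 1), normalClosure {x | x ∈ [γ]} = ⊤ :=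
  ⟨_, by
    simpa using normalClosure_pD (n := m + 1) (u := ⟨0, by omega⟩) (v := ⟨1, by omega⟩)
      (w := ⟨2, by omega⟩) (by simp) (by simp) (by simp) (by omega)⟩

variable {F : Type*} [Field F] [Fintype F] {V : Type*} [AddCommGroup V] [Module F V]
variable [FiniteDimensional F V] {P : PQ (oFP F) V} {m : ℕ}

theorem o_ker (Φ : Frame P m false) (hm : 1 ≤ m) {S : Type*} [Group S] (σ : USys P S)
    (h : US (Φ.X σ) Set.univ = ⊤) : IsCyclic σ.θ.ker := by
  refine isCyclic_of_two (Φ.ψD σ hm (tD m (1, -1))) fun k hk => ?_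
  have hc : ∀ x : V, σ.θ k • x = (1 : F) • x := fun x => by rw [hk, one_smul, one_smul]
  obtain ⟨⟨t, s⟩, rfl⟩ := Φ.ψD_surj σ hm (h.ge (mem_top k)) (Φ.mono_of fun a => ⟨1, hc _⟩)
  have h3 := fun j (hj : j ≤ m) =>
    Φ.eq_of_v ((Φ.ψD_v σ hm (t, s) (a := ⟨j, by omega⟩) hj).symm.trans (hc _))
  simp only [RingHom.id_apply] at h3
  have h4 := tx_eq_pow (t := t) (c := 1) (n := m - 1) fun j hj => by
    simpa [show j + 1 ≠ m by omega, show j ≠ m by omega] using h3 j (by omega)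
  have h5 := h3 (m - 1) (by omega)
  have h6 := h3 m le_rfl
  rw [Nat.sub_add_cancel hm, if_pos rfl, h4 _ le_rfl] at h5
  rw [if_neg (by omega), if_pos rfl, show Frame.tx t (m + 1) = 1 by simp [Frame.tx]] at h6
  have h7 := Frame.tx_ne t m
  simp only [one_pow] at h4 h5
  field_simp at h5 h6
  have e : (t, s) = tD m (1, s) := Prod.ext (tx_ext fun k hk => by
    rw [tx_tD hm]; split_ifs with e1 e2
    · rw [e1, h6]
    · simpa using h4 k (by omega)
    · omega) (by simp [tD])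
  rw [e]
  rcases mul_self_eq_one_iff.1 (h6 ▸ h5 : (s : F) * s = 1) with e | e
  · rw [show s = 1 from Units.ext e]; exact Or.inl (by rw [Prod.mk_one_one, map_one, map_one])
  · rw [show s = -1 from Units.ext e]; exact Or.inr rfl

theorem o_main (hP : P.ND) (Φ : Frame P m false) (hm : 3 ≤ m) {d r0 : ℕ}
    (hΓ : Pr (WD (m + 1)) d r0) : Pr P.EG (d + 2) (r0 + 16 + if m = 3 then 2 else 1) := by
  obtain ⟨ζ, hζ⟩ := exists_prim F
  have hz := ζ.ne_zero
  have hs := spans_sq hζ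
  have hs' : Spans ((ζ : F) * ζ) := sq (ζ : F) ▸ hs
  obtain ⟨ι, D, -⟩ := exists_iotaD hP Φ rfl hm
  obtain ⟨p, hp⟩ := pairD hm (i := 0) (j := Fin.last m) (by simp [Fin.ext_iff]; omega)
  generalize mkI 0 1 = a0 at p hp
  generalize mkI (Fin.last m) 1 = b0 at p hp
  have h := p.ne
  obtain ⟨c0, d0⟩ := exists_D3 (by omega) h
  have t := tr3D hm d0
  obtain ⟨D0, d1, d2⟩ := quadD hm h
  obtain ⟨γ, hγ⟩ := normD hm
  obtain ⟨g, hg, htop⟩ := hΓ
  set f : Fin d ⊕ Fin 2 → P.Iso := Sum.elim (fun y => ι (g y)) ![k0 Φ ζ a0 b0, xl Φ a0 b0 1] with hf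
  obtain ⟨w, w1, w2, w3⟩ := wt_norm (Φ := Φ) hz h
  obtain ⟨u, u1, u2, u3⟩ := wt_q (Φ := Φ) hz t.d
  obtain ⟨y, y1, y2, y3⟩ := wt_norm (Φ := Φ) hz t.d.ac
  have hC := fun s : Setup Φ f => s.core (ι := ι) (q := 1) p hz hs
    (s.cost60 p hz hs t w1 (w3 _ h) (w3 _ t.d.bc.symm) (w2 ▸ spanBy_one hs'))
    (s.cost120 p hz hs t y1 (y3 _ t.d.ac) (y3 _ t.d.bc) (y3 _ t.d.r2.bc) (y2 ▸ spanBy_one hs'))
    (s.cost90 p hz hs D0 d2.d d2.tr)
    (cost_true fun _ _ l _ _ _ _ => by rw [l.S_bot rfl, commutator_bot_left])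
    (cost_true fun _ _ l _ _ _ => by rw [l.S_bot rfl, commutator_bot_left])
    (cost_true fun _ _ l _ _ _ _ => by rw [l.S_bot rfl, commutator_bot_left]; exact bot_le)
    (cost_true fun _ _ l _ _ _ => by rw [l.S_bot rfl, cj_eq_bot.2 rfl]; exact bot_le)
    (s.costQ2 p hz hs u1 (u1.q (u2.trans u3.symm)) (by rw [u2, u3]; exact spanBy_one hs'))
  have k := hS_bot (Φ := Φ) (ι := ι) (f := f) (q := 1) rfl p (fun y : Fin d => .of (.inl y))
    (hW := .of (.inr 0)) (uW := .of (.inr 1)) (by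
      rintro (y | y)
      · exact Or.inl ⟨y, rfl⟩
      · fin_cases y <;> simp)
  have := finish' hP (cost_main (Φ := Φ) (f := f) hP
    (hP.rich (by have := Φ.finrank_V0 hP; omega)) (fun _ => by omega) p D (Or.inr ⟨c0, t⟩) hζ
    (by simp) hg htop _ hγ _ (fun y => by simp [hf]) (by simp [hf]) (by simp [hf]) k hC)
    fun S _ σ => o_ker Φ (by omega) σ
  rw [Fintype.card_sum, Fintype.card_fin, Fintype.card_fin, hp, d1, if_neg (by omega)] at this
  exact this.pad le_rfl (by simp; omega)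

theorem o_frame (n : ℕ) : Nonempty (Frame (ofQuad (QPlus (n + 1) F)) n false) := by
  refine ⟨(hsP F _).frame (fun x hx _ => mem_hsP.1 hx) (iff_of_false (by simp) ?_)⟩
  rintro ⟨x, hx, c, hc, h2⟩
  rw [mem_hsP.1 hx, o_QEq_iff, o_Q_zero] at h2
  exact hc h2.symm

theorem pr_o_of {n d r : ℕ} (hn : 3 ≤ n) (h : Pr (alternatingGroup (Fin (n + 1))) d r) :
    Pr (Omega F (quadFormPlus (n + 1) F)) (d + 3) (r + 19 + if n = 3 then 2 else 1) := by
  obtain ⟨Φ⟩ := o_frame (F := F) n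
  exact (o_main (ofQuad_nd (QPlus_nondegenerate _)) Φ hn (h.wd hn)).equiv
    (omegaEquiv (QPlus_nondegenerate _) (by simp; omega))

theorem o_center {n : ℕ} (hn : 4 ≤ n) : IsCyclic (center (Omega F (quadFormPlus n F))) := by
  obtain ⟨n, rfl⟩ : ∃ k, n = k + 1 := ⟨n - 1, by omega⟩
  obtain ⟨Φ⟩ := o_frame (F := F) n
  have h := ofQuad_nd (QPlus_nondegenerate (F := F) (n + 1))
  exact isCyclic_center_equiv (omegaEquiv (QPlus_nondegenerate _) (by simp; omega))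
    (isCyclic_center_EG h (h.rich (by simp; omega)) Φ)

theorem pr_o {n : ℕ} (hn : 4 ≤ n) : Pr (Omega F (quadFormPlus n F)) 8 29 := by
  obtain ⟨n, rfl⟩ : ∃ k, n = k + 1 := ⟨n - 1, by omega⟩
  rcases hn.eq_or_lt with e | hn
  · obtain rfl : n = 3 := by omega
    exact (pr_o_of le_rfl alt_four).pad (by omega) (by simp)
  · exact (pr_o_of (by omega) (pr_A hn)).pad (by omega) (by rw [if_neg (by omega)])

end Cfsg.Agent.CP
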