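import Cfsg.Agent.CP.OP
import Cfsg.Agent.Pres.Heis
import Cfsg.Agent.Cl.SU

/-! Presentations of special unitary groups. -/

set_option autoImplicit false
set_option linter.unusedSectionVars false
set_option linter.unusedVariables false

namespace Cfsg.Agent.CP

open Subgroup Cfsg.Agent.RGD Cfsg.Agent.RG Cfsg.Agent.Polar Cfsg.Agent.Polar.PQ Cfsg.Agent.Cl
open Cfsg.Agent.Pres hiding rt
open Cfsg.Agent.SymAlt Equiv Equiv.Perm Module Cfsg.Agent.Forms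
open scoped commutatorElement

section general

variable {F : Type*} [Field F] {τ : F →+* F} {π : FP F τ}
variable {V : Type*} [AddCommGroup V] [Module F V] {P : PQ π V} {m : ℕ}
variable [Fintype F] [FiniteDimensional F V]

theorem mainD (hP : P.ND) (hr : P.Rich) (Φ : Frame P m true) (hε : π.ε = 1) (hm : 3 ≤ m)
    {ζ : Fˣ} (hζ : orderOf ζ = Fintype.card F - 1) {q : ℕ} (hq : ∀ x, τ x = x ^ q) {d r0 : ℕ}
    (hΓ : Pr (WD (m + 1)) d r0) {e : V × F} (he : SG Φ ζ [e]) {rS rC : ℕ}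
    (hS : ∀ (f : Fin d ⊕ Fin 3 → P.Iso) gW vW a b, sup b ≠ sup a →
      FreeGroup.lift f gW = k0 Φ ζ b a →
      FreeGroup.lift f vW = xs Φ a e → Cost f rS fun C => AG (C.ev gW) (C.ev vW) ⊓ C.θ.ker = ⊥)
    (hC : ∀ (f : Fin d ⊕ Fin 3 → P.Iso) (s : Setup Φ f) (ι : WD (m + 1) →* P.Iso) (a0 b0 : Ix m),
      Pair (WD (m + 1)) a0 b0 →
      Cost f rC fun C => ∀ ρ, s.Lf ι ζ q C ρ → Core Φ C.θ (s.LC C) (s.SC C))
    (hk : ∀ (S : Type) [Group S] (σ : USys P S), US (Φ.X σ) Set.univ ⊓ σ.θ.ker = ⊥) :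
    Pr P.EG (d + 3) (r0 + 16 + rS + rC) := by
  obtain ⟨ι, D, h1⟩ := exists_iotaD hP Φ hε hm
  have hij : (0 : Fin (m + 1)) ≠ Fin.last m := by simp [Fin.ext_iff]; omega
  obtain ⟨p, h3⟩ := pairD hm hij
  obtain ⟨o, h5, h6⟩ := oneD hm hij
  obtain ⟨c0, d0⟩ := exists_D3 (by omega) p.ne
  obtain ⟨γ, hγ⟩ := normD hm
  exact (main3 hP hr Φ D p o (fun γ h => by rw [h1, o.hla γ h]) (Or.inr ⟨c0, tr3D hm d0⟩) _ hγ hζ hq
    hΓ he (fun f gW vW => hS f gW vW _ _ p.ne.symm) (fun f s => hC f s ι _ _ p) hk).pad le_rfl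
    (by rw [if_neg (by omega)]; simp only [List.length_cons, List.length_nil]; omega)

variable {sh : Bool} {Φ : Frame P m sh} {Γ : Type*} [Group Γ] [MulAction Γ (Ix m)]
  {ι : Γ →* P.Iso} {a0 b0 : Ix m} {ζ : F}

theorem Lift.hs0 {G : Type*} [Group G] {q : ℕ} {θ : G →* P.Iso} {ρ : Γ →* G} {k : Ix m → Ix m → G}
    {L : Ix m → Ix m → Subgroup G} {S : Ix m → Subgroup G} (l : Lift Φ ι ζ q θ ρ k L S)
    (hm : 3 ≤ m) (h3 : H90 L) (h5 : HS1 L S) (h6 : HSS L S) (h7 : HQ L S)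
    (hX : ∀ {a b}, sup a ≠ sup b → XS Φ a ≤ ⁅XL Φ b.rev a, XL Φ a b⁆) : HS0 L S := by
  intro a b c d
  obtain ⟨x, d⟩ := exists_D4 hm d
  have h := d.ad
  have h' : sup a ≠ sup x.rev := by simpa
  have k : QQ L S a x ⊓ θ.ker = ⊥ := by
    refine sup_inf_ker (norm_sup ((h6 h).trans le_sup_right) ?_) (l.kerS x)
      (sup_inf_ker (norm_of_comm_bot (h5 h)) (l.kerS a) (l.kerL h) ?_) ?_
    · rw [← l.symm h, h5 h.symm]; exact bot_le
    · rw [l.mapS, l.mapL h, eq_bot_iff, ← XS_inf_U (ne_of_sup h), ← XL_symm]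
      exact inf_le_inf_left _ (XL_le_U h.symm)
    · rw [Subgroup.map_sup, l.mapS, l.mapS, l.mapL h, eq_bot_iff, ← XS_inf_U (ne_of_sup h).symm]
      exact inf_le_inf_left _ (sup_le (XS_le_U a) (XL_le_U h))
  refine comm_bot_of_le ((le_of_map_le k (le_sup_of_le_right le_sup_left) ?_ ?_).trans
    (commutator_le_sup (L x.rev a) (L a x))) (h3 ⟨⟨h'.symm, by simpa using d.bd.symm, d.ab⟩,
      by simpa using d.cd.symm, d.ac, d.bc⟩) (h3 ⟨⟨h, d.ab, d.bd.symm⟩, d.ac, d.cd.symm, d.bc⟩)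
  · rw [l.symm h']; exact comm_le_of_norm (h7 h) (le_sup_of_le_right le_sup_right)
  · rw [map_commutator, l.mapS, l.mapL h, l.mapL h'.symm]; exact hX h

variable (p : Pair Γ a0 b0) (hζ : ζ ≠ 0) (hs : Spans (ζ ^ 2))
  {X : Type} {f : X → P.Iso} (s : Setup Φ f) {q r1 r2 r3 r4 r5 r6 r7 r8 : ℕ}
include p hζ hs

theorem Setup.core_even (hm : 3 ≤ m)
    (hX : ∀ {a b}, sup a ≠ sup b → XS Φ a ≤ ⁅XL Φ b.rev a, XL Φ a b⁆)
    (c1 : Cost f r1 fun C => ∀ ρ, s.Lf ι ζ q C ρ → H60 (s.LC C))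
    (c2 : Cost f r2 fun C => ∀ ρ, s.Lf ι ζ q C ρ → H60 (s.LC C) → H120 (s.LC C))
    (c3 : Cost f r3 fun C => ∀ ρ, s.Lf ι ζ q C ρ → H90 (s.LC C))
    (c5 : Cost f r5 fun C => ∀ ρ, s.Lf ι ζ q C ρ → HS1 (s.LC C) (s.SC C))
    (c6 : Cost f r6 fun C => ∀ ρ, s.Lf ι ζ q C ρ → HS1 (s.LC C) (s.SC C) → HSS (s.LC C) (s.SC C))
    (c7 : Cost f r7 fun C => ∀ ρ, s.Lf ι ζ q C ρ → ∀ u ∈ s.LC C a0 b0.rev,
      C.θ u = xl Φ a0 b0.rev 1 → cj u (s.SC C b0) ≤ QQ (s.LC C) (s.SC C) a0 b0)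
    (c8 : Cost f r8 fun C => ∀ ρ, s.Lf ι ζ q C ρ → ∀ u ∈ s.LC C a0 b0.rev,
      C.θ u = xl Φ a0 b0.rev 1 → cj u (s.LC C a0 b0) ≤ QQ (s.LC C) (s.SC C) a0 b0) :
    Cost f (r1 + r2 + r3 + r5 + r6 + r7 + r8)
      fun C => ∀ ρ, s.Lf ι ζ q C ρ → Core Φ C.θ (s.LC C) (s.SC C) := by
  have := finite_Iso (P := P)
  refine ((((((c1.and c2).and c3).and c5).and c6).and c7).and c8).imp ?_
  rintro C ⟨⟨⟨⟨⟨⟨h1, h2⟩, h3⟩, h5⟩, h6⟩, h7⟩, h8⟩ ρ l
  have k : HQ _ _ := l.hq p hζ hs (h5 ρ l) fun u hu e => ⟨h7 ρ l u hu e, h8 ρ l u hu e⟩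
  exact l.core (h1 ρ l) (h2 ρ l (h1 ρ l)) (h3 ρ l)
    (l.hs0 hm (h3 ρ l) (h5 ρ l) (h6 ρ l (h5 ρ l)) k hX) (h5 ρ l) (h6 ρ l (h5 ρ l)) k

theorem Setup.core_odd (hV : ∃ x ∈ Φ.V0, ∃ y ∈ Φ.V0, P.B y x ≠ 0)
    (c2 : Cost f r2 fun C => ∀ ρ, s.Lf ι ζ q C ρ → H60 (s.LC C) → H120 (s.LC C))
    (c4 : Cost f r4 fun C => ∀ ρ, s.Lf ι ζ q C ρ → HS0 (s.LC C) (s.SC C))
    (c5 : Cost f r5 fun C => ∀ ρ, s.Lf ι ζ q C ρ → HS1 (s.LC C) (s.SC C))
    (c6 : Cost f r6 fun C => ∀ ρ, s.Lf ι ζ q C ρ → HS1 (s.LC C) (s.SC C) → HSS (s.LC C) (s.SC C))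
    (c7 : Cost f r7 fun C => ∀ ρ, s.Lf ι ζ q C ρ → ∀ u ∈ s.LC C a0 b0.rev,
      C.θ u = xl Φ a0 b0.rev 1 → cj u (s.SC C b0) ≤ QQ (s.LC C) (s.SC C) a0 b0) :
    Cost f (r2 + r4 + r5 + r6 + r7)
      fun C => ∀ ρ, s.Lf ι ζ q C ρ → Core Φ C.θ (s.LC C) (s.SC C) := by
  have := finite_Iso (P := P)
  refine ((((c2.and c4).and c5).and c6).and c7).imp ?_
  rintro C ⟨⟨⟨⟨h2, h4⟩, h5⟩, h6⟩, h7⟩ ρ l
  have h4 : HS0 _ _ := h4 ρ l
  have h5 : HS1 _ _ := h5 ρ l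
  have h6 : HSS _ _ := h6 ρ l h5
  have h1 : H60 (s.LC C) := fun d => comm_bot_of_le (l.L_le_SS h6 hV d.ab) (h4 d.s12) (h5 d.ac)
  refine l.core h1 (h2 ρ l h1) (fun d => comm_bot_of_le (l.L_le_SS h6 hV d.ab)
    (h4 ⟨d.bc, d.bd, d.cd⟩) (h4 ⟨d.ac, d.ad, d.cd⟩)) h4 h5 h6
    (l.hq p hζ hs h5 fun u hu e => ⟨h7 ρ l u hu e, (cj_mono _ (l.L_le_SS h6 hV p.ne)).trans ?_⟩)
  rw [cj_sup]
  refine sup_le (h7 ρ l u hu e) (cj_le_of_comm (le_sup_of_le_right le_sup_left) fun a ha => ?_)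
  rw [(h5 (by simpa using p.ne)).le (commutator_mem_commutator ha hu)]; exact one_mem _

end general

variable {F : Type*} [Field F] [Fintype F] {q : ℕ} {hF : Fintype.card F = q ^ 2}

local notation "τ" => frobq hF

section field

variable (hF) in
/-- the powers span the fixed field -/
def FSp (ω : F) : Prop := ∀ t, τ t = t → t ∈ AddSubmonoid.closure (Set.range fun i : ℕ => ω ^ i)

theorem fsp_of {u : Cl.Fix τ} (h : Spans u) : FSp hF u := fun t ht => by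
  have := AddSubmonoid.mem_map_of_mem (Cl.Fix τ).subtype.toAddMonoidHom (h ⟨t, ht⟩)
  rw [AddMonoidHom.map_mclosure, ← Set.range_comp] at this
  exact this

theorem FSp.mul_mem {ω t e : F} (h : FSp hF ω) (ht : τ t = t) {E : List F} (he : e ∈ E) :
    t * e ∈ AddSubmonoid.closure {y | ∃ e ∈ E, ∃ i : ℕ, y = ω ^ i * e} := by
  have := h t ht
  clear ht
  induction this using AddSubmonoid.closure_induction with
  | mem x hx => obtain ⟨i, rfl⟩ := hx; exact AddSubmonoid.subset_closure ⟨e, he, i, rfl⟩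
  | zero => rw [zero_mul]; exact zero_mem _
  | add x y _ _ hx hy => rw [add_mul]; exact add_mem hx hy

variable (hF) in
/-- the norm as a unit of the fixed field -/
noncomputable def nu (ζ : Fˣ) : (Cl.Fix τ)ˣ :=
  Units.mk0 ⟨ζ * τ ζ, by simp [frobq_frobq, mul_comm]⟩ (by simp [Subtype.ext_iff])

variable {ζ : Fˣ} (hζ : orderOf ζ = Fintype.card F - 1)
include hζ

theorem tau_ne : τ ζ ≠ ζ := fun e => by
  obtain ⟨t, ht⟩ := exists_frobq_ne hF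
  obtain ⟨n, rfl⟩ := SL2Pres.exists_pow_eq hζ (a := t) (by rintro rfl; simp at ht)
  exact ht (by rw [map_pow, e])

theorem FSp.spanBy {ω : F} (h : FSp hF ω) : SpanBy ω [1, ζ] := fun a => by
  have h0 := sub_ne_zero.2 (tau_ne (hF := hF) hζ)
  have h1 := sub_ne_zero.2 (tau_ne (hF := hF) hζ).symm
  have : a = (a - (τ a - a) / (τ ζ - ζ) * ζ) * 1 + (τ a - a) / (τ ζ - ζ) * ζ := by ring
  rw [this]
  refine add_mem (h.mul_mem ?_ (by simp)) (h.mul_mem ?_ (by simp)) <;>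
    simp only [map_sub, map_mul, map_div₀, frobq_frobq] <;> field_simp <;> ring

theorem order_nu [Fintype (Cl.Fix τ)] : orderOf (nu hF ζ) = Fintype.card (Cl.Fix τ) - 1 := by
  have e : Units.map (Cl.Fix τ).subtype.toMonoidHom (nu hF ζ) = ζ ^ (q + 1) :=
    Units.ext (by simp [nu, frobq_apply, pow_succ'])
  rw [← orderOf_injective (Units.map (Cl.Fix τ).subtype.toMonoidHom)
    (Units.map_injective Subtype.val_injective), e, orderOf_pow, hζ, hF, Fintype.card_eq_nat_card,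
    card_Fix, show q ^ 2 - 1 = (q + 1) * (q - 1) from Nat.sq_sub_sq q 1, Nat.gcd_mul_right_left]
  simp

theorem fsp_nu : FSp hF (ζ * τ ζ) :=
  have := Fintype.ofFinite (Cl.Fix τ)
  fsp_of (u := (nu hF ζ).1) (spans_prim (order_nu hζ))

theorem fsp_nu2 : FSp hF (ζ * τ ζ * τ (ζ * τ ζ)) := by
  have := Fintype.ofFinite (Cl.Fix τ)
  have := fsp_of (spans_sq (order_nu (hF := hF) hζ))
  convert this using 1
  simp [nu, frobq_frobq]; ring

theorem order_tau : orderOf (Units.map (τ).toMonoidHom ζ) = Fintype.card F - 1 := by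
  rw [orderOf_injective _ (Units.map_injective (τ).injective), hζ]

theorem spans_tau : Spans (τ ζ) := by simpa using spans_prim (order_tau (hF := hF) hζ)

theorem one_add_ne (hF : Fintype.card F = q ^ 2) : 1 + (ζ : F) ≠ 0 := fun e => by
  have := Nat.le_of_dvd two_pos (SL2Pres.dvd_of_pow_eq_one hζ (n := 2)
    (by rw [eq_neg_of_add_eq_zero_right e]; simp))
  have := two_le_q hF
  have := Nat.pow_le_pow_left this 2
  omega

theorem spans_mu (hF : Fintype.card F = q ^ 2) : Spans ((ζ : F) ^ (q - 1)) := by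
  obtain ⟨p, hp⟩ := CharP.exists F
  have : Fact p.Prime := ⟨CharP.char_is_prime F p⟩
  let _ : Algebra (ZMod p) F := ZMod.algebra F p
  refine spans_of_surj p (SL2Pres.aeval_surjective p _ fun d hd hq e => ?_)
  have hr : 2 ≤ p ^ d := le_trans (Fact.out : p.Prime).two_le (Nat.le_self_pow (by omega) p)
  obtain ⟨r, hr'⟩ := Nat.exists_eq_add_of_le' hr
  obtain ⟨k, rfl⟩ := Nat.exists_eq_add_of_le' (two_le_q hF)
  rw [hr', hF, Nat.pow_le_pow_iff_left two_ne_zero] at hq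
  rw [hr', pow_succ, mul_eq_right₀ (pow_ne_zero _ ζ.ne_zero), ← pow_mul] at e
  have h2 := SL2Pres.dvd_of_pow_eq_one hζ e
  rw [hF, show (k + 2) ^ 2 - 1 = (k + 1) * (k + 3) by ring_nf; omega] at h2
  have := Nat.le_of_dvd (by omega) (Nat.dvd_of_mul_dvd_mul_left (by omega) h2)
  omega

end field

variable {V : Type*} [AddCommGroup V] [Module F V] [FiniteDimensional F V] {P : PQ (uFP hF) V}
  {m : ℕ} {Φ : Frame P m true}

theorem fix_div {c l : F} (hc : c ∈ (uFP hF).Λ) (hl : l ∈ (uFP hF).Λ) : τ (c / l) = c / l := by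
  rw [map_div₀, tau_lam hc, tau_lam hl]; simp [neg_div_neg_eq]

theorem sg_even (hW : Φ.V0 = ⊥) {l : F} (hl : l ∈ (uFP hF).Λ) (h0 : l ≠ 0) {ω : F}
    (h : FSp hF (ω * τ ω)) : SG Φ ω [(0, l)] :=
  sg_lam (E := [l]) hW (by simpa) fun c hc => by
    have := h.mul_mem (fix_div hc hl) (List.mem_singleton_self l)
    rwa [div_mul_cancel₀ _ h0] at this

theorem xs_split (a : Ix m) {x : V} (hx : x ∈ Φ.V0) {c d : F} (hc : P.QEq x c) (hd : P.QEq x d) :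
    P.eich (Φ.v a) x d = P.eich (Φ.v a) x c * P.eich (Φ.v a) 0 (d - c) := by
  rw [(Φ.eOk0 a hx hc).eich_mul (EOk.lam (Φ.sing a) (hd.sub_mem hc))]; simp

theorem sg_odd {y : V} (hW : Φ.V0 = F ∙ y) (hy : P.B y y ≠ 0) {ω : F} {E : List F}
    (h : SpanBy (τ ω) E) : SG Φ ω (E.map fun e => (e • y, P.Q (e • y))) := by
  have h0 : ∀ a : F, a • y ∈ Φ.V0 := fun a => hW ▸ Submodule.mem_span_singleton.2 ⟨a, rfl⟩
  refine ⟨fun e he => ?_, fun a t s ht e D h1 h2 => ?_⟩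
  · obtain ⟨e, he', rfl⟩ := List.mem_map.1 he
    exact ⟨h0 e, QEq.self _⟩
  subst e
  have k : ∀ b : F, ∃ c, P.QEq (b • y) c ∧ P.eich (Φ.v a) (b • y) c ∈ D := fun b => by
    induction h b using AddSubmonoid.closure_induction with
    | mem x hx =>
      obtain ⟨e, he, i, rfl⟩ := hx
      induction i with
      | zero =>
        rw [pow_zero, one_mul]
        exact ⟨_, QEq.self _, h2 _ (List.mem_map_of_mem (List.mem_map_of_mem he))⟩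
      | succ i ih =>
        obtain ⟨c, h3, h4⟩ := ih
        have := h1 _ h4
        rw [ht.conj_xs a (h0 _) h3] at this
        rw [pow_succ', mul_assoc, mul_smul]
        exact ⟨_, by simpa [frobq_frobq, mul_comm] using h3.smul (τ (s a)), this⟩
    | zero => exact ⟨0, by rw [zero_smul]; exact sing_zero, by rw [zero_smul, eich_zero]; exact one_mem _⟩
    | add x z _ _ hx hz =>
      obtain ⟨c, h3, h4⟩ := hx
      obtain ⟨d, h5, h6⟩ := hz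
      have := mul_mem h4 h6
      rw [(Φ.eOk0 a (h0 _) h3).eich_mul (Φ.eOk0 a (h0 _) h5)] at this
      exact ⟨_, add_smul x z y ▸ ((Φ.eOk0 a (h0 _) h3).add (Φ.eOk0 a (h0 _) h5)).val,
        add_smul x z y ▸ this⟩
  refine XS_le fun x hx c hc => ?_
  obtain ⟨b, rfl⟩ := Submodule.mem_span_singleton.1 (hW ▸ hx)
  obtain ⟨d, h3, h4⟩ := k b
  obtain ⟨s, hs⟩ := u_gen1 _ (hc.sub_mem h3)
  obtain ⟨c1, h5, h6⟩ := k 1
  obtain ⟨c2, h7, h8⟩ := k (s / P.B y y)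
  have := mul_mem (mul_mem (mul_mem h6 h8) (inv_mem h6)) (inv_mem h8)
  rw [eich_comm (Φ.eOk0 a (h0 _) h5) (Φ.eOk0 a (h0 _) h7)] at this
  rw [xs_split a hx h3 hc, hs]
  convert mul_mem h4 this using 4
  · simp [hy]
  · simp [u_fix_B_self, hy]

theorem xs_le_comm (hW : Φ.V0 = ⊥) {a b : Ix m} (h : sup a ≠ sup b) :
    XS Φ a ≤ ⁅XL Φ b.rev a, XL Φ a b⁆ := XS_le fun x hx c hc => by
  rw [hW, Submodule.mem_bot] at hx
  subst hx
  obtain ⟨s, hs⟩ := u_gen1 _ (neg_mem ((sing_iff_of_QEq hc).1 sing_zero))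
  have := commutator_mem_commutator (xl_mem (Φ := Φ) b.rev a (Φ.κ b * s)) (xl_mem (Φ := Φ) a b 1)
  rwa [comm_ll90 h, one_mul, ← mul_assoc, κ_sq, one_mul, ← hs, uFP_eps, one_mul, neg_neg] at this

variable {ζ : Fˣ} (hζ : orderOf ζ = Fintype.card F - 1) {a b : Ix m} (h : sup b ≠ sup a)
  {X : Type} {f : X → P.Iso} {gW vW : FreeGroup X} (e1 : FreeGroup.lift f gW = k0 Φ ζ b a)

include h in
theorem isAdd_lam {l : F} (hl : l ∈ (uFP hF).Λ) :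
    IsAdd (fun u : Cl.Fix τ => P.eich (Φ.v a) 0 (u * l)) (k0 Φ ζ b a) (P.eich (Φ.v a) 0 l)
      (nu hF ζ).1 :=
  ⟨fun c d => by rw [← xs_lam_add a (u_lam_mul hl c.2) (u_lam_mul hl d.2), ← add_mul]; rfl,
    by simp, fun c => by
      rw [k0_xs ζ.ne_zero h a (zero_mem _) (qeq_lam (u_lam_mul hl c.2)), wt_right h]
      simp [nu, mul_assoc]⟩

theorem lam_inj {l : F} (hl : l ∈ (uFP hF).Λ) (h0 : l ≠ 0) (u : Cl.Fix τ)
    (h : P.eich (Φ.v a) 0 (u * l) = 1) : u = 0 := by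
  simpa [h0] using (xs_eq_one (zero_mem _) (qeq_lam (u_lam_mul hl u.2)) h).2

include hζ h e1

theorem cost_even {l : F} (hl : l ∈ (uFP hF).Λ) (h0 : l ≠ 0)
    (e2 : FreeGroup.lift f vW = xs Φ a (0, l)) :
    Cost f 4 fun C => AG (C.ev gW) (C.ev vW) ⊓ C.θ.ker = ⊥ := by
  have := Fintype.ofFinite (Cl.Fix τ)
  have k := isAdd_lam (Φ := Φ) (ζ := ζ) h hl
  exact (cost_add (order_nu hζ) (g := gW) (u := vW) (by rw [e1, e2]; exact k)).imp
    fun C ⟨φ, hφ⟩ => hφ.inf_ker (spans_prim (order_nu hζ))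
      (by rw [C.comp, C.comp, e1, e2]; exact k) (lam_inj hl h0)

theorem cost_odd {y : V} (hW : Φ.V0 = F ∙ y) (hy : P.B y y ≠ 0)
    (e2 : FreeGroup.lift f vW = xs Φ a ((1 : F) • y, P.Q ((1 : F) • y))) :
    Cost f 7 fun C => AG (C.ev gW) (C.ev vW) ⊓ C.θ.ker = ⊥ := by
  have := Fintype.ofFinite (Cl.Fix τ)
  have := finite_Iso (P := P)
  obtain ⟨p, hp⟩ := CharP.exists F
  have : Fact p.Prime := ⟨CharP.char_is_prime F p⟩
  have h0 : ∀ a : F, a • y ∈ Φ.V0 := fun a => hW ▸ Submodule.mem_span_singleton.2 ⟨a, rfl⟩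
  have o := fun {c : F} {d} (hd : P.QEq (c • y) d) => Φ.eOk0 a (h0 c) hd
  have hs := spans_prim (order_nu (hF := hF) hζ)
  have e3 := fun c : F => k0_xs (Φ := Φ) ζ.ne_zero h a (h0 c) (QEq.self _)
  have e4 := fun c : F => (QEq.self (P := P) (c • y)).smul (τ ζ)
  simp only [wt_right h, smul_smul, frobq_frobq, mul_comm (τ ζ) ζ] at e3 e4
  have hl : (τ ζ - ζ) * P.B y y ∈ (uFP hF).Λ := by
    simp [mem_uFP_lam, frobq_frobq, u_fix_B_self, ← add_mul]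
  have k := isAdd_lam (Φ := Φ) (ζ := ζ) h hl
  have hl0 := mul_ne_zero (sub_ne_zero.2 (tau_ne (hF := hF) hζ)) hy
  have e5 : P.eich (Φ.v a) 0 ((τ ζ - ζ) * P.B y y) = ⁅xs Φ a ((1 : F) • y, P.Q ((1 : F) • y)),
      k0 Φ ζ b a * xs Φ a ((1 : F) • y, P.Q ((1 : F) • y)) * (k0 Φ ζ b a)⁻¹⁆ := by
    rw [xs, e3, commutatorElement_def, eich_comm (o (QEq.self _)) (o (e4 _))]
    simp [frobq_frobq, sub_mul]
  have hZ : AG (k0 Φ ζ b a) (P.eich (Φ.v a) 0 ((τ ζ - ζ) * P.B y y)) = UW P (Φ.v a) ⊥ := by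
    ext g
    rw [k.mem_AG hs, mem_Z (Φ.sing a)]
    exact ⟨fun ⟨u, e⟩ => ⟨_, u_lam_mul hl u.2, e.symm⟩, fun ⟨l, h1, e⟩ =>
      ⟨⟨_, fix_div h1 hl⟩, by rw [div_mul_cancel₀ _ hl0, e]⟩⟩
  have k1 : ∀ c : F, ∀ s ∈ UW P (Φ.v a) ⊥, Commute s (P.eich (Φ.v a) (c • y) (P.Q (c • y))) :=
    fun c => commute_UW (Φ.sing a) (eich_mem_U _ _ _).1 (by simp)
  have k2 := fun c => centralizer_le_normalizer _ (mem_centralizer_iff.2 fun s hs => (k1 c s hs).eq)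
  have k3 : ∀ {c : F} {d d'}, P.QEq (c • y) d → P.QEq (c • y) d' →
      (P.eich (Φ.v a) (c • y) d)⁻¹ * P.eich (Φ.v a) (c • y) d' ∈ UW P (Φ.v a) ⊥ := fun h1 h2 => by
    rw [xs_split a (h0 _) h1 h2, inv_mul_cancel_left]
    exact (mem_Z (Φ.sing a)).2 ⟨_, h2.sub_mem h1, rfl⟩
  refine cost_heis p (order_tau (hF := hF) hζ) (one_add_ne (order_tau (hF := hF) hζ) hF) hs
    (n := q - 1) (by have := two_le_q hF; omega) ?_ e1 e2 (e5 ▸ k) (lam_inj hl hl0) ?_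
    (e5 ▸ k1 1 _ (hZ ▸ self_mem_AG _ _)) (e5 ▸ hZ) (hZ ▸ self_norm_AG) (k2 1)
    (isAdd_nq k2 _ (fun c d => ?_) fun c => ?_) fun c hc => ?_
  · have := pow_orderOf_eq_one (nu hF ζ)
    rw [order_nu hζ, Fintype.card_eq_nat_card, card_Fix] at this
    rw [← Units.val_pow_eq_pow_val, this, Units.val_one]
  · refine ((sg_odd (ω := ζ ^ (q - 1)) hW hy (spanBy_one ?_)).gen a _ _
      ((k0_mn ζ.ne_zero h).pow (q - 1)) (by rw [wt_right h])).le_AG ?_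
    · have := spans_mu (order_tau (hF := hF) hζ) hF
      rwa [map_pow]
    · rw [xs, e3]; exact xs_mem a (h0 _) (e4 _)
  · rw [(o (QEq.self _)).eich_mul (o (QEq.self _)), ← add_smul]
    exact k3 (QEq.self _) (add_smul c d y ▸ ((o (QEq.self _)).add (o (QEq.self _))).val)
  · rw [e3]; exact k3 (e4 _) (QEq.self _)
  · obtain ⟨l, h1, e⟩ := (mem_Z (Φ.sing a)).1 ((nq_eq_one _).1 hc)
    rw [← mul_inv_eq_one, (EOk.lam (Φ.sing a) h1).eich_inv,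
      (o (QEq.self _)).eich_mul (EOk.lam (Φ.sing a) h1).neg] at e
    have := (xs_eq_one (by simpa using h0 c) ((o (QEq.self _)).add (EOk.lam (Φ.sing a) h1).neg).val
      e).1
    simpa [show y ≠ 0 by rintro rfl; simp at hy] using this

omit h e1

variable {Γ : Type*} [Group Γ] [MulAction Γ (Ix m)] {ι : Γ →* P.Iso} {a0 b0 : Ix m}
  (p : Pair Γ a0 b0) (s : Setup Φ f) (ht : m = 1 ∨ ∃ c0, Tr3 Γ a0 b0 c0)
include p ht

theorem core_even (hW : Φ.V0 = ⊥) {l : F} (hl : l ∈ (uFP hF).Λ) (h0 : l ≠ 0)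
    {D0 : List (Ix m × Ix m)} (hD : 3 ≤ m → Quad Γ a0 b0 D0) :
    Cost f (if m = 1 then 6 else if m = 2 then 10 else 7 + D0.length)
      fun C => ∀ ρ, s.Lf ι ζ q C ρ → Core Φ C.θ (s.LC C) (s.SC C) := by
  have hz := ζ.ne_zero
  have hs := spans_sq hζ
  have h := p.ne
  have he : SG Φ ζ [(0, l)] := sg_even hW hl h0 (fsp_nu hζ)
  have he' := sg_even hW hl h0 (fsp_nu2 hζ)
  have k1 := (fsp_nu (hF := hF) hζ).spanBy hζ
  obtain ⟨w, w1, w2, w3⟩ := wt_norm (Φ := Φ) hz h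
  by_cases e : m = 1
  · rw [if_pos e]
    obtain ⟨u, u1, u2, u3⟩ := wt_q' (Φ := Φ) hz h
    exact s.core p hz hs (cost_true fun _ _ _ => H60_two e _) (cost_true fun _ _ _ _ => H120_two e _)
      (cost_true fun _ _ _ => H90_two (by omega) _) (cost_true fun _ _ _ => HS0_two e _ _)
      (s.costS1 p hz hs he w1 (w3 _ h) (w2 ▸ k1)) (s.costSS p hz hs he w1 (w3 _ h) (w2 ▸ he'))
      (s.costQ1 p hz hs u1 (u1.q (u2.trans u3.symm)) (u3 ▸ he'))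
      (s.costQ2 p hz hs u1 (u1.q (u2.trans u3.symm))
        (by rw [u2, u3, mul_comm]; exact (fsp_nu2 hζ).spanBy hζ))
  rw [if_neg e]
  obtain ⟨c0, t⟩ := ht.resolve_left e
  obtain ⟨u, u1, u2, u3⟩ := wt_q (Φ := Φ) hz t.d
  obtain ⟨v, v1, v2, v3⟩ := wt_two (Φ := Φ) hz t.d
  have c5 := s.costS1 (ι := ι) (q := q) p hz hs he v1 v2 (v3 ▸ spanBy_one (spans_prim hζ))
  have c6 := s.costSS (ι := ι) (q := q) p hz hs he v1 v2 (v3 ▸ he)
  have c7 := s.costQ1 (ι := ι) (q := q) p hz hs u1 (u1.q (u2.trans u3.symm)) (u3 ▸ he)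
  have c8 := s.costQ2 (ι := ι) (q := q) p hz hs u1 (u1.q (u2.trans u3.symm))
    (by rw [u2, u3, mul_comm]; exact k1)
  by_cases e' : m = 2
  · rw [if_pos e']
    obtain ⟨y, y1, y2, y3⟩ := wt_norm (Φ := Φ) hz t.d.ac
    exact s.core p hz hs (s.cost60 p hz hs t w1 (w3 _ h) (w3 _ t.d.bc.symm) (w2 ▸ k1))
      (s.cost120 p hz hs t y1 (y3 _ t.d.ac) (y3 _ t.d.bc) (y3 _ t.d.r2.bc) (y2 ▸ k1))
      (cost_true fun _ _ _ => H90_two (by omega) _) (s.costS0 p hz hs t he) c5 c6 c7 c8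
  rw [if_neg e']
  have hm : 3 ≤ m := by have := p.one_le; omega
  obtain ⟨d, d1⟩ := exists_D4 hm t.d.s23
  obtain ⟨d', d2⟩ := exists_D4 hm t.d
  obtain ⟨x, x1, x2, x3⟩ := wt_four (Φ := Φ) hz d1
  obtain ⟨y, y1, y2, y3⟩ := wt_four (Φ := Φ) hz d2
  exact (s.core_even p hz hs hm (xs_le_comm hW)
    (s.cost60 p hz hs t x1 (x3 _ (by simp)) (x3 _ (by simp)) (x2 ▸ spanBy_one (spans_prim hζ)))
    (s.cost120 p hz hs t y1 (y3 _ (by simp)) (y3 _ (by simp)) (y3 _ (by simp))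
      (y2 ▸ spanBy_one (spans_prim hζ))) (s.cost90 p hz hs D0 (hD hm).d (hD hm).tr) c5 c6 c7 c8).le
    (by simp; omega)

theorem core_odd {y : V} (hW : Φ.V0 = F ∙ y) (hy : P.B y y ≠ 0) :
    Cost f (if m ≤ 2 then 6 else 5)
      fun C => ∀ ρ, s.Lf ι ζ q C ρ → Core Φ C.θ (s.LC C) (s.SC C) := by
  have hz := ζ.ne_zero
  have hs := spans_sq hζ
  have h := p.ne
  have he : SG Φ ζ [_] := sg_odd hW hy (spanBy_one (spans_tau hζ))
  have k1 := (fsp_nu (hF := hF) hζ).spanBy hζ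
  have he' := sg_odd (ω := ζ * τ ζ) hW hy (by rw [map_mul, frobq_frobq, mul_comm]; exact k1)
  have hV : ∃ x ∈ Φ.V0, ∃ y ∈ Φ.V0, P.B y x ≠ 0 :=
    ⟨y, hW ▸ Submodule.mem_span_singleton_self y, y, hW ▸ Submodule.mem_span_singleton_self y, hy⟩
  by_cases e : m = 1
  · rw [if_pos (by omega)]
    obtain ⟨w, w1, w2, w3⟩ := wt_norm (Φ := Φ) hz h
    obtain ⟨u, u1, u2, u3⟩ := wt_q' (Φ := Φ) hz h
    exact s.core_odd p hz hs hV (cost_true fun _ _ _ _ => H120_two e _)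
      (cost_true fun _ _ _ => HS0_two e _ _) (s.costS1 p hz hs he w1 (w3 _ h) (w2 ▸ k1))
      (s.costSS p hz hs he w1 (w3 _ h) (w2 ▸ he'))
      (s.costQ1 p hz hs u1 (u1.q (u2.trans u3.symm)) (u3 ▸ he'))
  obtain ⟨c0, t⟩ := ht.resolve_left e
  obtain ⟨u, u1, u2, u3⟩ := wt_q (Φ := Φ) hz t.d
  obtain ⟨v, v1, v2, v3⟩ := wt_two (Φ := Φ) hz t.d
  have c := fun {r} c2 => s.core_odd (r2 := r) (ι := ι) (q := q) p hz hs hV c2
    (s.costS0 p hz hs t he) (s.costS1 p hz hs he v1 v2 (v3 ▸ spanBy_one (spans_prim hζ)))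
    (s.costSS p hz hs he v1 v2 (v3 ▸ he)) (s.costQ1 p hz hs u1 (u1.q (u2.trans u3.symm)) (u3 ▸ he))
  split_ifs with e'
  · obtain ⟨y, y1, y2, y3⟩ := wt_norm (Φ := Φ) hz t.d.ac
    exact c (s.cost120 (E := [1, ζ]) p hz hs t y1 (y3 _ t.d.ac) (y3 _ t.d.bc) (y3 _ t.d.r2.bc)
      (y2 ▸ k1))
  · obtain ⟨d', d2⟩ := exists_D4 (by omega) t.d
    obtain ⟨y, y1, y2, y3⟩ := wt_four (Φ := Φ) hz d2
    exact c (s.cost120 (E := [1]) p hz hs t y1 (y3 _ (by simp)) (y3 _ (by simp)) (y3 _ (by simp))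
      (y2 ▸ spanBy_one (spans_prim hζ)))

omit hζ p ht

theorem u_V0 (Φ : Frame P m true) : Φ.V0 = ⊥ ∨ ∃ y, Φ.V0 = F ∙ y ∧ P.B y y ≠ 0 := by
  refine or_iff_not_imp_left.2 fun h => exists_span (P := P) (W := Φ.V0) (fun x hx h0 =>
    ⟨x, hx, fun e => h0 (Φ.aniso x hx (u_sing_iff.2 e))⟩) ?_
  have := Submodule.finrank_eq_zero.not.2 h
  by_contra h2
  obtain ⟨z, hz, h3, h4⟩ := u_iso (P := P) Φ.V0 (by omega)
  exact h3 (Φ.aniso z hz h4)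

theorem su_B (hP : P.ND) (Φ : Frame P m true) (hm : 1 ≤ m) (hm' : m ≤ 2) {d r0 : ℕ}
    (hΓ : Pr (WB (m + 1)) d r0) : Pr P.EG (d + 3) (r0 + if m = 1 then 31 else 33) := by
  obtain ⟨ζ, hζ⟩ := exists_prim F
  obtain ⟨l, hl, h0⟩ := u_exists_lam hF
  rcases u_V0 Φ with hW | ⟨y, hW, hy⟩
  · exact (mainB hP Φ hm hl h0 hζ (fun _ => rfl) hΓ (sg_even hW hl h0 (fsp_nu hζ))
      (fun f gW vW a b h e1 => cost_even hζ h e1 hl h0)
      (fun f s ι a0 b0 p => core_even hζ p s (tr3B p.ne) hW hl h0 (D0 := []) (by omega))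
      fun S _ σ => u_ker Φ σ).pad le_rfl (by split_ifs <;> omega)
  · exact (mainB hP Φ hm hl h0 hζ (fun _ => rfl) hΓ
      (sg_odd hW hy (spanBy_one (spans_tau hζ)))
      (fun f gW vW a b h e1 => cost_odd hζ h e1 hW hy)
      (fun f s ι a0 b0 p => core_odd hζ p s (tr3B p.ne) hW hy)
      fun S _ σ => u_ker Φ σ).pad le_rfl (by split_ifs <;> omega)

theorem su_D (hP : P.ND) (Φ : Frame P m true) (hm : 3 ≤ m) {d r0 : ℕ}
    (hΓ : Pr (WD (m + 1)) d r0) : Pr P.EG (d + 3) (r0 + if m = 3 then 29 else 28) := by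
  obtain ⟨ζ, hζ⟩ := exists_prim F
  obtain ⟨l, hl, h0⟩ := u_exists_lam hF
  have ht : ∀ {a0 b0 : Ix m}, sup a0 ≠ sup b0 → m = 1 ∨ ∃ c0, Tr3 (WD (m + 1)) a0 b0 c0 := fun h =>
    Or.inr ((exists_D3 (by omega) h).imp fun _ => tr3D hm)
  rcases u_V0 Φ with hW | ⟨y, hW, hy⟩
  · exact (mainD (rC := if m = 3 then 9 else 8) hP u_rich Φ rfl hm hζ (fun _ => rfl) hΓ
      (sg_even hW hl h0 (fsp_nu hζ)) (fun f gW vW a b h e1 => cost_even hζ h e1 hl h0)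
      (fun f s ι a0 b0 p => by
        obtain ⟨D0, d1, d2⟩ := quadD hm p.ne
        exact (core_even hζ p s (ht p.ne) hW hl h0 fun _ => d2).le (by split_ifs at * <;> omega))
      fun S _ σ => u_ker Φ σ).pad le_rfl (by split_ifs <;> omega)
  · exact (mainD hP u_rich Φ rfl hm hζ (fun _ => rfl) hΓ
      (sg_odd hW hy (spanBy_one (spans_tau hζ)))
      (fun f gW vW a b h e1 => cost_odd hζ h e1 hW hy)
      (fun f s ι a0 b0 p => core_odd hζ p s (ht p.ne) hW hy)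
      fun S _ σ => u_ker Φ σ).pad le_rfl (by split_ifs <;> omega)

variable (hF)
include hF

theorem su_frame {n : ℕ} (hn : 2 ≤ n) : Nonempty (Frame (uStd hF n) (n / 2 - 1) true) := by
  obtain ⟨l, hl, h0⟩ := u_exists_lam hF
  obtain ⟨e, h1, h2⟩ := u_exists_sing (uStd hF n) (by simpa)
  obtain ⟨m, ⟨Φ⟩⟩ := exists_frame_lam (uStd_nd hF n) h2 h1 hl h0
  have := Φ.finrank_V0 (uStd_nd hF n)
  have : finrank F Φ.V0 ≤ 1 := by
    rcases u_V0 Φ with hW | ⟨y, hW, hy⟩ <;> rw [hW]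
    exacts [by simp, (finrank_span_singleton (by rintro rfl; simp at hy)).le]
  obtain rfl : m = n / 2 - 1 := by simp at *; omega
  exact ⟨Φ⟩

theorem su_center {n : ℕ} (hn : 2 ≤ n) : IsCyclic (center (SU n F q)) := by
  obtain ⟨Φ⟩ := su_frame hF hn
  exact isCyclic_center_equiv (suEquiv hF n) (isCyclic_center_EG (uStd_nd hF n) u_rich Φ)

theorem pr_su45 {n : ℕ} (hn : n / 2 = 2) : Pr (SU n F q) 5 33 := by
  obtain ⟨Φ⟩ := su_frame hF (n := n) (by omega)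
  rw [hn] at Φ
  exact (su_B (uStd_nd hF n) Φ le_rfl one_le_two (pr_S2.wb le_rfl)).equiv (suEquiv hF n)

theorem pr_su {n : ℕ} (hn : 4 ≤ n) : Pr (SU n F q) 6 39 := by
  obtain ⟨Φ⟩ := su_frame hF (n := n) (by omega)
  obtain h | h | h | h : n / 2 = 2 ∨ n / 2 = 3 ∨ n / 2 = 4 ∨ 5 ≤ n / 2 := by omega
  · exact (pr_su45 hF h).pad (by omega) (by omega)
  · rw [h] at Φ
    exact ((su_B (uStd_nd hF n) Φ one_le_two le_rfl (Pr.wb sym_three_small one_le_two)).equiv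
      (suEquiv hF n)).pad le_rfl (by simp)
  · rw [h] at Φ
    exact ((su_D (uStd_nd hF n) Φ le_rfl (Pr.wd alt_four le_rfl)).equiv
      (suEquiv hF n)).pad le_rfl (by simp)
  · exact ((su_D (uStd_nd hF n) Φ (by omega) (Pr.wd (pr_A2 (by omega)) (by omega))).equiv
      (suEquiv hF n)).pad le_rfl (by rw [if_neg (by omega)])

end Cfsg.Agent.CP
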