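import Cfsg.Agent.CP.SU
import Cfsg.Agent.Pres.Heis2
import Cfsg.Agent.Forms.RegSU3

/-! A presentation of the three-dimensional special unitary group. -/

set_option autoImplicit false
set_option linter.unusedSectionVars false
set_option linter.unusedVariables false

namespace Cfsg.Agent.CP

open Subgroup Cfsg.Agent.RGD Cfsg.Agent.RG Cfsg.Agent.Polar Cfsg.Agent.Polar.PQ Cfsg.Agent.Cl
open Cfsg.Agent.Pres hiding rt
open Module Cfsg.Agent.Forms Cfsg.Agent.Forms.RegCl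
open scoped commutatorElement

section grp

variable {G : Type*} [Group G] {U H : Subgroup G} {t x : G}

variable (U H t x) in
/-- the conjugate lies in the big cell -/
def Gd : Prop := ∃ a ∈ U, ∃ k ∈ H, ∃ b ∈ U, t * x * t⁻¹ = a * (k * t) * b

theorem cost_gd {X : Type} {f : X → G} (U H : Subgroup (FreeGroup X)) (t : FreeGroup X)
    (h1 : x ∈ U.map (FreeGroup.lift f))
    (h2 : Gd (U.map (FreeGroup.lift f)) (H.map (FreeGroup.lift f)) (FreeGroup.lift f t) x) :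
    Cost f 1 fun C => ∃ y ∈ U.map C.ev, C.θ y = x ∧ Gd (U.map C.ev) (H.map C.ev) (C.ev t) y := by
  obtain ⟨x, hx, rfl⟩ := h1
  obtain ⟨_, ⟨a, ha, rfl⟩, _, ⟨k, hk, rfl⟩, _, ⟨b, hb, rfl⟩, e⟩ := h2
  exact (cost_eq (t * x * t⁻¹) (a * (k * t) * b) (by simpa)).imp fun C h =>
    ⟨_, ⟨x, hx, rfl⟩, C.comp _, _, ⟨a, ha, rfl⟩, _, ⟨k, hk, rfl⟩, _, ⟨b, hb, rfl⟩, by simpa using h⟩

variable (h1 : ∀ k ∈ H, ∀ a ∈ U, k * a * k⁻¹ ∈ U) (h2 : ∀ k ∈ H, t * k * t⁻¹ ∈ H) (h3 : t * t ∈ H)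
include h1 h2

theorem Gd.conj (h : Gd U H t x) {k : G} (hk : k ∈ H) : Gd U H t (k * x * k⁻¹) := by
  obtain ⟨a, ha, m, hm, b, hb, e⟩ := h
  have := h2 k hk
  refine ⟨_, h1 _ this a ha, _, mul_mem (mul_mem this hm) (h2 _ (inv_mem this)), _, h1 _ this b hb, ?_⟩
  rw [show x = t⁻¹ * (t * x * t⁻¹) * t by group, e]; group

include h3

theorem gd_mul {x y a k b a' k' b' : G} (ha : a ∈ U) (hk : k ∈ H) (hk' : k' ∈ H) (hb' : b' ∈ U)
    (e : t * x * t⁻¹ = a * (k * t) * b) (e' : t * y * t⁻¹ = a' * (k' * t) * b')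
    (h : Gd U H t (b * a')) : Gd U H t (x * y) := by
  obtain ⟨c, hc, m, hm, d, hd, e''⟩ := h
  have h4 := mul_mem (h2 _ hk') h3
  refine ⟨_, mul_mem ha (h1 k hk c hc), _, mul_mem (mul_mem hk hm) (h2 _ h4), _,
    mul_mem (h1 _ (inv_mem h4) d hd) hb', ?_⟩
  calc t * (x * y) * t⁻¹ = t * x * t⁻¹ * (t * y * t⁻¹) := by group
    _ = a * k * (t * (b * a') * t⁻¹) * (t * k' * t * b') := by rw [e, e']; group
    _ = _ := by rw [e'']; group

theorem bruhat (h4 : ∀ x ∈ U, x ≠ 1 → Gd U H t x) {g : G} (hg : g ∈ closure ({t} ∪ (U ∪ H))) :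
    (∃ a ∈ U, ∃ k ∈ H, g = a * k) ∨ ∃ a ∈ U, ∃ k ∈ H, ∃ b ∈ U, g = a * (k * t) * b := by
  let p : G → Prop := fun g =>
    (∃ a ∈ U, ∃ k ∈ H, g = a * k) ∨ ∃ a ∈ U, ∃ k ∈ H, ∃ b ∈ U, g = a * (k * t) * b
  have k1 : ∀ m ∈ U, ∀ g, p g → p (m * g) := by
    rintro m hm _ (⟨a, ha, k, hk, rfl⟩ | ⟨a, ha, k, hk, b, hb, rfl⟩)
    · exact Or.inl ⟨_, mul_mem hm ha, k, hk, by group⟩
    · exact Or.inr ⟨_, mul_mem hm ha, k, hk, b, hb, by group⟩
  have k2 : ∀ m ∈ H, ∀ g, p g → p (m * g) := by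
    rintro m hm _ (⟨a, ha, k, hk, rfl⟩ | ⟨a, ha, k, hk, b, hb, rfl⟩)
    · exact Or.inl ⟨_, h1 m hm a ha, _, mul_mem hm hk, by group⟩
    · exact Or.inr ⟨_, h1 m hm a ha, _, mul_mem hm hk, b, hb, by group⟩
  have k3 : ∀ g, p g → p (t * g) := by
    rintro _ (⟨a, ha, k, hk, rfl⟩ | ⟨a, ha, k, hk, b, hb, rfl⟩)
    · exact Or.inr ⟨1, one_mem _, _, h2 k hk, _, h1 _ (inv_mem hk) a ha, by group⟩
    have h5 := mul_mem (h2 _ hk) h3
    by_cases h : a = 1
    · exact Or.inl ⟨_, h1 _ h5 b hb, _, h5, by rw [h]; group⟩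
    obtain ⟨c, hc, m, hm, d, hd, e⟩ := h4 a ha h
    refine Or.inr ⟨c, hc, _, mul_mem hm (h2 _ h5), _, mul_mem (h1 _ (inv_mem h5) d hd) hb, ?_⟩
    rw [show a = t⁻¹ * (t * a * t⁻¹) * t by group, e]; group
  induction hg using closure_induction_left with
  | one => exact Or.inl ⟨1, one_mem _, 1, one_mem _, by simp⟩
  | mul_left m hm g _ ih =>
    rcases hm with rfl | hm | hm
    exacts [k3 g ih, k1 m hm g ih, k2 m hm g ih]
  | inv_mul_cancel m hm g _ ih =>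
    rcases hm with rfl | hm | hm
    · have := k2 _ (inv_mem h3) _ (k3 g ih)
      rwa [mul_inv_rev, mul_assoc, inv_mul_cancel_left] at this
    exacts [k1 _ (inv_mem hm) g ih, k2 _ (inv_mem hm) g ih]

end grp

variable {F : Type*} [Field F] [Fintype F] {q : ℕ} {hF : Fintype.card F = q ^ 2}
variable {V : Type*} [AddCommGroup V] [Module F V] {P : PQ (uFP hF) V} {e v f : V}

local notation "τ" => frobq hF

theorem B_U_f (h : P.Hyp e f) {a : P.Iso} (ha : a ∈ P.U e) : P.B (a • f) e = 1 := by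
  conv_lhs => rw [← ha.1, B_smul_smul, h.pair', uFP_eps]

variable (P e v f) in
/-- a group with the structure of a rank one unitary group -/
structure R1 {G : Type*} [Group G] (θ : G →* P.Iso) (U H : Subgroup G) (t : G) (l : F) : Prop where
  fr : Fr3 P e v f
  ker : U ⊓ θ.ker = ⊥
  map : U.map θ = P.U e
  h1 : ∀ k ∈ H, ∀ a ∈ U, k * a * k⁻¹ ∈ U
  h2 : ∀ k ∈ H, t * k * t⁻¹ ∈ H
  h3 : t * t ∈ H
  tr : ∀ k ∈ H, θ k ∈ Tr P e f v
  lam : τ l = -l
  ne : l ≠ 0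
  te : θ t • e = l⁻¹ • f
  tf : θ t • f = -l • e

namespace R1

variable {G : Type*} [Group G] {θ : G →* P.Iso} {U H : Subgroup G} {t : G} {l : F}
variable (R : R1 P e v f θ U H t l)
include R

theorem mem {a : G} (ha : a ∈ U) : θ a ∈ P.U e := R.map.le ⟨a, ha, rfl⟩

theorem eq_of {a b : G} (ha : a ∈ U) (hb : b ∈ U) (h : θ a = θ b) : a = b :=
  mul_inv_eq_one.1 (R.ker.le ⟨U.mul_mem ha (U.inv_mem hb), by simp [h]⟩)

theorem key {x a y : G} (ha : a ∈ U) (e1 : t * x * t⁻¹ = a * y) {s : F} (hy : θ y • e = s • f) :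
    θ t • θ x • f = (l⁻¹ * P.B (θ x • f) f) • θ a • f := by
  have h0 := R.ne
  have h1 : (θ t)⁻¹ • e = (-l)⁻¹ • f := by
    rw [inv_smul_eq_iff, act_smul, R.tf, inv_smul_smul₀ (neg_ne_zero.2 h0)]
  have h2 := congrArg (fun g => θ g • e) e1
  simp only [map_mul, map_inv, mul_smul (α := P.Iso), h1, hy, act_smul] at h2
  rw [inv_smul_eq_iff₀ (neg_ne_zero.2 h0), smul_smul (-l)] at h2
  have h3 := congrArg (fun z => P.B z e) h2
  simp only [B_act_left (θ t), h1, B_smul_left, B_smul_right, B_U_f R.fr.hyp (R.mem ha)] at h3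
  rw [h2, ← mul_one (-l * s), ← h3]; simp [R.lam]

theorem ty_mul {x y a k b a' k' b' : G} (ha : a ∈ U) (hk : k ∈ H) (hb : b ∈ U) (ha' : a' ∈ U)
    (hk' : k' ∈ H) (hb' : b' ∈ U) (e1 : t * x * t⁻¹ = a * (k * t) * b)
    (e2 : t * y * t⁻¹ = a' * (k' * t) * b') : -(l * l) * P.B (θ (x * y) • f) f =
      P.B (θ x • f) f * P.B (θ y • f) f * P.B (θ (b * a') • f) f := by
  obtain ⟨s, h1, h2, h3, -⟩ := R.tr k' hk'
  obtain ⟨s', h4, h5, h6, -⟩ := R.tr k⁻¹ (inv_mem hk)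
  have h0 := R.ne
  have h7 : (θ t)⁻¹ • e = (-l)⁻¹ • f := by
    rw [inv_smul_eq_iff, act_smul, R.tf, inv_smul_smul₀ (neg_ne_zero.2 h0)]
  have k1 := R.key ha' (y := k' * t * b') (by rw [e2]; group) (s := l⁻¹ * (τ s)⁻¹) (by
    simp only [map_mul, mul_smul, (R.mem hb').1, R.te, act_smul, h3])
  have k2 := R.key (x := x⁻¹) (inv_mem hb) (y := t⁻¹ * k⁻¹ * a⁻¹)
    (by rw [show x = t⁻¹ * (t * x * t⁻¹) * t by group, e1]; group) (s := s' * (-l)⁻¹) (by
    simp only [map_mul, mul_smul, (R.mem (inv_mem ha)).1, act_smul, h5, map_inv θ t, h7])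
  have k3 := B_smul_smul (θ t) (θ y • f) (θ x⁻¹ • f)
  rw [k1, k2, B_smul_left, B_smul_right, map_mul, tau_B, map_inv₀, R.lam] at k3
  simp only [map_mul, mul_smul, map_inv, ← B_act_left, B_act_right _ f, inv_inv, uFP_eps] at k3 ⊢
  rw [← k3]; field_simp

/-- all elements of a given type are good -/
def Good (_ : R1 P e v f θ U H t l) (c : F) : Prop :=
  ∀ x ∈ U, ∀ k, τ k = k → k ≠ 0 → P.B (θ x • f) f = k * (l * c) → Gd U H t x

theorem good_mul (h1 : R.Good 1) {a b : F} (ha : R.Good a) (hb : R.Good b) (a0 : a ≠ 0)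
    (b0 : b ≠ 0) : R.Good (a * b) := fun x hx k hk k0 e1 => by
  have h0 := R.ne
  by_cases h3 : τ a = a
  · exact hb x hx (k * a) (by rw [map_mul, hk, h3]) (by simp [*]) (by rw [e1]; ring)
  by_cases h4 : τ b = b
  · exact ha x hx (k * b) (by rw [map_mul, hk, h4]) (by simp [*]) (by rw [e1]; ring)
  by_cases h5 : τ (a * b) = a * b
  · exact h1 x hx (k * (a * b)) (by rw [map_mul, hk, h5]) (by simp [*]) (by rw [e1]; ring)
  have h7 := sub_ne_zero.2 h5
  have h8 := sub_ne_zero.2 h3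
  obtain ⟨s, hs⟩ : ∃ s, s = k * ((τ (a * b) - a * b) / (τ a - a)) := ⟨_, rfl⟩
  have h9 : τ s = s := by
    rw [hs, map_mul, hk, map_div₀, map_sub, map_sub, frobq_frobq, frobq_frobq, ← neg_div_neg_eq]; simp
  have h10 : s ≠ 0 := hs ▸ mul_ne_zero k0 (div_ne_zero h7 h8)
  obtain ⟨r, hr⟩ : ∃ r, r = k * (a * b) - s * a := ⟨_, rfl⟩
  have h11 : τ r = r := by rw [hr, map_sub, map_mul, map_mul _ s, h9, hk, hs]; field_simp; ring
  have h12 : r ≠ 0 := fun e => h4 (by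
    have : b = s / k := by field_simp; exact mul_left_cancel₀ a0 (by linear_combination e - hr)
    rw [this, map_div₀, h9, hk])
  have o := EOk.lam R.fr.hyp.left (c := -(r * l)) (by simp [mem_uFP_lam, h11, R.lam])
  obtain ⟨y, hy, e2⟩ := R.map.ge (eich_mem_U e 0 (-(r * l)))
  have e3 : θ y • f = f + (r * l) • e := by rw [e2, R.fr.hyp.eich_smul_f o (by simp)]; simp
  have e4 : P.B (θ y • f) f = r * (l * 1) := by simp [e3, R.fr.hyp.right.B_self, R.fr.hyp.pair]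
  have hx' := mul_mem hx (inv_mem hy)
  have e5 : P.B (θ (x * y⁻¹) • f) f = s * (l * a) := by
    rw [← inv_mul_cancel_right x y, map_mul, mul_smul, e3, smul_add, act_smul, (R.mem hx').1] at e1
    simp only [map_add, map_smul, LinearMap.add_apply, LinearMap.smul_apply, R.fr.hyp.pair] at e1
    rw [hr] at e1
    linear_combination e1
  obtain ⟨a1, m1, k1, m2, b1, m3, e6⟩ := ha _ hx' s h9 h10 e5
  obtain ⟨a2, m4, k2, m5, b2, m6, e7⟩ := h1 _ hy r h11 h12 e4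
  have e8 := R.ty_mul m1 m2 m3 m4 m5 m6 e6 e7
  rw [inv_mul_cancel_right, e1, e4, e5] at e8
  rw [← inv_mul_cancel_right x y]
  refine gd_mul R.h1 R.h2 R.h3 m1 m2 m5 m6 e6 e7 (hb _ (mul_mem m3 m4) (-(k / (s * r)))
    (by simp [hk, h9, h11]) (by simp [k0, h10, h12]) ?_)
  field_simp at e8 ⊢
  linear_combination -e8

theorem ty {x : G} (hx : x ∈ U) : ∃ a c, c + τ c = a * τ a ∧ θ x = P.eich e (a • v) c ∧
    P.B (θ x • f) f = -c := by
  have hy := R.fr.hyp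
  obtain ⟨w, hw, c, o, e1⟩ := hy.mem_U_iff.1 (R.mem hx)
  obtain ⟨a, rfl⟩ := R.fr.span w hw
  refine ⟨a, c, by simpa [R.fr.vv, mul_comm] using u_QEq_iff.1 o.val, e1, ?_⟩
  rw [e1, hy.eich_smul_f o (by simp [R.fr.vf])]
  simp [hy.right.B_self, hy.pair, R.fr.vf]

theorem ker_le {ζ : Fˣ} (hζ : orderOf ζ = Fintype.card F - 1) (h1 : R.Good 1) (h2 : R.Good ζ)
    (h3 : closure ({t} ∪ (U ∪ H)) = ⊤) : θ.ker ≤ H := fun g hg => by
  have k : ∀ n, R.Good (ζ ^ n) := fun n => by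
    induction n with
    | zero => rwa [pow_zero]
    | succ n ih => rw [pow_succ]; exact R.good_mul h1 ih h2 (by simp) (by simp)
  have hy := R.fr.hyp
  have k' : ∀ x ∈ U, x ≠ 1 → Gd U H t x := fun x hx h => by
    obtain ⟨a, c, o, e1, e2⟩ := R.ty hx
    have h4 : c ≠ 0 := fun e => h (R.eq_of hx (one_mem _) (by
      rw [e1, e, show a = 0 by simpa [e] using o, zero_smul, eich_zero, map_one]))
    obtain ⟨n, hn⟩ := SL2Pres.exists_pow_eq hζ (a := -c / l) (by simp [h4, R.ne])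
    exact k n x hx 1 (map_one _) one_ne_zero (by rw [hn, e2, mul_div_cancel₀ _ R.ne, one_mul])
  rcases bruhat R.h1 R.h2 R.h3 k' (h3.ge (mem_top g)) with
    ⟨a, ha, k, hk, rfl⟩ | ⟨a, ha, k, hk, b, hb, rfl⟩
  · obtain ⟨s, h4, -, h5, -⟩ := R.tr k hk
    have := congrArg (· • f) (MonoidHom.mem_ker.1 hg)
    simp only [map_mul, mul_smul, h5, one_smul] at this
    rw [R.eq_of ha (one_mem _) ((U_eq_one hy.swap' (R.mem ha) (s := (τ s)⁻¹) (t := 1) (by simpa)
      (by simpa using this)).trans (map_one _).symm), one_mul]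
    exact hk
  · obtain ⟨s, h4, -, h5, -⟩ := R.tr k hk
    have := congrArg (fun g => P.B (g • e) e) (MonoidHom.mem_ker.1 hg)
    simp [mul_smul, h5, (R.mem hb).1, R.te, act_smul, B_U_f hy (R.mem ha), hy.left.B_self, R.ne,
      h4] at this

theorem gd_tr {a c s : F} (hc : c + τ c = a * τ a) {y : G} (hy : y ∈ U)
    (e1 : θ y = P.eich e (a • v) c) (h : Gd U H t y) {k : G} (hk : k ∈ H) (hs : θ k • e = s • e)
    {x : G} (hx : x ∈ U) (e2 : θ x = P.eich e ((τ s * (τ s / s) * a) • v) (s * τ s * c)) :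
    Gd U H t x := by
  obtain ⟨s', h1, h2, -, h3, -⟩ := R.tr k hk
  obtain rfl := smul_left_injective F R.fr.hyp.left_ne_zero (hs.symm.trans h2)
  rw [R.eq_of hx (R.h1 k hk y hy) (by
    rw [map_mul, map_mul, map_inv, e1, e2, (conj_eich_smul (R.fr.oke hc) h1 hs).2, act_smul, h3,
      smul_smul, smul_smul, mul_right_comm])]
  exact h.conj R.h1 R.h2 hk

variable (hH : ∀ s : F, s ≠ 0 → ∃ k ∈ H, θ k • e = s • e)
include hH

theorem good_one (h : ∃ y ∈ U, θ y = P.eich e ((0 : F) • v) l ∧ Gd U H t y) : R.Good 1 :=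
  fun x hx k hk k0 e1 => by
  obtain ⟨y, hy, e2, h⟩ := h
  obtain ⟨a, c, h1, h2, h3⟩ := R.ty hx
  obtain rfl : c = -k * l := by linear_combination h3 - e1
  obtain ⟨s, hs⟩ := exists_norm_eq hF (-k) (by simp [hk])
  obtain ⟨m, hm, e3⟩ := hH s (by rintro rfl; simp [k0] at hs)
  have : a = 0 := by simpa [hk, R.lam] using h1
  exact R.gd_tr (by simp [R.lam]) hy e2 h hm e3 hx (by rw [h2, hs, this, mul_zero])

theorem good_prim {ζ : Fˣ} (hζ : orderOf ζ = Fintype.card F - 1) {a0 : F}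
    (h0 : l * ζ + τ (l * ζ) = a0 * τ a0) (h : ∀ i < 3, ∃ y ∈ U,
      θ y = P.eich e ((ζ ^ i * a0 : F) • v) ((ζ * τ ζ) ^ i * (l * ζ)) ∧ Gd U H t y) : R.Good ζ :=
  fun x hx k hk k0 e1 => by
  obtain ⟨a, c, h1, h2, h3⟩ := R.ty hx
  obtain rfl : c = -k * (l * ζ) := by linear_combination h3 - e1
  have h4 : a0 ≠ 0 := by
    rintro rfl
    rw [map_mul, R.lam, zero_mul, neg_mul, ← sub_eq_add_neg, ← mul_sub] at h0
    exact mul_ne_zero R.ne (sub_ne_zero.2 (tau_ne hζ).symm) h0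
  have h5 := (map_ne_zero τ).2 h4
  have h6 : a / a0 * τ (a / a0) = -k := by
    rw [map_mul _ (-k), map_neg, hk] at h1
    rw [map_div₀]; field_simp; linear_combination -k * h0 - h1
  obtain ⟨n, hn⟩ := SL2Pres.exists_pow_eq hζ (a := a / a0) (by rintro e; simp [e, k0] at h6)
  obtain ⟨y, hy, e2, h⟩ := h (n % 3) (Nat.mod_lt _ three_pos)
  obtain ⟨r, hr⟩ : ∃ r, r = (ζ : F) ^ (n / 3) := ⟨_, rfl⟩
  have h7 : r ≠ 0 := hr ▸ pow_ne_zero _ ζ.ne_zero
  have h8 := (map_ne_zero τ).2 h7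
  obtain ⟨m, hm, e3⟩ := hH (τ r * τ r * r) (by simp [h7])
  rw [← Nat.div_add_mod n 3, pow_add, pow_mul', ← hr] at hn
  refine R.gd_tr ?_ hy e2 h hm e3 hx ?_
  · simp only [map_mul, map_pow, frobq_frobq, mul_pow] at h0 ⊢
    linear_combination (ζ ^ (n % 3) * τ ζ ^ (n % 3)) * h0
  · rw [h2, ← h6, ← hn, ← div_mul_cancel₀ a h4, ← hn]
    simp only [map_mul, map_pow, frobq_frobq, mul_pow]
    congr 1
    · congr 1; field_simp
    · ring

end R1

section field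

variable {ζ : Fˣ} (hζ : orderOf ζ = Fintype.card F - 1)

omit [Fintype F] in
theorem spans_of_pow {s : F} {n : ℕ} (h : Spans (s ^ n)) : Spans s := fun a =>
  AddSubmonoid.closure_mono (by rintro _ ⟨i, rfl⟩; exact ⟨n * i, pow_mul _ _ _⟩) (h a)

theorem tau_ne_of_spans {s : F} (h : Spans s) : τ s ≠ s := fun e => by
  obtain ⟨t, ht⟩ := exists_frobq_ne hF
  refine ht ?_
  clear ht
  induction h t using AddSubmonoid.closure_induction with
  | mem x hx => obtain ⟨i, rfl⟩ := hx; rw [map_pow, e]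
  | zero => simp
  | add x y _ _ hx hy => rw [map_add, hx, hy]

theorem s_pow (ζ : Fˣ) : (τ ζ * (τ ζ / ζ)) ^ (q + q + 1) = ζ ^ 3 := by
  have := (map_ne_zero τ).2 ζ.ne_zero
  rw [pow_succ, pow_add, ← frobq_apply hF]
  simp only [map_mul, map_div₀, frobq_frobq]; field_simp

include hζ

theorem spans_s (h2 : q ≠ 2) : Spans (τ ζ * (τ ζ / ζ)) :=
  spans_of_pow (s_pow (hF := hF) ζ ▸ spans_cube hζ fun e => h2 (by nlinarith))

theorem dvd_of_s {m : ℕ} (h : ((τ ζ * (τ ζ / ζ)) ^ (q - 1)) ^ m = 1) : q + 1 ∣ 3 * m := by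
  have := SL2Pres.dvd_of_pow_eq_one hζ (n := 3 * ((q - 1) * m)) (by
    rw [pow_mul, ← s_pow (hF := hF), ← pow_mul, mul_comm (q + q + 1), pow_mul, pow_mul, h, one_pow])
  rw [hF, show q ^ 2 - 1 = (q + 1) * (q - 1) from Nat.sq_sub_sq q 1, mul_left_comm, mul_comm] at this
  exact Nat.dvd_of_mul_dvd_mul_left (by have := two_le_q hF; omega) this

theorem spans_s' (h2 : q ≠ 2) (h5 : q ≠ 5) (h8 : q ≠ 8) : Spans ((τ ζ * (τ ζ / ζ)) ^ (q - 1)) := by
  obtain ⟨p, hp⟩ := CharP.exists F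
  have : Fact p.Prime := ⟨CharP.char_is_prime F p⟩
  let _ : Algebra (ZMod p) F := ZMod.algebra F p
  refine spans_of_surj p (SL2Pres.aeval_surjective p _ fun d hd hq e => ?_)
  have hr : 2 ≤ p ^ d := le_trans (Fact.out : p.Prime).two_le (Nat.le_self_pow (by omega) p)
  obtain ⟨n, -, hn⟩ := FiniteField.card F p
  obtain ⟨k, -, hk⟩ := (Nat.dvd_prime_pow Fact.out).1 ((dvd_pow_self q two_ne_zero).trans
    (hF.symm.trans hn).dvd)
  rw [hF, Nat.pow_le_pow_iff_left two_ne_zero] at hq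
  obtain ⟨m, hm⟩ : p ^ d ∣ q := hk ▸ pow_dvd_pow p
    ((Nat.pow_le_pow_iff_right (Fact.out : p.Prime).one_lt).1 (hk ▸ hq))
  obtain ⟨r, hr'⟩ := Nat.exists_eq_add_of_le' hr
  rw [hr', pow_succ, mul_eq_right₀ (by simp)] at e
  obtain ⟨j, hj⟩ := dvd_of_s hζ e
  rw [hr'] at hm hq
  have h1 : j < 3 := by by_contra; nlinarith
  have h3 : m < 3 := by
    by_contra
    have : j ≠ 0 := by rintro rfl; omega
    nlinarith [Nat.pos_of_ne_zero this]
  interval_cases j <;> interval_cases m <;> omega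

theorem exists_baum (h2 : q ≠ 2) (h5 : q ≠ 5) :
    ∃ j, (τ ζ * (τ ζ / ζ)) ^ j = 1 + (τ ζ * (τ ζ / ζ)) ^ (q - 1) := by
  have hq := two_le_q hF
  have h0 := (map_ne_zero τ).2 ζ.ne_zero
  have h1 : τ ζ * (τ ζ / ζ) * τ (τ ζ * (τ ζ / ζ)) = ζ * τ ζ := by
    simp only [map_mul, map_div₀, frobq_frobq]; field_simp
  have h3 := dvd_of_s (hF := hF) hζ (m := 2)
  have h4 : τ ζ * (τ ζ / ζ) ≠ 0 := by simp
  generalize τ ζ * (τ ζ / ζ) = s at *
  have h6 : s ^ (q - 1) * s = τ s := by rw [pow_sub_one_mul (by omega), frobq_apply]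
  obtain ⟨r, hr⟩ := exists_norm_eq hF (s + τ s) (by simp [frobq_frobq, add_comm])
  obtain ⟨n, rfl⟩ := SL2Pres.exists_pow_eq hζ (a := r) (by
    rintro rfl
    have := h3 (mul_right_cancel₀ (pow_ne_zero 2 h4) (by
      linear_combination (s ^ (q - 1) * s + τ s) * h6 + (s - τ s) * hr))
    have : q ≤ 5 := by have := Nat.le_of_dvd (by omega) this; omega
    interval_cases q <;> omega)
  refine ⟨(q + 1) * n + (Fintype.card F - 2), mul_right_cancel₀ h4 ?_⟩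
  rw [← pow_succ, add_assoc, pow_add, show Fintype.card F - 2 + 1 = Fintype.card F - 1 by
    have := Fintype.one_lt_card (α := F); omega, FiniteField.pow_card_sub_one_eq_one s h4, pow_mul,
    pow_succ', ← frobq_apply hF, h1, mul_pow, ← map_pow, hr, mul_one, add_mul, h6,
    one_mul]

end field

section main

variable (T : Fr3 P e v f) {g : P.Iso} {s : F}
include T

theorem perp_v : v ∈ P.perp {e, f} := mem_perp_pair.2 ⟨T.ve, T.vf⟩

theorem ok3 (a : F) : P.EOk e (a • v) (P.Q (a • v)) := EOk.of_perp T.hyp.left (by simp [T.ve])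

theorem tr_conj (hg : g ∈ Tr P e f v) (hs : g • e = s • e) {a c : F} (o : P.EOk e (a • v) c) :
    P.EOk e ((τ s * (τ s / s) * a) • v) (s * τ s * c) ∧
      g * P.eich e (a • v) c * g⁻¹ = P.eich e ((τ s * (τ s / s) * a) • v) (s * τ s * c) := by
  obtain ⟨s', h1, h2, -, h3, -⟩ := hg
  obtain rfl := smul_left_injective F T.hyp.left_ne_zero (hs.symm.trans h2)
  have := conj_eich_smul o h1 hs
  rwa [act_smul, h3, smul_smul, smul_smul, mul_right_comm] at this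

theorem AG_eq_U (hP : P.ND) (hg : g ∈ Tr P e f v) (hs : g • e = s • e)
    (h : Spans (τ s * (τ s / s))) : AG g (P.eich e ((1 : F) • v) (P.Q ((1 : F) • v))) = P.U e := by
  refine le_antisymm ((closure_le _).2 ?_) (U_le_of_min T.hyp hP u_gen1 T.rd.vp T.ne_zero
    fun x hx => ?_)
  · rintro _ ⟨i, rfl⟩
    obtain ⟨t, h1, h2, -⟩ := pow_mem hg i
    have := conj_mem_U (g := g ^ i) (eich_mem_U (P := P) e ((1 : F) • v) (P.Q ((1 : F) • v)))
    rwa [h2, U_smul h1] at this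
  obtain ⟨a, rfl⟩ := T.span x hx
  clear hx
  induction h a using AddSubmonoid.closure_induction with
  | mem x hx =>
    obtain ⟨i, rfl⟩ := hx
    induction i with
    | zero => exact ⟨_, by simpa using ok3 T 1, by simpa using self_mem_AG _ _⟩
    | succ i ih =>
      obtain ⟨c, o, h1⟩ := ih
      simp only [pow_succ']
      exact ⟨_, (tr_conj T hg hs o).1, (tr_conj T hg hs o).2 ▸ conj_mem_AG h1⟩
  | zero => rw [zero_smul]; exact zero_mem _
  | add x y _ _ hx hy => rw [add_smul]; exact add_mem hx hy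

theorem ws_tr {a c a' c' : F} (k : c + τ c = a * τ a) (k' : c' + τ c' = a' * τ a') (h : c ≠ 0)
    (h' : c' ≠ 0) : ws P e f (a • v) c * ws P e f (a' • v) c' ∈ Tr P e f v := by
  simpa [USys.θ_ws _ T.hyp] using (ws3_mul (idSys P) T.hyp (perp_v T) (a := a) (a' := a')
    ⟨h, by rw [k, T.vv, mul_one]⟩ ⟨h', by rw [k', T.vv, mul_one]⟩).2

theorem gd_iso {l a c : F} (hl : l ∈ (uFP hF).Λ) (h0 : l ≠ 0) (k : c + τ c = a * τ a) (h : c ≠ 0) :
    Gd (P.U e) (Tr P e f v) (ws P e f ((0 : F) • v) l) (P.eich e (a • v) c) := by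
  have h1 : l + τ l = 0 * τ 0 := by rwa [zero_mul]
  have h2 := (ws_act T.hyp (Submodule.smul_mem _ 0 (perp_v T)) (T.oke h1).val h0).2.1
  have h3 : ∀ u ∈ P.U f, ws P e f ((0 : F) • v) l * u⁻¹ * (ws P e f ((0 : F) • v) l)⁻¹ ∈ P.U e :=
    fun u hu => by
      have := conj_mem_U (g := ws P e f ((0 : F) • v) l) (inv_mem hu)
      rwa [h2, U_smul (neg_ne_zero.2 h0)] at this
  refine ⟨_, h3 _ (eich_mem_U f (((uFP hF).ε * c⁻¹) • a • v) (τ c)⁻¹), _,
    mul_mem (ws_tr T h1 k h0 h) (inv_mem (ws_tr T h1 h1 h0 h0)), _,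
    h3 _ (eich_mem_U f ((τ c)⁻¹ • a • v) (τ c)⁻¹), ?_⟩
  generalize ws P e f ((0 : F) • v) l = t
  rw [ws]; group

variable {ζ : Fˣ} (hζ : orderOf ζ = Fintype.card F - 1) (hg : g ∈ Tr P e f v)
  (hs : g • e = (ζ : F) • e)
include hζ hg hs

omit T hζ hg in
theorem pow_e (n : ℕ) : g ^ n • e = (ζ : F) ^ n • e := by
  induction n with
  | zero => simp
  | succ n ih => rw [pow_succ, mul_smul, hs, act_smul, ih, smul_smul, pow_succ']

theorem zpowers_eq : zpowers g = Tr P e f v := le_antisymm (zpowers_le.2 hg) fun x hx => by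
  obtain ⟨t, h1, h2, -⟩ := id hx
  obtain ⟨n, rfl⟩ := SL2Pres.exists_pow_eq hζ h1
  rw [← inv_mul_eq_one.1 (Tr_eq_one T.hyp (perp_v T) (by simp [T.vv]) (mul_mem (inv_mem
    (pow_mem hg n)) hx) (by rw [mul_smul, h2, ← pow_e hs, inv_smul_smul]))]
  exact pow_mem (mem_zpowers g) n

variable [FiniteDimensional F V] (hP : P.ND) (h2 : q ≠ 2)
include hP h2

theorem cost_B {X : Type} {φ : X → P.Iso} {gW uW : FreeGroup X} (e1 : FreeGroup.lift φ gW = g)
    (e2 : FreeGroup.lift φ uW = P.eich e ((1 : F) • v) (P.Q ((1 : F) • v))) :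
    Cost φ 16 fun C => AG (C.ev gW) (C.ev uW) ⊓ C.θ.ker = ⊥ := by
  have := Fintype.ofFinite (Cl.Fix τ)
  have := finite_Iso (P := P)
  obtain ⟨p, hp⟩ := CharP.exists F
  have : Fact p.Prime := ⟨CharP.char_is_prime F p⟩
  have he := T.hyp.left
  have hq := two_le_q hF
  have hν := spans_prim (order_nu (hF := hF) hζ)
  have h1 := spans_s (hF := hF) hζ h2
  have e3 := fun {a c} => tr_conj T hg hs (a := a) (c := c)
  have h3 := spans_s' (hF := hF) hζ h2
  have h4 := exists_baum (hF := hF) hζ h2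
  have h5 := AG_eq_U T hP (pow_mem hg (q - 1)) (pow_e hs _)
  have h6 := AG_eq_U T hP hg hs h1
  rw [map_pow, ← div_pow, ← mul_pow] at h5
  generalize τ ζ * (τ ζ / ζ) = s at *
  have hl : s - τ s ∈ (uFP hF).Λ := by simp [mem_uFP_lam, frobq_frobq]
  have hl0 := sub_ne_zero.2 (tau_ne_of_spans (hF := hF) h1).symm
  have k : IsAdd (fun u : Cl.Fix τ => P.eich e 0 (u * (s - τ s))) g (P.eich e 0 (s - τ s))
      (nu hF ζ).1 := ⟨fun c d => by
        rw [(EOk.lam he (u_lam_mul hl c.2)).eich_mul (EOk.lam he (u_lam_mul hl d.2))]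
        simp [add_mul], by simp, fun c => by
      have := (e3 (a := 0) (by simpa using EOk.lam he (u_lam_mul hl c.2))).2
      simpa [nu, mul_assoc] using this⟩
  have e5 : P.eich e 0 (s - τ s) = ⁅P.eich e ((1 : F) • v) (P.Q ((1 : F) • v)),
      g * P.eich e ((1 : F) • v) (P.Q ((1 : F) • v)) * g⁻¹⁆ := by
    rw [(e3 (ok3 T 1)).2, commutatorElement_def, eich_comm (ok3 T 1) (e3 (ok3 T 1)).1]
    simp [T.vv]
  have hZ : AG g (P.eich e 0 (s - τ s)) = UW P e ⊥ := by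
    ext x
    rw [k.mem_AG hν, mem_Z he]
    exact ⟨fun ⟨u, e⟩ => ⟨_, u_lam_mul hl u.2, e.symm⟩, fun ⟨l, h1, e⟩ =>
      ⟨⟨_, fix_div h1 hl⟩, by rw [div_mul_cancel₀ _ hl0, e]⟩⟩
  have k1 : ∀ x ∈ P.U e, ∀ s ∈ UW P e ⊥, Commute s x := fun x hx => commute_UW he hx.1 (by simp)
  have k2 := fun c : F => centralizer_le_normalizer _ (mem_centralizer_iff.2 fun s hs =>
    (k1 _ (eich_mem_U e (c • v) (P.Q (c • v))) s hs).eq)
  have k3 : ∀ {x d d'}, P.EOk e x d → P.EOk e x d' →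
      (P.eich e x d)⁻¹ * P.eich e x d' ∈ UW P e ⊥ := fun h1 h2 => by
    rw [h2.eich_eq_mul h1, inv_mul_cancel_left]
    exact (mem_Z he).2 ⟨_, h2.val.sub_mem h1.val, rfl⟩
  have k4 : ∀ w, FreeGroup.lift φ w ∈ P.U e → Cost φ 1 fun C =>
      Commute ⁅C.ev uW, C.ev gW * C.ev uW * (C.ev gW)⁻¹⁆ (C.ev w) := fun w hw => by
    simpa using cost_commute (f := φ) ⁅uW, gW * uW * gW⁻¹⁆ w (by
      simpa only [map_commutatorElement, map_mul, map_inv, e1, e2, ← e5] using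
        k1 _ hw _ (hZ ▸ self_mem_AG _ _))
  have key := fun {r r'} (hw : CommWords s r) hc => cost_heis2 (r' := r') p h1 hw hν (n := q - 1)
    (by omega) (by
      have := pow_orderOf_eq_one (nu hF ζ)
      rw [order_nu hζ, Fintype.card_eq_nat_card, card_Fix] at this
      rw [← Units.val_pow_eq_pow_val, this, Units.val_one]) e1 e2 (e5 ▸ k)
    (fun u h => by
      simpa [hl0] using (T.hyp.eich_inj (EOk.lam he (u_lam_mul hl u.2)) (by simp) (EOk.zero he)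
        (by simp) (h.trans (eich_zero e).symm)).2)
    hc (e5 ▸ hZ) (hZ ▸ self_norm_AG) (k2 1) (isAdd_nq k2 _ (fun c d => by
      rw [(ok3 T c).eich_mul (ok3 T d), ← add_smul]
      exact k3 (ok3 T _) (add_smul c d v ▸ (ok3 T c).add (ok3 T d))) fun c => by
      rw [(e3 (ok3 T c)).2]; exact k3 (e3 (ok3 T c)).1 (ok3 T _)) fun c hc => by
      obtain ⟨l, h1, e⟩ := (mem_Z he).1 ((nq_eq_one _).1 hc)
      simpa [show v ≠ 0 by simpa using T.ne_zero] using (T.hyp.eich_inj (ok3 T c) (by simp [T.vf])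
        (EOk.lam he h1) (by simp) e).1
  by_cases h7 : q ≤ 8
  · refine (key (commWords_small s (by rw [hF]; nlinarith)) ((cost_list (List.range (q - 1))
      fun j _ => k4 (SL2Pres.cj gW j uW) ?_).imp fun C h h' => central_window (by omega) h'
        fun j hj => by simpa [SL2Pres.map_cj] using h j (List.mem_range.2 hj))).le (by simp; omega)
    rw [SL2Pres.map_cj, e1, e2, ← h6]; exact cj_mem_AG _ _ _
  · obtain ⟨j, hj⟩ := h4 (by omega)
    have h8 := h3 (by omega) (by omega)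
    refine (key (commWords_baum h8 hj) (((cost_mem (gW * uW * gW⁻¹) (AG (gW ^ (q - 1)) uW) ?_).and
      (k4 uW (e2 ▸ eich_mem_U _ _ _))).imp fun C h h' => (heis_central (by omega) h'
        (by simpa [map_AG] using h.1) h.2).1)).le (by omega)
    simp only [map_AG, map_mul, map_inv, map_pow, e1, e2, h5 h8]
    exact h6 ▸ conj_mem_AG (self_mem_AG _ _)

theorem pr_EG3 (hg' : g ∈ P.EG) : Pr P.EG 3 23 := by
  have := finite_Iso (P := P)
  obtain ⟨l, hl, h0⟩ := u_exists_lam hF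
  have hl' : τ l = -l := by simpa using tau_lam hl
  have h1 : l + τ l = 0 * τ 0 := by rwa [zero_mul]
  obtain ⟨a0, h3⟩ := exists_norm_eq hF (l * ζ + τ (l * ζ)) (by simp [frobq_frobq, add_comm])
  obtain ⟨h4, h5, -⟩ := ws_act T.hyp (Submodule.smul_mem _ 0 (perp_v T)) (T.oke h1).val h0
  let φ : Fin 3 → P.Iso := ![g, P.eich e ((1 : F) • v) (P.Q ((1 : F) • v)), ws P e f ((0 : F) • v) l]
  have e0 : FreeGroup.lift φ (.of 0) = g := by simp [φ]
  have e1 : FreeGroup.lift φ (.of 1) = P.eich e ((1 : F) • v) (P.Q ((1 : F) • v)) := by simp [φ]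
  have e2 : FreeGroup.lift φ (.of 2) = ws P e f ((0 : F) • v) l := by simp [φ]
  have h6 := AG_eq_U T hP hg hs (spans_s hζ h2)
  have h7 := zpowers_eq T hζ hg hs
  have eU : (AG (.of 0) (.of 1)).map (FreeGroup.lift φ) = P.U e := by rw [map_AG, e0, e1, h6]
  have eH : (zpowers (.of 0)).map (FreeGroup.lift φ) = Tr P e f v := by
    rw [MonoidHom.map_zpowers, e0, h7]
  have h8 := ws_tr T h1 h1 h0 h0
  have c1 := fun a c (k : c + τ c = a * τ a) (h : c ≠ 0) => cost_gd (f := φ) (AG (.of 0) (.of 1))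
    (zpowers (.of 0)) (.of 2) (eU ▸ eich_mem_U e (a • v) c) (by
      rw [eU, eH, e2]; exact gd_iso T hl h0 k h)
  have c2 := cost_list (List.range 3) fun i _ => c1 (ζ ^ i * a0) ((ζ * τ ζ) ^ i * (l * ζ)) (by
    simp only [map_mul, map_pow, frobq_frobq, mul_pow] at h3 ⊢
    linear_combination (-ζ ^ i * τ ζ ^ i) * h3) (by simp [h0])
  have c3 := cost_mem (f := φ) (.of 2 * .of 0 * (.of 2)⁻¹) (zpowers (.of 0)) (by
    obtain ⟨s, k1, k2, k3, k4, k5⟩ := hg
    obtain ⟨-, -, k6⟩ := ws_act T.hyp (Submodule.smul_mem _ 0 (perp_v T)) (T.oke h1).val h0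
    have k7 : ∀ y ∈ P.perp {e, f}, (ws P e f ((0 : F) • v) l)⁻¹ • y = y := fun y hy => by
      rw [inv_smul_eq_iff, k6 y hy]; simp
    have k8 := eq_inv_smul_iff.2 ((act_smul _ (-l)⁻¹ f).trans
      (by rw [h5, inv_smul_smul₀ (neg_ne_zero.2 h0)]))
    have k9 := eq_inv_smul_iff.2 ((act_smul _ l e).trans (show l • _ • e = f by
      rw [h4, hl']; simp [smul_smul, h0]))
    simp only [eH, map_mul, map_inv, e0, e2]
    refine ⟨(τ s)⁻¹, by simpa, ?_, ?_, ?_, fun z hz hz' => ?_⟩ <;>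
      simp only [mul_smul (α := P.Iso), ← k8, ← k9, k7 v (perp_v T), act_smul, k2, k3, k4, h4, h5]
    · match_scalars; field_simp
    · rw [hl']; match_scalars; simp [frobq_frobq]; field_simp
    · rw [k6 v (perp_v T)]; simp [frobq_frobq, div_eq_mul_inv, mul_comm]
    · rw [k7 z hz, k5 z hz hz', k6 z hz]; simp)
  have c4 := cost_mem (f := φ) (.of 2 * .of 2) (zpowers (.of 0)) (by rwa [eH, map_mul, e2])
  have c := (((((cost_B T hζ hg hs hP h2 e0 e1).and (c1 0 l h1 h0)).and c2).and c3).and c4).imp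
    (Q := fun C => IsCyclic C.θ.ker) (by
    rintro C ⟨⟨⟨⟨r0, r1⟩, r2⟩, r3⟩, r4⟩
    have t0 := (C.comp _).trans e0
    have t1 := (C.comp _).trans e1
    have t2 := (C.comp _).trans e2
    have top := C.top (S := closure ({C.ev (.of 2)} ∪ (AG (C.ev (.of 0)) (C.ev (.of 1)) ∪
      zpowers (C.ev (.of 0))))) fun x => subset_closure (by
        fin_cases x
        exacts [Or.inr (Or.inr (mem_zpowers _)), Or.inr (Or.inl (self_mem_AG _ _)), Or.inl rfl])
    simp only [map_AG, MonoidHom.map_zpowers, map_mul, map_inv] at r1 r2 r3 r4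
    generalize C.ev (.of 0) = h at *
    generalize C.ev (.of 1) = u at *
    generalize C.ev (.of 2) = t at *
    have : Finite (AG h u) := Finite.of_injective (C.θ.comp (AG h u).subtype)
      ((injective_iff_map_eq_one _).2 fun x hx => Subtype.ext (r0.le ⟨x.2, hx⟩))
    have R : R1 P e v f C.θ (AG h u) (zpowers h) t l := ⟨T, r0, by rw [map_AG, t0, t1, h6],
      fun k hk a ha => (mem_normalizer_iff.1 (zpowers_le.2 self_norm_AG hk) a).1 ha,
      cj_le_iff.1 (by rwa [cj, MonoidHom.map_zpowers, zpowers_le]), r4,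
      fun k hk => (zpowers_le (H := (Tr P e f v).comap C.θ)).2 (by rwa [mem_comap, t0]) hk, hl', h0,
      by rw [t2, h4, hl']; simp, by rw [t2, h5]⟩
    have hH : ∀ s : F, s ≠ 0 → ∃ k ∈ zpowers h, C.θ k • e = s • e := fun s hs' => by
      obtain ⟨n, rfl⟩ := SL2Pres.exists_pow_eq hζ hs'
      exact ⟨_, pow_mem (mem_zpowers h) n, by rw [map_pow, t0, pow_e hs]⟩
    exact isCyclic_of_le (R.ker_le hζ (R.good_one hH r1) (R.good_prim hH hζ h3.symm
      fun i hi => r2 i (List.mem_range.2 hi)) top))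
  have m : ∀ i, φ i ∈ closure (Set.range φ) := fun i => subset_closure ⟨i, rfl⟩
  have h9 : P.U e ≤ closure (Set.range φ) := h6 ▸ (closure_le _).2 (by
    rintro _ ⟨i, rfl⟩
    exact mul_mem (mul_mem (pow_mem (m 0) i) (m 1)) (inv_mem (pow_mem (m 0) i)))
  obtain ⟨ψ, p1, p2⟩ := hasRels_sub (Cost.cyclic c) (K := P.EG) (le_antisymm ((closure_le _).2 (by
    rintro _ ⟨i, rfl⟩
    fin_cases i
    exacts [hg', eich_mem_EG _ _ _, ws_mem _ _ _ _])) (EG_le_of_ne hP T.hyp.left T.hyp.right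
      (by simp [T.hyp.pair]) h9 (by
        have := U_le_of_smul h9 (m 2)
        rwa [show φ 2 • e = _ from h4, U_smul (by simp [h0])] at this)))
  exact ⟨ψ, p1, p2⟩

end main

theorem pr_su3 (hF : Fintype.card F = q ^ 2) (h2 : q ≠ 2) : Pr (SU 3 F q) 3 23 := by
  obtain ⟨e, v, f, T⟩ := exists_fr3 (uStd_nd hF 3) (by simp)
  obtain ⟨ζ, hζ⟩ := exists_prim F
  obtain ⟨g, h1, h3⟩ := exists_Tr T.hyp (perp_v T) (by simp [T.vv]) ζ.ne_zero
  exact (pr_EG3 T hζ ⟨_, ζ.ne_zero, h3⟩ h3.1 (uStd_nd hF 3) h2 h1).equiv (suEquiv hF 3)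

end Cfsg.Agent.CP
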