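import Cfsg.Agent.CP.Long

/-! The short root groups in a cover. -/

set_option autoImplicit false
set_option linter.unusedSectionVars false
set_option linter.unusedVariables false

namespace Cfsg.Agent.CP

open Subgroup Cfsg.Agent.RGD Cfsg.Agent.RG Cfsg.Agent.Polar Cfsg.Agent.Polar.PQ Cfsg.Agent.Cl
open Cfsg.Agent.Pres hiding rt
open scoped commutatorElement

variable {m : ℕ} {Γ : Type*} [Group Γ] [MulAction Γ (Ix m)] {G : Type*} [Group G] {a0 b0 : Ix m}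
variable {F : Type*} [Field F] {τ : F →+* F} {π : FP F τ}
variable {V : Type*} [AddCommGroup V] [Module F V] {P : PQ π V}
variable {sh : Bool} {Φ : Frame P m sh} {ι : Γ →* P.Iso} {ζ : F}

variable (Γ) in
/-- the action of the Weyl group on single indices -/
structure One (a0 b0 : Ix m) where
  /-- transporters -/
  c : Ix m → Γ
  hc : ∀ a, c a • a0 = a
  /-- generators of the stabilizer, first part -/
  la : List Γ
  /-- generators of the stabilizer, second part -/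
  lb : List Γ
  hla : ∀ σ ∈ la, σ • a0 = a0
  hlb : ∀ σ ∈ lb, σ • a0 = a0
  hl' : ∀ σ : Γ, σ • a0 = a0 → σ ∈ closure ({σ | σ ∈ la} ∪ {σ | σ ∈ lb})
  /-- a second index -/
  cS : Ix m
  ne : sup cS ≠ sup a0
  conn : ∀ R : Ix m → Ix m → Prop, (∀ x y, R x y → R y x) → (∀ x y z, R x y → R y z → R x z) →
    (∀ σ ∈ closure {σ | σ ∈ la}, ∀ x y, R x y → R (σ • x) (σ • y)) → R cS b0 →
      ∀ x, sup x ≠ sup a0 → R x b0

/-- transported subgroups -/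
def One.SS (o : One Γ a0 b0) (ρ : Γ → G) (A : Subgroup G) (a : Ix m) : Subgroup G := cj (ρ (o.c a)) A

theorem One.map_SS (o : One Γ a0 b0) {G' : Type*} [Group G'] (φ : G →* G') (ρ : Γ → G)
    (A : Subgroup G) (a : Ix m) :
    (o.SS ρ A a).map φ = o.SS (fun γ => φ (ρ γ)) (A.map φ) a := map_cj _ _ _

variable (Φ) in
/-- lifts of the short root groups -/
structure SLift (θ : G →* P.Iso) (ρ : Γ →* G) (k : Ix m → Ix m → G) (S : Ix m → Subgroup G) :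
    Prop where
  mapS : ∀ a, (S a).map θ = XS Φ a
  kerS : ∀ a, S a ⊓ θ.ker = ⊥
  cjS : ∀ γ a, cj (ρ γ) (S a) = S (γ • a)
  kS : ∀ {x y} a, sup x ≠ sup y → k x y ∈ normalizer (S a : Set G)

variable {ρ : Γ →* G} {q : ℕ} {k : Ix m → Ix m → G} {θ : G →* P.Iso}

theorem slift_bot (h : sh = false) : SLift Φ θ ρ k fun _ => ⊥ :=
  ⟨fun a => by rw [Subgroup.map_bot, XS_bot h], fun _ => bot_inf_eq _, fun _ _ => cj_eq_bot.2 rfl,
    fun _ _ => mem_norm_bot _⟩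

theorem One.slift (o : One Γ a0 b0) (p : Pair Γ a0 b0) (D : GD Φ ι) (hθ : ∀ γ, θ (ρ γ) = ι γ)
    (T : TorR ρ q k) {v : G} [Finite (AG (k b0 a0) v)] (ha : ∀ σ ∈ o.la, Commute (ρ σ) v)
    (hb : ∀ σ ∈ o.lb, ρ σ * v * (ρ σ)⁻¹ ∈ AG (k b0 a0) v)
    (hz : Commute (k o.cS a0 * (k b0 a0)⁻¹) v) (h1 : (AG (k b0 a0) v).map θ = XS Φ a0)
    (h2 : AG (k b0 a0) v ⊓ θ.ker = ⊥) : SLift Φ θ ρ k (o.SS ρ (AG (k b0 a0) v)) := by
  have hne := p.ne.symm
  have k1 : ∀ σ ∈ closure {σ | σ ∈ o.la}, σ • a0 = a0 ∧ Commute (ρ σ) v := fun σ hσ => by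
    induction hσ using closure_induction with
    | mem x hx => exact ⟨o.hla x hx, ha x hx⟩
    | one => simp
    | mul x y _ _ hx hy => exact ⟨by rw [mul_smul, hy.1, hx.1], map_mul ρ x y ▸ hx.2.mul_left hy.2⟩
    | inv x _ hx => exact ⟨by rw [inv_smul_eq_iff, hx.1], map_inv ρ x ▸ hx.2.inv_left⟩
  have k2 := o.conn (fun x y => sup x ≠ sup a0 ∧ sup y ≠ sup a0 ∧ Commute (k x a0 * (k y a0)⁻¹) v)
    (fun x y ⟨e1, e2, e3⟩ => ⟨e2, e1, by simpa using e3.inv_left⟩)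
    (fun x y z ⟨e1, _, e3⟩ ⟨_, e2, e4⟩ => ⟨e1, e2, by simpa [mul_assoc] using e3.mul_left e4⟩)
    (fun σ hσ x y ⟨e1, e2, e3⟩ => by
      obtain ⟨e4, e5⟩ := k1 σ hσ
      have e6 := SL2Pres.conj_commute (ρ σ) e3
      rw [e5.eq, mul_inv_cancel_right, ← conj_mul, ← conj_inv, T.conj σ e1, T.conj σ e2, e4] at e6
      exact ⟨e4 ▸ p.smul_ne σ e1, e4 ▸ p.smul_ne σ e2, e6⟩) ⟨o.ne, hne, hz⟩
  have k3 : ∀ {x y}, sup x ≠ sup y → k x y ∈ normalizer (AG (k b0 a0) v : Set G) :=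
    T.gen (b := a0) fun x hx => by
      have e := norm_AG_of_commute (g := k b0 a0) (u := v)
        ((T.comm hx hne).mul_left (Commute.refl _).inv_left)
        (by rw [(k2 x hx).2.2.eq, mul_inv_cancel_right]; exact self_mem_AG _ _)
      simpa using mul_mem e self_norm_AG
  have k4 : ∀ σ : Γ, σ • a0 = a0 → cj (ρ σ) (AG (k b0 a0) v) = AG (k b0 a0) v := fun σ hσ => by
    refine mem_normalizer_iff_cj.1 ((closure_le (K := (normalizer (AG (k b0 a0) v : Set G)).comap ρ)).2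
      (fun x hx => norm_AG (T.conj x hne ▸ k3 (p.smul_ne x hne)) ?_) (o.hl' σ hσ))
    rcases hx with hx | hx
    · rw [(ha x hx).eq, mul_inv_cancel_right]; exact self_mem_AG _ _
    · exact hb x hx
  refine ⟨fun a => ?_, fun _ => cj_inf_ker h2 _, fun γ a => ?_, fun a h => T.norm_cj p k3 _ h⟩
  · rw [o.map_SS, h1, SS, hθ, D.cj_XS, o.hc]
  · rw [SS, SS]
    conv_rhs => rw [← k4 ((o.c (γ • a))⁻¹ * γ * o.c a) (by
      simp only [mul_smul, inv_smul_eq_iff, o.hc])]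
    rw [← cj_mul, ← cj_mul, ← map_mul, ← map_mul, mul_assoc, mul_inv_cancel_left]

theorem k0_xs (hζ : ζ ≠ 0) {a b : Ix m} (h : sup a ≠ sup b) (y : Ix m) {x : V} (hx : x ∈ Φ.V0)
    {c : F} (hc : P.QEq x c) : k0 Φ ζ a b * P.eich (Φ.v y) x c * (k0 Φ ζ a b)⁻¹ =
      P.eich (Φ.v y) (τ (wt τ ζ a b y) • x) (wt τ ζ a b y * τ (wt τ ζ a b y) * c) :=
  (k0_mn hζ h).conj_xs y hx hc

variable [Finite P.Iso] {X : Type} {f : X → P.Iso} {W : Γ → FreeGroup X} {hW vW : FreeGroup X}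

theorem cost_short (o : One Γ a0 b0) (p : Pair Γ a0 b0) (D : GD Φ ι) (hζ : ζ ≠ 0)
    (e1 : ∀ γ, FreeGroup.lift f (W γ) = ι γ) (e2 : FreeGroup.lift f hW = k0 Φ ζ a0 b0)
    (h0 : AG (k0 Φ ζ b0 a0) (FreeGroup.lift f vW) = XS Φ a0)
    (ha : ∀ σ ∈ o.la, Commute (ι σ) (FreeGroup.lift f vW)) {r : ℕ}
    (hr : Cost f r fun C => AG (C.ev (p.tr W hW b0 a0)) (C.ev vW) ⊓ C.θ.ker = ⊥) :
    Cost f (o.la.length + o.lb.length + 1 + r) fun C => ∀ ρ : Γ →* C.G,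
      (∀ γ, ρ γ = C.ev (W γ)) → TorR ρ q (p.tr ρ (C.ev hW)) →
      SLift Φ C.θ ρ (p.tr ρ (C.ev hW)) (o.SS ρ (AG (p.tr ρ (C.ev hW) b0 a0) (C.ev vW))) := by
  have hne := p.ne.symm
  have kk := fun {a b} => p.lift_tr (a := a) (b := b) D hζ e1 e2
  have hv : FreeGroup.lift f vW ∈ XS Φ a0 := h0 ▸ self_mem_AG _ _
  have c1 := cost_list (f := f) o.la fun σ hσ => cost_commute (W σ) vW (e1 σ ▸ ha σ hσ)
  have c2 := cost_list (f := f) o.lb fun σ hσ =>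
    cost_mem (W σ * vW * (W σ)⁻¹) (AG (p.tr W hW b0 a0) vW) (by
      rw [map_AG, kk hne, h0, map_mul, map_mul, map_inv, e1]
      have := D.cj_XS σ a0 ▸ conj_mem_cj (m := ι σ) hv
      rwa [o.hlb σ hσ] at this)
  have c3 := cost_commute (f := f) (p.tr W hW o.cS a0 * (p.tr W hW b0 a0)⁻¹) vW (by
    obtain ⟨x, hx, c, hc, e⟩ := mem_XS.1 hv
    rw [map_mul, map_inv, kk hne, kk o.ne, e]
    exact ((k0_mn hζ o.ne).mul (k0_mn hζ hne).inv).commute_xs hx hc rfl (by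
      simp only [wt_right hne, wt_right o.ne, inv_mul_cancel₀ hζ]))
  refine (((c1.and c2).and c3).and hr).imp ?_
  rintro C ⟨⟨⟨h1, h2⟩, h3⟩, h4⟩ ρ hρ T
  simp only [map_mul, map_inv, p.map_tr, ← hρ, map_AG] at h1 h2 h3 h4
  have := finite_of h4
  refine o.slift p D (fun γ => by rw [hρ, C.comp, e1]) T h1 h2 h3 ?_ h4
  rw [map_AG, C.comp, ← h0, ← kk hne, ← C.comp (p.tr W hW b0 a0), p.map_tr C.ev, ← funext hρ]

end Cfsg.Agent.CP
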