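import Cfsg.Agent.CP.Fin
import Cfsg.Agent.Polar.Count
import Cfsg.Agent.Polar.Std

/-! Presentations of symplectic groups. -/

set_option autoImplicit false
set_option linter.unusedSectionVars false
set_option linter.unusedVariables false

namespace Cfsg.Agent.CP

open Subgroup Cfsg.Agent.RGD Cfsg.Agent.RG Cfsg.Agent.Polar Cfsg.Agent.Polar.PQ Cfsg.Agent.Cl
open Cfsg.Agent.Pres hiding rt
open Cfsg.Agent.SymAlt Equiv Equiv.Perm Module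
open scoped commutatorElement

section general

variable {F : Type*} [Field F] {τ : F →+* F} {π : FP F τ}
variable {V : Type*} [AddCommGroup V] [Module F V] {P : PQ π V} {m : ℕ}
variable [Fintype F] [FiniteDimensional F V]

theorem finite_Iso : Finite P.Iso := by
  have : Finite V := Module.finite_of_finite F
  infer_instance

theorem GD.commute_xs {sh : Bool} {Φ : Frame P m sh} {Γ : Type*} [Group Γ] [MulAction Γ (Ix m)]
    {ι : Γ →* P.Iso} (D : GD Φ ι) {γ : Γ} {a : Ix m} (h : ι γ • Φ.v a = Φ.v a) {e : V × F}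
    (he : e.1 ∈ Φ.V0 ∧ P.QEq e.1 e.2) : Commute (ι γ) (xs Φ a e) := by
  obtain ⟨s, hs⟩ := D.mono γ
  exact commute_eich (Φ.eOk0 a he.1 he.2) h (hs.2 _ he.1)

theorem main3 (hP : P.ND) (hr : P.Rich) (Φ : Frame P m true) {Γ : Type*} [Group Γ]
    [MulAction Γ (Ix m)] {ι : Γ →* P.Iso} (D : GD Φ ι) {a0 b0 : Ix m} (p : Pair Γ a0 b0)
    (o : One Γ a0 b0) (ho : ∀ γ ∈ o.la, ι γ • Φ.v a0 = Φ.v a0) (ht : m = 1 ∨ ∃ c0, Tr3 Γ a0 b0 c0)
    (lN : List Γ) (hN : normalClosure {γ | γ ∈ lN} = ⊤) {ζ : Fˣ}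
    (hζ : orderOf ζ = Fintype.card F - 1) {q : ℕ} (hq : ∀ x, τ x = x ^ q) {d r0 : ℕ}
    (hΓ : Pr Γ d r0) {e : V × F} (he : SG Φ ζ [e]) {rS rC : ℕ}
    (hS : ∀ (f : Fin d ⊕ Fin 3 → P.Iso) gW vW, FreeGroup.lift f gW = k0 Φ ζ b0 a0 →
      FreeGroup.lift f vW = xs Φ a0 e → Cost f rS fun C => AG (C.ev gW) (C.ev vW) ⊓ C.θ.ker = ⊥)
    (hC : ∀ (f : Fin d ⊕ Fin 3 → P.Iso) (s : Setup Φ f),
      Cost f rC fun C => ∀ ρ, s.Lf ι ζ q C ρ → Core Φ C.θ (s.LC C) (s.SC C))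
    (hk : ∀ (S : Type) [Group S] (σ : USys P S), US (Φ.X σ) Set.univ ⊓ σ.θ.ker = ⊥) :
    Pr P.EG (d + 3) (r0 + 2 * p.l.length + lN.length + 7 + (if m = 1 then 2 else 0) +
      (o.la.length + o.lb.length + 1 + rS) + rC) := by
  have := finite_Iso (P := P)
  obtain ⟨g, hg, htop⟩ := hΓ
  set f : Fin d ⊕ Fin 3 → P.Iso :=
    Sum.elim (fun y => ι (g y)) ![k0 Φ ζ a0 b0, xl Φ a0 b0 1, xs Φ a0 e] with hf
  have e2 : FreeGroup.lift f (.of (.inr 0)) = k0 Φ ζ a0 b0 := by simp [hf]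
  have e4 : FreeGroup.lift f (.of (.inr 2)) = xs Φ a0 e := by simp [hf]
  have k := hS_one (q := q) o p D ζ.ne_zero (fun y : Fin d => .of (.inl y)) (uW := .of (.inr 1))
    (vW := .of (.inr 2)) e2 (by rw [e4]; exact he.AG_eq ζ.ne_zero p.ne.symm)
    (fun γ h => by rw [e4]; exact D.commute_xs (ho γ h) (he.mem e (by simp)))
    (fun gW h => hS f gW _ h e4) (by
      rintro (y | y)
      · exact Or.inl ⟨y, rfl⟩
      · fin_cases y <;> simp)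
  have := finish hP (cost_main (Φ := Φ) (f := f) hP hr (fun h => Bool.noConfusion h) p D ht hζ hq hg
    htop lN hN _ (fun y => by simp [hf]) e2 (by simp [hf]) k (hC f)) hk
  rwa [Fintype.card_sum, Fintype.card_fin, Fintype.card_fin] at this

theorem mainB (hP : P.ND) (Φ : Frame P m true) (hm : 1 ≤ m) {c : F} (hc : c ∈ π.Λ) (h0 : c ≠ 0)
    {ζ : Fˣ} (hζ : orderOf ζ = Fintype.card F - 1) {q : ℕ} (hq : ∀ x, τ x = x ^ q) {d r0 : ℕ}
    (hΓ : Pr (WB (m + 1)) d r0) {e : V × F} (he : SG Φ ζ [e]) {rS rC : ℕ}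
    (hS : ∀ (f : Fin d ⊕ Fin 3 → P.Iso) gW vW a b, sup b ≠ sup a →
      FreeGroup.lift f gW = k0 Φ ζ b a →
      FreeGroup.lift f vW = xs Φ a e → Cost f rS fun C => AG (C.ev gW) (C.ev vW) ⊓ C.θ.ker = ⊥)
    (hC : ∀ (f : Fin d ⊕ Fin 3 → P.Iso) (s : Setup Φ f) (ι : WB (m + 1) →* P.Iso) (a0 b0 : Ix m),
      Pair (WB (m + 1)) a0 b0 →
      Cost f rC fun C => ∀ ρ, s.Lf ι ζ q C ρ → Core Φ C.θ (s.LC C) (s.SC C))
    (hk : ∀ (S : Type) [Group S] (σ : USys P S), US (Φ.X σ) Set.univ ⊓ σ.θ.ker = ⊥) :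
    Pr P.EG (d + 3) (r0 + 2 * min 5 (m + 1) + min 3 m + 11 + (if m = 1 then 2 else 0) + rS + rC) := by
  obtain ⟨ι, D, h1, h2⟩ := exists_iotaB hP Φ hc h0
  have hij : (0 : Fin (m + 1)) ≠ Fin.last m := by simp [Fin.ext_iff]; omega
  obtain ⟨p, h3, h4⟩ := pairB hij
  obtain ⟨o, h5, h6, h7, h8⟩ := oneB hij
  refine (main3 hP (rich_of_lam ⟨c, hc, h0⟩) Φ D p o (fun γ h => ?_) (tr3B p.ne) _ (normB hij) hζ hq
    hΓ he (fun f gW vW => hS f gW vW _ _ p.ne.symm) (fun f s => hC f s ι _ _ p) hk).pad le_rfl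
    (by simp only [List.length_cons, List.length_nil]; omega)
  rcases h8 γ h with ⟨σ, e, rfl⟩ | ⟨c, e, rfl⟩
  · exact h1 σ _ (by simpa)
  · exact h2 c _ (by simpa using e.symm)

theorem H60_two {G : Type*} [Group G] (hm : m = 1) (L : Ix m → Ix m → Subgroup G) : H60 L :=
  fun d => absurd d (not_D3 hm)

theorem H120_two {G : Type*} [Group G] (hm : m = 1) (L : Ix m → Ix m → Subgroup G) : H120 L :=
  fun d => absurd d (not_D3 hm)

theorem H90_two {G : Type*} [Group G] (hm : m ≤ 2) (L : Ix m → Ix m → Subgroup G) : H90 L :=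
  fun d => absurd d.three_le (by omega)

theorem HS0_two {G : Type*} [Group G] (hm : m = 1) (L : Ix m → Ix m → Subgroup G)
    (S : Ix m → Subgroup G) : HS0 L S := fun d => absurd d (not_D3 hm)

theorem Setup.core {sh : Bool} {Φ : Frame P m sh} {Γ : Type*} [Group Γ] [MulAction Γ (Ix m)]
    {ι : Γ →* P.Iso} {a0 b0 : Ix m} (p : Pair Γ a0 b0) {ζ : F} (hζ : ζ ≠ 0) (hs : Spans (ζ ^ 2))
    {X : Type} {f : X → P.Iso} (s : Setup Φ f) {q r1 r2 r3 r4 r5 r6 r7 r8 : ℕ}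
    (c1 : Cost f r1 fun C => ∀ ρ, s.Lf ι ζ q C ρ → H60 (s.LC C))
    (c2 : Cost f r2 fun C => ∀ ρ, s.Lf ι ζ q C ρ → H60 (s.LC C) → H120 (s.LC C))
    (c3 : Cost f r3 fun C => ∀ ρ, s.Lf ι ζ q C ρ → H90 (s.LC C))
    (c4 : Cost f r4 fun C => ∀ ρ, s.Lf ι ζ q C ρ → HS0 (s.LC C) (s.SC C))
    (c5 : Cost f r5 fun C => ∀ ρ, s.Lf ι ζ q C ρ → HS1 (s.LC C) (s.SC C))
    (c6 : Cost f r6 fun C => ∀ ρ, s.Lf ι ζ q C ρ → HS1 (s.LC C) (s.SC C) → HSS (s.LC C) (s.SC C))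
    (c7 : Cost f r7 fun C => ∀ ρ, s.Lf ι ζ q C ρ → ∀ u ∈ s.LC C a0 b0.rev,
      C.θ u = xl Φ a0 b0.rev 1 → cj u (s.SC C b0) ≤ QQ (s.LC C) (s.SC C) a0 b0)
    (c8 : Cost f r8 fun C => ∀ ρ, s.Lf ι ζ q C ρ → ∀ u ∈ s.LC C a0 b0.rev,
      C.θ u = xl Φ a0 b0.rev 1 → cj u (s.LC C a0 b0) ≤ QQ (s.LC C) (s.SC C) a0 b0) :
    Cost f (r1 + r2 + r3 + r4 + r5 + r6 + r7 + r8)
      fun C => ∀ ρ, s.Lf ι ζ q C ρ → Core Φ C.θ (s.LC C) (s.SC C) := by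
  have := finite_Iso (P := P)
  refine (((((((c1.and c2).and c3).and c4).and c5).and c6).and c7).and c8).imp ?_
  rintro C ⟨⟨⟨⟨⟨⟨⟨h1, h2⟩, h3⟩, h4⟩, h5⟩, h6⟩, h7⟩, h8⟩ ρ l
  exact l.core (h1 ρ l) (h2 ρ l (h1 ρ l)) (h3 ρ l) (h4 ρ l) (h5 ρ l) (h6 ρ l (h5 ρ l))
    (l.hq p hζ hs (h5 ρ l) fun u hu e => ⟨h7 ρ l u hu e, h8 ρ l u hu e⟩)

theorem xs_eq_one {sh : Bool} {Φ : Frame P m sh} {a : Ix m} {x : V} {c : F} (hx : x ∈ Φ.V0)
    (hc : P.QEq x c) (h : P.eich (Φ.v a) x c = 1) : x = 0 ∧ c = 0 := by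
  by_contra e
  exact Φ.eich_ne_one (Φ.eOk0 a hx hc) (mem_perp_pair.1 (Φ.V0_le a hx)).2 (not_and_or.1 e) h

theorem spanBy_sq {K : Type*} [Field K] {ω : K} (h : Spans ω) : SpanBy (ω * ω) [1, ω] := fun a =>
  AddSubmonoid.closure_mono (by
    rintro _ ⟨i, rfl⟩
    rcases Nat.even_or_odd' i with ⟨k, rfl | rfl⟩
    · exact ⟨1, by simp, k, by ring⟩
    · exact ⟨ω, by simp, k, by ring⟩) (h a)

end general

variable {F : Type*} [Field F] [Fintype F] {V : Type*} [AddCommGroup V] [Module F V]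
variable [FiniteDimensional F V] {P : PQ (spFP F) V} {m : ℕ}

theorem sp_sg (Φ : Frame P m true) {ω : F} {E : List F} (h : SpanBy (ω * ω) E) :
    SG Φ ω (E.map fun e => (0, e)) :=
  sg_lam (eq_bot_iff.2 fun x hx => Φ.aniso x hx trivial) (fun _ _ => trivial) fun l _ => h l

theorem sp_main (hP : P.ND) (Φ : Frame P m true) (hm : 1 ≤ m) {d r0 : ℕ}
    (hΓ : Pr (WB (m + 1)) d r0) :
    Pr P.EG (d + 3) (r0 + 2 * min 5 (m + 1) + min 3 m + (if m = 1 then 25 else 24)) := by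
  obtain ⟨ζ, hζ⟩ := exists_prim F
  have hz := ζ.ne_zero
  have hs := spans_sq hζ
  have hs' : Spans ((ζ : F) * ζ) := sq (ζ : F) ▸ hs
  have he : SG Φ ζ [(0, 1)] := sp_sg Φ (spanBy_one hs')
  refine (mainB (c := 1) (rS := 5) (rC := if m = 1 then 7 else 8) (q := 1) hP Φ hm trivial
    one_ne_zero hζ (by simp) hΓ he (fun f gW vW a b h e1 e2 => ?_) (fun f s ι a0 b0 p => ?_)
    fun S _ σ => sp_ker Φ σ).pad le_rfl (by split_ifs <;> omega)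
  · have : IsAdd (fun c => P.eich (Φ.v a) 0 c) (k0 Φ ζ b a) (xs Φ a (0, 1)) ((ζ : F) ^ 2) :=
      ⟨fun c d => xs_lam_add a trivial trivial, rfl, fun c => by
        rw [k0_xs hz h a (zero_mem _) (sp_QEq _ _), wt_right h]; simp [sq]⟩
    exact (cost_add_sq hζ (g := gW) (u := vW) (e1 ▸ e2 ▸ this)).imp fun C ⟨φ, hφ⟩ =>
      hφ.inf_ker hs (by rwa [C.comp, C.comp, e1, e2]) fun c h => (xs_eq_one (zero_mem _) (sp_QEq _ _) h).2
  have h := p.ne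
  obtain ⟨w, w1, w2, w3⟩ := wt_norm (Φ := Φ) hz h
  have c5 := s.costS1 (ι := ι) (q := 1) p hz hs he w1 (w3 _ h) (w2 ▸ spanBy_one hs')
  by_cases e : m = 1
  · rw [if_pos e]
    obtain ⟨u, u1, u2, u3⟩ := wt_q' (Φ := Φ) hz h
    exact s.core p hz hs (cost_true fun _ _ _ => H60_two e _) (cost_true fun _ _ _ _ => H120_two e _)
      (cost_true fun _ _ _ => H90_two (by omega) _) (cost_true fun _ _ _ => HS0_two e _ _) c5
      (s.costSS p hz hs he w1 (w3 _ h) (w2 ▸ sp_sg Φ (spanBy_sq hs')))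
      (s.costQ1 p hz hs u1 (u1.q (u2.trans u3.symm)) (u3 ▸ sp_sg Φ (spanBy_sq hs')))
      (s.costQ2 p hz hs u1 (u1.q (u2.trans u3.symm)) (by rw [u2, u3]; exact spanBy_sq hs'))
  · rw [if_neg e]
    obtain ⟨c0, t⟩ := (tr3B h).resolve_left e
    obtain ⟨D0, d1, -, d2⟩ := quadB h
    obtain ⟨u, u1, u2, u3⟩ := wt_q (Φ := Φ) hz t.d
    obtain ⟨v, v1, v2, v3⟩ := wt_two (Φ := Φ) hz t.d
    obtain ⟨y, y1, y2, y3⟩ := wt_norm (Φ := Φ) hz t.d.ac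
    exact (s.core p hz hs (s.cost60 p hz hs t w1 (w3 _ h) (w3 _ t.d.bc.symm) (w2 ▸ spanBy_one hs'))
      (s.cost120 p hz hs t y1 (y3 _ t.d.ac) (y3 _ t.d.bc) (y3 _ t.d.r2.bc) (y2 ▸ spanBy_one hs'))
      (s.cost90 p hz hs D0 d2.d d2.tr) (s.costS0 p hz hs t he) c5
      (s.costSS p hz hs he v1 v2 (v3 ▸ he))
      (s.costQ1 p hz hs u1 (u1.q (u2.trans u3.symm)) (u3 ▸ he))
      (s.costQ2 p hz hs u1 (u1.q (u2.trans u3.symm)) (by rw [u2, u3]; exact spanBy_one hs'))).le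
      (by simp; omega)

theorem sp_frame (n : ℕ) : Nonempty (Frame (spStd F (n + 1)) n true) := by
  obtain ⟨m, ⟨Φ⟩⟩ := exists_frame_lam (spStd_nd (F := F) (n + 1)) (e := fun _ => 1) (l := 1) trivial
    (fun h => one_ne_zero (congrFun h (.inl 0))) trivial one_ne_zero
  have := Φ.finrank_V0 (spStd_nd _)
  rw [finrank_spStd, show Φ.V0 = ⊥ from eq_bot_iff.2 fun x hx => Φ.aniso x hx trivial,
    finrank_bot] at this
  obtain rfl : m = n := by omega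
  exact ⟨Φ⟩

theorem pr_sp_of {n d r : ℕ} (hn : 1 ≤ n) (h : Pr (Perm (Fin (n + 1))) d r) :
    Pr (Matrix.symplecticGroup (Fin (n + 1)) F) (d + 4)
      (r + min 2 (n - 1) + 1 + 2 * min 5 (n + 1) + min 3 n + (if n = 1 then 25 else 24)) := by
  obtain ⟨Φ⟩ := sp_frame (F := F) n
  exact (sp_main (spStd_nd _) Φ hn (h.wb hn)).equiv (spEquivEG _)

theorem sp_center (n : ℕ) : IsCyclic (center (Matrix.symplecticGroup (Fin (n + 1)) F)) := by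
  obtain ⟨Φ⟩ := sp_frame (F := F) n
  exact isCyclic_center_equiv (spEquivEG _) (isCyclic_center_EG (spStd_nd _) sp_rich Φ)

theorem pr_sp2 : Pr (Matrix.symplecticGroup (Fin 2) F) 5 32 := pr_sp_of le_rfl pr_S2

theorem pr_sp3 : Pr (Matrix.symplecticGroup (Fin 3) F) 6 36 := pr_sp_of (by omega) sym_three_small

theorem pr_sp4 : Pr (Matrix.symplecticGroup (Fin 4) F) 7 44 := pr_sp_of (by omega) pr_S4

theorem pr_sp5 {n : ℕ} (hn : 5 ≤ n) : Pr (Matrix.symplecticGroup (Fin n) F) 7 47 := by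
  obtain ⟨n, rfl⟩ : ∃ k, n = k + 1 := ⟨n - 1, by omega⟩
  exact (pr_sp_of (by omega) (pr_S hn)).pad le_rfl (by split_ifs <;> omega)

end Cfsg.Agent.CP
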