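import Cfsg.Agent.CP.Core

/-! Spreading commutator relations with a torus. -/

set_option autoImplicit false
set_option linter.unusedSectionVars false

namespace Cfsg.Agent.CP

open Subgroup Cfsg.Agent.RGD Cfsg.Agent.Pres Cfsg.Agent.SymAlt
open scoped commutatorElement

variable {G H : Type*} [Group G] [Group H]

/-- `A` is generated by the conjugates of `l` under the powers of `t` -/
def GenBy (t : H) (l : List H) (A : Subgroup H) : Prop :=
  ∀ D : Subgroup H, (∀ x ∈ D, t * x * t⁻¹ ∈ D) → (∀ x ∈ l, x ∈ D) → A ≤ D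

theorem conj_mem_of_norm {A : Subgroup G} {t x : G} (h : t ∈ normalizer (A : Set G)) (hx : x ∈ A) :
    t * x * t⁻¹ ∈ A := (mem_normalizer_iff.1 h _).1 hx

theorem GenBy.lift {θ : G →* H} {A D : Subgroup G} (hA : A ⊓ θ.ker = ⊥) {t : G} {l : List H}
    (hg : GenBy (θ t) l (A.map θ)) (ht : t ∈ normalizer (A : Set G))
    (hD : ∀ x ∈ D, t * x * t⁻¹ ∈ D) (hl : ∀ x ∈ l, ∃ a ∈ A, θ a = x ∧ a ∈ D) : A ≤ D := by
  refine (le_of_map_le hA le_rfl inf_le_left (hg ((A ⊓ D).map θ) ?_ fun x hx => ?_)).trans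
    inf_le_right
  · rintro _ ⟨x, hx, rfl⟩
    exact ⟨_, ⟨conj_mem_of_norm ht hx.1, hD x hx.2⟩, by simp⟩
  · obtain ⟨a, h1, h2, h3⟩ := hl x hx
    exact ⟨a, ⟨h1, h3⟩, h2⟩

/-- the data for one family of relations -/
def Rel (θ : G →* H) (A B M : Subgroup G) (l : List H) (b0 : H) : Prop :=
  ∃ b ∈ B, θ b = b0 ∧ ∀ x ∈ l, ∃ a ∈ A, θ a = x ∧ ⁅a, b⁆ ∈ M

variable {θ : G →* H} {A B M : Subgroup G} {l : List H} {t t' : G}

theorem spread1 (hA : A ⊓ θ.ker = ⊥) (hB : B ⊓ θ.ker = ⊥) {b : G} (hb : b ∈ B)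
    (hl : ∀ x ∈ l, ∃ a ∈ A, θ a = x ∧ ⁅a, b⁆ ∈ M) (h1 : A ≤ normalizer (M : Set G))
    (tA : t ∈ normalizer (A : Set G)) (tB : t ∈ normalizer (B : Set G))
    (tM : t ∈ normalizer (M : Set G)) (hc : Commute (θ t) (θ b)) (hg : GenBy (θ t) l (A.map θ)) :
    ∀ a ∈ A, ⁅a, b⁆ ∈ M := by
  obtain ⟨D, hD⟩ := comm_mem_left (M := M) (b := b)
  have e : t * b * t⁻¹ = b := eq_of_inf_ker hB (conj_mem_of_norm tB hb) hb (by simp [hc.eq])
  refine fun a ha => ((hD a).1 (hg.lift hA tA (fun x hx => ?_) (fun x hx => ?_) ha)).2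
  · rw [hD] at hx ⊢
    exact ⟨mul_mem (mul_mem tM hx.1) (inv_mem tM), e ▸ comm_conj_mem tM hx.2⟩
  · obtain ⟨a, h2, h3, h4⟩ := hl x hx
    exact ⟨a, h2, h3, (hD a).2 ⟨h1 h2, h4⟩⟩

theorem Rel.spread (hA : A ⊓ θ.ker = ⊥) (hB : B ⊓ θ.ker = ⊥) {b0 : H} (h : Rel θ A B M l b0)
    (h1 : A ≤ normalizer (M : Set G)) (h2 : B ≤ normalizer (M : Set G))
    (tA : t ∈ normalizer (A : Set G)) (tB : t ∈ normalizer (B : Set G))
    (tM : t ∈ normalizer (M : Set G)) (hc : Commute (θ t) b0) (hg : GenBy (θ t) l (A.map θ))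
    (tA' : t' ∈ normalizer (A : Set G)) (tB' : t' ∈ normalizer (B : Set G))
    (tM' : t' ∈ normalizer (M : Set G)) (hg' : GenBy (θ t') [b0] (B.map θ)) : ⁅A, B⁆ ≤ M := by
  obtain ⟨b, hb, rfl, hl⟩ := h
  have k := spread1 hA hB hb hl h1 tA tB tM hc hg
  choose D hD using fun a => comm_mem_left (M := M) (b := a)
  have : B ≤ normalizer (M : Set G) ⊓ ⨅ a ∈ A, D a := by
    refine hg'.lift hB tB' (fun x hx => ?_) fun x hx => ⟨b, hb, (List.mem_singleton.1 hx).symm,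
      h2 hb, mem_iInf.2 fun a => mem_iInf.2 fun ha => (hD a b).2 ⟨h2 hb, comm_mem_symm (k a ha)⟩⟩
    have e := mul_mem (mul_mem tM' hx.1) (inv_mem tM')
    refine ⟨e, mem_iInf.2 fun a => mem_iInf.2 fun ha => (hD a _).2 ⟨e, ?_⟩⟩
    have := comm_conj_mem tM' ((hD _ _).1 (mem_iInf.1 (mem_iInf.1 hx.2 _)
      (conj_mem_of_norm (inv_mem tA') ha))).2
    simpa [mul_assoc] using this
  exact commutator_le.2 fun a ha x hx =>
    comm_mem_symm ((hD _ _).1 (mem_iInf.1 (mem_iInf.1 (this hx).2 a) ha)).2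

theorem norm_of_cj_le {b : G} (hb : IsOfFinOrder b) (h : cj b M ≤ M) : b ∈ normalizer (M : Set G) := by
  have : ∀ n : ℕ, cj (b ^ n) M ≤ M := fun n => by
    induction n with
    | zero => rw [pow_zero, cj_one]
    | succ n ih => rw [pow_succ, cj_mul]; exact (cj_mono _ h).trans ih
  obtain ⟨n, hn, e⟩ := hb.exists_pow_eq_one
  obtain ⟨n, rfl⟩ := Nat.exists_eq_add_of_lt hn
  refine mem_normalizer_iff_cj.2 (cj_eq_of_le h ?_)
  rw [← eq_inv_of_mul_eq_one_left (pow_succ b _ ▸ e)]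
  exact this _

theorem finOrder_of [Finite H] (hB : B ⊓ θ.ker = ⊥) {b : G} (hb : b ∈ B) : IsOfFinOrder b :=
  isOfFinOrder_iff_pow_eq_one.2 ⟨orderOf (θ b), orderOf_pos _, eq_of_inf_ker hB (pow_mem hb _)
    (one_mem _) (by simp [pow_orderOf_eq_one])⟩

theorem finite_of [Finite H] (hB : B ⊓ θ.ker = ⊥) : Finite B :=
  Finite.of_injective (fun b : B => θ b) fun a b e => Subtype.ext (eq_of_inf_ker hB a.2 b.2 e)

theorem cj_le_of_comm {b : G} (h1 : A ≤ M) (h : ∀ a ∈ A, ⁅a, b⁆ ∈ M) : cj b A ≤ M :=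
  cj_le_iff.2 fun a ha => by
    simpa [commutatorElement_def] using mul_mem (comm_mem_symm (h a ha)) (h1 ha)

theorem norm_of_gen (hB : B ⊓ θ.ker = ⊥) {b : G} (hb : b ∈ B) (h : b ∈ normalizer (M : Set G))
    (tB : t ∈ normalizer (B : Set G)) (tM : t ∈ normalizer (M : Set G))
    (hg : GenBy (θ t) [θ b] (B.map θ)) : B ≤ normalizer (M : Set G) :=
  hg.lift hB tB (fun _ hx => mul_mem (mul_mem tM hx) (inv_mem tM)) fun _ hx =>
    ⟨b, hb, (List.mem_singleton.1 hx).symm, h⟩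

theorem norm_bot (A : Subgroup G) : A ≤ normalizer ((⊥ : Subgroup G) : Set G) := by
  rw [normalizer_eq_top]; exact le_top

theorem mem_norm_bot (t : G) : t ∈ normalizer ((⊥ : Subgroup G) : Set G) := norm_bot ⊤ trivial

theorem mem_norm_sup {t : G} (h : t ∈ normalizer (A : Set G)) (h' : t ∈ normalizer (B : Set G)) :
    t ∈ normalizer (A ⊔ B : Subgroup G) := by
  rw [mem_normalizer_iff_cj] at *
  rw [cj_sup, h, h']

theorem cost_rel {X : Type} {f : X → H} (AW BW MW : Subgroup (FreeGroup X)) (l : List H) {b0 : H}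
    (hl : ∀ x ∈ l, x ∈ AW.map (FreeGroup.lift f) ∧ ⁅x, b0⁆ ∈ MW.map (FreeGroup.lift f))
    (hb : b0 ∈ BW.map (FreeGroup.lift f)) :
    Cost f l.length fun C => Rel C.θ (AW.map C.ev) (BW.map C.ev) (MW.map C.ev) l b0 := by
  obtain ⟨b, hb, rfl⟩ := hb
  refine (cost_list l (P := fun x C => ∃ a ∈ AW.map C.ev, C.θ a = x ∧ ⁅a, C.ev b⁆ ∈ MW.map C.ev)
    fun x hx => ?_).imp fun C hC => ⟨_, mem_map_of_mem _ hb, C.comp b, hC⟩
  obtain ⟨⟨a, ha, rfl⟩, h⟩ := hl x hx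
  exact (cost_mem ⁅a, b⁆ MW (by rwa [map_commutatorElement])).imp fun C hC =>
    ⟨_, mem_map_of_mem _ ha, C.comp a, by rwa [← map_commutatorElement]⟩

theorem GenBy.of_spans {K : Type*} [Field K] {x : K → H} (add : ∀ a b, x (a + b) = x a * x b)
    {A : Subgroup H} (hA : ∀ y ∈ A, ∃ a, y = x a) {t : H} {w : K}
    (ht : ∀ a, t * x a * t⁻¹ = x (w * a)) {E : List K}
    (hE : ∀ a, a ∈ AddSubmonoid.closure {y | ∃ e ∈ E, ∃ i : ℕ, y = w ^ i * e}) :
    GenBy t (E.map x) A := fun D h1 h2 y hy => by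
  obtain ⟨a, rfl⟩ := hA y hy
  refine add_mem_of_closure add ?_ (hE a)
  rintro _ ⟨e, he, i, rfl⟩
  induction i with
  | zero => simpa using h2 _ (List.mem_map_of_mem he)
  | succ i ih => rw [pow_succ', mul_assoc, ← ht]; exact h1 _ ih

theorem GenBy.le_AG {t u : H} {A : Subgroup H} (h : GenBy t [u] A) : A ≤ AG t u :=
  h _ (fun _ => conj_mem_AG) fun _ hx => List.mem_singleton.1 hx ▸ self_mem_AG t u

theorem AG_le {t u : H} {A : Subgroup H} (h1 : ∀ x ∈ A, t * x * t⁻¹ ∈ A) (h2 : u ∈ A) :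
    AG t u ≤ A := by
  rw [AG, closure_le]
  rintro _ ⟨i, rfl⟩
  induction i with
  | zero => simpa [SL2Pres.cj_zero] using h2
  | succ i ih => simp only [SL2Pres.cj_succ]; exact h1 _ ih

end Cfsg.Agent.CP
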