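import Cfsg.Agent.CP.Spread

/-! The torus layer of the presentations. -/

set_option autoImplicit false
set_option linter.unusedSectionVars false
set_option linter.unusedVariables false

namespace Cfsg.Agent.CP

open Subgroup Cfsg.Agent.RGD Cfsg.Agent.RG Cfsg.Agent.Polar Cfsg.Agent.Polar.PQ Cfsg.Agent.Cl
open Cfsg.Agent.Pres hiding rt
open scoped commutatorElement

variable {m : ℕ} {Γ : Type*} [Group Γ] [MulAction Γ (Ix m)]

/-- three indices with distinct supports -/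
structure D3 (a b c : Ix m) : Prop where
  ab : sup a ≠ sup b
  ac : sup a ≠ sup c
  bc : sup b ≠ sup c

theorem D3.s12 {a b c : Ix m} (h : D3 a b c) : D3 b a c := ⟨h.ab.symm, h.bc, h.ac⟩
theorem D3.s23 {a b c : Ix m} (h : D3 a b c) : D3 a c b := ⟨h.ac, h.ab, h.bc.symm⟩
theorem D3.s13 {a b c : Ix m} (h : D3 a b c) : D3 c b a := ⟨h.bc.symm, h.ac.symm, h.ab.symm⟩
theorem D3.r1 {a b c : Ix m} (h : D3 a b c) : D3 a.rev b c :=
  ⟨by simpa using h.ab, by simpa using h.ac, h.bc⟩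
theorem D3.r2 {a b c : Ix m} (h : D3 a b c) : D3 a b.rev c := h.s12.r1.s12
theorem D3.r3 {a b c : Ix m} (h : D3 a b c) : D3 a b c.rev := h.s13.r1.s13

theorem sup_cases {a b x : Ix m} (hm : m = 1) (h : sup a ≠ sup b) (h' : sup x ≠ sup b) :
    x = a ∨ x = a.rev := by
  subst hm
  refine sup_eq_iff.1 ?_
  revert h h'
  generalize sup a = i; generalize sup b = j; generalize sup x = k
  revert i j k; decide

theorem not_D3 {a b c : Ix m} (hm : m = 1) : ¬ D3 a b c := fun h => by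
  rcases sup_cases hm h.ac h.bc with e | e <;> exact h.ab (by simp [e])

theorem exists_D3 (hm : 2 ≤ m) {a b : Ix m} (h : sup a ≠ sup b) : ∃ c, D3 a b c := by
  obtain ⟨i, hi⟩ := exists_not_mem [sup a, sup b] (by simp; omega)
  simp only [List.mem_cons, List.not_mem_nil, or_false, not_or] at hi
  exact ⟨mkI i 1, h, by simpa using Ne.symm hi.1, by simpa using Ne.symm hi.2⟩

variable (Γ) in
/-- the action of the Weyl group on pairs -/
structure Pair (a0 b0 : Ix m) where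
  ne : sup a0 ≠ sup b0
  rev : ∀ (γ : Γ) (a : Ix m), γ • a.rev = (γ • a).rev
  /-- transporters -/
  c : Ix m → Ix m → Γ
  hc1 : ∀ {a b}, sup a ≠ sup b → c a b • a0 = a
  hc2 : ∀ {a b}, sup a ≠ sup b → c a b • b0 = b
  /-- generators of the stabilizer of the unordered pair -/
  l : List Γ
  hl : ∀ σ ∈ l, σ • a0 = a0 ∧ σ • b0 = b0 ∨ σ • a0 = b0 ∧ σ • b0 = a0
  hl' : ∀ σ : Γ, σ • a0 = a0 ∧ σ • b0 = b0 ∨ σ • a0 = b0 ∧ σ • b0 = a0 → σ ∈ closure {σ | σ ∈ l}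
  sw2 : ∃ x ∈ l, x • a0 = b0 ∧ ∃ g ∈ Submonoid.closure {σ | σ ∈ l},
    ∃ g' ∈ Submonoid.closure {σ | σ ∈ l}, x * x * g' * g = g * g'

variable (Γ) in
/-- reachable triples -/
def R3 (a0 b0 c0 a b c : Ix m) : Prop := ∃ γ : Γ, γ • a0 = a ∧ γ • b0 = b ∧ γ • c0 = c

variable (Γ) in
/-- the action of the Weyl group on triples -/
structure Tr3 (a0 b0 c0 : Ix m) : Prop where
  d : D3 a0 b0 c0
  p1 : ∀ {a b c}, D3 a b c → R3 Γ a0 b0 c0 a b c ∨ R3 Γ a0 b0 c0 a c b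
  p2 : ∀ {a b c}, D3 a b c → R3 Γ a0 b0 c0 a b c ∨ R3 Γ a0 b0 c0 c b.rev a
  p3 : ∀ {c}, D3 a0 b0 c → R3 Γ a0 b0 c0 a0 b0 c ∨ R3 Γ a0 b0 c0 b0 a0 c.rev

variable {G : Type*} [Group G] {a0 b0 : Ix m}

/-- an equivariant family indexed by ordered pairs -/
structure Eqv (ρ : Γ →* G) (q : ℕ) (k : Ix m → Ix m → G) : Prop where
  conj : ∀ γ {a b}, sup a ≠ sup b → ρ γ * k a b * (ρ γ)⁻¹ = k (γ • a) (γ • b)
  sw : ∀ {a b}, sup a ≠ sup b → k b a = k a b ^ q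

/-- the relations of the torus -/
structure TorR (ρ : Γ →* G) (q : ℕ) (k : Ix m → Ix m → G) : Prop extends Eqv ρ q k where
  inv : ∀ {a b}, sup a ≠ sup b → k b.rev a.rev = (k a b)⁻¹
  t1 : ∀ {a b c}, D3 a b c → k a b * k b.rev c = k a c
  cm : ∀ {a b c}, sup a ≠ sup c → sup b ≠ sup c → Commute (k a c) (k b c)

namespace Pair

variable (p : Pair Γ a0 b0)

include p in
theorem smul_ne (γ : Γ) {a b : Ix m} (h : sup a ≠ sup b) : sup (γ • a) ≠ sup (γ • b) :=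
  sup_smul_ne p.rev γ h

/-- transported elements -/
def tr (ρ : Γ → G) (h : G) (a b : Ix m) : G := ρ (p.c a b) * h * (ρ (p.c a b))⁻¹

theorem map_tr {G' : Type*} [Group G'] (φ : G →* G') (ρ : Γ → G) (h : G) (a b : Ix m) :
    φ (p.tr ρ h a b) = p.tr (fun γ => φ (ρ γ)) (φ h) a b := by simp [tr]

theorem stab (γ : Γ) {a b : Ix m} (h : sup a ≠ sup b) :
    ((p.c (γ • a) (γ • b))⁻¹ * γ * p.c a b) • a0 = a0 ∧
      ((p.c (γ • a) (γ • b))⁻¹ * γ * p.c a b) • b0 = b0 := by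
  simp only [mul_smul, inv_smul_eq_iff, p.hc1 h, p.hc2 h, p.hc1 (p.smul_ne γ h),
    p.hc2 (p.smul_ne γ h), and_self]

theorem eqv {ρ : Γ →* G} {q : ℕ} {h : G}
    (H : ∀ σ ∈ p.l, ρ σ * h * (ρ σ)⁻¹ = if σ • a0 = a0 then h else h ^ q) :
    Eqv ρ q (p.tr ρ h) ∧ p.tr ρ h a0 b0 = h := by
  have hne := ne_of_sup p.ne
  have e0 : h ^ (q * q) = h := by
    have k : ∀ g ∈ Submonoid.closure {σ | σ ∈ p.l}, ∃ i : ℕ, ρ g * h * (ρ g)⁻¹ = h ^ i := by
      intro g hg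
      induction hg using Submonoid.closure_induction with
      | mem x hx => rw [H x hx]; split_ifs; exacts [⟨1, by simp⟩, ⟨q, rfl⟩]
      | one => exact ⟨1, by simp⟩
      | mul x y _ _ hx hy =>
        obtain ⟨i, hi⟩ := hx
        obtain ⟨j, hj⟩ := hy
        exact ⟨i * j, by rw [pow_mul, ← hi, conj_pow, ← hj, map_mul]; group⟩
    obtain ⟨x, hx, h1, g, hg, g', hg', e⟩ := p.sw2
    obtain ⟨i, hi⟩ := k g hg
    obtain ⟨j, hj⟩ := k g' hg'
    have h2 := H x hx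
    rw [if_neg (by rw [h1]; exact hne.symm)] at h2
    have h3 : ρ (g * g') * h * (ρ (g * g'))⁻¹ = h ^ (i * j) := by
      rw [pow_mul, ← hi, conj_pow, ← hj, map_mul]; group
    have h4 : ρ (x * x * g' * g) * h * (ρ (x * x * g' * g))⁻¹ = (h ^ (i * j)) ^ (q * q) := by
      calc _ = ρ x * (ρ x * (ρ g' * (ρ g * h * (ρ g)⁻¹) * (ρ g')⁻¹) * (ρ x)⁻¹) * (ρ x)⁻¹ := by
            simp only [map_mul]; group
        _ = _ := by
            simp only [hi, ← conj_pow, hj, h2, ← pow_mul]; congr 1; ring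
    rw [e, ← h3, conj_pow] at h4
    simpa using h4.symm
  let K : Subgroup Γ :=
    { carrier := {σ | (σ • a0 = a0 ∧ σ • b0 = b0) ∧ ρ σ * h * (ρ σ)⁻¹ = h ∨
        (σ • a0 = b0 ∧ σ • b0 = a0) ∧ ρ σ * h * (ρ σ)⁻¹ = h ^ q}
      one_mem' := Or.inl (by simp)
      mul_mem' := by
        have k : ∀ x y, ρ (x * y) * h * (ρ (x * y))⁻¹ = ρ x * (ρ y * h * (ρ y)⁻¹) * (ρ x)⁻¹ :=
          fun x y => by rw [map_mul]; group
        rintro x y (⟨⟨h1, h2⟩, h3⟩ | ⟨⟨h1, h2⟩, h3⟩) (⟨⟨h4, h5⟩, h6⟩ | ⟨⟨h4, h5⟩, h6⟩) <;>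
          simp only [Set.mem_ofPred_eq, k, mul_smul, h1, h2, h3, h4, h5, h6, ← conj_pow, ← pow_mul,
            e0, true_and, true_or, or_true]
      inv_mem' := by
        rintro x (⟨⟨h1, h2⟩, h3⟩ | ⟨⟨h1, h2⟩, h3⟩)
        · refine Or.inl ⟨by simp [inv_smul_eq_iff, h1, h2], ?_⟩
          conv_lhs => rw [← h3]
          simp [mul_assoc]
        · refine Or.inr ⟨by simp [inv_smul_eq_iff, h1, h2], ?_⟩
          conv_lhs => rw [← e0, pow_mul, ← h3, conj_pow]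
          simp [mul_assoc] }
  have hK : ∀ σ, _ → σ ∈ K := fun σ hσ => (closure_le (K := K)).2 (fun x hx => by
    have := H x hx
    rcases p.hl x hx with e | e
    · exact Or.inl ⟨e, by rwa [if_pos e.1] at this⟩
    · exact Or.inr ⟨e, by rwa [if_neg (by rw [e.1]; exact hne.symm)] at this⟩) (p.hl' σ hσ)
  have s1 : ∀ σ, σ • a0 = a0 ∧ σ • b0 = b0 → ρ σ * h * (ρ σ)⁻¹ = h := fun σ hσ =>
    (hK σ (Or.inl hσ)).elim And.right fun e => absurd (hσ.1.symm.trans e.1.1) hne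
  have s2 : ∀ σ, σ • a0 = b0 ∧ σ • b0 = a0 → ρ σ * h * (ρ σ)⁻¹ = h ^ q := fun σ hσ =>
    (hK σ (Or.inr hσ)).elim (fun e => absurd (e.1.1.symm.trans hσ.1) hne) And.right
  refine ⟨⟨fun γ a b k => ?_, fun {a b} k => ?_⟩, s1 _ ⟨p.hc1 p.ne, p.hc2 p.ne⟩⟩
  · rw [tr, tr]
    conv_rhs => rw [← s1 _ (p.stab γ k)]
    simp only [map_mul, map_inv]; group
  · rw [tr, tr, conj_pow, ← s2 ((p.c a b)⁻¹ * p.c b a) (by
      simp only [mul_smul, inv_smul_eq_iff, p.hc1 k, p.hc2 k, p.hc1 k.symm, p.hc2 k.symm, and_self])]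
    simp only [map_mul, map_inv]; group

end Pair

variable {ρ : Γ →* G} {q : ℕ} {k : Ix m → Ix m → G}

theorem Eqv.commute (E : Eqv ρ q k) (γ : Γ) {a b c d : Ix m} (h : sup a ≠ sup b)
    (h' : sup c ≠ sup d) (e : Commute (k a b) (k c d)) :
    Commute (k (γ • a) (γ • b)) (k (γ • c) (γ • d)) := by
  rw [← E.conj γ h, ← E.conj γ h']; exact SL2Pres.conj_commute _ e

theorem Eqv.torR3 (E : Eqv ρ q k) (p : Pair Γ a0 b0) {c0 : Ix m} (t : Tr3 Γ a0 b0 c0)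
    (h1 : k a0 b0 * k b0.rev c0 = k a0 c0) (h2 : Commute (k a0 b0) (k a0 c0)) : TorR ρ q k := by
  have c1 : ∀ {a b c}, D3 a b c → Commute (k a b) (k a c) := fun d => by
    rcases t.p1 d with ⟨γ, rfl, rfl, rfl⟩ | ⟨γ, rfl, rfl, rfl⟩
    exacts [E.commute γ t.d.ab t.d.ac h2, (E.commute γ t.d.ab t.d.ac h2).symm]
  have c2 : ∀ {a b c}, R3 Γ a0 b0 c0 a b c → k a b * k b.rev c = k a c := by
    rintro _ _ _ ⟨γ, rfl, rfl, rfl⟩
    rw [← p.rev, ← E.conj γ t.d.ab, ← E.conj γ t.d.ac, ← E.conj γ t.d.r2.bc, conj_mul, h1]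
  have t1 : ∀ {a b c}, D3 a b c → k a b * k b.rev c = k a c := fun {a b c} d => by
    refine (t.p2 d).elim c2 fun r => ?_
    have e := c2 r
    have e' := eq_inv_mul_iff_mul_eq.2 e
    have : Commute (k c b.rev) (k b.rev.rev a) :=
      e' ▸ (Commute.refl _).inv_right.mul_right (c1 d.s13.r2)
    rw [Fin.rev_rev] at e this
    rw [E.sw d.ab.symm, E.sw d.r2.bc.symm, E.sw d.ac.symm, ← e, this.mul_pow,
      (this.pow_pow q q).eq]
  have hm : 2 ≤ m := by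
    by_contra e
    have := t.d.ab; have := t.d.ac; have := t.d.bc
    have := (sup a0).2; have := (sup b0).2; have := (sup c0).2
    simp only [Ne, Fin.ext_iff] at *; omega
  have inv : ∀ {a b}, sup a ≠ sup b → k b.rev a.rev = (k a b)⁻¹ := fun {a b} h => by
    obtain ⟨c, d⟩ := exists_D3 hm h
    have e1 := t1 d.s13.r3
    have e2 := t1 d.s13.s23.r2
    rw [Fin.rev_rev] at e2
    rw [← e2, mul_assoc, mul_eq_left] at e1
    exact eq_inv_of_mul_eq_one_right e1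
  have c3 : ∀ {a b c}, D3 a b c → Commute (k a c) (k b c) := fun {a b c} d => by
    rw [E.sw d.ac.symm, E.sw d.bc.symm]
    exact (c1 d.s13.s23).pow_pow q q
  refine ⟨E, inv, t1, fun {a b c} h h' => ?_⟩
  by_cases e : sup a = sup b
  · rcases sup_eq_iff.1 e with rfl | rfl
    · exact Commute.refl _
    obtain ⟨x, d⟩ := exists_D3 hm h'
    rw [← t1 d.s23.r1]
    refine Commute.mul_left ?_ (c3 d.s13.s23.r1)
    have := inv d.s13.r1.ac
    rw [Fin.rev_rev] at this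
    rw [this, E.sw d.ab.symm]
    exact ((c3 d.s13.r1).pow_right q).inv_left
  · exact c3 ⟨e, h, h'⟩

theorem Eqv.torR2 (E : Eqv ρ q k) (p : Pair Γ a0 b0) (hm : m = 1)
    (h1 : k b0.rev a0.rev = (k a0 b0)⁻¹) (h2 : Commute (k a0 b0) (k a0.rev b0)) : TorR ρ q k := by
  refine ⟨E, fun {a b} h => ?_, fun d => absurd d (not_D3 hm), fun {a b c} h h' => ?_⟩
  · have e1 := E.conj (p.c a b) p.ne
    have e2 := E.conj (p.c a b) (a := b0.rev) (b := a0.rev) (by simpa using p.ne.symm)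
    rw [p.rev, p.rev, p.hc1 h, p.hc2 h] at e2
    rw [p.hc1 h, p.hc2 h] at e1
    rw [← e1, ← e2, h1]
    group
  · rcases sup_cases hm h h' with rfl | rfl
    · exact Commute.refl _
    have := E.commute (p.c a c) p.ne (by simpa using p.ne) h2
    rwa [p.rev, p.hc1 h, p.hc2 h] at this

theorem TorR.gen (T : TorR ρ q k) {B : Subgroup G} {b : Ix m}
    (h : ∀ x, sup x ≠ sup b → k x b ∈ B) {x y : Ix m} (hxy : sup x ≠ sup y) : k x y ∈ B := by
  have h1 : ∀ x, sup x ≠ sup b → k b.rev x ∈ B := fun x hx => by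
    have := T.inv (a := x.rev) (b := b) (by simpa)
    rw [Fin.rev_rev] at this
    exact this ▸ inv_mem (h _ (by simpa))
  have h2 : ∀ x y, sup x ≠ sup y → sup y = sup b → k x y ∈ B := fun x y h2 h3 => by
    rcases sup_eq_iff.1 h3 with rfl | rfl
    · exact h x h2
    · rw [T.sw h2.symm]; exact pow_mem (h1 x (by simpa using h2)) _
  by_cases e : sup y = sup b
  · exact h2 x y hxy e
  by_cases e' : sup x = sup b
  · rw [T.sw hxy.symm]; exact pow_mem (h2 y x hxy.symm e') _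
  · rw [← T.t1 ⟨e', hxy, Ne.symm e⟩]
    exact mul_mem (h x e') (h1 y e)

theorem TorR.comm (T : TorR ρ q k) {a b c d : Ix m} (h : sup a ≠ sup b) (h' : sup c ≠ sup d) :
    Commute (k a b) (k c d) := by
  have h1 : ∀ {x y z}, sup x ≠ sup y → sup z ≠ sup b → Commute (k x y) (k z b) :=
    fun {x y z} h1 h2 => mem_centralizer_singleton_iff.1 (T.gen (B := centralizer {k z b})
      (fun _ hw => mem_centralizer_singleton_iff.2 (T.cm hw h2)) h1)
  exact (h1 h' h).symm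

section cost

variable {F : Type*} [Field F] {τ : F →+* F} {π : FP F τ}
variable {V : Type*} [AddCommGroup V] [Module F V] {P : PQ π V}
variable {sh : Bool} {Φ : Frame P m sh} {ι : Γ →* P.Iso} {ζ : F}

theorem Pair.tr_k0 (p : Pair Γ a0 b0) (D : GD Φ ι) (hζ : ζ ≠ 0) {a b : Ix m} (h : sup a ≠ sup b) :
    p.tr ι (k0 Φ ζ a0 b0) a b = k0 Φ ζ a b := by
  rw [Pair.tr, D.conj_k0 hζ _ p.ne, p.hc1 h, p.hc2 h]

variable {X : Type} {f : X → P.Iso} {W : Γ → FreeGroup X} {hW : FreeGroup X}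

theorem Pair.lift_tr (p : Pair Γ a0 b0) (D : GD Φ ι) (hζ : ζ ≠ 0)
    (e1 : ∀ γ, FreeGroup.lift f (W γ) = ι γ) (e2 : FreeGroup.lift f hW = k0 Φ ζ a0 b0)
    {a b : Ix m} (h : sup a ≠ sup b) : FreeGroup.lift f (p.tr W hW a b) = k0 Φ ζ a b := by
  rw [p.map_tr, e2, funext e1, p.tr_k0 D hζ h]

theorem cost_tor (p : Pair Γ a0 b0) (D : GD Φ ι) (hζ : ζ ≠ 0) (hq : ∀ x, τ x = x ^ q)
    (e1 : ∀ γ, FreeGroup.lift f (W γ) = ι γ) (e2 : FreeGroup.lift f hW = k0 Φ ζ a0 b0)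
    (ht : m = 1 ∨ ∃ c0, Tr3 Γ a0 b0 c0) :
    Cost f (p.l.length + 2) fun C => ∀ ρ : Γ →* C.G, (∀ γ, ρ γ = C.ev (W γ)) →
      TorR ρ q (p.tr ρ (C.ev hW)) ∧ p.tr ρ (C.ev hW) a0 b0 = C.ev hW := by
  have c1 := cost_list (f := f) p.l (P := fun σ C => C.ev (W σ) * C.ev hW * (C.ev (W σ))⁻¹ =
      if σ • a0 = a0 then C.ev hW else C.ev hW ^ q) fun σ hσ => by
    refine (cost_eq (W σ * hW * (W σ)⁻¹) (if σ • a0 = a0 then hW else hW ^ q) ?_).imp
      fun C hC => by simpa [apply_ite] using hC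
    rw [apply_ite (FreeGroup.lift f), map_pow, map_mul, map_mul, map_inv, e1, e2,
      D.conj_k0 hζ _ p.ne]
    rcases p.hl σ hσ with ⟨h1, h2⟩ | ⟨h1, h2⟩ <;> rw [h1, h2]
    · rw [if_pos rfl]
    · rw [if_neg (ne_of_sup p.ne).symm, k0_sw hζ hq p.ne]
  have k := fun {a b} => p.lift_tr (a := a) (b := b) D hζ e1 e2
  have hne := p.ne
  rcases ht with hm | ⟨c0, t⟩
  · refine (c1.and ((cost_eq (p.tr W hW b0.rev a0.rev) (p.tr W hW a0 b0)⁻¹ ?_).and
      (cost_commute (p.tr W hW a0 b0) (p.tr W hW a0.rev b0) ?_))).imp ?_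
    · rw [map_inv, k hne, k (by simpa using hne.symm), k0_inv hζ hne]
    · rw [k hne, k (by simpa)]; exact k0_commute hζ _ _ _ _
    · rintro C ⟨h1, h2, h3⟩ ρ hρ
      simp only [map_inv, p.map_tr, ← hρ] at h1 h2 h3
      obtain ⟨E, e⟩ := p.eqv h1
      exact ⟨E.torR2 p hm h2 h3, e⟩
  · refine (c1.and ((cost_eq (p.tr W hW a0 b0 * p.tr W hW b0.rev c0) (p.tr W hW a0 c0) ?_).and
      (cost_commute (p.tr W hW a0 b0) (p.tr W hW a0 c0) ?_))).imp ?_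
    · rw [map_mul, k hne, k t.d.r2.bc, k t.d.ac, k0_t1 hζ hne t.d.ac t.d.bc]
    · rw [k hne, k t.d.ac]; exact k0_commute hζ _ _ _ _
    · rintro C ⟨h1, h2, h3⟩ ρ hρ
      simp only [map_mul, p.map_tr, ← hρ] at h1 h2 h3
      obtain ⟨E, e⟩ := p.eqv h1
      exact ⟨E.torR3 p t h2 h3, e⟩

end cost

end Cfsg.Agent.CP
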