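import Cfsg.Agent.CP.Main
import Cfsg.Agent.CP.Iota

/-! Weyl group data of type `B`. -/

set_option autoImplicit false
set_option linter.unusedSectionVars false
set_option linter.unusedVariables false

namespace Cfsg.Agent.CP

open Subgroup Cfsg.Agent.RGD Cfsg.Agent.RG
open Cfsg.Agent.Pres hiding rt
open Equiv Equiv.Perm SemidirectProduct Cfsg.Agent.SymAlt

theorem exists_genSym {α : Type*} [DecidableEq α] [Fintype α] (T : Set α) :
    ∃ l : List (Perm α), l.length ≤ 2 ∧ l.length ≤ T.ncard - 1 ∧ (∀ σ ∈ l, ∀ x, x ∉ T → σ x = x) ∧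
      ∀ B : Subgroup (Perm α), (∀ σ ∈ l, σ ∈ B) → ∀ g : Perm α, (∀ x, x ∉ T → g x = x) → g ∈ B := by
  by_cases h : ∃ u v w, u ∈ T ∧ v ∈ T ∧ w ∈ T ∧ u ≠ v ∧ w ≠ u ∧ w ≠ v
  · obtain ⟨σ, τ, -, h1, h2, h3⟩ := gen_fix_sym T
    obtain ⟨u, v, w, hu, hv, hw, h4, h5, h6⟩ := h
    have := (Set.two_lt_ncard_iff (s := T)).2 ⟨u, v, w, hu, hv, hw, h4, h5.symm, h6.symm⟩
    exact ⟨[σ, τ], le_rfl, by simp; omega, by simpa using ⟨h1, h2⟩,
      fun B hB => h3 B (hB _ (by simp)) (hB _ (by simp))⟩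
  by_cases h' : ∃ u v, u ∈ T ∧ v ∈ T ∧ u ≠ v
  · obtain ⟨u, v, hu, hv, huv⟩ := h'
    have := (Set.one_lt_ncard_iff (s := T)).2 ⟨u, v, hu, hv, huv⟩
    refine ⟨[swap u v], by simp, by simp; omega, fun σ hσ x hx => ?_, fun B hB g hg => ?_⟩
    · rw [List.mem_singleton.1 hσ]
      exact swap_apply_of_ne_of_ne (fun e => hx (e ▸ hu)) fun e => hx (e ▸ hv)
    · rcases eq_one_or_swap T h hg with rfl | ⟨x, y, hx, hy, hxy, rfl⟩
      · exact one_mem _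
      have k : ∀ x ∈ T, x = u ∨ x = v := fun x hx => by
        by_contra e; push Not at e; exact h ⟨u, v, x, hu, hv, hx, huv, e⟩
      have := hB _ (List.mem_singleton_self _)
      rcases k x hx with rfl | rfl <;> rcases k y hy with rfl | rfl
      exacts [absurd rfl hxy, this, by rwa [swap_comm], absurd rfl hxy]
  · refine ⟨[], by simp, by simp, by simp, fun B _ g hg => ?_⟩
    rcases eq_one_or_swap T h hg with rfl | ⟨x, y, hx, hy, hxy, rfl⟩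
    exacts [one_mem _, absurd ⟨x, y, hx, hy, hxy⟩ h']

/-- the Weyl group of type `B` -/
abbrev WB (n : ℕ) : Type := Wr (Multiplicative ℤ) n

theorem exists_genWr {n : ℕ} (T : Set (Fin n)) :
    ∃ l : List (WB n), l.length ≤ 3 ∧ l.length ≤ T.ncard ∧
      (∀ γ ∈ l, (∃ σ : Perm (Fin n), (∀ x, x ∉ T → σ x = x) ∧ γ = inr σ) ∨ ∃ c ∈ T, γ = wZ c) ∧
      ∀ H : Subgroup (WB n), (∀ γ ∈ l, γ ∈ H) →
        (∀ σ : Perm (Fin n), (∀ x, x ∉ T → σ x = x) → inr σ ∈ H) ∧ ∀ c ∈ T, wZ c ∈ H := by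
  obtain ⟨l, h1, h2, h3, h4⟩ := exists_genSym T
  rcases T.eq_empty_or_nonempty with rfl | ⟨c, hc⟩
  · refine ⟨[], by simp, by simp, by simp, fun H _ => ⟨fun σ hσ => ?_, by simp⟩⟩
    rw [show σ = 1 from Equiv.ext fun x => hσ x (by simp), map_one]; exact one_mem _
  have := (Set.ncard_pos (s := T)).2 ⟨c, hc⟩
  refine ⟨wZ c :: l.map inr, by simp; omega, by simp; omega, fun γ hγ => ?_, fun H hH => ?_⟩
  · rcases List.mem_cons.1 hγ with rfl | hγ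
    · exact Or.inr ⟨c, hc, rfl⟩
    · obtain ⟨σ, hσ, rfl⟩ := List.mem_map.1 hγ
      exact Or.inl ⟨σ, h3 σ hσ, rfl⟩
  · have k := h4 (H.comap inr) fun σ hσ => hH _ (List.mem_cons_of_mem _ (List.mem_map_of_mem hσ))
    refine ⟨k, fun d hd => ?_⟩
    have e : inr (swap c d) ∈ H := k (swap c d) fun x hx =>
      swap_apply_of_ne_of_ne (fun e => hx (e ▸ hc)) fun e => hx (e ▸ hd)
    have := mul_mem (mul_mem e (hH (wZ c) List.mem_cons_self)) (inv_mem e)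
    rwa [conj_wE, right_inr, swap_apply_left] at this

theorem χ_even {b : Multiplicative ℤ} (h : SgnHom.χ b = 1) : ∃ k : ℤ, b.toAdd = 2 * k := by
  change (-1 : ℤˣ) ^ b.toAdd = 1 at h
  rcases Int.even_or_odd' b.toAdd with ⟨k, e | e⟩
  · exact ⟨k, e⟩
  · rw [e, zpow_add_one, zpow_mul] at h
    simp at h

theorem wE_mem {n : ℕ} {H : Subgroup (WB n)} {i : Fin n} (h : wZ i ∈ H) (b : Multiplicative ℤ) :
    wE i b ∈ H := wE_eq_zpow i b ▸ zpow_mem h _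

theorem wE_mem_sq {n : ℕ} {H : Subgroup (WB n)} {i : Fin n} (h : wZ i ^ 2 ∈ H)
    {b : Multiplicative ℤ} (hb : SgnHom.χ b = 1) : wE i b ∈ H := by
  obtain ⟨k, e⟩ := χ_even hb
  rw [wE_eq_zpow, e, zpow_mul]
  exact zpow_mem (by exact_mod_cast h) _

variable {m : ℕ}

theorem wZ_sq_smul (i : Fin (m + 1)) (a : Ix m) : (wZ i ^ 2) • a = a := by
  rw [sq, ← wE_mul]; exact wE_smul_one (by rw [map_mul, χ_one]; simp) a

theorem exists_wr2 {B : Type} [CommGroup B] [SgnHom B] {a b a' b' : Ix m} (h : sup a ≠ sup b)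
    (h' : sup a' ≠ sup b') : ∃ γ : Wr B (m + 1), γ • a = a' ∧ γ • b = b' := by
  obtain ⟨γ, e⟩ := exists_wr (B := B) _ _ (sinj2 h) (sinj2 h')
  exact ⟨γ, e 0, e 1⟩

theorem exists_wr3 {B : Type} [CommGroup B] [SgnHom B] {a b c a' b' c' : Ix m} (h : D3 a b c)
    (h' : D3 a' b' c') : ∃ γ : Wr B (m + 1), γ • a = a' ∧ γ • b = b' ∧ γ • c = c' := by
  obtain ⟨γ, e⟩ := exists_wr (B := B) _ _ (sinj3 h.ab h.ac h.bc) (sinj3 h'.ab h'.ac h'.bc)
  exact ⟨γ, e 0, e 1, e 2⟩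

theorem ncard_ne {n : ℕ} (i : Fin n) : {x | x ≠ i}.ncard = n - 1 := by
  rw [show {x | x ≠ i} = ({i} : Set (Fin n))ᶜ from rfl, Set.ncard_compl]; simp

theorem ncard_ne2 {n : ℕ} {i j : Fin n} (h : i ≠ j) : {x | x ≠ i ∧ x ≠ j}.ncard = n - 2 := by
  rw [show {x | x ≠ i ∧ x ≠ j} = ({i, j} : Set (Fin n))ᶜ by ext; simp, Set.ncard_compl,
    Set.ncard_pair h]; simp

theorem exists_c {Γ : Type*} [Group Γ] [MulAction Γ (Ix m)] {a0 b0 : Ix m}
    (h : ∀ a b, sup a ≠ sup b → ∃ γ : Γ, γ • a0 = a ∧ γ • b0 = b) :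
    ∃ c : Ix m → Ix m → Γ, ∀ a b, sup a ≠ sup b → c a b • a0 = a ∧ c a b • b0 = b := by
  classical
  exact ⟨fun a b => if e : sup a ≠ sup b then (h a b e).choose else 1, fun a b e => by
    simp only [dif_pos e]; exact (h a b e).choose_spec⟩

theorem smul_pos {B : Type} [CommGroup B] [SgnHom B] {γ : Wr B (m + 1)} {i j : Fin (m + 1)} :
    γ • (mkI i 1 : Ix m) = mkI j 1 ↔ γ.right i = j ∧ SgnHom.χ (γ.left j) = 1 := by
  simp [smul_eq_iff]

theorem pairB {i j : Fin (m + 1)} (h : i ≠ j) : ∃ p : Pair (WB (m + 1)) (mkI i 1) (mkI j 1),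
    p.l.length ≤ 5 ∧ p.l.length ≤ m + 1 := by
  have hne : sup (mkI i 1 : Ix m) ≠ sup (mkI j 1) := by simpa
  obtain ⟨c, hc⟩ := exists_c fun a b e => exists_wr2 (B := Multiplicative ℤ) hne e
  obtain ⟨l, h1, h2, h3, h4⟩ := exists_genWr {x | x ≠ i ∧ x ≠ j}
  rw [ncard_ne2 h] at h2
  have hm : 1 ≤ m := by have := i.2; have := j.2; simp only [Ne, Fin.ext_iff] at h; omega
  have s1 : (inr (swap i j) : WB (m + 1)) • (mkI i 1 : Ix m) = mkI j 1 := by simp [inr_smul_mkI]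
  have s2 : (inr (swap i j) : WB (m + 1)) • (mkI j 1 : Ix m) = mkI i 1 := by simp [inr_smul_mkI]
  refine ⟨⟨hne, wr_smul_rev, c, fun e => (hc _ _ e).1, fun e => (hc _ _ e).2,
    inr (swap i j) :: wZ i ^ 2 :: l, fun σ hσ => ?_, fun σ hσ => ?_,
    ⟨_, List.mem_cons_self, s1, 1, one_mem _, 1, one_mem _, by simp [← map_mul]⟩⟩,
    by simp; omega, by simp; omega⟩
  · simp only [List.mem_cons] at hσ
    rcases hσ with rfl | rfl | hσ
    · exact Or.inr ⟨s1, s2⟩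
    · exact Or.inl ⟨wZ_sq_smul _ _, wZ_sq_smul _ _⟩
    · rcases h3 σ hσ with ⟨σ, e, rfl⟩ | ⟨c, e, rfl⟩
      · exact Or.inl ⟨by rw [inr_smul_mkI, e i (by simp)], by rw [inr_smul_mkI, e j (by simp)]⟩
      · exact Or.inl ⟨wE_smul_of_ne _ (by simpa using e.1.symm), wE_smul_of_ne _ (by simpa using e.2.symm)⟩
  · set H := closure {σ | σ ∈ inr (swap i j) :: wZ i ^ 2 :: l}
    obtain ⟨k1, k2⟩ := h4 H fun γ hγ => subset_closure (by simp [hγ])
    have k3 : inr (swap i j) ∈ H := subset_closure (by simp)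
    have k4 : wZ i ^ 2 ∈ H := subset_closure (by simp)
    have k5 : wZ j ^ 2 ∈ H := by
      have := mul_mem (mul_mem k3 k4) (inv_mem k3)
      rwa [← conj_pow, conj_wE, right_inr, swap_apply_left] at this
    have key : ∀ σ : WB (m + 1), σ • (mkI i 1 : Ix m) = mkI i 1 → σ • (mkI j 1 : Ix m) = mkI j 1 →
        σ ∈ H := fun σ e1 e2 => by
      rw [smul_pos] at e1 e2
      refine mem_of_parts (inl_mem fun x => ?_) (k1 _ fun x hx => ?_)
      · by_cases e : x = i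
        · exact e ▸ wE_mem_sq k4 e1.2
        by_cases e' : x = j
        · exact e' ▸ wE_mem_sq k5 e2.2
        · exact wE_mem (k2 x ⟨e, e'⟩) _
      · simp only [Set.mem_ofPred_eq, not_and_or, not_not] at hx
        rcases hx with rfl | rfl
        exacts [e1.1, e2.1]
    rcases hσ with ⟨e1, e2⟩ | ⟨e1, e2⟩
    · exact key σ e1 e2
    · exact (mul_mem_cancel_left k3).1 (key _ (by rw [mul_smul, e1, s2]) (by rw [mul_smul, e2, s1]))

theorem conn3 {Γ : Type*} [Group Γ] [MulAction Γ (Ix m)] {a0 b0 c0 : Ix m} (d : D3 a0 b0 c0)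
    {K : Subgroup Γ}
    (h : ∀ x y, D3 a0 x y → ∃ σ ∈ K, σ • c0 = x ∧ σ • b0 = y ∨ σ • c0 = y ∧ σ • b0 = x)
    (R : Ix m → Ix m → Prop) (h1 : ∀ x y, R x y → R y x) (h2 : ∀ x y z, R x y → R y z → R x z)
    (h3 : ∀ σ ∈ K, ∀ x y, R x y → R (σ • x) (σ • y)) (h4 : R c0 b0) (x : Ix m)
    (hx : sup x ≠ sup a0) : R x b0 := by
  have k : ∀ x y, D3 a0 x y → R x y := fun x y e => by
    obtain ⟨σ, hσ, ⟨rfl, rfl⟩ | ⟨rfl, rfl⟩⟩ := h x y e
    exacts [h3 σ hσ _ _ h4, h1 _ _ (h3 σ hσ _ _ h4)]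
  by_cases e : sup x = sup b0
  · exact h2 _ _ _ (k x c0 ⟨hx.symm, d.ac, e ▸ d.bc⟩) h4
  · exact k x b0 ⟨hx.symm, d.ab, e⟩

theorem oneB {i j : Fin (m + 1)} (h : i ≠ j) : ∃ o : One (WB (m + 1)) (mkI i 1) (mkI j 1),
    o.la.length ≤ 3 ∧ o.la.length ≤ m ∧ o.lb.length = 1 ∧
      ∀ γ ∈ o.la, (∃ σ : Perm (Fin (m + 1)), σ i = i ∧ γ = inr σ) ∨ ∃ c, c ≠ i ∧ γ = wZ c := by
  have hne : sup (mkI i 1 : Ix m) ≠ sup (mkI j 1) := by simpa
  choose c hc using fun a => exists_wr (B := Multiplicative ℤ) _ _ (sinj1 (mkI i 1 : Ix m)) (sinj1 a)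
  obtain ⟨l, h1, h2, h3, h4⟩ := exists_genWr {x | x ≠ i}
  rw [ncard_ne] at h2
  have h5 : ∀ γ ∈ l, (∃ σ : Perm (Fin (m + 1)), σ i = i ∧ γ = inr σ) ∨ ∃ c, c ≠ i ∧ γ = wZ c :=
    fun γ hγ => (h3 γ hγ).imp_left fun ⟨σ, e, e'⟩ => ⟨σ, e i (by simp), e'⟩
  have key : ∀ σ : WB (m + 1), σ • (mkI i 1 : Ix m) = mkI i 1 →
      (wE i (σ.left i))⁻¹ * σ ∈ closure {σ | σ ∈ l} := fun σ e => by
    obtain ⟨k1, k2⟩ := h4 (closure {σ | σ ∈ l}) fun γ hγ => subset_closure hγ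
    rw [smul_pos] at e
    refine mem_of_parts (inl_mem fun x => ?_) (k1 _ fun x hx => ?_)
    · by_cases e : x = i
      · subst e; simp [wE]
      · exact wE_mem (k2 x e) _
    · simp only [Set.mem_ofPred_eq, not_not] at hx
      subst hx; simpa [wE] using e.1
  have hc' : ∃ cS : Ix m, sup cS ≠ sup (mkI i 1 : Ix m) ∧ ∀ R : Ix m → Ix m → Prop,
      (∀ x y, R x y → R y x) → (∀ x y z, R x y → R y z → R x z) →
      (∀ σ ∈ closure {σ | σ ∈ l}, ∀ x y, R x y → R (σ • x) (σ • y)) → R cS (mkI j 1) →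
      ∀ x, sup x ≠ sup (mkI i 1 : Ix m) → R x (mkI j 1) := by
    by_cases hm : m = 1
    · refine ⟨(mkI j 1).rev, by simpa using h.symm, fun R h1 h2 _ h4 x hx => ?_⟩
      rcases sup_cases hm hne.symm hx with rfl | rfl
      exacts [h2 _ _ _ (h1 _ _ h4) h4, h4]
    · have hm : 2 ≤ m := by have := i.2; have := j.2; simp only [Ne, Fin.ext_iff] at h; omega
      obtain ⟨c0, d⟩ := exists_D3 hm hne
      refine ⟨c0, d.ac.symm, conn3 d fun x y e => ?_⟩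
      obtain ⟨γ, e1, e2, e3⟩ := exists_wr3 (B := Multiplicative ℤ) d.s23 e
      have k := fun a => wE_smul_one (i := i) (smul_pos.1 e1).2 a
      exact ⟨_, key γ e1, Or.inl ⟨by rw [mul_smul, e2, inv_smul_eq_iff, k],
        by rw [mul_smul, e3, inv_smul_eq_iff, k]⟩⟩
  obtain ⟨cS, h6, h7⟩ := hc'
  refine ⟨⟨c, fun a => hc a 0, l, [wZ i ^ 2], fun γ hγ => ?_, by simp [wZ_sq_smul], fun σ e => ?_,
    cS, h6, h7⟩, h1, h2, rfl, h5⟩
  · rcases h5 γ hγ with ⟨σ, e, rfl⟩ | ⟨c, e, rfl⟩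
    · rw [inr_smul_mkI, e]
    · exact wE_smul_of_ne _ (by simpa using e.symm)
  · exact (mul_mem_cancel_left (inv_mem (wE_mem_sq (subset_closure (by simp)) (smul_pos.1 e).2))).1
      (closure_mono Set.subset_union_left (key σ e))

theorem tr3B {a0 b0 : Ix m} (h : sup a0 ≠ sup b0) :
    m = 1 ∨ ∃ c0, Tr3 (WB (m + 1)) a0 b0 c0 := by
  by_cases hm : m = 1
  · exact Or.inl hm
  have := (sup a0).2; have := (sup b0).2
  obtain ⟨c0, d⟩ := exists_D3 (by simp only [Ne, Fin.ext_iff] at h; omega) h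
  exact Or.inr ⟨c0, d, fun e => Or.inl (exists_wr3 d e), fun e => Or.inl (exists_wr3 d e),
    fun e => Or.inl (exists_wr3 d e)⟩

variable (Γ : Type*) [Group Γ] [MulAction Γ (Ix m)] in
/-- representatives of the orbits on quadruples -/
structure Quad (a0 b0 : Ix m) (D0 : List (Ix m × Ix m)) : Prop where
  d : ∀ x ∈ D0, D4 a0 b0 x.1 x.2
  tr : ∀ {a b c d}, D4 a b c d → ∃ x ∈ D0, ∃ γ : Γ, γ • a0 = a ∧ γ • b0 = b ∧
    (γ • x.1 = c ∧ γ • x.2 = d ∨ γ • x.1 = d ∧ γ • x.2 = c)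

theorem D4.three_le {a b c d : Ix m} (h : D4 a b c d) : 3 ≤ m := by
  have := Fintype.card_le_of_injective _ (sinj4 h.ab h.ac h.ad h.bc h.bd h.cd)
  simp at this; omega

theorem exists_D4 (hm : 3 ≤ m) {a b c : Ix m} (h : D3 a b c) : ∃ d, D4 a b c d := by
  obtain ⟨i, hi⟩ := exists_not_mem [sup a, sup b, sup c] (by simp; omega)
  simp only [List.mem_cons, List.not_mem_nil, or_false, not_or] at hi
  exact ⟨mkI i 1, h, by simpa using Ne.symm hi.1, by simpa using Ne.symm hi.2.1,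
    by simpa using Ne.symm hi.2.2⟩

theorem quadB {a0 b0 : Ix m} (h : sup a0 ≠ sup b0) :
    ∃ D0, D0.length ≤ 1 ∧ D0.length ≤ m - 2 ∧ Quad (WB (m + 1)) a0 b0 D0 := by
  by_cases hm : 3 ≤ m
  · obtain ⟨c, d⟩ := exists_D3 (by omega) h
    obtain ⟨d, e⟩ := exists_D4 hm d
    refine ⟨[(c, d)], le_rfl, by simp; omega, by simpa, fun k => ?_⟩
    obtain ⟨γ, e⟩ := exists_wr (B := Multiplicative ℤ) _ _ (sinj4 e.ab e.ac e.ad e.bc e.bd e.cd)
      (sinj4 k.ab k.ac k.ad k.bc k.bd k.cd)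
    exact ⟨_, List.mem_singleton_self _, γ, e 0, e 1, Or.inl ⟨e 2, e 3⟩⟩
  · exact ⟨[], by simp, by simp, by simp, fun k => absurd k.three_le hm⟩

theorem normB {n : ℕ} {i j : Fin n} (h : i ≠ j) :
    normalClosure {γ | γ ∈ [(inr (swap i j) : WB n), wZ i]} = ⊤ := by
  set N := normalClosure {γ | γ ∈ [(inr (swap i j) : WB n), wZ i]}
  have h1 : ∀ σ, inr σ ∈ N := fun σ => by
    have : (N.comap inr).Normal := Subgroup.Normal.comap inferInstance _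
    refine normalClosure_le_normal (N := N.comap inr) ?_ (normalClosure_swap h ▸ mem_top σ)
    rintro _ rfl; exact subset_normalClosure (by simp)
  refine eq_top_iff.2 fun γ _ => mem_of_parts (inl_mem fun x => wE_mem ?_ _) (h1 _)
  have := (normalClosure_normal).conj_mem _ (subset_normalClosure (by simp) : wZ i ∈ N) (inr (swap i x))
  rwa [conj_wE, right_inr, swap_apply_left] at this

theorem presB {Y : Type} {g : Y → Perm (Fin (m + 1))} {r : ℕ} (hg : HasRels g r)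
    (htop : closure (Set.range g) = ⊤) (hm : 1 ≤ m) :
    ∃ f : Y ⊕ Unit → WB (m + 1), HasRels f (r + min 2 (m - 1) + 1) ∧ closure (Set.range f) = ⊤ := by
  obtain ⟨l, h1, h2, h3, h4⟩ := exists_genSym {x : Fin (m + 1) | x ≠ 0}
  rw [ncard_ne] at h2
  obtain ⟨f, h5, h6⟩ := hasRels_wrZ hg htop (i0 := 0) (j0 := Fin.last m)
    (by simp [Fin.ext_iff]; omega) l (fun σ hσ => h3 σ hσ 0 (by simp))
    fun σ hσ => h4 _ (fun _ h => subset_closure h) σ fun x hx => by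
      simp only [Set.mem_ofPred_eq, not_not] at hx; rw [hx, hσ]
  exact ⟨f, h5.mono (by omega), h6⟩

end Cfsg.Agent.CP
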